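import Cfsg.Agent.H1.FP0

/-! The chunk `LS` of the fixed point project: lines through two points. -/

set_option autoImplicit false

namespace H5.FX
open MulAction H1.FP
universe u

/-- a conjugate of `x` fixing two given points and moving a third one -/
theorem three (al : AL.{u}) {p : ℕ} {J : Type u} [Group J] [Finite J] {x : J} {A : Type u}
    [Finite A] [MulAction J A] (s : St p x) (h3 : 3 ≤ p) (hA : Al p x A) {α β γ : A}
    (h1 : α ≠ β) (h2 : α ≠ γ) (h4 : β ≠ γ) :
    ∃ y : J, orderOf y = p ∧ y • α = α ∧ y • β = β ∧ y • γ ≠ γ := by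
  classical
  letI := Fintype.ofFinite A
  have hr := al p J x A s h3 hA
  have hc := card_eq (Δ := A) s.hp s.ord
  obtain ⟨ht, hl, hf⟩ := hA
  rw [hl] at hc
  have hf2 : 2 ≤ fx x A := by omega
  have h5 : 5 ≤ Nat.card A := by omega
  obtain ⟨m, hm⟩ := s.moves ht (by omega)
  have hnt : Nontrivial (fixedBy A x) := Finite.one_lt_card_iff_nontrivial.1 hf2
  obtain ⟨⟨f1, hf1⟩, ⟨f2, hf2'⟩, hne⟩ := exists_pair_ne (fixedBy A x)
  have hne' : f1 ≠ f2 := fun h => hne (Subtype.ext h)
  have e1 : f1 ≠ m := fun h => hm (h ▸ hf1)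
  have e2 : f2 ≠ m := fun h => hm (h ▸ hf2')
  haveI := alternatingGroup.isMultiplyPretransitive A
  have hm3 : IsMultiplyPretransitive (alternatingGroup A) A 3 :=
    isMultiplyPretransitive_of_le (n := Nat.card A - 2) (by omega) (Nat.sub_le _ _)
  have inj : ∀ a b c : A, a ≠ b → a ≠ c → b ≠ c → Function.Injective ![a, b, c] := by
    intro a b c hab hac hbc i j hij
    fin_cases i <;> fin_cases j <;>
      first | rfl | exact absurd hij hab | exact absurd hij hac | exact absurd hij hbc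
            | exact absurd hij hab.symm | exact absurd hij hac.symm | exact absurd hij hbc.symm
  obtain ⟨σ, hσ⟩ := hm3.exists_smul_eq (⟨![α, β, γ], inj _ _ _ h1 h2 h4⟩ : Fin 3 ↪ A)
    ⟨![f1, f2, m], inj _ _ _ hne' e1 e2⟩
  have hσ' : (σ : Equiv.Perm A) ∈ (toPermHom J A).range := by rw [hr]; exact σ.2
  obtain ⟨g, hg⟩ := hσ'
  have ev : ∀ i : Fin 3, g • (![α, β, γ] i) = ![f1, f2, m] i := by
    intro i
    have := DFunLike.congr_fun hσ i
    rw [Function.Embedding.smul_apply] at this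
    have h' : g • (![α, β, γ] i) = (σ : Equiv.Perm A) (![α, β, γ] i) := by
      rw [← hg]; rfl
    rw [h']; exact this
  have ea : g • α = f1 := ev 0
  have eb : g • β = f2 := ev 1
  have ec : g • γ = m := ev 2
  refine ⟨g⁻¹ * x * g, ?_, ?_, ?_, ?_⟩
  · rw [← s.ord]
    have := (MulAut.conj g⁻¹).orderOf_eq x
    simpa using this
  · rw [mul_smul, mul_smul, ea, show x • f1 = f1 from hf1, ← ea, inv_smul_smul]
  · rw [mul_smul, mul_smul, eb, show x • f2 = f2 from hf2', ← eb, inv_smul_smul]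
  · rw [mul_smul, mul_smul, Ne, inv_smul_eq_iff, ec]; exact hm

/-- the points fixed by every element of order `p` fixing `u` and `v` -/
def line (p : ℕ) (K : Type u) [Group K] {Δ : Type u} [MulAction K Δ] (u v : Δ) : Set Δ :=
  {w | ∀ y : K, orderOf y = p → y • u = u → y • v = v → y • w = w}

theorem line_smul {p : ℕ} {K : Type u} [Group K] {Δ : Type u} [MulAction K Δ] (g : K) (u v : Δ) :
    line p K (g • u) (g • v) = (fun w => g • w) '' line p K u v := by
  ext w
  constructor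
  · intro h
    refine ⟨g⁻¹ • w, fun y hy hu hv => ?_, smul_inv_smul g w⟩
    have := h (g * y * g⁻¹) (by rw [← hy]; exact (MulAut.conj g).orderOf_eq y)
      (by rw [mul_smul, inv_smul_smul, mul_smul, hu]) (by rw [mul_smul, inv_smul_smul, mul_smul, hv])
    rw [mul_smul, mul_smul, smul_eq_iff_eq_inv_smul] at this
    exact this
  · rintro ⟨w, h, rfl⟩ y hy hu hv
    have := h (g⁻¹ * y * g) (by
        rw [← hy]
        have := (MulAut.conj g⁻¹).orderOf_eq y
        simpa using this)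
      (by rw [mul_smul, mul_smul, hu, inv_smul_smul]) (by rw [mul_smul, mul_smul, hv, inv_smul_smul])
    rw [mul_smul, mul_smul, inv_smul_eq_iff] at this
    exact this

theorem line_sub {p : ℕ} {K : Type u} [Group K] {Δ : Type u} [MulAction K Δ] {u v u' v' : Δ}
    (hu : u' ∈ line p K u v) (hv : v' ∈ line p K u v) : line p K u' v' ⊆ line p K u v :=
  fun _ hw y hy h1 h2 => hw y hy (hu y hy h1 h2) (hv y hy h1 h2)

theorem core (al : AL.{u}) (p : ℕ) (K : Type u) [Group K] [Finite K] (x : K)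
    (Δ : Type u) [Finite Δ] [MulAction K Δ] (a : Δ) (J : Subgroup K) (hx : x ∈ J)
    (A : Type u) [Finite A] [MulAction J A] (s : St p x) (h3 : 3 ≤ p) (ht : IsPretransitive K Δ)
    (hl : 2 ≤ lx p x Δ) (hA : Al p (⟨x, hx⟩ : J) A)
    (hμ : ∀ b : Δ, b ≠ a → ∃ μ : orbit J b → A, (∀ (g : J) u, μ (g • u) = g • μ u) ∧
      ∀ u, (⟨x, hx⟩ : J) • μ u = μ u → x • (u : Δ) = u)
    (sJ : St p (⟨x, hx⟩ : J)) (hJa : ∀ g : J, (g : K) • a = a)
    (hmem : ∀ y : K, y • a = a → orderOf y = p → y ∈ J) : False := by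
  classical
  have hxa : x • a = a := hJa ⟨x, hx⟩
  have hne : ∀ (g : J) (b : Δ), b ≠ a → (g : K) • b ≠ a := by
    intro g b hb h
    apply hb
    rw [← hJa g] at h
    exact smul_left_cancel _ h
  haveI hAn : Nonempty A := by
    have hc := card_eq (Δ := A) sJ.hp sJ.ord
    rw [hA.2.1] at hc
    exact (Nat.card_pos_iff.1 (by omega)).1
  -- glue the maps
  obtain ⟨lam, heq, hrefl⟩ : ∃ lam : Δ → A, (∀ (g : J) (b : Δ), b ≠ a → lam ((g : K) • b) = g • lam b) ∧
      ∀ b : Δ, b ≠ a → (⟨x, hx⟩ : J) • lam b = lam b → x • b = b := by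
    let r : Δ → Δ := fun b => (Quotient.mk (orbitRel J Δ) b).out
    have hr : ∀ b : Δ, b ∈ orbit J (r b) := fun b => by
      have : (orbitRel J Δ) (r b) b := Quotient.mk_out (s := orbitRel J Δ) b
      exact orbitRel_apply.1 ((orbitRel J Δ).symm this)
    have hra : ∀ b : Δ, b ≠ a → r b ≠ a := by
      intro b hb h
      obtain ⟨g, hg⟩ := hr b
      apply hb
      rw [← hg, h]
      exact hJa g
    have hrg : ∀ (g : J) (b : Δ), r ((g : K) • b) = r b := by
      intro g b
      have : Quotient.mk (orbitRel J Δ) ((g : K) • b) = Quotient.mk (orbitRel J Δ) b :=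
        Quotient.sound (orbitRel_apply.2 ⟨g, rfl⟩)
      simp only [r, this]
    choose μ hμ1 hμ2 using hμ
    let ν : Δ → Δ → A := fun c b =>
      if h : c ≠ a ∧ b ∈ orbit J c then μ c h.1 ⟨b, h.2⟩ else Classical.arbitrary A
    refine ⟨fun b => ν (r b) b, fun g b hb => ?_, fun b hb h => ?_⟩
    · have h1 : r b ≠ a ∧ b ∈ orbit J (r b) := ⟨hra b hb, hr b⟩
      have h2 : r b ≠ a ∧ (g : K) • b ∈ orbit J (r b) := ⟨hra b hb, hrg g b ▸ hr _⟩
      show ν (r ((g : K) • b)) ((g : K) • b) = g • ν (r b) b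
      rw [hrg]
      simp only [ν, dif_pos h1, dif_pos h2]
      rw [← hμ1]
      rfl
    · have h1 : r b ≠ a ∧ b ∈ orbit J (r b) := ⟨hra b hb, hr b⟩
      simp only [ν, dif_pos h1] at h
      exact hμ2 (r b) h1.1 ⟨b, h1.2⟩ h
  -- reflection for all elements of order `p`
  have hrefl' : ∀ (y : J), orderOf y = p → ∀ b : Δ, b ≠ a → y • lam b = lam b → (y : K) • b = b := by
    intro y hy b hb h
    obtain ⟨g, hg⟩ := sJ.conj_fix hy
    have h1 := (hg A (lam b)).1 h
    rw [← heq g⁻¹ b hb] at h1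
    exact (hg Δ b).2 (hrefl _ (hne _ _ hb) h1)
  -- fibres
  let fib : A → Set Δ := fun α => {b | b ≠ a ∧ lam b = α}
  have hfib : ∀ α β : A, (fib α).ncard = (fib β).ncard := by
    have key : ∀ α β : A, (fib α).ncard ≤ (fib β).ncard := by
      intro α β
      obtain ⟨g, rfl⟩ := hA.1.exists_smul_eq α β
      refine Set.ncard_le_ncard_of_injOn (fun b => (g : K) • b) (fun b hb => ⟨hne _ _ hb.1, ?_⟩)
        (fun b _ c _ h => smul_left_cancel _ h)
      rw [heq g b hb.1, hb.2]
    exact fun α β => le_antisymm (key α β) (key β α)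
  have hfib2 : ∀ α : A, 2 ≤ (fib α).ncard := by
    intro α
    by_contra hlt
    have hinj : ∀ b c : Δ, b ≠ a → c ≠ a → lam b = lam c → b = c := by
      intro b c hb hc h
      have : (fib (lam c)).ncard ≤ 1 := by rw [hfib _ α]; omega
      exact (Set.ncard_le_one_iff_subsingleton.1 this) ⟨hb, h⟩ ⟨hc, rfl⟩
    have hle : ((fixedBy Δ x)ᶜ).ncard ≤ ((fixedBy A (⟨x, hx⟩ : J))ᶜ).ncard := by
      have hm : ∀ b ∈ (fixedBy Δ x)ᶜ, b ≠ a := fun b hb h => hb (h ▸ hxa)
      exact Set.ncard_le_ncard_of_injOn lam (fun b hb h => hb (hrefl b (hm b hb) h))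
        (fun b hb c hc h => hinj b c (hm b hb) (hm c hc) h)
    have c1 := card_eq (Δ := Δ) s.hp s.ord
    have c2 := card_eq (Δ := A) sJ.hp sJ.ord
    have d1 := Set.ncard_add_ncard_compl (fixedBy Δ x)
    have d2 := Set.ncard_add_ncard_compl (fixedBy A (⟨x, hx⟩ : J))
    rw [← fx_eq] at d1 d2
    rw [hA.2.1] at c2
    have : p * 2 ≤ p * lx p x Δ := Nat.mul_le_mul_left _ hl
    omega
  have hA5 : 3 ≤ Nat.card A := by
    have hc := card_eq (Δ := A) sJ.hp sJ.ord
    rw [hA.2.1] at hc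
    omega
  -- moving a third point
  have hmove : ∀ b c e : Δ, b ≠ a → c ≠ a → e ≠ a → lam b ≠ lam c → lam b ≠ lam e → lam c ≠ lam e →
      ∃ y : K, orderOf y = p ∧ y • a = a ∧ y • b = b ∧ y • c = c ∧ y • e ≠ e := by
    intro b c e hb hc he h1 h2 h4
    obtain ⟨y, hy, y1, y2, y3⟩ := three al sJ h3 hA h1 h2 h4
    refine ⟨y, by rw [Subgroup.orderOf_coe]; exact hy, hJa y, hrefl' y hy b hb y1,
      hrefl' y hy c hc y2, fun h => y3 ?_⟩
    rw [← heq y e he, h]
  have hsurj : ∀ α : A, ∃ b, b ≠ a ∧ lam b = α := fun α =>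
    Set.nonempty_of_ncard_ne_zero (s := fib α) (by have := hfib2 α; omega)
  have hthird : ∀ α β : A, ∃ γ, γ ≠ α ∧ γ ≠ β := by
    intro α β
    by_contra hc
    push Not at hc
    have : (Set.univ : Set A) ⊆ {α, β} := fun γ _ => by
      by_cases h : γ = α
      · exact Or.inl h
      · exact Or.inr (hc γ h)
    have h1 := Set.ncard_le_ncard this
    rw [Set.ncard_univ] at h1
    have h2 : ({α, β} : Set A).ncard ≤ 2 := (Set.ncard_insert_le _ _).trans (by simp)
    omega
  have hline : ∀ b : Δ, b ≠ a → line p K a b = insert a (fib (lam b)) := by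
    intro b hb
    ext w
    constructor
    · intro hw
      by_contra hc
      rw [Set.mem_insert_iff, not_or] at hc
      have h1 : lam b ≠ lam w := fun h => hc.2 ⟨hc.1, h.symm⟩
      obtain ⟨γ, g1, g2⟩ := hthird (lam b) (lam w)
      obtain ⟨c, hca, rfl⟩ := hsurj γ
      obtain ⟨y, hy, y1, y2, -, y4⟩ := hmove b c w hb hca hc.1 g1.symm h1 g2
      exact y4 (hw y hy y1 y2)
    · rintro (rfl | ⟨hw, hw'⟩) y hy y1 y2
      · exact y1
      · have hyJ : y ∈ J := hmem y y1 hy
        refine hrefl' ⟨y, hyJ⟩ (by rw [← Subgroup.orderOf_coe]; exact hy) w hw ?_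
        rw [hw', ← heq ⟨y, hyJ⟩ b hb]
        exact congrArg lam y2
  obtain ⟨α⟩ := hAn
  have hsize : ∀ u v : Δ, u ≠ v → (line p K u v).ncard = (fib α).ncard + 1 := by
    intro u v huv
    obtain ⟨g, rfl⟩ := ht.exists_smul_eq a u
    have hb : g⁻¹ • v ≠ a := fun h => huv (by rw [← h, smul_inv_smul])
    rw [← smul_inv_smul g v, line_smul, Set.ncard_image_of_injective _ (MulAction.injective g),
      hline _ hb, Set.ncard_insert_of_notMem (fun h => h.1 rfl), hfib _ α]
  -- the final configuration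
  have fin : ∀ b c e : Δ, b ≠ a → c ≠ a → lam b ≠ lam c → e ≠ b → e ∈ line p K b c →
      e ∈ line p K a b → False := by
    intro b c e hb hc hbc heb h1 h2
    have hbc' : b ≠ c := fun h => hbc (h ▸ rfl)
    have hbb : b ∈ line p K b c := fun _ _ h _ => h
    have hba : b ∈ line p K a b := fun _ _ _ h => h
    have e1 : line p K b e = line p K b c :=
      Set.eq_of_subset_of_ncard_le (line_sub hbb h1) (by rw [hsize _ _ hbc', hsize _ _ heb.symm])
    have hcc : c ∈ line p K b c := fun _ _ _ h => h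
    rw [← e1] at hcc
    have := line_sub hba h2 hcc
    rw [hline b hb] at this
    rcases this with h | h
    · exact hc h
    · exact hbc h.2.symm
  obtain ⟨β, hβ, -⟩ := hthird α α
  obtain ⟨b, hb, hbα⟩ := hsurj α
  obtain ⟨c, hc, hcβ⟩ := hsurj β
  have hbc : lam b ≠ lam c := by rw [hbα, hcβ]; exact hβ.symm
  have hbc' : b ≠ c := fun h => hbc (h ▸ rfl)
  obtain ⟨e, he, heb, hec⟩ : ∃ e ∈ line p K b c, e ≠ b ∧ e ≠ c := by
    by_contra hcon
    push Not at hcon
    have : line p K b c ⊆ {b, c} := fun e he => by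
      by_cases h : e = b
      · exact Or.inl h
      · exact Or.inr (hcon e he h)
    have h1 := Set.ncard_le_ncard this
    have h2 : ({b, c} : Set Δ).ncard ≤ 2 := (Set.ncard_insert_le _ _).trans (by simp)
    have := hfib2 α
    rw [hsize _ _ hbc'] at h1
    omega
  by_cases h1 : e ∈ line p K a b
  · exact fin b c e hb hc hbc heb he h1
  by_cases h2 : e ∈ line p K a c
  · exact fin c b e hc hb hbc.symm hec (fun y hy y1 y2 => he y hy y2 y1) h2
  rw [hline b hb, Set.mem_insert_iff, not_or] at h1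
  rw [hline c hc, Set.mem_insert_iff, not_or] at h2
  obtain ⟨y, hy, -, y2, y3, y4⟩ := hmove b c e hb hc h1.1 hbc (fun h => h1.2 ⟨h1.1, h.symm⟩)
    (fun h => h2.2 ⟨h1.1, h.symm⟩)
  exact y4 (he y hy y2 y3)

theorem ls (al : AL.{u}) : LS.{u} := by
  intro p K _ _ x Δ _ _ a hx A _ _ s h3 ht hl hA hμ
  exact core al p K x Δ a _ hx A s h3 ht hl hA hμ (s.sub hx) (fun g => Op_le (p := p) _ g.2)
    (fun y h1 h2 => mem_Op h1 h2)

end H5.FX
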