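/-
Groups generated by a class of subgroups of order `p ≥ 5`, any two of which commute or generate
`(P)SL₂(p^m)`: definitions and the statements of the chunks.
-/
import Cfsg.Agent.H3.TB0
import Cfsg.Prelude.Def_Classical

set_option autoImplicit false

open Cfsg Subgroup MulAction H19
open scoped MatrixGroups Pointwise
namespace H5.AS
universe u

/-! ### matrices -/
section
variable {K : Type*} [Field K]
def xx (s : K) : SL(2, K) := ⟨!![1, s; 0, 1], by simp [Matrix.det_fin_two]⟩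
def yy (s : K) : SL(2, K) := ⟨!![1, 0; s, 1], by simp [Matrix.det_fin_two]⟩
def dg (s : Kˣ) : SL(2, K) := ⟨!![(s : K), 0; 0, (s⁻¹ : Kˣ)], by simp [Matrix.det_fin_two]⟩
def ww (K : Type*) [Field K] : SL(2, K) := ⟨!![0, 1; -1, 0], by simp [Matrix.det_fin_two]⟩
end

/-- `k` has prime order `r ≠ 2` modulo `p`, or `r = 2` and `k ^ 2 = -1`; `l` is the inverse of `k` -/
def Good (p r : ℕ) (k l : ℤ) : Prop := r.Prime ∧ (p : ℤ) ∣ k * l - 1 ∧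
  ((r ≠ 2 ∧ (p : ℤ) ∣ k ^ r - 1 ∧ ¬ (p : ℤ) ∣ k - 1) ∨ (r = 2 ∧ (p : ℤ) ∣ k ^ 2 + 1))

/-- the conclusion -/
def Concl (G : Type*) [Group G] (p : ℕ) : Prop :=
  ∃ (F : Type) (_ : Field F) (_ : Fintype F), ringChar F = p ∧
    ((∃ m : ℕ, 1 ≤ m ∧ Nonempty (G ≃* PSp m F)) ∨
      (∃ n q : ℕ, 2 ≤ n ∧ Fintype.card F = q ^ 2 ∧ Nonempty (G ≃* PSU n F q)))

section
variable {G Ω : Type u} [Group G] [MulAction G Ω]

/-- `⟨a, b⟩` is an image of `SL₂(K)`, `K` finite of characteristic `p` -/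
def S2 (p : ℕ) (a b : G) : Prop := ∃ (K : Type) (_ : Field K) (_ : Fintype K) (_ : CharP K p)
  (φ : SL(2, K) →* G), φ.range = closure {a, b}
/-- paired elements: the braid relation -/
def Pr (a b : G) : Prop := a * b * a = b * a * b
/-- the torus element `diag (k, k⁻¹)` of `⟨a, b⟩`, for paired `a`, `b` and `k l ≡ 1` -/
def hh (a b : G) (k l : ℤ) : G := a ^ k * b ^ l * a ^ k * (a * b * a)⁻¹

/-- points `α`, collinearity `co`, and the elements `E α` of order `p` with centre `α` -/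
structure DS (p : ℕ) (co : Ω → Ω → Prop) (E : Ω → Set G) : Prop where
  pp : p.Prime
  p5 : 5 ≤ p
  ne : ∀ α, (E α).Nonempty
  ord : ∀ α, ∀ a ∈ E α, orderOf a = p
  pw : ∀ α, ∀ a ∈ E α, ∀ k : ℤ, ¬ (p : ℤ) ∣ k → a ^ k ∈ E α
  eqv : ∀ α, ∀ a ∈ E α, ∀ g : G, g * a * g⁻¹ ∈ E (g • α)
  rf : ∀ α, co α α
  sy : ∀ α β, co α β → co β α
  cm : ∀ α β, co α β → ∀ a ∈ E α, ∀ b ∈ E β, a * b = b * a
  sl : ∀ α β, ¬ co α β → ∀ a ∈ E α, ∀ b ∈ E β, S2 p a b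
  nd : ∀ α β, (∀ γ, co γ α → co γ β) → α = β

def T (E : Ω → Set G) (α : Ω) : Subgroup G := closure (E α)
/-- the group generated by the elements with centre in `F` -/
def L (E : Ω → Set G) (F : Set Ω) : Subgroup G := ⨆ δ ∈ F, T E δ
def Un (E : Ω → Set G) (α β : Ω) : Subgroup G := T E α ⊓ stabilizer G β
/-- the hyperbolic line -/
def Dl (E : Ω → Set G) (α β : Ω) : Set Ω := {γ | ∃ g ∈ T E α ⊔ T E β, g • α = γ}
/-- subspaces -/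
def Sub (E : Ω → Set G) (F : Set Ω) : Prop := ∀ δ ∈ F, ∀ a ∈ E δ, ∀ c ∈ F, a • c ∈ F
def Fa (G Ω : Type u) [Group G] [MulAction G Ω] : Prop := ∀ g : G, (∀ c : Ω, g • c = c) → g = 1

/-- normal form of a pair of non-commuting elements -/
structure Nf (E : Ω → Set G) (α β : Ω) (a b : G) {K : Type} [Field K] (φ : SL(2, K) →* G) (τ : K) :
    Prop where
  t0 : τ ≠ 0
  xa : φ (xx 1) = a
  yb : φ (yy τ) = b
  gen : closure {xx 1, yy τ} = ⊤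
  rng : φ.range = closure {a, b}
  ker : ∀ g, φ g = 1 → g = 1 ∨ g = -1
  fa : ∀ g, φ g • α = α ↔ g 1 0 = 0
  fb : ∀ g, φ g • β = β ↔ g 0 1 = 0
  wa : φ (ww K) • α = β
  wb : φ (ww K) • β = α
  xT : ∀ s, φ (xx s) ∈ T E α
  yT : ∀ s, φ (yy s) ∈ T E β
  x1 : ∀ s, s ≠ 0 → φ (xx (s ^ 2)) ∈ E α
  x2 : ∀ s, s ≠ 0 → φ (xx (-(τ * s ^ 2))) ∈ E α
  y1 : ∀ s, s ≠ 0 → φ (yy (-s ^ 2)) ∈ E β
  y2 : ∀ s, s ≠ 0 → φ (yy (τ * s ^ 2)) ∈ E β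

/-! ### rank one (`co = Eq`) -/

/-- partners are unique -/
def Uq (E : Ω → Set G) (α β : Ω) : Prop := ∀ a ∈ E α, ∀ a' ∈ E α, ∀ b ∈ E β, Pr a b → Pr a' b → a = a'
/-- semiregularity -/
def SR (E : Ω → Set G) : Prop := ∀ α β, β ≠ α → ∀ x ∈ T E α, x • β = β → x = 1
/-- semiregularity on `F`, modulo the kernel -/
def SRr (E : Ω → Set G) (F : Set Ω) : Prop :=
  ∀ α ∈ F, ∀ β ∈ F, β ≠ α → ∀ x ∈ T E α, x • β = β → ∀ c ∈ F, x • c = c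
/-- good torus elements fix two points of `F` only -/
def FXr (p : ℕ) (E : Ω → Set G) (F : Set Ω) : Prop :=
  ∀ α ∈ F, ∀ β ∈ F, α ≠ β → ∀ a ∈ E α, ∀ b ∈ E β, Pr a b → ∀ r k l, Good p r k l →
    ∀ δ ∈ F, hh a b k l • δ = δ → δ = α ∨ δ = β
/-- if `z` is trivial on `F` then `T α` is transitive on `F - α` -/
def O1 (E : Ω → Set G) (F : Set Ω) : Prop :=
  ∀ α ∈ F, ∀ β ∈ F, α ≠ β → ∀ a ∈ E α, ∀ b ∈ E β, Pr a b → (∀ c ∈ F, (a * b * a) ^ 2 • c = c) →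
    ∀ γ ∈ F, γ ≠ α → ∃ t ∈ T E α, t • β = γ
/-- abelian normal subgroups of the point stabilizer act on `F` as `T α` -/
def O2 (E : Ω → Set G) (F : Set Ω) : Prop :=
  ∀ α ∈ F, ∀ β ∈ F, α ≠ β → ∀ A : Subgroup G, Ab A → T E α ≤ A →
    (∀ y ∈ A, y • α = α ∧ ∀ c, y • c ∈ F ↔ c ∈ F) →
    (∀ g : G, g • α = α → (∀ c, g • c ∈ F ↔ c ∈ F) → g ∈ N(A)) → ∀ y ∈ A, ∃ t ∈ T E α, t • β = y • β
/-- a nilpotent normal subgroup of the point stabilizer, transitive on the other points -/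
def NT (G : Type u) [Group G] [MulAction G Ω] (α : Ω) : Prop :=
  ∃ M : Subgroup G, M ⊴ stabilizer G α ∧ Nil M ∧ ∀ β γ, β ≠ α → γ ≠ α → ∃ g ∈ M, g • β = γ

/-! ### polar spaces -/

def pe (co : Ω → Ω → Prop) (S : Set Ω) : Set Ω := {w | ∀ x ∈ S, co w x}
def ln (co : Ω → Ω → Prop) (x y : Ω) : Set Ω := pe co (pe co {x, y})
/-- a point collinear with two of `x`, `y`, `w` is collinear with the third one -/
def Tri (co : Ω → Ω → Prop) (x y w : Ω) : Prop := w ≠ x ∧ w ≠ y ∧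
  ∀ d, (co d x → co d y → co d w) ∧ (co d x → co d w → co d y) ∧ (co d y → co d w → co d x)

structure Tp (p : ℕ) (co : Ω → Ω → Prop) (E : Ω → Set G) : Prop extends DS p co E where
  fa : Fa G Ω
  tr : ∀ α β : Ω, ∃ g : G, g • α = β
  top : L E Set.univ = ⊤
  nt : ∃ α β : Ω, α ≠ β

structure Po (co : Ω → Ω → Prop) (E : Ω → Set G) : Prop where
  l1 : ∀ x y, co x y → x ≠ y → ∀ w ∈ ln co x y, ∀ w' ∈ ln co x y, w ≠ w' → pe co {w, w'} = pe co {x, y}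
  l2 : ∀ x y, co x y → x ≠ y → ∀ β, ∃ w ∈ ln co x y, co w β
  th : ∀ x y, co x y → x ≠ y → ∀ α, ∃ w ∈ ln co x y, w ≠ x ∧ w ≠ y ∧ w ≠ α
  tr : ∀ x y z, co x y → x ≠ y → co x z → x ≠ z → ∃ g : G, g • x = x ∧ g • y = z

/-- a frame of rank `n + 2` -/
structure Fr (co : Ω → Ω → Prop) {n : ℕ} (α β : Fin (n + 2) → Ω) : Prop where
  aa : ∀ i j, co (α i) (α j)
  bb : ∀ i j, co (β i) (β j)
  ab : ∀ i j, co (α i) (β j) ↔ i ≠ j
  mx : ∀ w, ¬ ∀ i, co w (α i) ∧ co w (β i)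
section
variable (G) (co : Ω → Ω → Prop) {n : ℕ} (α β : Fin (n + 2) → Ω)
/-- the standard flag -/
def PP (k : Fin (n + 2)) : Set Ω := pe co (α '' Set.Ici k)
def Bf : Subgroup G := ⨅ k, stabilizer G (PP co α k)
def Hf : Subgroup G := ⨅ i, stabilizer G (α i) ⊓ stabilizer G (β i)
/-- the pointwise stabilizer of the long simple root -/
def X0 : Subgroup G := ⨅ i, stabilizer G (α i) ⊓ ⨅ _ : i ≠ 0, stabilizer G (β i)
/-- the pointwise stabilizer of a short simple root -/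
def X1 (j : Fin (n + 1)) : Subgroup G :=
  (⨅ i, (⨅ _ : i ≠ j.castSucc, stabilizer G (α i)) ⊓ ⨅ _ : i ≠ j.succ, stabilizer G (β i)) ⊓
    (stabilizer G (pe co {α j.castSucc, α j.succ}) ⊓ stabilizer G (pe co {β j.castSucc, β j.succ}))
end
/-- reflections and panels -/
structure Fd (co : Ω → Ω → Prop) {n : ℕ} (α β : Fin (n + 2) → Ω) (s : Fin (n + 2) → G) : Prop where
  s0a : s 0 • α 0 = β 0
  s0b : s 0 • β 0 = α 0
  s0 : ∀ i, i ≠ 0 → s 0 • α i = α i ∧ s 0 • β i = β i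
  s1 : ∀ (j : Fin (n + 1)) i, s j.succ • α i = α (Equiv.swap j.castSucc j.succ i) ∧
    s j.succ • β i = β (Equiv.swap j.castSucc j.succ i)
  p0 : ∀ g : G, (∀ k, k ≠ 0 → g • PP co α k = PP co α k) →
    g ∈ Bf G co α ∨ ∃ x ∈ X0 G α β, (x * s 0)⁻¹ * g ∈ Bf G co α
  p1 : ∀ (j : Fin (n + 1)) (g : G), (∀ k, k ≠ j.succ → g • PP co α k = PP co α k) →
    g ∈ Bf G co α ∨ ∃ x ∈ X1 G co α β j, (x * s j.succ)⁻¹ * g ∈ Bf G co α
  th : ∀ i, ∃ b ∈ Bf G co α, s i * b * s i ∉ Bf G co α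
  gen : Bf G co α ⊔ closure (Set.range s) = ⊤

/-- the long root group contains a transvection -/
def Lr (p : ℕ) (P : BNPair G) (s t : G) : Prop := ∃ (A : Subgroup G) (a b : G), a ∈ A ∧ orderOf a = p ∧
  Pr a b ∧ s = b * a * b ∧ A ≤ H3.TB.Kr P s P.S ∧ ∀ x ∈ H3.TB.Xt P s, t⁻¹ * x * t ∈ N(A)
end

/-! ### the chunks: matrices -/

def GEN : Prop := ∀ (K : Type) [Field K] [Fintype K] (p : ℕ) [CharP K p] (i τ : K), p % 4 = 1 →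
  i * i = -1 → τ ≠ 0 → closure {xx (1 : K), yy τ} = ⊤ →
  (∀ j : ℕ, ((yy (-τ) * xx 1) ^ (4 * j) = 1 → (yy (i * τ) * xx (-i)) ^ (8 * j) = 1) ∧
    ((yy (i * τ) * xx (-i)) ^ (4 * j) = 1 → (yy (-τ) * xx 1) ^ (8 * j) = 1)) →
  closure {yy (-τ) * xx 1, yy (i * τ) * xx (-i)} = ⊤
def GE2 : Prop := ∀ (K : Type) [Field K] [Fintype K] (p : ℕ) [CharP K p] (ι : Type) [Fintype ι]
  (b : ι → SL(2, K)) (R : Subgroup SL(2, K)), 5 ≤ p → Fintype.card K < Fintype.card ι →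
  Function.Injective b → (∀ i, orderOf (b i) = p) → (∀ i j, b i * (b j)⁻¹ ∈ R) →
  (∃ g ∈ R, orderOf g = p) ∨ ∃ r k l, Good p r k l ∧ ∃ (m : Kˣ) (g : SL(2, K)),
    (m : K) = k ∧ g * dg m * g⁻¹ ∈ R

/-! ### the chunks: rank one -/

def NF : Prop := ∀ (G Ω : Type u) [Group G] [Finite G] [MulAction G Ω] (p : ℕ) (co : Ω → Ω → Prop)
  (E : Ω → Set G), DS p co E → ∀ α β, ¬ co α β → ∀ a ∈ E α, ∀ b ∈ E β,
  ∃ (K : Type) (_ : Field K) (_ : Fintype K) (_ : CharP K p) (φ : SL(2, K) →* G) (τ : K), Nf E α β a b φ τ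
def SC : Prop := ∀ (G Ω : Type u) [Group G] [Finite G] [MulAction G Ω] (p : ℕ) (E : Ω → Set G),
  DS p Eq E → ∀ α β, α ≠ β → Uq E α β → Uq E β α → ∀ a ∈ E α, ∀ b ∈ E β, Pr a b → ∀ k l : ℤ,
  (p : ℤ) ∣ k * l - 1 → (∀ a' ∈ E α, ∀ b' ∈ E β, Pr a' b' → hh a' b' k l = hh a b k l) ∧
    (∀ x ∈ T E α, hh a b k l * x * (hh a b k l)⁻¹ = x ^ k ^ 2) ∧
    ∀ y ∈ T E β, hh a b k l * y * (hh a b k l)⁻¹ = y ^ l ^ 2
def UK : Prop := ∀ (G Ω : Type u) [Group G] [Finite G] [MulAction G Ω] (p : ℕ) (E : Ω → Set G),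
  DS p Eq E → ∀ α β, α ≠ β →
  (∀ x ∈ Un E α β ⊔ Un E β α, ∀ c ∈ Dl E α β, x • c = c) ∧
  (∀ a ∈ E α, ∀ z ∈ T E α ⊓ T E β, a * z ∈ E α → z = 1) ∧
  (∀ a ∈ E α, ∀ v ∈ Un E β α, v * a * v⁻¹ * a⁻¹ ∈ Un E α β) ∧
  (∀ a ∈ E α, ∀ v ∈ Un E β α, v * a = a * v → v ∈ T E α) ∧
  (∀ a ∈ E α, ∀ x ∈ Un E α β, ∃ v ∈ Un E β α, ∃ z ∈ T E α ⊓ T E β, a * x = v * a * v⁻¹ * z)
def FIX : Prop := ∀ (G Ω : Type u) [Group G] [Finite G] [MulAction G Ω] (p : ℕ) (E : Ω → Set G),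
  DS p Eq E → ∀ α γ, α ≠ γ → Un E α γ = ⊥ → Un E γ α = ⊥ → ∀ a ∈ E α, ∀ c ∈ E γ, Pr a c →
  ∀ r k l, Good p r k l → ∀ δ, hh a c k l • δ = δ → δ = α ∨ δ = γ
def PA : Prop := ∀ (G Ω : Type u) [Group G] [Finite G] [Finite Ω] [MulAction G Ω] (p : ℕ)
  (E : Ω → Set G), DS p Eq E → Fa G Ω → (∀ F, Sub E F → F ≠ Set.univ → SRr E F ∧ FXr p E F) → SR E
def TR : Prop := ∀ (G Ω : Type u) [Group G] [Finite G] [Finite Ω] [MulAction G Ω] (p : ℕ)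
  (E : Ω → Set G), DS p Eq E → SR E → ∀ α β γ, β ≠ α → γ ≠ α →
  ∃ g ∈ C(T E α) ⊓ L E Set.univ, g • α = α ∧ g • β = γ
def C1 : Prop := ∀ (G Ω : Type u) [Group G] [Finite G] [Finite Ω] [MulAction G Ω] (p : ℕ)
  (E : Ω → Set G), DS p Eq E → Fa G Ω → SR E → ∀ α β, α ≠ β → Dl E α β = Set.univ → NT G α
def TRI : Prop := ∀ (G Ω : Type u) [Group G] [Finite G] [Finite Ω] [MulAction G Ω] (p : ℕ)
  (E : Ω → Set G), DS p Eq E → SR E → (∀ F, Sub E F → F ≠ Set.univ → O1 E F) →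
  ∀ α β, α ≠ β → ∀ a ∈ E α, ∀ b ∈ E β, Pr a b → (a * b * a) ^ 2 = 1 → Dl E α β = Set.univ
def C2 : Prop := ∀ (G Ω : Type u) [Group G] [Finite G] [Finite Ω] [MulAction G Ω] (p : ℕ)
  (E : Ω → Set G), DS p Eq E → Fa G Ω → SR E → (∀ F, Sub E F → F ≠ Set.univ → O1 E F ∧ O2 E F) →
  ∀ α β, α ≠ β → ∀ a ∈ E α, ∀ b ∈ E β, Pr a b → (a * b * a) ^ 2 ≠ 1 → NT G α
def OUT : Prop := ∀ (G Ω : Type u) [Group G] [Finite G] [Finite Ω] [MulAction G Ω] (p : ℕ)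
  (E : Ω → Set G), DS p Eq E → Fa G Ω → SR E → (∀ α : Ω, NT G α) →
  (∀ α β, α ≠ β → ∀ a ∈ E α, ∀ b ∈ E β, Pr a b → (a * b * a) ^ 2 = 1 → Dl E α β = Set.univ) →
  O1 E Set.univ ∧ O2 E Set.univ ∧ ((∃ α β : Ω, α ≠ β) → L E Set.univ = ⊤ → Concl G p)
/-- the output of the rank one theory used in higher rank -/
def SRn : Prop := ∀ (G Ω : Type u) [Group G] [Finite G] [Finite Ω] [MulAction G Ω] (p : ℕ)
  (E : Ω → Set G), DS p Eq E → SRr E Set.univ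
def T2 : Prop := ∀ (G Ω : Type u) [Group G] [Finite G] [Finite Ω] [MulAction G Ω] (p : ℕ)
  (co : Ω → Ω → Prop) (E : Ω → Set G), DS p co E → ∀ F, Sub E F → (∀ x ∈ F, ∀ y ∈ F, co x y → x = y) →
  ∀ α ∈ F, ∀ β ∈ F, ∀ γ ∈ F, β ≠ α → γ ≠ α → ∃ g ∈ L E F, g • α = α ∧ g • β = γ

/-! ### the chunks: higher rank -/

def TOP : Prop := ∀ (G : Type u) [Group G] [Finite G] (p : ℕ), p.Prime → 5 ≤ p →
  (∀ M : Subgroup G, M.Normal → Group.IsSolvable M → M = ⊥) → ∀ A : Subgroup G, Nat.card A = p →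
  (⨆ g : G, A.map (MulAut.conj g).toMonoidHom) = ⊤ →
  (∀ g h : G, A.map (MulAut.conj g).toMonoidHom ≠ A.map (MulAut.conj h).toMonoidHom →
    Nonempty (↥(A.map (MulAut.conj g).toMonoidHom ⊔ A.map (MulAut.conj h).toMonoidHom) ≃*
      (Multiplicative (ZMod p) × Multiplicative (ZMod p))) ∨
    ∃ (K : Type) (_ : Field K) (_ : Fintype K) (m : ℕ), 1 ≤ m ∧ Fintype.card K = p ^ m ∧
      (Nonempty (↥(A.map (MulAut.conj g).toMonoidHom ⊔ A.map (MulAut.conj h).toMonoidHom) ≃*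
        Matrix.ProjectiveSpecialLinearGroup (Fin 2) K) ∨
      Nonempty (↥(A.map (MulAut.conj g).toMonoidHom ⊔ A.map (MulAut.conj h).toMonoidHom) ≃*
        Matrix.SpecialLinearGroup (Fin 2) K))) →
  IsSimpleGroup G ∧ ∃ (Ω : Type u) (_ : Finite Ω) (_ : MulAction G Ω) (co : Ω → Ω → Prop) (E : Ω → Set G),
    Tp p co E
def BR : Prop := ∀ (G Ω : Type u) [Group G] [Finite G] [MulAction G Ω] (p : ℕ) (co : Ω → Ω → Prop)
  (E : Ω → Set G), DS p co E → ∀ α β γ, co α γ → α ≠ γ → ¬ co α β → ¬ co γ β → ∀ a ∈ E α, ∀ b ∈ E β,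
  ∀ c ∈ E γ, Pr a b → Pr c b → Tri co α γ ((b * (c * a⁻¹) * b⁻¹) • γ)
def PS : Prop := ∀ (G Ω : Type u) [Group G] [Finite G] [Finite Ω] [MulAction G Ω] (p : ℕ)
  (co : Ω → Ω → Prop) (E : Ω → Set G), Tp p co E → Po co E
def BN1 : Prop := ∀ (G Ω : Type u) [Group G] [Finite G] [Finite Ω] [MulAction G Ω] (p : ℕ)
  (co : Ω → Ω → Prop) (E : Ω → Set G), Tp p co E → Po co E → (∃ x y, co x y ∧ x ≠ y) →
  ∃ (n : ℕ) (α β : Fin (n + 2) → Ω) (s : Fin (n + 2) → G), Fr co α β ∧ Fd co α β s ∧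
    ∃ a ∈ E (α 0), ∃ b, Pr a b ∧ s 0 = b * a * b
def BN2 : Prop := ∀ (G Ω : Type u) [Group G] [Finite G] [MulAction G Ω] (p : ℕ)
  (co : Ω → Ω → Prop) (E : Ω → Set G), DS p co E → ∀ (n : ℕ) (α β : Fin (n + 2) → Ω) (s : Fin (n + 2) → G),
  Fr co α β → Fd co α β s → (∃ a ∈ E (α 0), ∃ b, Pr a b ∧ s 0 = b * a * b) →
  ∃ P : BNPair G, P.B = Bf G co α ∧ Hf G α β ≤ P.N ∧ H3.TB.Cox P s (H3.TB.tm n 4 H3.TB.pA) ∧
    Lr p P (s 0) (s 1)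
def SPL : Prop := ∀ (G Ω : Type u) [Group G] [Finite G] [Finite Ω] [MulAction G Ω] (p : ℕ)
  (co : Ω → Ω → Prop) (E : Ω → Set G), Tp p co E → Po co E → ∀ α β : Fin (0 + 2) → Ω, Fr co α β →
  ∃ U : Subgroup G, U ⊴ Bf G co α ∧ Nil U ∧ Bf G co α ≤ U ⊔ Hf G α β
/-- the long root groups of the symplectic group commute -/
def MCc : Prop := ∀ (F : Type) [Field F] [Fintype F] (n : ℕ), ∃ (P : BNPair (PSp (n + 2) F))
  (s : Fin (n + 2) → PSp (n + 2) F), P.IsSplit ∧ P.B.normalCore = ⊥ ∧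
    H3.TB.Cox P s (H3.TB.tm n 4 H3.TB.pA) ∧ P.B.relIndex (P.parabolic {s 0}) = Fintype.card F + 1 ∧
    P.B.relIndex (P.parabolic {s 1}) = Fintype.card F + 1 ∧
    ∀ x ∈ H3.TB.Kr P (s 0) P.S, ∀ y ∈ H3.TB.Kr P (s 0) P.S,
      x * ((s 1)⁻¹ * y * s 1) = (s 1)⁻¹ * y * s 1 * x
def ID2 : Prop := ∀ (G : Type u) [Group G] [Finite G] [IsSimpleGroup G] (p n : ℕ) (P : BNPair G)
  (s : Fin (n + 2) → G), p.Prime → 5 ≤ p → H3.TB.Cox P s (H3.TB.tm n 4 H3.TB.pA) → H3.TB.MF P →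
  Lr p P (s 0) (s 1) → Concl G p

end H5.AS
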