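/-
S3123: the models of the unitary groups.
-/
import Cfsg.Agent.H27.UA0

set_option autoImplicit false
set_option linter.unusedSectionVars false

open Cfsg
namespace H5.UA

open Matrix H14 H14.RootSys H14.St H14.PreSt H14.St.Tw H11 Function H27.ID H27.BL H27.LB H11.AS H27.UA Cfsg.Agent

variable {F : Type} [Field F] [Fintype F] {p : ℕ} [hp : Fact p.Prime] [CharP F p]

/-- the Frobenius twist acts on the entries -/
theorem tw_GL {K : Type} [Field K] [CharP K p] {m : ℕ} (A : (slSt m K).Alg p) (j : ℕ) (x : SpecialLinearGroup (Fin (m + 1)) K) :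
    SpecialLinearGroup.toGL ((A.tw j).σ x) = GeneralLinearGroup.map (iterateFrobenius K p j) (SpecialLinearGroup.toGL x) :=
  DFunLike.congr_fun (hom_ext (slSt_top m K) (α := SpecialLinearGroup.toGL.comp (A.tw j).σ)
    (β := (GeneralLinearGroup.map (iterateFrobenius K p j)).comp SpecialLinearGroup.toGL) fun s t => by
      rw [MonoidHom.comp_apply, MonoidHom.comp_apply, A.tw_x, slSt_isHom, slSt_isHom, Rep.map_x]; rfl) x

theorem model (h0 : p ≠ 2) {m q : ℕ} (hF : Fintype.card F = q ^ 2) : ∃ (Φ : (slSt m (AlgebraicClosure F)).Fr)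
    (e : SU (m + 1) F q →* SpecialLinearGroup (Fin (m + 1)) (AlgebraicClosure F)) (P : GL (Fin (m + 1)) F),
    Mo Φ p e (QuotientGroup.mk' (Subgroup.center _)) ∧ (∃ f, ∀ s, H27.BL.q Φ s = p ^ f) ∧ ∀ y, SpecialLinearGroup.toGL (e y) =
      GeneralLinearGroup.map (algebraMap F _) (P⁻¹ * SpecialLinearGroup.toGL y.1 * P) := by
  obtain ⟨ψ, P, hψ⟩ := exists_su hF (M := H8.SUT.J m F) (by
    ext a b
    simp [-frob_apply, H8.SUT.J, one_apply, apply_ite (frob hF), Fin.rev_eq_iff, eq_comm (a := b)])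
    (left_ne_zero_of_mul_eq_one (by rw [← det_mul, H8.SUT.J_J, det_one]))
  obtain ⟨μ, a1, a2⟩ := pull_map (slSt_isHom m F) SpecialLinearGroup.toGL_injective (slSt_top m F) (slSt_isHom m _)
    SpecialLinearGroup.toGL_injective (algebraMap F (AlgebraicClosure F))
  have a3 := DFunLike.congr_fun (hom_ext (slSt_top m F) (α := SpecialLinearGroup.toGL.comp μ)
    (β := (GeneralLinearGroup.map (algebraMap F _)).comp SpecialLinearGroup.toGL) fun s t => by
      rw [MonoidHom.comp_apply, MonoidHom.comp_apply, a2, slSt_isHom, slSt_isHom, Rep.map_x])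
  obtain ⟨Φ, b1, b2, b3⟩ := exists_em (alg_rep (slSt_isHom m _) SpecialLinearGroup.toGL_injective (slSt_top m _) (slSt_sep m _))
    (mbA m).cok h0 a1 a2 hF two_ne_zero (H8.SUT.T m (frob hF)) (fun f => H8.SUT.T m (iterateFrobenius _ p f)) (fun _ => rfl)
    (c := fun _ => -1) (fun _ _ => by simp [H8.SUT.T]) (fun _ _ _ => by simp [H8.SUT.T, iterateFrobenius_def]) (fun f s t => by
      rw [iterate_succ_apply', iterate_one, Tw.σ_x, Tw.σ_x]
      exact congrArg₂ _ (H8.SUT.ρ.left_inv s) (by simp [H8.SUT.T, ← iterateFrobenius_def])) (.inr hdA)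
    (e := (suMat hF (H8.SUT.J m F)).subtype.comp ψ.symm.toMonoidHom) (Subtype.val_injective.comp ψ.symm.injective)
    (fun g => (H8.SUT.σ_eq_iff _ _).2 (ψ.symm g).2) fun g hg _ _ => ⟨ψ ⟨g, (H8.SUT.σ_eq_iff _ _).1 hg⟩, by simp⟩
  refine ⟨Φ, _, P, ⟨Wk.sw ⟨b2.alg, b2.ok⟩ fun r => b1 ▸ (Tw.pos_ρ _ r).2, connA, b3, QuotientGroup.mk'_surjective _,
    QuotientGroup.ker_mk' _⟩, b2.pw.imp fun f h s => (b2.hq s).trans h, fun y => (a3 _).trans ?_⟩
  obtain ⟨y, rfl⟩ := ψ.surjective y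
  rw [hψ]
  simp [mul_assoc]

theorem u1 : U1 := fun F _ _ p _ _ h0 n q hn hF hs => by
  obtain ⟨m, rfl⟩ : ∃ m, n = m + 1 := ⟨n - 1, by omega⟩
  obtain ⟨Φ, e, P, a1, -, a3⟩ := model h0 (m := m) hF
  refine ⟨_, _, _, _, _, _, _, _, _, _, _, _, _, _, _, inferInstance, inferInstance, Φ, e, _, a1, fun β c1 c2 =>
    or_iff_not_imp_left.2 fun c => nb_of (l := 2) (Dvd.dvd.trans ?_ (H22.succ_dvd_psu hF hn)) c1 c2 fun A d1 d2 d3 =>
    S2687.result F p q hF _ hn hs A d1 2 h0.symm β d2 d3 fun ⟨g, g0, hg⟩ => c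
      ((exists_sl (GeneralLinearGroup.map (algebraMap F (AlgebraicClosure F)) (P⁻¹ * g * P))).imp fun a ha y => ?_)⟩
  · have := H12.odd_card_iff.2 (H22.two_ne_zero_of_ne (F := F) h0.symm)
    rw [hF, Nat.odd_pow_iff two_ne_zero] at this
    exact this.add_one.two_dvd
  obtain ⟨y', hy⟩ := (range_suToGU (F := F) (q := q) _).ge ((guDet _ F q).normal_ker.conj_mem _
    ((range_suToGU _).le ⟨y, rfl⟩) ⟨g, g0⟩)
  replace hy : SpecialLinearGroup.toGL y'.1 = g * SpecialLinearGroup.toGL y.1 * g⁻¹ := congrArg Subtype.val hy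
  refine ⟨y', hg _ _ (congrArg Units.val hy), SpecialLinearGroup.toGL_injective ?_⟩
  rw [map_mul, map_mul, map_inv, ha, id_eq, a3, a3, hy, ← map_inv, ← map_mul, ← map_mul]
  congr 1; group

theorem u2 : U2 := fun F _ _ p _ _ h0 n q hn hF _ => by
  obtain ⟨m, rfl⟩ : ∃ m, n = m + 1 := ⟨n - 1, by omega⟩
  obtain ⟨Φ, e, P, a1, a2, a3⟩ := model h0 (m := m) hF
  refine ⟨_, _, _, _, _, _, _, _, _, _, _, _, _, _, _, inferInstance, inferInstance, Φ, e, _, a1,
    Fin.nontrivial_iff_two_le.2 (by omega), .inr hdA, a2, fun β _ => ?_⟩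
  obtain ⟨γ, rfl⟩ := H22.su_Th_surj hF hn (by
    rintro ⟨-, rfl⟩
    have := H12.odd_card_iff.2 (H22.two_ne_zero_of_ne (F := F) h0.symm)
    rw [hF] at this
    exact absurd this (by decide)) β
  obtain ⟨j, hj⟩ := H22.exists_frob_pow p γ.1.right
  replace hj : ∀ t, γ.1.right t = t ^ p ^ j := fun t => by rw [← hj, RingAut.coe_pow, coe_frobeniusEquiv, iterate_frobenius]
  obtain ⟨a, ha⟩ := exists_sl (GeneralLinearGroup.map (algebraMap F (AlgebraicClosure F))
    (P⁻¹ * γ.1.left * H22.fldAut _ F γ.1.right P))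
  refine ⟨a, a1.sw.alg.tw j, j, un_tw _ j, .inr hdA, fun y => ?_⟩
  obtain ⟨y', hy⟩ := (H22.suData hF hn).norm γ.1 γ.2 y
  rw [H22.sdConj_apply] at hy
  have k : ∀ z : GL (Fin (m + 1)) F, GeneralLinearGroup.map (iterateFrobenius (AlgebraicClosure F) p j)
      (GeneralLinearGroup.map (algebraMap F _) z) = GeneralLinearGroup.map (algebraMap F _) (H22.fldAut _ F γ.1.right z) := fun z => by
    ext r s
    exact ((congrArg (algebraMap F (AlgebraicClosure F)) (hj (z r s))).trans (map_pow _ _ _)).symm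
  refine ⟨y', (H22.semilinPSU_iff hF hn).2 rfl _ _ (congrArg Units.val hy), SpecialLinearGroup.toGL_injective ?_⟩
  rw [map_mul, map_mul, map_inv, ha, tw_GL, a3, a3, k, show SpecialLinearGroup.toGL y'.1 = _ from hy, ← map_inv, ← map_mul, ← map_mul]
  congr 1
  simp only [map_mul, map_inv]
  group
  rfl

theorem li : LI := fun F _ _ _ _ _ _ _ β σ h ⟨k, o⟩ => by
  have m : β⁻¹ * β⁻¹ ∈ inndiagPSL 2 F := by simpa only [commutatorElement_def, h] using H22.psl_commutator_mem le_rfl σ β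
  have e : β = (β⁻¹ * β⁻¹) ^ k := by
    rw [← sq, inv_pow, inv_pow, ← pow_mul, eq_inv_iff_mul_eq_one, ← pow_succ', ← o, pow_orderOf_eq_one]
  have := pow_mem m k
  rw [← e, H22.inndiagPSL_eq] at this
  exact H22.innDiagPSL_iff.2 (this.imp fun _ => Eq.symm)

end H5.UA
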