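/-
Basic facts: matrices, points, the normal form of a non-commuting pair.
-/
import Cfsg.Agent.H5.AS0
import Cfsg.Agent.H29.AS2
import Cfsg.Agent.H19.Amb4

set_option autoImplicit false
set_option linter.unusedSectionVars false
set_option linter.style.haveILetI false

open Cfsg Subgroup MulAction H19
open scoped MatrixGroups Pointwise
namespace H5.AS
universe u

section
variable {K : Type*} [Field K] {s t : K} {g h : SL(2, K)}
theorem ext2 (h0 : g 0 0 = h 0 0) (h1 : g 0 1 = h 0 1) (h2 : g 1 0 = h 1 0) (h3 : g 1 1 = h 1 1) : g = h := by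
  ext i j; fin_cases i <;> fin_cases j <;> assumption
theorem mul_ap (g h : SL(2, K)) (i j : Fin 2) : (g * h) i j = g i 0 * h 0 j + g i 1 * h 1 j := by
  simp [Matrix.mul_apply, Fin.sum_univ_two]
theorem det2 (g : SL(2, K)) : g 0 0 * g 1 1 - g 0 1 * g 1 0 = 1 := by
  have := g.2; rwa [Matrix.det_fin_two] at this
theorem inv00 (g : SL(2, K)) : g⁻¹ 0 0 = g 1 1 := by simp [Matrix.adjugate_fin_two]
theorem inv01 (g : SL(2, K)) : g⁻¹ 0 1 = -g 0 1 := by simp [Matrix.adjugate_fin_two]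
theorem inv10 (g : SL(2, K)) : g⁻¹ 1 0 = -g 1 0 := by simp [Matrix.adjugate_fin_two]
theorem inv11 (g : SL(2, K)) : g⁻¹ 1 1 = g 0 0 := by simp [Matrix.adjugate_fin_two]
theorem neg_ap (g : SL(2, K)) (i j : Fin 2) : (-g) i j = -g i j := rfl
theorem one00 : (1 : SL(2, K)) 0 0 = 1 := rfl
theorem one01 : (1 : SL(2, K)) 0 1 = 0 := rfl
theorem one10 : (1 : SL(2, K)) 1 0 = 0 := rfl
theorem one11 : (1 : SL(2, K)) 1 1 = 1 := rfl
theorem xx00 : xx s 0 0 = 1 := rfl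
theorem xx01 : xx s 0 1 = s := rfl
theorem xx10 : xx s 1 0 = 0 := rfl
theorem xx11 : xx s 1 1 = 1 := rfl
theorem yy00 : yy s 0 0 = 1 := rfl
theorem yy01 : yy s 0 1 = 0 := rfl
theorem yy10 : yy s 1 0 = s := rfl
theorem yy11 : yy s 1 1 = 1 := rfl
theorem dg00 {m : Kˣ} : dg m 0 0 = m := rfl
theorem dg01 {m : Kˣ} : dg m 0 1 = 0 := rfl
theorem dg10 {m : Kˣ} : dg m 1 0 = 0 := rfl
theorem dg11 {m : Kˣ} : dg m 1 1 = (m : K)⁻¹ := Units.val_inv_eq_inv_val m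
theorem ww00 : ww K 0 0 = 0 := rfl
theorem ww01 : ww K 0 1 = 1 := rfl
theorem ww10 : ww K 1 0 = -1 := rfl
theorem ww11 : ww K 1 1 = 0 := rfl
end

/-- expand the entries of products of the standard matrices -/
scoped macro "mat" : tactic => `(tactic| simp only [mul_ap, inv00, inv01, inv10, inv11, neg_ap, one00, one01, one10,
  one11, xx00, xx01, xx10, xx11, yy00, yy01, yy10, yy11, dg00, dg01, dg10, dg11, ww00, ww01, ww10, ww11])

section
variable {K : Type*} [Field K]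
theorem xx_add (s t : K) : xx (s + t) = xx s * xx t := H29.AS.up_add s t
theorem yy_add (s t : K) : yy (s + t) = yy s * yy t := H29.AS.lo_add s t
theorem xx_zero : xx (0 : K) = 1 := H29.AS.up_zero
theorem yy_zero : yy (0 : K) = 1 := H29.AS.lo_zero
theorem xx_neg (s : K) : xx (-s) = (xx s)⁻¹ := H29.AS.up_neg s
theorem yy_neg (s : K) : yy (-s) = (yy s)⁻¹ := H29.AS.lo_neg s
theorem xx_pow (s : K) (n : ℕ) : xx s ^ n = xx (n * s) := H29.AS.up_pow s n
theorem yy_pow (s : K) (n : ℕ) : yy s ^ n = yy (n * s) := H29.AS.lo_pow s n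
theorem xx_zpow (s : K) (n : ℤ) : xx s ^ n = xx (n * s) := H29.AS.up_zpow s n
theorem yy_zpow (s : K) (n : ℤ) : yy s ^ n = yy (n * s) := H29.AS.lo_zpow s n
theorem dg_mul (m n : Kˣ) : dg (m * n) = dg m * dg n := by apply ext2 <;> mat <;> simp [mul_comm]
theorem dg_one : dg (1 : Kˣ) = 1 := by apply ext2 <;> mat <;> simp
theorem dg_neg_one : dg (-1 : Kˣ) = -1 := by apply ext2 <;> mat <;> simp
theorem dg_inv (m : Kˣ) : dg m⁻¹ = (dg m)⁻¹ := eq_inv_of_mul_eq_one_left (by rw [← dg_mul, inv_mul_cancel, dg_one])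
theorem dg_pow (m : Kˣ) (n : ℕ) : dg m ^ n = dg (m ^ n) := by
  induction n with
  | zero => simp [dg_one]
  | succ n ih => rw [pow_succ, ih, ← dg_mul, pow_succ]
theorem dg_xx (m : Kˣ) (s : K) : dg m * xx s * (dg m)⁻¹ = xx ((m : K) ^ 2 * s) := by
  apply ext2 <;> mat <;> field_simp <;> ring
theorem dg_yy (m : Kˣ) (s : K) : dg m * yy s * (dg m)⁻¹ = yy ((m : K)⁻¹ ^ 2 * s) := by
  apply ext2 <;> mat <;> field_simp <;> ring
theorem ww_xx (s : K) : ww K * xx s * (ww K)⁻¹ = yy (-s) := by apply ext2 <;> mat <;> ring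
theorem ww_yy (s : K) : ww K * yy s * (ww K)⁻¹ = xx (-s) := by apply ext2 <;> mat <;> ring
theorem ww_dg (m : Kˣ) : ww K * dg m * (ww K)⁻¹ = (dg m)⁻¹ := by apply ext2 <;> mat <;> ring
theorem ww_sq : ww K * ww K = -1 := by apply ext2 <;> mat <;> ring
theorem xyx (m : Kˣ) : xx (m : K) * yy (-(m : K)⁻¹) * xx (m : K) = dg m * ww K := by
  apply ext2 <;> mat <;> field_simp <;> ring
theorem braid {s t : K} (h : s * t = -1) : xx s * yy t * xx s = yy t * xx s * yy t := H29.AS.braid h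
theorem upper {g : SL(2, K)} (h : g 1 0 = 0) : ∃ (m : Kˣ) (s : K), g = xx s * dg m := by
  have d := det2 g
  rw [h, mul_zero, sub_zero] at d
  refine ⟨Units.mk0 (g 0 0) (left_ne_zero_of_mul_eq_one d), g 0 1 * g 0 0, ?_⟩
  have := left_ne_zero_of_mul_eq_one d
  apply ext2 <;> mat <;> simp only [Units.val_mk0, h] <;> field_simp
  · ring
  · ring
  · ring
  · linear_combination d
theorem sl_ind {M : Subgroup SL(2, K)} (hu : ∀ s, xx s ∈ M) (hl : ∀ s, yy s ∈ M) : M = ⊤ :=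
  eq_top_iff.2 fun g _ => H29.AS.sl_ind hu hl g
theorem top_of (h2 : (2 : K) ≠ 0) {M : Subgroup SL(2, K)} (h : ∀ g, g ∈ M ∨ -g ∈ M) : M = ⊤ := by
  have k : ∀ g, g * g ∈ M := fun g => by
    rcases h g with e | e
    · exact mul_mem e e
    · simpa using mul_mem e e
  exact sl_ind (fun s => by simpa [← xx_add, ← two_mul, mul_div_cancel₀ _ h2] using k (xx (s / 2)))
    fun s => by simpa [← yy_add, ← two_mul, mul_div_cancel₀ _ h2] using k (yy (s / 2))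
theorem cast_ne {p : ℕ} [CharP K p] (p5 : 5 ≤ p) {n : ℕ} (h0 : 0 < n) (h5 : n < 5) : (n : K) ≠ 0 := fun e => by
  have := Nat.le_of_dvd h0 ((CharP.cast_eq_zero_iff K p n).1 e); omega
theorem two_ne {p : ℕ} [CharP K p] (p5 : 5 ≤ p) : (2 : K) ≠ 0 := by simpa using cast_ne (K := K) p5 (n := 2) (by omega) (by omega)
theorem three_ne {p : ℕ} [CharP K p] (p5 : 5 ≤ p) : (3 : K) ≠ 0 := by simpa using cast_ne (K := K) p5 (n := 3) (by omega) (by omega)
/-- normal subgroups of `SL₂(K)` -/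
theorem nrm {p : ℕ} [CharP K p] (p5 : 5 ≤ p) (M : Subgroup SL(2, K)) [M.Normal] : M = ⊤ ∨ ∀ g ∈ M, g = 1 ∨ g = -1 := by
  have h2 := two_ne (K := K) p5; have h3 := three_ne (K := K) p5
  haveI := Matrix.ProjectiveSpecialLinearGroup.rank_two_simple' (F := K) ⟨2, h2, fun e => h3 (by linear_combination e)⟩
  rcases (Normal.map ‹M.Normal› _ (QuotientGroup.mk'_surjective (center SL(2, K)))).eq_bot_or_eq_top with h | h
  · exact .inr fun g hg => H29.AS.cen_sl ((QuotientGroup.eq_one_iff g).1 ((Subgroup.map_eq_bot_iff _).1 h hg))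
  · refine .inl (top_of h2 fun g => ?_)
    obtain ⟨x, hx, e⟩ : QuotientGroup.mk' (center SL(2, K)) g ∈ M.map _ := h ▸ mem_top _
    rcases H29.AS.cen_sl (QuotientGroup.eq.1 e) with k | k <;> rw [inv_mul_eq_iff_eq_mul] at k <;> rw [k]
    · exact .inl (by simpa using hx)
    · exact .inr (by simpa using hx)
def tw0 (s : Kˣ) (g : SL(2, K)) : SL(2, K) :=
  H29.AS.mk (g 0 0) (s * g 0 1) (g 1 0 / s) (g 1 1) (by have := det2 g; field_simp; exact this)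
theorem tw00 (s : Kˣ) (g : SL(2, K)) : tw0 s g 0 0 = g 0 0 := rfl
theorem tw01 (s : Kˣ) (g : SL(2, K)) : tw0 s g 0 1 = s * g 0 1 := rfl
theorem tw10 (s : Kˣ) (g : SL(2, K)) : tw0 s g 1 0 = g 1 0 / s := rfl
theorem tw11 (s : Kˣ) (g : SL(2, K)) : tw0 s g 1 1 = g 1 1 := rfl
/-- conjugation by `diag (s, 1)` -/
def tw (s : Kˣ) : SL(2, K) →* SL(2, K) := MonoidHom.mk' (tw0 s) fun g h => by
  apply ext2 <;> simp only [tw00, tw01, tw10, tw11, mul_ap] <;> field_simp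
theorem tw_ap (s : Kˣ) (g : SL(2, K)) : tw s g = tw0 s g := rfl
theorem tw_xx (s : Kˣ) (t : K) : tw s (xx t) = xx (s * t) := by
  apply ext2 <;> simp only [tw_ap, tw00, tw01, tw10, tw11] <;> mat; simp
theorem tw_yy (s : Kˣ) (t : K) : tw s (yy t) = yy (t / s) := by
  apply ext2 <;> simp only [tw_ap, tw00, tw01, tw10, tw11] <;> mat; simp
theorem tw_tw (s : Kˣ) (g : SL(2, K)) : tw s (tw s⁻¹ g) = g := by
  apply ext2 <;> simp only [tw_ap, tw00, tw01, tw10, tw11] <;> simp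
theorem tw_neg (s : Kˣ) : tw s (-1) = -1 := by
  apply ext2 <;> simp only [tw_ap, tw00, tw01, tw10, tw11] <;> mat <;> simp
end

/-! ### braid pairs -/
section
variable {G : Type u} [Group G] {a b : G}
theorem Pr.symm (h : Pr a b) : Pr b a := Eq.symm h
theorem Pr.na (h : Pr a b) : a * b * a * a * (a * b * a)⁻¹ = b := by
  rw [mul_inv_eq_iff_eq_mul]; exact H29.AS.br_wa h
theorem Pr.nb (h : Pr a b) : a * b * a * b * (a * b * a)⁻¹ = a := by
  rw [mul_inv_eq_iff_eq_mul]; exact H29.AS.br_wb h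
theorem Pr.ab (h : Pr a b) : a * b * a⁻¹ = b⁻¹ * a * b⁻¹⁻¹ := by rw [inv_inv, H29.AS.br_cj h.symm]
theorem Pr.za (h : Pr a b) : Commute ((a * b * a) ^ 2) a := H29.AS.br_za h
theorem Pr.zb (h : Pr a b) : Commute ((a * b * a) ^ 2) b := H29.AS.br_zb h
theorem Pr.inv (h : Pr a b) : Pr a⁻¹ b⁻¹ := by simpa [Pr, mul_assoc] using congrArg (·⁻¹) h
theorem Pr.cj (h : Pr a b) (g : G) : Pr (g * a * g⁻¹) (g * b * g⁻¹) := by
  simpa [Pr, mul_assoc] using congrArg (fun x => g * x * g⁻¹) h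
theorem hh_cj (a b g : G) (k l : ℤ) : hh (g * a * g⁻¹) (g * b * g⁻¹) k l = g * hh a b k l * g⁻¹ := by
  simp only [hh, conj_zpow]; group
theorem hh_comm {w : G} (ha : Commute w a) (hb : Commute w b) (k l : ℤ) : Commute w (hh a b k l) :=
  (((ha.zpow_right k).mul_right (hb.zpow_right l)).mul_right (ha.zpow_right k)).mul_right
    ((ha.mul_right hb).mul_right ha).inv_right
theorem hh_mem {H : Subgroup G} (ha : a ∈ H) (hb : b ∈ H) (k l : ℤ) : hh a b k l ∈ H :=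
  mul_mem (mul_mem (mul_mem (zpow_mem ha k) (zpow_mem hb l)) (zpow_mem ha k)) (inv_mem (mul_mem (mul_mem ha hb) ha))
end

/-! ### points -/
variable {G Ω : Type u} [Group G] [MulAction G Ω] {p : ℕ} {co : Ω → Ω → Prop} {E : Ω → Set G} {α β γ δ : Ω}
  {a b c d x y g : G}

theorem mem_T (h : a ∈ E α) : a ∈ T E α := subset_closure h
theorem T_le_L {F : Set Ω} (h : α ∈ F) : T E α ≤ L E F := le_iSup₂ (f := fun δ (_ : δ ∈ F) => T E δ) α h
theorem mem_Un : x ∈ Un E α β ↔ x ∈ T E α ∧ x • β = β := Iff.rfl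

namespace DS
variable (D : DS p co E)
include D
theorem odd : Odd p := D.pp.odd_of_ne_two (by have := D.p5; omega)
theorem pow_p (ha : a ∈ E α) : a ^ p = 1 := D.ord α a ha ▸ pow_orderOf_eq_one a
theorem ne_one (ha : a ∈ E α) : a ≠ 1 := fun e => D.pp.one_lt.ne' (by simpa [e] using (D.ord α a ha).symm)
theorem zpow_one (ha : a ∈ E α) {n : ℤ} : a ^ n = 1 ↔ (p : ℤ) ∣ n := by
  rw [← orderOf_dvd_iff_zpow_eq_one, D.ord α a ha]
theorem nd5 {n : ℤ} (h0 : n ≠ 0) (h : |n| < 5) : ¬ (p : ℤ) ∣ n := fun d => by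
  have := Int.le_of_dvd (abs_pos.2 h0) ((dvd_abs _ _).2 d); have := D.p5; omega
theorem inv (ha : a ∈ E α) : a⁻¹ ∈ E α := by simpa using D.pw α a ha (-1) (D.nd5 (by decide) (by decide))
theorem eqv' (ha : a ∈ E α) (g : G) : g⁻¹ * a * g ∈ E (g⁻¹ • α) := by simpa using D.eqv α a ha g⁻¹
theorem eqv1 (ha : a ∈ E α) (h : g • α = β) : g * a * g⁻¹ ∈ E β := h ▸ D.eqv α a ha g
theorem one_of (h2 : y * y = 1) (hp : y ^ p = 1) : y = 1 := by
  obtain ⟨k, hk⟩ := D.odd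
  rwa [hk, pow_succ, pow_mul, sq, h2, one_pow, one_mul] at hp
theorem co_of_comm (ha : a ∈ E α) (hb : b ∈ E β) (h : a * b = b * a) : co α β := by
  by_contra n
  obtain ⟨K, _, _, _, φ, e⟩ := D.sl α β n a ha b hb
  have h2 := two_ne (K := K) D.p5; have h3 := three_ne (K := K) D.p5
  have k := Matrix.SL2.commutator_eq_top (F := K) h2 fun e => h3 (by linear_combination e)
  have c : IsMulCommutative (closure ({a, b} : Set G)) := Subgroup.isMulCommutative_closure (by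
    rintro _ (rfl | rfl) _ (rfl | rfl) <;> simp [h])
  have : φ.range = ⊥ := by
    rw [MonoidHom.range_eq_map, ← k, commutator_def, map_commutator, ← MonoidHom.range_eq_map, e, ← comm_iff_der]; exact c
  exact D.ne_one ha (by simpa [← e, this] using (subset_closure (by simp) : a ∈ closure ({a, b} : Set G)))
theorem co_iff (ha : a ∈ E α) (hb : b ∈ E β) : co α β ↔ Commute a b := ⟨fun h => D.cm α β h a ha b hb, D.co_of_comm ha hb⟩
theorem co_smul (g : G) (h : co α β) : co (g • α) (g • β) := by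
  obtain ⟨a, ha⟩ := D.ne α; obtain ⟨b, hb⟩ := D.ne β
  exact (D.co_iff (D.eqv α a ha g) (D.eqv β b hb g)).2 (((D.co_iff ha hb).1 h).conj g)
theorem co_smul_iff (g : G) : co (g • α) (g • β) ↔ co α β := ⟨fun h => by simpa using D.co_smul g⁻¹ h, D.co_smul g⟩
theorem pt_eq (ha : a ∈ E α) (hb : a ∈ E β) : α = β := D.nd α β fun γ h => by
  obtain ⟨c, hc⟩ := D.ne γ; exact (D.co_iff hc hb).2 ((D.co_iff hc ha).1 h)
theorem fix_of_comm (hc : c ∈ E γ) (h : g * c = c * g) : g • γ = γ :=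
  D.pt_eq (D.eqv γ c hc g) (by rwa [h, mul_inv_cancel_right])
theorem fixE (ha : a ∈ E α) (h : co α γ) : a • γ = γ := by
  obtain ⟨c, hc⟩ := D.ne γ; exact D.fix_of_comm hc (D.cm α γ h a ha c hc)
theorem fixT (h : co α γ) (hx : x ∈ T E α) : x • γ = γ :=
  ((closure_le (stabilizer G γ)).2 fun _ ha => D.fixE ha h) hx
theorem fixT' (hx : x ∈ T E α) : x • α = α := D.fixT (D.rf α) hx
theorem fixE' (hx : x ∈ E α) : x • α = α := D.fixE hx (D.rf α)
theorem TT (h : co α β) : T E α ≤ C(T E β) := (closure_le _).2 fun a ha => le_cent1_iff.1 ((closure_le _).2 fun b hb =>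
  mem_cent1.2 (D.cm α β h a ha b hb).symm)
theorem abT (α : Ω) : Ab (T E α) := comm_iff_le_cent.2 (D.TT (D.rf α))
theorem commT (hx : x ∈ T E α) (hy : y ∈ T E α) : Commute x y := mul_comm_of_comm (D.abT α) hx hy
theorem powT (hx : x ∈ T E α) : x ^ p = 1 := by
  induction hx using closure_induction with
  | mem a ha => exact D.pow_p ha
  | one => simp
  | mul x y hx hy h1 h2 => rw [(D.commT hx hy).mul_pow, h1, h2, one_mul]
  | inv x _ h => rw [inv_pow, h, inv_one]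
theorem zpowT (hx : x ∈ T E α) {m n : ℤ} (h : (p : ℤ) ∣ m - n) : x ^ m = x ^ n := by
  obtain ⟨k, hk⟩ := h
  rw [show m = p * k + n by linear_combination hk, zpow_add, zpow_mul, zpow_natCast, D.powT hx]; simp
theorem oneT (hx : x ∈ T E α) {n : ℤ} (hn : ¬ (p : ℤ) ∣ n) (h : x ^ n = 1) : x = 1 := by
  obtain ⟨u, v, e⟩ := (Nat.prime_iff_prime_int.1 D.pp).coprime_iff_not_dvd.2 hn
  rw [← _root_.zpow_one x, D.zpowT hx (n := n * v) ⟨u, by linear_combination -e⟩, zpow_mul, h, one_zpow]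
theorem cjT (g : G) (hx : x ∈ T E α) : g * x * g⁻¹ ∈ T E (g • α) := by
  have : T E α ≤ cj g⁻¹ (T E (g • α)) := (closure_le _).2 fun a ha => mem_cj_inv.2 (mem_T (D.eqv α a ha g))
  exact mem_cj_inv.1 (this hx)
theorem cjT1 (h : g • α = β) (hx : x ∈ T E α) : g * x * g⁻¹ ∈ T E β := h ▸ D.cjT g hx
theorem cj_T (g : G) (α : Ω) : cj g (T E α) = T E (g • α) := le_antisymm
  (fun _ hx => by obtain ⟨y, hy, rfl⟩ := mem_cj'.1 hx; exact D.cjT g hy)
  fun x hx => mem_cj.2 (by simpa using D.cjT g⁻¹ hx)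
theorem norm_T (h : g • α = α) : g ∈ N(T E α) := mem_norm_iff_cj.2 (by rw [D.cj_T, h])
theorem cjU (g : G) (hx : x ∈ Un E α β) : g * x * g⁻¹ ∈ Un E (g • α) (g • β) :=
  ⟨D.cjT g hx.1, show _ • _ = _ by simpa [mul_smul] using hx.2⟩
theorem pgT [Finite G] (α : Ω) : PG p (T E α) := by
  exact PiN.of_isPGroup D.pp fun x => ⟨1, Subtype.ext (by simpa using D.powT x.2)⟩
/-- the element level hypothesis -/
theorem hy : H29.AS.Hy p (⋃ α, E α) := by
  refine ⟨D.pp, D.p5, ?_, ?_, ?_, ?_⟩ <;> simp only [Set.mem_iUnion]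
  · rintro a ⟨α, h⟩; exact D.ord α a h
  · rintro a ⟨α, h⟩ g; exact ⟨_, D.eqv α a h g⟩
  · rintro a ⟨α, h⟩ n k; exact ⟨α, D.pw α a h n (mt (D.zpow_one h).2 k)⟩
  rintro a ⟨α, ha⟩ b ⟨β, hb⟩ nc
  obtain ⟨K, _, _, _, φ, e⟩ := D.sl α β (mt (D.co_iff ha hb).1 nc) a ha b hb
  haveI := Fact.mk D.pp
  obtain ⟨m, -, hm⟩ := FiniteField.card K p
  refine ⟨K, _, ‹_›, H29.AS.pr_of D.pp D.p5 (D.ord α a ha) (D.ord β b hb) nc hm φ ((nrm D.p5 φ.ker).resolve_left fun k => ?_) e⟩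
  obtain ⟨g, rfl⟩ : a ∈ φ.range := e ▸ subset_closure (by simp)
  exact D.ne_one ha (k ▸ mem_top g : g ∈ φ.ker)
theorem mE (ha : a ∈ E α) : a ∈ ⋃ α, E α := Set.mem_iUnion.2 ⟨α, ha⟩
theorem sp (ha : a ∈ E α) (hb : b ∈ E β) (h : H29.AS.Sp (⋃ α, E α) a b) : α = β := D.nd α β fun γ k => by
  obtain ⟨c, hc⟩ := D.ne γ; exact (D.co_iff hc hb).2 ((h c (D.mE hc)).1 ((D.co_iff hc ha).1 k))
/-- `⟨a, b⟩` is perfect -/
theorem perf (n : ¬ co α β) (ha : a ∈ E α) (hb : b ∈ E β) {H : Subgroup G} (h1 : a ∈ H) (h2 : b ∈ H) : a ∈ ⁅H, H⁆ :=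
  der_mono ((closure_le _).2 (by rintro _ (rfl | rfl) <;> assumption))
    (D.hy.perf (D.mE ha) (D.mE hb) (mt (D.co_iff ha hb).2 n) (subset_closure (by simp)))
theorem cen_eq (n : ¬ co α β) (ha : a ∈ E α) (hb : b ∈ E β) (ya : Commute y a) (yb : Commute y b) (hp : y ^ p = 1)
    (h : a * y ∈ E γ) : y = 1 := D.hy.l1' (D.mE ha) (D.mE hb) (mt (D.co_iff ha hb).2 n) ya yb hp (D.mE h)
/-- an element of `⟨a, b⟩` commuting with `a` and `b` is an involution or trivial -/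
theorem cen (n : ¬ co α β) (ha : a ∈ E α) (hb : b ∈ E β) (hy : y ∈ closure {a, b}) (ya : Commute y a) (yb : Commute y b) :
    y * y = 1 := D.hy.cen (D.mE ha) (D.mE hb) (mt (D.co_iff ha hb).2 n) hy ya yb
end DS

/-! ### the normal form -/
section
variable {K : Type} [Field K] {φ : SL(2, K) →* G} {s t τ : K}
theorem cj_pm {g h : SL(2, K)} (k : g * h * g⁻¹ = 1 ∨ g * h * g⁻¹ = -1) : h = 1 ∨ h = -1 :=
  k.imp (fun k => by simpa using k) fun k => by
    calc h = g⁻¹ * (g * h * g⁻¹) * g := by group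
      _ = -1 := by rw [k]; simp
theorem pr_symm (h : H29.AS.Pr p a b φ s t) : H29.AS.Pr p b a (φ.comp (MulAut.conj (ww K)).toMonoidHom) (-t) (-s) := by
  refine ⟨h.ch, fun g e => cj_pm (h.ker _ e), ?_, ?_, ?_, neg_ne_zero.2 h.ht, neg_ne_zero.2 h.hs⟩
  · exact (congrArg φ ((ww_xx (-t)).trans (by rw [neg_neg]; rfl))).trans h.hb
  · exact (congrArg φ ((ww_yy (-s)).trans (by rw [neg_neg]; rfl))).trans h.ha
  · rw [MonoidHom.range_comp, MonoidHom.range_eq_top.2 (MulAut.conj _).surjective, ← MonoidHom.range_eq_map, h.gen,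
      Set.pair_comm]
theorem sq_ind (h2 : (2 : K) ≠ 0) {M : Subgroup G} {f : K → G} (hf : ∀ s t, f (s + t) = f s * f t)
    (h : ∀ s, s ≠ 0 → f (s ^ 2) ∈ M) (s : K) : f s ∈ M := by
  have h0 : f 0 = 1 := by simpa using hf 0 0
  have k : ∀ s, f (s ^ 2) ∈ M := fun s => by
    by_cases e : s = 0
    · simp [e, h0, one_mem]
    · exact h s e
  have := k ((s + 1) / 2)
  rw [show ((s + 1) / 2) ^ 2 = s + ((s - 1) / 2) ^ 2 by field_simp; ring, hf] at this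
  exact (mul_mem_cancel_right (k _)).1 this

theorem nf_of (D : DS p co E) (n : ¬ co α β) (ha : a ∈ E α) (hb : b ∈ E β) (h : H29.AS.Pr p a b φ 1 τ) :
    Nf E α β a b φ τ := by
  have h2 := h.two D.p5
  have xa : φ (xx 1) = a := h.ha
  have yb : φ (yy τ) = b := h.hb
  have xp : ∀ {u γ}, φ (xx u) ∈ E γ → γ = α := fun hu =>
    D.sp hu ha (xa ▸ D.hy.sp_up h (D.mE hu) (D.mE (xa ▸ ha : φ (xx 1) ∈ E α)))
  have yp : ∀ {u γ}, φ (yy u) ∈ E γ → γ = β := fun {u γ} hu => by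
    have k : ∀ u, (φ.comp (MulAut.conj (ww K)).toMonoidHom) (H29.AS.up (-u)) = φ (yy u) := fun u =>
      congrArg φ ((ww_xx (-u)).trans (by rw [neg_neg]))
    have := D.hy.sp_up (pr_symm h) (k u ▸ D.mE hu) (k τ ▸ D.mE (yb ▸ hb : φ (yy τ) ∈ E β))
    rw [k, k, yb] at this; exact D.sp hu hb this
  have cv : ∀ {g x γ}, φ x ∈ E γ → φ (g * x * g⁻¹) ∈ E (φ g • γ) := fun hx => by simpa using D.eqv _ _ hx _
  have cx : ∀ {u}, φ (xx u) ∈ E α → ∀ s, s ≠ 0 → φ (xx (s ^ 2 * u)) ∈ E α := fun hu s hs => by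
    have := cv (g := dg (Units.mk0 s hs)) hu
    rw [dg_xx] at this; exact xp this ▸ this
  have cy : ∀ {u}, φ (yy u) ∈ E β → ∀ s, s ≠ 0 → φ (yy (s ^ 2 * u)) ∈ E β := fun hu s hs => by
    have := cv (g := dg (Units.mk0 s hs)⁻¹) hu
    rw [dg_yy] at this; rw [yp this] at this; simpa using this
  have xw := cv (g := ww K) (yb ▸ hb : φ (yy τ) ∈ E β); rw [ww_yy] at xw
  have yw := cv (g := ww K) (xa ▸ ha : φ (xx 1) ∈ E α); rw [ww_xx] at yw
  have wa := yp yw; have wb := xp xw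
  rw [wa] at yw; rw [wb] at xw
  have x1 : ∀ s, s ≠ 0 → φ (xx (s ^ 2)) ∈ E α := fun s hs => by simpa using cx (u := 1) (xa ▸ ha) s hs
  have y1 : ∀ s, s ≠ 0 → φ (yy (-s ^ 2)) ∈ E β := fun s hs => by simpa using cy yw s hs
  have xT : ∀ s, φ (xx s) ∈ T E α := sq_ind h2 (f := fun s => φ (xx s)) (fun s t => by rw [xx_add, map_mul])
    fun s hs => mem_T (x1 s hs)
  have yT : ∀ s, φ (yy s) ∈ T E β := fun s => by
    simpa using sq_ind h2 (f := fun s => φ (yy (-s))) (fun s t => by rw [neg_add, yy_add, map_mul])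
      (fun s hs => mem_T (y1 s hs)) (-s)
  have f0 : ∀ g : SL(2, K), g 1 0 = 0 → φ g • α = α := fun g e => by
    obtain ⟨m, s, rfl⟩ := upper e
    have := cv (g := dg m) (xa ▸ ha : φ (xx 1) ∈ E α)
    rw [dg_xx] at this
    rw [map_mul, mul_smul, xp this, D.fixT' (xT s)]
  have fa : ∀ g : SL(2, K), φ g • α = α ↔ g 1 0 = 0 := fun g => ⟨fun e => by_contra fun k => n (by
    have := f0 ((ww K)⁻¹ * (xx (g 0 0 / g 1 0))⁻¹ * g) (by mat; field_simp; ring)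
    rw [map_mul, map_mul, mul_smul, mul_smul, e, map_inv, map_inv, D.fixT' (inv_mem (xT _)), inv_smul_eq_iff, wa] at this
    exact this ▸ D.rf α), f0 g⟩
  refine ⟨h.ht, xa, yb, top_of h2 fun g => ?_, h.gen, h.ker, fa, fun g => ?_, wa, wb, xT, yT, x1,
    fun s hs => by simpa [mul_comm] using cx xw s hs, y1, fun s hs => by simpa [mul_comm] using cy (yb ▸ hb) s hs⟩
  · obtain ⟨x, hx, e⟩ : φ g ∈ (closure {xx 1, yy τ}).map φ := by
      rw [MonoidHom.map_closure, Set.image_pair, xa, yb]; exact h.mem g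
    obtain ⟨c, rfl | rfl, rfl⟩ := h.eq e
    · exact .inl (by simpa using hx)
    · exact .inr (by simpa using hx)
  · rw [← wa, ← mul_smul, ← inv_smul_eq_iff, ← mul_smul, ← map_inv, ← map_mul, ← map_mul, fa]; mat; simp
end

theorem nf : NF.{u} := fun G Ω _ _ _ p co E D α β n a ha b hb => by
  obtain ⟨K, _, _, φ, s, t, h⟩ := D.hy.pr a (D.mE ha) b (D.mE hb) (mt (D.co_iff ha hb).2 n)
  have sj : Function.Surjective (tw (Units.mk0 s h.hs)) := fun g => ⟨_, tw_tw _ g⟩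
  refine ⟨K, _, ‹_›, h.ch, φ.comp (tw (Units.mk0 s h.hs)), s * t, nf_of D n ha hb
    ⟨h.ch, fun g e => ?_, ?_, ?_, ?_, one_ne_zero, mul_ne_zero h.hs h.ht⟩⟩
  · have := tw_tw (Units.mk0 s h.hs)⁻¹ g
    rw [inv_inv] at this
    rcases h.ker _ e with k | k <;> rw [k] at this
    · exact .inl (by rw [← this, map_one])
    · exact .inr (by rw [← this, tw_neg])
  · exact (congrArg φ ((tw_xx _ 1).trans (by simp; rfl))).trans h.ha
  · exact (congrArg φ ((tw_yy _ _).trans (by simp [h.hs]; rfl))).trans h.hb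
  · rw [MonoidHom.range_comp, MonoidHom.range_eq_top.2 sj, ← MonoidHom.range_eq_map, h.gen]

namespace Nf
variable {K : Type} [Field K] {φ : SL(2, K) →* G} {s t τ : K} (N : Nf E α β a b φ τ)
include N
theorem eq {g h : SL(2, K)} (e : φ g = φ h) : g = h ∨ g = -h :=
  (N.ker (g * h⁻¹) (by simp [e])).imp (fun k => by rwa [mul_inv_eq_one] at k) fun k => by
    rw [mul_inv_eq_iff_eq_mul] at k; simp [k]
theorem x_inj (e : φ (xx s) = φ (xx t)) (h2 : (2 : K) ≠ 0) : s = t := by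
  rcases N.eq e with k | k
  · exact congrArg (· 0 1) k
  · have := congrArg (· 0 0) k; revert this; mat; exact fun e => absurd (by linear_combination e) h2
theorem y_inj (e : φ (yy s) = φ (yy t)) (h2 : (2 : K) ≠ 0) : s = t := by
  rcases N.eq e with k | k
  · exact congrArg (· 1 0) k
  · have := congrArg (· 0 0) k; revert this; mat; exact fun e => absurd (by linear_combination e) h2
theorem pr (e : s * t = -1) : Pr (φ (xx s)) (φ (yy t)) := by simpa [Pr] using congrArg φ (braid e)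
theorem of_pr (h2 : (2 : K) ≠ 0) (hs : s ≠ 0) (e : Pr (φ (xx s)) (φ (yy t))) : s * t = -1 := by
  rcases N.eq (g := xx s * yy t * xx s) (h := yy t * xx s * yy t) (by simpa [Pr] using e) with k | k
  · exact H29.AS.of_braid h2 hs (.inl rfl) (by rw [mul_one]; exact k)
  · exact H29.AS.of_braid h2 hs (.inr rfl) (by rw [mul_neg_one]; exact k)
theorem t1 (h2 : (2 : K) ≠ 0) (e : Pr a b) : τ = -1 := by
  simpa using N.of_pr h2 one_ne_zero (by rwa [N.xa, N.yb])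
theorem mem (g : SL(2, K)) : φ g ∈ closure {a, b} := N.rng ▸ ⟨g, rfl⟩
theorem mem' {H : Subgroup G} (ha : a ∈ H) (hb : b ∈ H) (g : SL(2, K)) : φ g ∈ H :=
  ((closure_le H).2 (by rintro _ (rfl | rfl) <;> assumption)) (N.mem g)
theorem comm {y : G} (ya : Commute y a) (yb : Commute y b) (g : SL(2, K)) : Commute y (φ g) :=
  (mem_cent1.1 (N.mem' (H := C[y]) (mem_cent1.2 ya.symm) (mem_cent1.2 yb.symm) g)).symm
theorem da (m : Kˣ) : φ (dg m) • α = α := (N.fa _).2 rfl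
theorem db (m : Kˣ) : φ (dg m) • β = β := (N.fb _).2 rfl
/-- the partner of `a` -/
theorem pa : φ (yy (-1)) ∈ E β ∧ Pr a (φ (yy (-1))) := ⟨by simpa using N.y1 1 one_ne_zero, N.xa ▸ N.pr (by simp)⟩
/-- the partner of `b` -/
theorem pb : φ (xx (-τ⁻¹)) ∈ E α ∧ Pr (φ (xx (-τ⁻¹))) b := ⟨by
  have := N.x2 τ⁻¹ (inv_ne_zero N.t0)
  rwa [show τ * τ⁻¹ ^ 2 = τ⁻¹ by have := N.t0; field_simp] at this, N.yb ▸ N.pr (by simp [N.t0])⟩
/-- the torus element in coordinates -/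
theorem hh_eq [CharP K p] (e : s * t = -1) {k l : ℤ} (h : (p : ℤ) ∣ k * l - 1) :
    ∃ m : Kˣ, (m : K) = k ∧ (m : K)⁻¹ = l ∧ hh (φ (xx s)) (φ (yy t)) k l = φ (dg m) := by
  have kl : (k : K) * l = 1 := by
    have := (CharP.intCast_eq_zero_iff K p _).2 h
    push_cast at this; linear_combination this
  have k0 := left_ne_zero_of_mul_eq_one kl
  have s0 : s ≠ 0 := by rintro rfl; simp at e
  obtain rfl : t = -s⁻¹ := by field_simp; linear_combination e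
  have el : (l : K) = (k : K)⁻¹ := eq_inv_of_mul_eq_one_right kl
  refine ⟨Units.mk0 _ k0, rfl, el.symm, ?_⟩
  simp only [hh, ← map_zpow, ← map_mul, ← map_inv, xx_zpow, yy_zpow, el]
  congr 1
  apply ext2 <;> mat <;> (try simp only [Units.val_mk0]) <;> field_simp <;> ring
theorem n_eq (h2 : (2 : K) ≠ 0) (e : Pr a b) : a * b * a = φ (ww K) := by
  have := congrArg φ (xyx (1 : Kˣ))
  simpa [dg_one, N.xa, ← N.t1 h2 e, N.yb] using this
end Nf

/-! ### good exponents -/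
section
variable {r : ℕ} {k l : ℤ}
theorem dvd_iff {n : ℤ} : (p : ℤ) ∣ n ↔ (n : ZMod p) = 0 := (ZMod.intCast_zmod_eq_zero_iff_dvd n p).symm
theorem Good.symm (h : Good p r k l) : Good p r l k := by
  obtain ⟨h1, h2, h3⟩ := h
  simp only [Good, dvd_iff] at *; push_cast at *
  refine ⟨h1, by linear_combination h2, h3.imp (fun ⟨a, b, c⟩ => ⟨a, ?_, fun e => c ?_⟩) fun ⟨a, b⟩ => ⟨a, ?_⟩⟩
  · have : ((k : ZMod p) * l) ^ r = 1 := by rw [sub_eq_zero.1 h2, one_pow]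
    rw [mul_pow, sub_eq_zero.1 b] at this; linear_combination this
  · linear_combination h2 - (k : ZMod p) * e
  · linear_combination (l : ZMod p) ^ 2 * b - (k * l + 1) * h2
theorem Good.odd_pow (h : Good p r k l) (r2 : r ≠ 2) (j : ℕ) : ¬ (p : ℤ) ∣ k ^ 2 ^ j - 1 := fun d => by
  obtain ⟨h1, -, ⟨-, b, c⟩ | ⟨a, -⟩⟩ := h
  · simp only [dvd_iff] at *; push_cast at *
    have := pow_gcd_eq_one.2 ⟨sub_eq_zero.1 b, sub_eq_zero.1 d⟩
    rw [((Nat.coprime_primes h1 Nat.prime_two).2 r2).pow_right j, pow_one] at this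
    exact c (sub_eq_zero.2 this)
  · exact r2 a
theorem Good.k2 (h : Good p r k l) (p5 : 5 ≤ p) : ¬ (p : ℤ) ∣ k ^ 2 - 1 := fun d => by
  by_cases r2 : r = 2
  · obtain ⟨-, -, ⟨a, -⟩ | ⟨-, b⟩⟩ := h
    · exact a r2
    · have := Int.le_of_dvd (by decide) (show (p : ℤ) ∣ 2 by simpa using b.sub d); omega
  · exact h.odd_pow r2 1 d
theorem ex_good (pp : p.Prime) (p5 : 5 ≤ p) : ∃ r k l, Good p r k l := by
  haveI := Fact.mk pp
  by_cases h4 : p % 4 = 3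
  · have : ((p - 1) / 2) ≠ 1 := by omega
    obtain ⟨r, hr, hd⟩ := Nat.exists_prime_and_dvd this
    haveI := Fact.mk hr
    obtain ⟨u, hu⟩ := exists_prime_orderOf_dvd_card' (G := (ZMod p)ˣ) r (by
      rw [Nat.card_eq_fintype_card, ZMod.card_units]; exact hd.trans ⟨2, by omega⟩)
    obtain ⟨k, hk⟩ := ZMod.intCast_surjective (u : ZMod p)
    obtain ⟨l, hl⟩ := ZMod.intCast_surjective ((u⁻¹ : (ZMod p)ˣ) : ZMod p)
    refine ⟨r, k, l, hr, ?_, .inl ⟨by rintro rfl; omega, ?_, ?_⟩⟩ <;> simp only [dvd_iff] <;> push_cast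
    · rw [hk, hl, Units.mul_inv, sub_self]
    · rw [hk, ← Units.val_pow_eq_pow_val, show u ^ r = 1 from hu ▸ pow_orderOf_eq_one u]; simp
    · rw [hk, sub_eq_zero, Units.val_eq_one]; rintro rfl; exact hr.one_lt.ne (by simpa using hu)
  · obtain ⟨y, hy⟩ := ZMod.exists_sq_eq_neg_one_iff.2 h4
    obtain ⟨k, rfl⟩ := ZMod.intCast_surjective y
    refine ⟨2, k, -k, Nat.prime_two, ?_, .inr ⟨rfl, ?_⟩⟩ <;> simp only [dvd_iff] <;> push_cast
    · linear_combination hy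
    · linear_combination -hy
end

namespace DS
variable [Finite G] (D : DS p co E) {r : ℕ} {k l : ℤ}
include D
theorem nf (n : ¬ co α β) (ha : a ∈ E α) (hb : b ∈ E β) : ∃ (K : Type) (_ : Field K) (_ : Fintype K) (_ : CharP K p)
    (φ : SL(2, K) →* G) (τ : K), Nf E α β a b φ τ := H5.AS.nf G Ω p co E D α β n a ha b hb
theorem nsy (n : ¬ co α β) : ¬ co β α := mt (D.sy _ _) n
theorem ex_pr (n : ¬ co α β) (ha : a ∈ E α) : ∃ b ∈ E β, Pr a b := by
  obtain ⟨b, hb⟩ := D.ne β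
  obtain ⟨K, _, _, _, φ, τ, N⟩ := D.nf n ha hb; exact ⟨_, N.pa⟩
theorem ex_pr' (n : ¬ co α β) (hb : b ∈ E β) : ∃ a ∈ E α, Pr a b :=
  let ⟨a, ha, h⟩ := D.ex_pr (D.nsy n) hb; ⟨a, ha, h.symm⟩
theorem ex_pair (n : ¬ co α β) : ∃ a ∈ E α, ∃ b ∈ E β, Pr a b :=
  let ⟨a, ha⟩ := D.ne α; ⟨a, ha, D.ex_pr n ha⟩
theorem co_of_fix (ha : a ∈ E α) (h : a • γ = γ) : co α γ := by_contra fun n => by
  obtain ⟨c, hc⟩ := D.ne γ
  obtain ⟨K, _, _, _, φ, τ, N⟩ := D.nf n ha hc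
  exact one_ne_zero ((N.fb (xx 1)).1 (N.xa ▸ h))
theorem na (ha : a ∈ E α) (hb : b ∈ E β) (h : Pr a b) : (a * b * a) • α = β := D.pt_eq (D.eqv α a ha _) (h.na.symm ▸ hb)
theorem nb (ha : a ∈ E α) (hb : b ∈ E β) (h : Pr a b) : (a * b * a) • β = α := D.pt_eq (D.eqv β b hb _) (h.nb.symm ▸ ha)
theorem ab (ha : a ∈ E α) (hb : b ∈ E β) (h : Pr a b) : a • β = b⁻¹ • α := D.pt_eq (D.eqv β b hb a) (h.ab ▸ D.eqv α a ha _)
theorem ab' (ha : a ∈ E α) (hb : b ∈ E β) (h : Pr a b) : a⁻¹ • β = b • α := by simpa using D.ab (D.inv ha) (D.inv hb) h.inv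
/-- two partners of the same element -/
theorem pr_un (ha : a ∈ E α) (hc : c ∈ E α) (hb : b ∈ E β) (h : Pr a b) (h' : Pr c b) : c⁻¹ * a ∈ Un E α β :=
  ⟨(T E α).mul_mem ((T E α).inv_mem (mem_T hc)) (mem_T ha), show _ • _ = _ by rw [mul_smul, D.ab ha hb h, ← D.ab hc hb h', inv_smul_smul]⟩
theorem uq_of (h : Un E α β = ⊥) : Uq E α β := fun a ha c hc b hb h1 h2 => by
  have := D.pr_un ha hc hb h1 h2; rwa [h, mem_bot, inv_mul_eq_one, eq_comm] at this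
omit D in
theorem _root_.H5.AS.SR.un (S : SR E) (n : β ≠ α) : Un E α β = ⊥ := eq_bot_iff.2 fun x hx => S α β n x hx.1 hx.2
theorem sr_uq (S : SR E) (n : β ≠ α) : Uq E α β := D.uq_of (S.un n)
/-- coordinates for a braid pair -/
theorem nfp (n : ¬ co α β) (ha : a ∈ E α) (hb : b ∈ E β) (h : Pr a b) : ∃ (K : Type) (_ : Field K) (_ : Fintype K)
    (_ : CharP K p) (φ : SL(2, K) →* G), Nf E α β a b φ (-1) ∧ a * b * a = φ (ww K) ∧ (a * b * a) ^ 2 = φ (-1) ∧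
      ∀ k l : ℤ, (p : ℤ) ∣ k * l - 1 → ∃ m : Kˣ, (m : K) = k ∧ (m : K)⁻¹ = l ∧ hh a b k l = φ (dg m) := by
  obtain ⟨K, _, _, _, φ, τ, N⟩ := D.nf n ha hb
  obtain rfl := N.t1 (two_ne D.p5) h
  have e := N.n_eq (two_ne D.p5) h
  exact ⟨K, _, ‹_›, ‹_›, φ, N, e, by rw [e, sq, ← map_mul, ww_sq], fun k l hk => by
    simpa only [N.xa, N.yb] using N.hh_eq (s := 1) (t := -1) (by simp) hk⟩
section
variable (n : ¬ co α β) (ha : a ∈ E α) (hb : b ∈ E β) (h : Pr a b)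
include n ha hb h
theorem z2 : (a * b * a) ^ 2 * (a * b * a) ^ 2 = 1 := by
  obtain ⟨K, _, _, _, φ, N, -, e, -⟩ := D.nfp n ha hb h
  rw [e, ← map_mul]; simp
theorem z_hh : hh a b (-1) (-1) = (a * b * a) ^ 2 := by
  rw [eq_inv_of_mul_eq_one_left (D.z2 n ha hb h)]; simp [hh, sq, mul_assoc]
variable (hk : (p : ℤ) ∣ k * l - 1)
include hk
theorem hh_fa : hh a b k l • α = α := by
  obtain ⟨K, _, _, _, φ, N, -, -, e⟩ := D.nfp n ha hb h
  obtain ⟨m, -, -, e⟩ := e k l hk; rw [e, N.da]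
theorem hh_fb : hh a b k l • β = β := by
  obtain ⟨K, _, _, _, φ, N, -, -, e⟩ := D.nfp n ha hb h
  obtain ⟨m, -, -, e⟩ := e k l hk; rw [e, N.db]
theorem hh_a : hh a b k l * a * (hh a b k l)⁻¹ = a ^ k ^ 2 := by
  obtain ⟨K, _, _, _, φ, N, -, -, e⟩ := D.nfp n ha hb h
  obtain ⟨m, e1, -, e⟩ := e k l hk
  rw [e, ← N.xa, ← map_inv, ← map_mul, ← map_mul, dg_xx, ← map_zpow, xx_zpow, e1]; push_cast; rfl
theorem hh_b : hh a b k l * b * (hh a b k l)⁻¹ = b ^ l ^ 2 := by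
  obtain ⟨K, _, _, _, φ, N, -, -, e⟩ := D.nfp n ha hb h
  obtain ⟨m, -, e1, e⟩ := e k l hk
  rw [e, ← N.yb, ← map_inv, ← map_mul, ← map_mul, dg_yy, ← map_zpow, yy_zpow, e1]; push_cast; rfl
theorem hh_n : a * b * a * hh a b k l * (a * b * a)⁻¹ = (hh a b k l)⁻¹ := by
  obtain ⟨K, _, _, _, φ, N, e0, -, e⟩ := D.nfp n ha hb h
  obtain ⟨m, -, -, e⟩ := e k l hk
  rw [e, e0, ← map_inv, ← map_mul, ← map_mul, ww_dg, map_inv]
theorem hh_sy : hh b a k l = (hh a b k l)⁻¹ := by rw [← D.hh_n n ha hb h hk, ← hh_cj, h.na, h.nb]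
theorem pr_pow : Pr (a ^ k) (b ^ l) := by
  obtain ⟨K, _, _, _, φ, N, -⟩ := D.nfp n ha hb h
  have := (CharP.intCast_eq_zero_iff K p _).2 hk
  rw [← N.xa, ← N.yb, ← map_zpow, ← map_zpow, xx_zpow, yy_zpow]
  exact N.pr (by push_cast at this; linear_combination -this)
omit hk
theorem hh_pow (g : Good p r k l) : (r ≠ 2 ∧ hh a b k l ^ r = 1) ∨ (r = 2 ∧ hh a b k l ^ r = (a * b * a) ^ 2) := by
  obtain ⟨K, _, _, _, φ, N, -, e0, e⟩ := D.nfp n ha hb h
  obtain ⟨m, e1, -, e⟩ := e k l g.2.1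
  rw [e, e0, ← map_pow, dg_pow]
  refine g.2.2.imp (fun ⟨r2, k, _⟩ => ⟨r2, ?_⟩) fun ⟨r2, k⟩ => ⟨r2, ?_⟩ <;>
    have := (CharP.intCast_eq_zero_iff K p _).2 k <;> push_cast at this
  · rw [show m ^ r = 1 from Units.ext (by simpa [e1, sub_eq_zero] using this), dg_one, map_one]
  · rw [show m ^ r = -1 from Units.ext (by simpa [e1, r2, add_eq_zero_iff_eq_neg] using this), dg_neg_one]
theorem hh_pow2 (g : Good p r k l) : hh a b k l ^ r ^ 2 = 1 := by
  rcases D.hh_pow n ha hb h g with ⟨-, e⟩ | ⟨r2, e⟩ <;> rw [sq, pow_mul, e]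
  · simp
  · rw [r2, sq, D.z2 n ha hb h]
end
end DS

theorem sc' [Finite G] (D : DS p co E) (n : ¬ co α β) (u : Uq E α β) (u' : Uq E β α) (ha : a ∈ E α) (hb : b ∈ E β) (h : Pr a b)
    {k l : ℤ} (hk : (p : ℤ) ∣ k * l - 1) : (∀ a' ∈ E α, ∀ b' ∈ E β, Pr a' b' → hh a' b' k l = hh a b k l) ∧
    (∀ x ∈ T E α, hh a b k l * x * (hh a b k l)⁻¹ = x ^ k ^ 2) ∧
    ∀ y ∈ T E β, hh a b k l * y * (hh a b k l)⁻¹ = y ^ l ^ 2 := by
  have k1 : ∀ a' ∈ E α, ∀ b' ∈ E β, Pr a' b' → hh a' b' k l = hh a b k l := fun a' ha' b' hb' h' => by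
    obtain ⟨K, _, _, _, φ, τ, N⟩ := D.nf n ha hb'
    obtain ⟨m, m1, -, e⟩ := N.hh_eq (s := 1) (t := -1) (by simp) hk
    obtain ⟨m', m2, -, e'⟩ := N.hh_eq (s := -τ⁻¹) (t := τ) (by simp [N.t0]) hk
    rw [N.xa, u' _ N.pa.1 b hb a ha N.pa.2.symm h.symm] at e
    rw [N.yb, u _ N.pb.1 a' ha' b' hb' N.pb.2 h'] at e'
    rw [e, e', Units.ext (m1.trans m2.symm)]
  have k2 : ∀ (δ : Ω) (j : ℤ) (t : G), (∀ x ∈ E δ, t * x * t⁻¹ = x ^ j) → ∀ x ∈ T E δ, t * x * t⁻¹ = x ^ j := fun δ j t e x hx => by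
    induction hx using closure_induction with
    | mem a ha => exact e a ha
    | one => simp
    | mul x y hx hy h1 h2 => rw [(D.commT hx hy).mul_zpow, ← h1, ← h2]; group
    | inv x _ h => rw [inv_zpow, ← h]; group
  refine ⟨k1, k2 _ _ _ fun x hx => ?_, k2 _ _ _ fun y hy => ?_⟩
  · obtain ⟨y, hy, e⟩ := D.ex_pr n hx
    rw [← k1 x hx y hy e, D.hh_a n hx hy e hk]
  · obtain ⟨x, hx, e⟩ := D.ex_pr' n hy
    rw [← k1 x hx y hy e, D.hh_b n hx hy e hk]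

theorem sc : SC.{u} := fun _ _ _ _ _ _ _ D _ _ n u u' _ ha _ hb h _ _ hk => sc' D n u u' ha hb h hk

namespace DS
variable [Finite G] (D : DS p co E) {k l : ℤ} {w : G}
include D
/-- an element centralising `T α` and fixing `β` centralises `T β` -/
theorem wx (n : ¬ co α β) (u : Uq E β α) (hw : w ∈ C(T E α)) (h : w • β = β) : w ∈ C(T E β) :=
  le_cent1_iff.1 ((closure_le _).2 fun b hb => mem_cent1.2 (by
    obtain ⟨a, ha, e⟩ := D.ex_pr' n hb
    have := e.cj w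
    rw [← mem_cent.1 hw a (mem_T ha), mul_inv_cancel_right] at this
    exact (mul_inv_eq_iff_eq_mul.1 (u _ (D.eqv1 hb h) b hb a ha this.symm e.symm)).symm))
/-- the torus elements are central in the two point stabilizer -/
theorem hc (n : ¬ co α β) (u : Uq E α β) (u' : Uq E β α) (ha : a ∈ E α) (hb : b ∈ E β) (h : Pr a b) (hk : (p : ℤ) ∣ k * l - 1)
    (h1 : g • α = α) (h2 : g • β = β) : Commute g (hh a b k l) :=
  mul_inv_eq_iff_eq_mul.1 (by rw [← hh_cj]; exact (sc' D n u u' ha hb h hk).1 _ (D.eqv1 ha h1) _ (D.eqv1 hb h2) (h.cj g))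
theorem zc (n : ¬ co α β) (u : Uq E α β) (u' : Uq E β α) (ha : a ∈ E α) (hb : b ∈ E β) (h : Pr a b)
    (h1 : g • α = α) (h2 : g • β = β) : Commute g ((a * b * a) ^ 2) :=
  D.z_hh n ha hb h ▸ D.hc n u u' ha hb h (by simp) h1 h2
/-- `z` does not depend on the pair -/
theorem z_eq (n : ¬ co α β) (u : Uq E α β) (u' : Uq E β α) (ha : a ∈ E α) (hb : b ∈ E β) (h : Pr a b)
    (hc : c ∈ E α) (hd : d ∈ E β) (h' : Pr c d) : (c * d * c) ^ 2 = (a * b * a) ^ 2 := by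
  rw [← D.z_hh n ha hb h, ← D.z_hh n hc hd h', (sc' D n u u' ha hb h (by simp)).1 c hc d hd h']
theorem z_cent (n : ¬ co α β) (u : Uq E α β) (u' : Uq E β α) (ha : a ∈ E α) (hb : b ∈ E β) (h : Pr a b) :
    (a * b * a) ^ 2 ∈ C(T E α) ∧ (a * b * a) ^ 2 ∈ C(T E β) := by
  obtain ⟨-, h1, h2⟩ := sc' D n u u' ha hb h (k := -1) (l := -1) (by simp)
  rw [D.z_hh n ha hb h] at h1 h2
  exact ⟨mem_cent.2 fun x hx => (mul_inv_eq_iff_eq_mul.1 (by simpa using h1 x hx)).symm,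
    mem_cent.2 fun x hx => (mul_inv_eq_iff_eq_mul.1 (by simpa using h2 x hx)).symm⟩
theorem fix_of_cent (hw : w ∈ C(T E α)) : w • α = α :=
  let ⟨a, ha⟩ := D.ne α; D.fix_of_comm ha (mem_cent.1 hw a (mem_T ha)).symm
/-- non-collinear points are interchanged -/
theorem swap (n : ¬ co α β) : ∃ g ∈ T E α ⊔ T E β, g • α = β ∧ g • β = α := by
  obtain ⟨a, ha, b, hb, h⟩ := D.ex_pair n
  exact ⟨_, mul_mem (mul_mem (mem_sup_left (mem_T ha)) (mem_sup_right (mem_T hb))) (mem_sup_left (mem_T ha)),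
    D.na ha hb h, D.nb ha hb h⟩
end DS
end H5.AS
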