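/-
Rank one: the chunks `UK`, `TR`, `C1`, `PA`.
-/
import Cfsg.Agent.H5.AS1
import Cfsg.Agent.H17.PrimeDeg2
import Cfsg.Agent.H17.Gleason
import Cfsg.Agent.H3.ThompsonFpf

set_option autoImplicit false
set_option linter.unusedSectionVars false
set_option linter.style.haveILetI false

open Cfsg Subgroup MulAction H19
open scoped MatrixGroups Pointwise
namespace H5.AS
universe u
variable {G Ω : Type u} [Group G] [MulAction G Ω] {p : ℕ} {co : Ω → Ω → Prop} {E : Ω → Set G} {α β γ δ : Ω}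
  {a b c d x y g v z : G} {F : Set Ω}

theorem coset_surj [Finite G] {Z U V : Subgroup G} (h1 : Z ≤ U) (h2 : Z ≤ V) (hc : #U = #V) (f : G → G) (hf : ∀ v ∈ V, f v ∈ U)
    (hi : ∀ v ∈ V, ∀ w ∈ V, (f v)⁻¹ * f w ∈ Z → v⁻¹ * w ∈ Z) (hx : x ∈ U) : ∃ v ∈ V, (f v)⁻¹ * x ∈ Z := by
  have i : Function.Injective fun q : V ⧸ Z.subgroupOf V => ((⟨f (q.out : V), hf _ q.out.2⟩ : U) : U ⧸ Z.subgroupOf U) :=
    fun a b h => by
      rw [← a.out_eq', ← b.out_eq', QuotientGroup.eq]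
      exact hi _ a.out.2 _ b.out.2 (mem_subgroupOf.1 (QuotientGroup.eq.1 h))
  have e : Z.relIndex U = Z.relIndex V :=
    Nat.eq_of_mul_eq_mul_left (card_pos Z) (by rw [card_mul_relIndex h1, card_mul_relIndex h2, hc])
  obtain ⟨q, hq⟩ := (i.bijective_of_nat_card_le e.le).2 (⟨x, hx⟩ : U)
  exact ⟨_, q.out.2, mem_subgroupOf.1 (QuotientGroup.eq.1 hq)⟩

theorem L_mono {F' : Set Ω} (h : F ⊆ F') : L E F ≤ L E F' := iSup₂_le fun _ k => T_le_L (h k)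
theorem left_Dl : α ∈ Dl E α β := ⟨1, one_mem _, one_smul _ _⟩
theorem smul_Dl (hg : g ∈ T E α ⊔ T E β) (h : γ ∈ Dl E α β) : g • γ ∈ Dl E α β :=
  let ⟨x, hx, e⟩ := h; ⟨g * x, mul_mem hg hx, by rw [mul_smul, e]⟩

namespace DS
section
variable (D : DS p co E)
include D
theorem stab (h : Sub E F) : L E F ≤ stabilizer G F := iSup₂_le fun δ hδ => (closure_le _).2 fun a ha =>
  mem_stabilizer_set.2 fun c => ⟨fun k => by simpa using h δ hδ _ (D.inv ha) _ k, h δ hδ a ha c⟩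
theorem smul_sub (h : Sub E F) (hg : g ∈ L E F) (hc : γ ∈ F) : g • γ ∈ F := (mem_stabilizer_set.1 (D.stab h hg) γ).2 hc
theorem T_le (h : δ ∈ Dl E α β) : T E δ ≤ T E α ⊔ T E β := by
  obtain ⟨g, hg, rfl⟩ := h
  rw [← D.cj_T]; exact cj_le_of_mem hg le_sup_left
theorem sub_Dl (α β : Ω) : Sub E (Dl E α β) := fun _ h _ ha _ hc => smul_Dl (D.T_le h (mem_T ha)) hc
theorem norm_L (h : g ∈ stabilizer G F) : g ∈ N(L E F) := by
  have k : ∀ g ∈ stabilizer G F, cj g (L E F) ≤ L E F := fun g h => cj_le_iff.2 (iSup₂_le fun δ hδ =>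
    cj_le_iff.1 (D.cj_T g δ ▸ T_le_L ((mem_stabilizer_set.1 h δ).2 hδ)))
  exact mem_norm_iff_cj.2 (le_antisymm (k g h) (le_cj_iff.2 (k _ (inv_mem h))))
variable [Finite G]
theorem right_Dl (n : ¬ co α β) : β ∈ Dl E α β := let ⟨g, hg, e, _⟩ := D.swap n; ⟨g, hg, e⟩
theorem Dl_comm (n : ¬ co α β) : Dl E α β = Dl E β α := by
  have k : ∀ {α β}, ¬ co α β → Dl E β α ⊆ Dl E α β := fun n _ ⟨g, hg, e⟩ => e ▸ smul_Dl (sup_comm (T E _) _ ▸ hg) (D.right_Dl n)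
  exact (k (D.nsy n)).antisymm (k n)
theorem uk2 (n : ¬ co α β) (ha : a ∈ E α) (hz : z ∈ T E α ⊓ T E β) (h : a * z ∈ E α) : z = 1 := by
  obtain ⟨b, hb, -⟩ := D.ex_pr n ha
  exact D.cen_eq n ha hb (D.commT hz.1 (mem_T ha)) (D.commT hz.2 (mem_T hb)) (D.powT hz.1) h
theorem uk3 (n : ¬ co α β) (ha : a ∈ E α) (hv : v ∈ Un E β α) : v * a * v⁻¹ * a⁻¹ ∈ Un E α β := by
  obtain ⟨b, hb, e⟩ := D.ex_pr n ha
  refine mem_Un.2 ⟨mul_mem (mem_T (D.eqv1 ha hv.2)) (inv_mem (mem_T ha)), ?_⟩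
  have : v⁻¹ • a⁻¹ • β = a⁻¹ • β := by
    rw [D.ab' ha hb e, ← mul_smul, (D.commT (inv_mem hv.1) (mem_T hb)).eq, mul_smul, (mem_Un.1 (inv_mem hv)).2]
  simp only [mul_smul, this, smul_inv_smul, D.fixT' hv.1]
theorem uk4 (n : ¬ co α β) (ha : a ∈ E α) (hv : v ∈ T E β) (h : v * a = a * v) : v ∈ T E α := by
  obtain ⟨b, hb, e⟩ := D.ex_pr n ha
  have := D.cjT1 (D.nb ha hb e) hv
  rwa [← (((Commute.mul_right h (D.commT hv (mem_T hb))).mul_right h)).eq, mul_inv_cancel_right] at this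
theorem uk1 (n : ¬ co α β) (hx : x ∈ Un E α β ⊔ Un E β α) (h : γ ∈ Dl E α β) : x • γ = γ := by
  have k : ∀ {α β}, ¬ co α β → T E α ≤ N(Un E α β ⊔ Un E β α) := fun {α β} n => (closure_le _).2 fun a ha => by
    refine mem_norm_of_cj_le (by
      rw [cj_sup]; refine sup_le (fun x hx => ?_) fun x hx => ?_ <;> obtain ⟨y, hy, rfl⟩ := mem_cj'.1 hx
      · rw [(D.commT (mem_T ha) hy.1).eq, mul_inv_cancel_right]; exact mem_sup_left hy
      · have := mul_mem (mem_sup_right hy) (mem_sup_left (T := Un E β α) (D.uk3 n ha (inv_mem hy)))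
        simpa [mul_assoc] using this)
  obtain ⟨g, hg, rfl⟩ := h
  have := conj_mem_of_norm' (sup_le (k n) (sup_comm (Un E β α) _ ▸ k (D.nsy n)) hg) hx
  have := (sup_le (fun _ h => D.fixT' h.1) fun _ h => h.2 : Un E α β ⊔ Un E β α ≤ stabilizer G α) this
  rwa [mem_stabilizer_iff, mul_smul, mul_smul, inv_smul_eq_iff] at this
theorem uk5 (n : ¬ co α β) (ha : a ∈ E α) (hx : x ∈ Un E α β) :
    ∃ v ∈ Un E β α, ∃ z ∈ T E α ⊓ T E β, a * x = v * a * v⁻¹ * z := by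
  obtain ⟨g, -, g1, g2⟩ := D.swap n
  have cc : ∀ {g α β}, cj g (Un E α β) ≤ Un E (g • α) (g • β) := fun {g α β} _ hx => by
    obtain ⟨y, hy, rfl⟩ := mem_cj'.1 hx; exact D.cjU _ hy
  have c1 := card_le (cc (g := g) (α := α) (β := β)); have c2 := card_le (cc (g := g) (α := β) (β := α))
  rw [card_cj, g1, g2] at c1 c2
  have cm : ∀ v ∈ Un E β α, Commute (v * a * v⁻¹) a := fun v hv => D.commT (mem_T (D.eqv1 ha hv.2)) (mem_T ha)
  obtain ⟨v, hv, h⟩ := coset_surj (Z := T E α ⊓ T E β) (fun z hz => mem_Un.2 ⟨hz.1, D.fixT' hz.2⟩)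
    (fun z hz => mem_Un.2 ⟨hz.2, D.fixT' hz.1⟩)
    (c1.antisymm c2) (fun v => v * a * v⁻¹ * a⁻¹) (fun v hv => D.uk3 n ha hv) (fun v hv w hw h => by
      have hu := mul_mem (inv_mem hv) hw
      have e : a * ((v * a * v⁻¹ * a⁻¹)⁻¹ * (w * a * w⁻¹ * a⁻¹)) = v⁻¹ * w * a * (v⁻¹ * w)⁻¹ := by
        have c := (D.commT h.2 hv.1).eq
        generalize hz : (v * a * v⁻¹ * a⁻¹)⁻¹ * (w * a * w⁻¹ * a⁻¹) = z at h c
        have c' := (D.commT h.1 (mem_T ha)).eq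
        calc a * z = v⁻¹ * (v * a * v⁻¹ * a⁻¹) * (a * (v * z)) := by group
          _ = v⁻¹ * (v * a * v⁻¹ * a⁻¹ * z) * a * v := by rw [← c, ← mul_assoc a, ← c']; group
          _ = _ := by rw [← hz]; group
      have := D.uk2 n ha h (e ▸ D.eqv1 ha hu.2)
      rw [this, mul_one, eq_mul_inv_iff_mul_eq] at e
      exact ⟨D.uk4 n ha hu.1 e.symm, hu.1⟩) hx
  refine ⟨v, hv, _, h, ?_⟩
  calc a * x = v * a * v⁻¹ * ((v * a * v⁻¹)⁻¹ * a) * x := by group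
    _ = _ := by rw [(cm v hv).inv_left.eq]; group
end
end DS

theorem uk : UK.{u} := fun _ _ _ _ _ _ _ D _ _ n => ⟨fun _ hx _ h => D.uk1 n hx h, fun _ ha _ hz => D.uk2 n ha hz,
  fun _ ha _ hv => D.uk3 n ha hv, fun _ ha _ hv => D.uk4 n ha hv.1, fun _ ha _ hx => D.uk5 n ha hx⟩

theorem tr (fx : FIX.{u}) : TR.{u} := fun G Ω _ _ _ _ p E D S α β γ n n' => by
  obtain ⟨r, k, l, gd⟩ := ex_good D.pp D.p5
  obtain ⟨a, ha⟩ := D.ne α
  have ex : ∀ δ, δ ≠ α → ∃ s ∈ L E Set.univ, s ^ r ^ 2 = 1 ∧ s • α = α ∧ s • δ = δ ∧ (∀ c, s • c = c → c = α ∨ c = δ) ∧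
      ∀ x ∈ T E α, s * x * s⁻¹ = x ^ k ^ 2 := fun δ e => by
    obtain ⟨b, hb, h⟩ := D.ex_pr e.symm ha
    exact ⟨_, hh_mem (T_le_L (Set.mem_univ _) (mem_T ha)) (T_le_L (Set.mem_univ _) (mem_T hb)) k l, D.hh_pow2 e.symm ha hb h gd,
      D.hh_fa e.symm ha hb h gd.2.1, D.hh_fb e.symm ha hb h gd.2.1,
      fx G Ω p E D α δ e.symm (S.un e) (S.un e.symm) a ha b hb h r k l gd,
      (sc' D e.symm (D.sr_uq S e) (D.sr_uq S e.symm) ha hb h gd.2.1).2.1⟩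
  obtain ⟨s, s1, -, s3, s4, -, s6⟩ := ex β n
  have st : (C(T E α) ⊓ L E Set.univ) ⊔ zpowers s ≤ stabilizer G α :=
    sup_le (fun _ h => D.fix_of_cent h.1) (zpowers_le.2 s3)
  obtain ⟨g, hg, e⟩ := H17.gleason_one gd.1 ((C(T E α) ⊓ L E Set.univ) ⊔ zpowers s) {α}ᶜ
    (fun g hg x hx e => hx (smul_left_cancel g (e.trans (st hg).symm))) (fun δ hδ => by
      obtain ⟨t, t1, t2, t3, t4, t5, t6⟩ := ex δ hδ
      refine ⟨zpowers t, zpowers_le.2 ?_, H17.isPGroup_zpowers t2, ?_⟩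
      · rw [← inv_mul_cancel_right t s]
        refine mul_mem (mem_sup_left (mem_inf.2 ⟨mem_cent.2 fun x hx => ?_, mul_mem t1 (inv_mem s1)⟩)) (mem_sup_right (mem_zpowers s))
        have hy := conj_mem_of_norm' (D.norm_T s3) hx
        have := (s6 _ hy).trans (t6 _ hy).symm
        calc x * (t * s⁻¹) = s * (s⁻¹ * x * s) * s⁻¹ * (t * s⁻¹) := by group
          _ = _ := by rw [this]; group
      · rw [H17.fixedPoints_zpowers]
        exact Set.eq_singleton_iff_unique_mem.2 ⟨⟨hδ, t4⟩, fun c h => (t5 c h.2).resolve_left h.1⟩) n n'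
  obtain ⟨c, hc, y, hy, rfl⟩ := (mem_sup_of_norm (zpowers_le.2 (norms_inf (A := zpowers s)
    (zpowers_le.2 (norm_le_norm_cent _ (D.norm_T s3))) (zpowers_le.2 (le_normalizer s1)) (mem_zpowers s)))).1 hg
  exact ⟨c, hc, D.fix_of_cent hc.1, by rwa [mul_smul, (zpowers_le.2 s4 : zpowers s ≤ stabilizer G β) hy] at e⟩

theorem DS.cent_normal [Finite G] (D : DS p co E) (α : Ω) : C(T E α) ⊴ stabilizer G α :=
  ⟨fun _ h => D.fix_of_cent h, fun _ h => norm_le_norm_cent _ (D.norm_T h)⟩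

/-- an element centralising `T α` and fixing `β` fixes the hyperbolic line pointwise -/
theorem DS.wfix [Finite G] (D : DS p co E) (n : ¬ co α β) (u : Uq E β α) (hw : g ∈ C(T E α)) (h : g • β = β)
    (hc : γ ∈ Dl E α β) : g • γ = γ := by
  obtain ⟨x, hx, rfl⟩ := hc
  rw [← mul_smul, ← mem_cent.1 ((cent_sup (T E α) (T E β)).ge ⟨hw, D.wx n u hw h⟩) x hx, mul_smul, D.fix_of_cent hw]

theorem c1 (fx : FIX.{u}) : C1.{u} := fun G Ω _ _ _ _ p E D f S α β n e => by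
  obtain ⟨r, k, l, gd⟩ := ex_good D.pp D.p5
  obtain ⟨a, ha, b, hb, h⟩ := D.ex_pair n
  have u := D.sr_uq S n.symm; have u' := D.sr_uq S n
  have W : ∀ w ∈ C(T E α), w • β = β → w = 1 := fun w hw k => f w fun c => D.wfix n u' hw k (e ▸ trivial)
  have z1 := W _ (D.z_cent n u u' ha hb h).1 (D.fix_of_cent (D.z_cent n u u' ha hb h).2)
  have sr : hh a b k l ^ r = 1 := by rcases D.hh_pow n ha hb h gd with ⟨-, e⟩ | ⟨-, e⟩ <;> simp [e, z1]
  have s1 : hh a b k l ≠ 1 := fun e => gd.k2 D.p5 ((D.zpow_one ha).1 (by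
    rw [zpow_sub, ← D.hh_a n ha hb h gd.2.1, e]; simp))
  haveI := Fact.mk gd.1
  refine ⟨C(T E α), D.cent_normal α, H3.isNilpotent_of_fpf_prime (A := zpowers (hh a b k l))
    (zpowers_le.2 (norm_le_norm_cent _ (D.norm_T (D.hh_fa n ha hb h gd.2.1)))) (by
      rw [Nat.card_zpowers, orderOf_eq_prime sr s1]; exact gd.1) (eq_bot_iff.2 fun c hc => W c hc.1 ?_), fun β γ k k' => ?_⟩
  · refine (fx G Ω p E D α β n (S.un n.symm) (S.un n) a ha b hb h r k l gd (c • β) ?_).resolve_left fun e => n ?_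
    · rw [← mul_smul, hc.2 _ (mem_zpowers _), mul_smul, D.hh_fb n ha hb h gd.2.1]
    · exact smul_left_cancel c ((D.fix_of_cent hc.1).trans e.symm)
  · obtain ⟨g, hg, -, e⟩ := tr fx G Ω p E D S α β γ k k'
    exact ⟨g, hg.1, e⟩

theorem ni0 (fx : FIX.{u}) [Finite G] [Finite Ω] (D : DS p Eq E) (f : Fa G Ω)
    (ih : ∀ F, Sub E F → F ≠ Set.univ → SRr E F ∧ FXr p E F) (hγ : x • γ ≠ γ) (n : α ≠ β) (hx : x ∈ T E α ⊓ T E β) :
    Dl E α γ ≠ Set.univ := fun e => by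
  obtain ⟨r, k, l, gd⟩ := ex_good D.pp D.p5
  have m : α ≠ γ := fun e => hγ (by rw [← e]; exact D.fixT' hx.1)
  have u : ∀ y ∈ Un E α γ ⊔ Un E γ α, y = 1 := fun y hy => f y fun c => D.uk1 m hy (by rw [e]; trivial)
  have u1 : Un E α γ = ⊥ := eq_bot_iff.2 fun y hy => u y (mem_sup_left hy)
  have u2 : Un E γ α = ⊥ := eq_bot_iff.2 fun y hy => u y (mem_sup_right hy)
  obtain ⟨a, ha, c, hc, h⟩ := D.ex_pair m
  have hs := (sc' D m (D.uq_of u1) (D.uq_of u2) ha hc h gd.2.1).2.1 x hx.1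
  obtain ⟨Φ, hΦ⟩ : ∃ Φ : Set Ω, ∀ δ, δ ∈ Φ ↔ x ∈ T E δ := ⟨{δ | x ∈ T E δ}, fun _ => Iff.rfl⟩
  have s1 := H17.ncard_modEq_fixedBy gd.1 (D.hh_pow2 m ha hc h gd) Φ (Set.toFinite _) fun δ hδ => by
    have := D.cjT (hh a c k l) ((hΦ δ).1 hδ)
    rw [hs] at this
    have := zpow_mem this (l ^ 2)
    rwa [← zpow_mul, D.zpowT hx.1 (n := 1) (by
      rw [show k ^ 2 * l ^ 2 - 1 = (k * l - 1) * (k * l + 1) by ring]; exact gd.2.1.mul_right _), zpow_one, ← hΦ] at this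
  have sb : Sub E Φ := fun δ hδ a ha c hc => by
    have := D.cjT a ((hΦ c).1 hc)
    rwa [(D.commT (mem_T ha) ((hΦ δ).1 hδ)).eq, mul_inv_cancel_right, ← hΦ] at this
  have ng : γ ∉ Φ := fun h => hγ (D.fixT' ((hΦ γ).1 h))
  have m1 := (hΦ α).2 hx.1; have m2 := (hΦ β).2 hx.2
  obtain ⟨a', ha', b, hb, h'⟩ := D.ex_pair n
  have s2 := H17.ncard_modEq_fixedBy gd.1 (D.hh_pow2 n ha' hb h' gd) Φ (Set.toFinite _) fun δ =>
    D.smul_sub sb (hh_mem (T_le_L m1 (mem_T ha')) (T_le_L m2 (mem_T hb)) k l)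
  have e1 : Φ ∩ fixedBy Ω (hh a c k l) = {α} := Set.eq_singleton_iff_unique_mem.2
    ⟨⟨m1, D.hh_fa m ha hc h gd.2.1⟩, fun δ hδ => (fx G Ω p E D α γ m u1 u2 a ha c hc h r k l gd δ hδ.2).resolve_right
      fun e => ng (by rw [← e]; exact hδ.1)⟩
  have e2 : Φ ∩ fixedBy Ω (hh a' b k l) = {α, β} := Set.Subset.antisymm
    (fun δ hδ => (ih _ sb fun e => ng (by rw [e]; trivial)).2 α m1 β m2 n a' ha' b hb h' r k l gd δ hδ.1 hδ.2)
    (by rintro _ (rfl | rfl); exacts [⟨m1, D.hh_fa n ha' hb h' gd.2.1⟩, ⟨m2, D.hh_fb n ha' hb h' gd.2.1⟩])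
  rw [e1, Set.ncard_singleton] at s1; rw [e2, Set.ncard_pair n] at s2
  exact gd.1.one_lt.ne' (Nat.dvd_one.1 ((Nat.modEq_iff_dvd' one_le_two).1 (s1.symm.trans s2)))

/-- distinct groups `T α` meet trivially -/
theorem ni (fx : FIX.{u}) [Finite G] [Finite Ω] (D : DS p Eq E) (f : Fa G Ω)
    (ih : ∀ F, Sub E F → F ≠ Set.univ → SRr E F ∧ FXr p E F) (n : α ≠ β) (hx : x ∈ T E α ⊓ T E β) : x = 1 := by
  by_contra x1
  obtain ⟨γ, hγ⟩ := not_forall.1 (mt (f x) x1)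
  obtain ⟨c, hc⟩ := D.ne γ
  have cl : ∀ g ∈ closure ({x, c} : Set G), ∀ δ ∈ orbit (closure ({x, c} : Set G)) γ, g • δ ∈ orbit (closure ({x, c} : Set G)) γ :=
    fun g hg δ hδ => by
      obtain ⟨y, hy, rfl⟩ := H17.mem_orbit_sub_iff.1 hδ
      exact H17.mem_orbit_sub_iff.2 ⟨g * y, mul_mem hg hy, mul_smul _ _ _⟩
  have s1 := H17.ncard_modEq_fixedBy (k := 1) D.pp (by simpa using D.pow_p hc) _ (Set.toFinite _) (cl c (subset_closure (by simp)))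
  have s2 := H17.ncard_modEq_fixedBy (k := 1) D.pp (by simpa using D.powT hx.1) _ (Set.toFinite _) (cl x (subset_closure (by simp)))
  rw [show orbit (closure ({x, c} : Set G)) γ ∩ fixedBy Ω c = {γ} from Set.eq_singleton_iff_unique_mem.2
    ⟨⟨mem_orbit_self γ, D.fixE' hc⟩, fun δ hδ => (D.co_of_fix hc hδ.2).symm⟩, Set.ncard_singleton] at s1
  obtain ⟨δ, h1, h2⟩ : (orbit (closure ({x, c} : Set G)) γ ∩ fixedBy Ω x).Nonempty := Set.nonempty_iff_ne_empty.2 fun e => by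
    rw [e, Set.ncard_empty] at s2
    exact D.pp.one_lt.ne' (Nat.dvd_one.1 ((Nat.modEq_zero_iff_dvd).1 (s1.symm.trans s2)))
  have k2 : ∀ {α β}, α ≠ β → x ∈ T E α ⊓ T E β → δ = α := fun {α β} n hx => by_contra fun e => by
    have m : α ≠ γ := fun e => hγ (e ▸ D.fixT' hx.1)
    obtain ⟨y, hy, rfl⟩ := H17.mem_orbit_sub_iff.1 h1
    exact hγ ((ih _ (D.sub_Dl α γ) (ni0 fx D f ih hγ n hx)).1 α left_Dl _ (smul_Dl (((closure_le _).2 (by
      rintro _ (rfl | rfl); exacts [mem_sup_left hx.1, mem_sup_right (mem_T hc)]) : _ ≤ T E α ⊔ T E γ) hy) (D.right_Dl m))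
      e x hx.1 h2 γ (D.right_Dl m))
  exact n ((k2 n hx).symm.trans (k2 n.symm ⟨hx.2, hx.1⟩))

theorem pa (fx : FIX.{u}) : PA.{u} := fun G Ω _ _ _ _ p E D f ih β α n v hv fv => by
  set T0 := ⨆ γ, ⨆ _ : γ ≠ α, Un E α γ
  have le : ∀ {γ}, γ ≠ α → Un E α γ ≤ T0 := fun {γ} h => le_iSup₂ (f := fun γ (_ : γ ≠ α) => Un E α γ) γ h
  have nm : ∀ g : G, g • α = α → ∀ x ∈ T0, g * x * g⁻¹ ∈ T0 := fun g hg x hx => mem_cj_inv.1 ((iSup₂_le fun γ h y hy =>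
    mem_cj_inv.2 (le (fun e => h (smul_left_cancel g (e.trans hg.symm))) (by simpa only [hg] using D.cjU g hy)) : T0 ≤ _) hx)
  obtain ⟨a, ha, a0⟩ : ∃ a ∈ E α, a ∉ T0 := by_contra fun h => by
    push Not at h
    obtain ⟨a, ha⟩ := D.ne α
    have : ∀ x ∈ T0, ∀ y ∈ E α, y * x ∈ E α := fun x hx => by
      induction hx using iSup_induction' with
      | hp γ x hx =>
        by_cases e : γ = α
        · obtain rfl : x = 1 := by simpa [e] using hx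
          simp
        intro y hy
        obtain ⟨v, hv, z, hz, k⟩ := D.uk5 (Ne.symm e) hy (by simpa [e] using hx)
        rw [k, ni fx D f ih (Ne.symm e) hz, mul_one]; exact D.eqv1 hy hv.2
      | h1 => simp
      | hmul x y _ _ h1 h2 => exact fun w hw => mul_assoc w x y ▸ h2 _ (h1 w hw)
    exact D.ne_one (this _ (inv_mem (h a ha)) a ha) (by simp)
  have ha' := D.eqv1 ha fv
  have k3 := D.uk3 n ha ⟨hv, fv⟩
  refine ni fx D f ih n ⟨D.uk4 n ha hv (mul_inv_eq_iff_eq_mul.1 (inv_mul_eq_one.1 (f _ fun γ => ?_)).symm), hv⟩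
  by_cases e : γ = α
  · rw [e]; exact D.fixT' (mul_mem (inv_mem (mem_T ha)) (mem_T ha'))
  obtain ⟨c, hc, h⟩ := D.ex_pr (Ne.symm e) ha
  obtain ⟨K, _, _, _, φ, τ, N⟩ := D.nf (Ne.symm e) ha' hc
  have k4 := D.pr_un N.pb.1 ha hc N.pb.2 h
  by_cases t : -τ⁻¹ - 1 = 0
  · rw [sub_eq_zero.1 t, N.xa] at k4; exact k4.2
  refine (a0 ?_).elim
  have k5 : φ (xx (-τ⁻¹ - 1)) ∈ T0 := by
    have := mul_mem (le e k4) (inv_mem (le n.symm k3))
    rw [sub_eq_add_neg, xx_add, xx_neg 1, map_mul, map_inv, N.xa]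
    convert this using 1
    rw [(D.commT (inv_mem (mem_T ha)) (N.xT _)).eq, mul_inv_rev (v * a * v⁻¹)]; group
  have := sq_ind (two_ne D.p5) (M := T0) (f := fun s => φ (xx (s * (-τ⁻¹ - 1)))) (fun s t => by rw [add_mul, xx_add, map_mul])
    (fun s hs => by simpa only [← map_inv, ← map_mul, dg_xx, Units.val_mk0] using nm _ (N.da (Units.mk0 s hs)) _ k5) (-τ⁻¹ - 1)⁻¹
  rw [inv_mul_cancel₀ t, N.xa] at this
  simpa [mul_assoc] using mul_mem (inv_mem (le n.symm k3)) this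
end H5.AS
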