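/-
Rank one: passage to subspaces and the induction.
-/
import Cfsg.Agent.H5.AS2

set_option autoImplicit false
set_option linter.unusedSectionVars false
set_option linter.style.haveILetI false

open Cfsg Subgroup MulAction H19
open scoped MatrixGroups Pointwise
namespace H5.AS
universe u
variable {G Ω : Type u} [Group G] [MulAction G Ω] {p : ℕ} {E : Ω → Set G} {F : Set Ω}

/-- the group induced on a subspace -/
structure Ind (p : ℕ) (E : Ω → Set G) (F : Set Ω) {G' : Type u} [Group G'] [MulAction G' F] (π : stabilizer G F →* G')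
    (E' : F → Set G') : Prop where
  ds : DS p Eq E'
  fa : Fa G' F
  sj : Function.Surjective π
  sm : ∀ h (c : F), ((π h • c : F) : Ω) = (h : G) • (c : Ω)
  me : ∀ (δ : F) x, x ∈ E' δ ↔ ∃ a : stabilizer G F, (a : G) ∈ E δ ∧ π a = x

theorem DS.mS (D : DS p Eq E) (h : Sub E F) {δ : Ω} (hδ : δ ∈ F) {x : G} (hx : x ∈ T E δ) : x ∈ stabilizer G F :=
  D.stab h (T_le_L hδ hx)

theorem ex_ind [Finite G] (D : DS p Eq E) (h : Sub E F) {α β : Ω} (ha : α ∈ F) (hb : β ∈ F) (n : α ≠ β) :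
    ∃ (G' : Type u) (_ : Group G') (_ : Finite G') (_ : MulAction G' F) (π : stabilizer G F →* G') (E' : F → Set G'),
      Ind p E F π E' := by
  let π := (toPermHom (stabilizer G F) F).rangeRestrict
  have sj : Function.Surjective π := MonoidHom.rangeRestrict_surjective _
  have sm : ∀ h (c : F), ((π h • c : F) : Ω) = (h : G) • (c : Ω) := fun _ _ => rfl
  haveI := Fact.mk D.pp
  refine ⟨_, _, Finite.of_surjective π sj, inferInstance, π, fun δ => {x | ∃ a : stabilizer G F, (a : G) ∈ E δ ∧ π a = x},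
    ⟨D.pp, D.p5, fun δ => ?_, ?_, ?_, ?_, fun _ => rfl, fun _ _ => Eq.symm, ?_, ?_, fun _ _ k => k _ rfl⟩,
    fun g k => Subtype.ext (Equiv.ext k), sj, sm, fun _ _ => Iff.rfl⟩
  · obtain ⟨a, k⟩ := D.ne δ; exact ⟨_, ⟨a, D.mS h δ.2 (mem_T k)⟩, k, rfl⟩
  · rintro δ _ ⟨a, k, rfl⟩
    refine orderOf_eq_prime (by rw [← map_pow, show a ^ p = 1 from Subtype.ext (D.pow_p k), map_one]) fun e => n ?_
    have : ∀ c ∈ F, (δ : Ω) = c := fun c hc => D.co_of_fix k (by simpa [e] using (sm a ⟨c, hc⟩).symm)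
    exact (this α ha).symm.trans (this β hb)
  · rintro δ _ ⟨a, k, rfl⟩ j hj; exact ⟨a ^ j, D.pw _ _ k j hj, map_zpow _ _ _⟩
  · rintro δ _ ⟨a, k, rfl⟩ g
    obtain ⟨g, rfl⟩ := sj g
    exact ⟨g * a * g⁻¹, D.eqv _ _ k g, by simp⟩
  · rintro δ _ rfl _ ⟨a, k, rfl⟩ _ ⟨b, k', rfl⟩
    rw [← map_mul, ← map_mul, show a * b = b * a from Subtype.ext (D.cm _ _ rfl _ k _ k')]
  · rintro γ δ m _ ⟨a, k, rfl⟩ _ ⟨b, k', rfl⟩
    obtain ⟨K, _, _, _, φ, e⟩ := D.sl γ δ (fun e => m (Subtype.ext e)) _ k _ k'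
    have le : φ.range ≤ stabilizer G F := e ▸ (closure_le _).2 (by rintro _ (rfl | rfl); exacts [a.2, b.2])
    refine ⟨K, _, ‹_›, ‹_›, π.comp (φ.codRestrict _ fun g => le ⟨g, rfl⟩), ?_⟩
    rw [MonoidHom.range_comp, ← Set.image_pair, ← MonoidHom.map_closure]
    congr 1
    apply map_injective (subtype_injective _)
    rw [← MonoidHom.range_comp, MonoidHom.map_closure, Set.image_pair]; exact e

namespace Ind
variable {G' : Type u} [Group G'] [MulAction G' F] {π : stabilizer G F →* G'} {E' : F → Set G'} (I : Ind p E F π E')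
  (D : DS p Eq E) (h : Sub E F)
include I D h
theorem T_eq (δ : F) : T E' δ = ((T E δ).subgroupOf (stabilizer G F)).map π := by
  have : (T E δ).subgroupOf (stabilizer G F) = closure {a : stabilizer G F | (a : G) ∈ E δ} := by
    apply map_injective (subtype_injective _)
    rw [subgroupOf_map_subtype, inf_eq_left.2 fun x hx => D.mS h δ.2 hx, MonoidHom.map_closure, T]
    congr 1; ext x
    exact ⟨fun k => ⟨⟨x, D.mS h δ.2 (mem_T k)⟩, k, rfl⟩, fun ⟨a, k, e⟩ => e ▸ k⟩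
  rw [this, MonoidHom.map_closure, T]
  congr 1; ext x; exact I.me δ x
theorem mT {δ : F} {x : stabilizer G F} (hx : (x : G) ∈ T E δ) : π x ∈ T E' δ := I.T_eq D h δ ▸ ⟨x, hx, rfl⟩
theorem exT {δ : F} {y : G'} (hy : y ∈ T E' δ) : ∃ x : stabilizer G F, (x : G) ∈ T E δ ∧ π x = y := by
  rwa [I.T_eq D h δ] at hy
omit D h
theorem eq {x : stabilizer G F} {c d : F} : π x • c = d ↔ (x : G) • (c : Ω) = d := by rw [Subtype.ext_iff, I.sm]
theorem mE {δ : F} {x : stabilizer G F} (hx : (x : G) ∈ E δ) : π x ∈ E' δ := (I.me δ _).2 ⟨x, hx, rfl⟩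
omit I in
theorem pr {a b : stabilizer G F} (e : Pr (a : G) b) : Pr (π a) (π b) := by
  simpa [Pr] using congrArg π (show a * b * a = b * a * b from Subtype.ext e)
include D h
theorem sr (S : SR E') : SRr E F := fun α ha β hb n x hx e c hc => by
  have := S ⟨α, ha⟩ ⟨β, hb⟩ (fun e => n (congrArg Subtype.val e)) (π ⟨x, D.mS h ha hx⟩) (I.mT D h hx) (I.eq.2 e)
  exact (I.eq (x := ⟨x, D.mS h ha hx⟩) (c := ⟨c, hc⟩) (d := ⟨c, hc⟩)).1 (by rw [this, one_smul])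
theorem fx [Finite G'] (fx : FIX.{u}) (S : SR E') : FXr p E F := fun α ha β hb n a ka b kb e r k l gd δ hδ f => by
  have n' : (⟨α, ha⟩ : F) ≠ ⟨β, hb⟩ := fun e => n (congrArg Subtype.val e)
  have := fx G' F p E' I.ds ⟨α, ha⟩ ⟨β, hb⟩ n' (S.un n'.symm) (S.un n') (π ⟨a, D.mS h ha (mem_T ka)⟩) (I.mE ka)
    (π ⟨b, D.mS h hb (mem_T kb)⟩) (I.mE kb) (pr e) r k l gd ⟨δ, hδ⟩ (by
      simp only [hh, ← map_zpow, ← map_mul, ← map_inv]; exact I.eq.2 f)
  simpa using this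
theorem o1 (O : O1 E' Set.univ) : O1 E F := fun α ha β hb n a ka b kb e z γ hγ m => by
  obtain ⟨t, ht, k⟩ := O ⟨α, ha⟩ trivial ⟨β, hb⟩ trivial (fun e => n (congrArg Subtype.val e)) (π ⟨a, D.mS h ha (mem_T ka)⟩)
    (I.mE ka) (π ⟨b, D.mS h hb (mem_T kb)⟩) (I.mE kb) (pr e) (fun c _ => by
      simp only [← map_pow, ← map_mul]; exact I.eq.2 (z c c.2)) ⟨γ, hγ⟩ trivial fun e => m (congrArg Subtype.val e)
  obtain ⟨t, ht', rfl⟩ := I.exT D h ht
  exact ⟨t, ht', I.eq.1 k⟩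
theorem o2 (O : O2 E' Set.univ) : O2 E F := fun α ha β hb n A ab le h1 h2 y hy => by
  obtain ⟨t, ht, k⟩ := O ⟨α, ha⟩ trivial ⟨β, hb⟩ trivial (fun e => n (congrArg Subtype.val e))
    ((A.subgroupOf (stabilizer G F)).map π) inferInstance (I.T_eq D h _ ▸ map_mono (comap_mono le))
    (by rintro _ ⟨x, hx, rfl⟩; exact ⟨I.eq.2 (h1 x hx).1, fun _ => Iff.rfl⟩) (fun g hg _ => by
      obtain ⟨g, rfl⟩ := I.sj g
      have := h2 g (I.eq.1 hg) (mem_stabilizer_set.1 g.2)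
      exact le_normalizer_map π ⟨g, (mem_normalizer_iff.2 fun x => mem_normalizer_iff.1 this x), rfl⟩)
    (π ⟨y, mem_stabilizer_set.2 (h1 y hy).2⟩) ⟨_, hy, rfl⟩
  obtain ⟨t, ht', rfl⟩ := I.exT D h ht
  exact ⟨t, ht', by simpa [I.sm] using congrArg Subtype.val k⟩
end Ind

theorem main (fx : FIX.{u}) (tri : TRI.{u}) (c2 : C2.{u}) (out : OUT.{u}) (n : ℕ) : ∀ (G Ω : Type u) [Group G] [Finite G]
    [Finite Ω] [MulAction G Ω] (p : ℕ) (E : Ω → Set G), Nat.card Ω = n → DS p Eq E → Fa G Ω →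
    SR E ∧ O1 E Set.univ ∧ O2 E Set.univ ∧ ((∃ α β : Ω, α ≠ β) → L E Set.univ = ⊤ → Concl G p) := by
  induction n using Nat.strong_induction_on with
  | _ n ih =>
  intro G Ω _ _ _ _ p E hn D f
  have sub : ∀ F, Sub E F → F ≠ Set.univ → SRr E F ∧ FXr p E F ∧ O1 E F ∧ O2 E F := fun F h k => by
    by_cases t : ∃ α ∈ F, ∃ β ∈ F, α ≠ β
    · obtain ⟨α, ha, β, hb, n⟩ := t
      obtain ⟨G', _, _, _, π, E', I⟩ := ex_ind D h ha hb n
      obtain ⟨S, o1, o2, -⟩ := ih _ (hn ▸ Set.ncard_lt_card k) G' F p E' rfl I.ds I.fa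
      exact ⟨I.sr D h S, I.fx D h fx S, I.o1 D h o1, I.o2 D h o2⟩
    · push Not at t
      exact ⟨fun α ha β hb n => (n (t _ hb _ ha)).elim, fun α ha β hb n => (n (t _ ha _ hb)).elim,
        fun α ha β hb n => (n (t _ ha _ hb)).elim, fun α ha β hb n => (n (t _ ha _ hb)).elim⟩
  have S := pa fx G Ω p E D f fun F h k => ⟨(sub F h k).1, (sub F h k).2.1⟩
  have t := tri G Ω p E D S fun F h k => (sub F h k).2.2.1
  refine ⟨S, out G Ω p E D f S (fun α => ?_) t⟩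
  by_cases e : ∃ β, α ≠ β
  · obtain ⟨β, n⟩ := e
    obtain ⟨a, ha, b, hb, h⟩ := D.ex_pair n
    by_cases z : (a * b * a) ^ 2 = 1
    · exact c1 fx G Ω p E D f S α β n (t α β n a ha b hb h z)
    · exact c2 G Ω p E D f S (fun F h k => (sub F h k).2.2) α β n a ha b hb h z
  · push Not at e
    exact ⟨⊥, NormalIn.bot _, nil_bot, fun β _ n => (n (e β).symm).elim⟩

/-- the rank one theorem -/
theorem rank1 (fx : FIX.{u}) (tri : TRI.{u}) (c2 : C2.{u}) (out : OUT.{u}) (G Ω : Type u) [Group G] [Finite G] [Finite Ω]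
    [MulAction G Ω] (p : ℕ) (E : Ω → Set G) (h : Tp p Eq E) : Concl G p :=
  (main fx tri c2 out _ G Ω p E rfl h.toDS h.fa).2.2.2 h.nt h.top
end H5.AS
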