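/-
Rank one: fixed points of good torus elements (`FIX`).
-/
import Cfsg.Agent.H5.AS2

set_option autoImplicit false
set_option linter.unusedSectionVars false
set_option linter.style.haveILetI false

open Cfsg Subgroup MulAction H19
open scoped MatrixGroups Pointwise
namespace H5.AS
universe u
variable {G Ω : Type u} [Group G] [Finite G] [MulAction G Ω] {p r : ℕ} {co : Ω → Ω → Prop} {E : Ω → Set G} {α β γ δ : Ω}
  {a b c x w : G} {k l : ℤ}

theorem dv {m n : ℤ} (h : (p : ℤ) ∣ m) (e : n = m := by ring) : (p : ℤ) ∣ n := e ▸ h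

theorem DS.root (D : DS p co E) (hx : x ∈ T E α) {n : ℤ} (hn : ¬ (p : ℤ) ∣ n) {H : Subgroup G} (h : x ^ n ∈ H) : x ∈ H := by
  obtain ⟨u, v, e⟩ := (Nat.prime_iff_prime_int.1 D.pp).coprime_iff_not_dvd.2 hn
  rw [← _root_.zpow_one x, D.zpowT hx (n := n * v) ⟨u, by linear_combination -e⟩, zpow_mul]; exact zpow_mem h v

theorem dvd_pw (h : (p : ℤ) ∣ k * l - 1) (j : ℕ) : (p : ℤ) ∣ k ^ j * l ^ j - 1 := by
  rw [← mul_pow, ← one_pow j]; exact h.trans (sub_dvd_pow_sub_pow _ _ j)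

theorem DS.hh_pw (D : DS p co E) (n : ¬ co α β) (ha : a ∈ E α) (hb : b ∈ E β) (h : Pr a b) (hk : (p : ℤ) ∣ k * l - 1) (j : ℕ) :
    hh a b (k ^ j) (l ^ j) = hh a b k l ^ j := by
  obtain ⟨K, _, _, _, φ, N, -, -, e⟩ := D.nfp n ha hb h
  obtain ⟨m, m1, -, e1⟩ := e k l hk
  obtain ⟨m', m2, -, e2⟩ := e _ _ (dvd_pw hk j)
  rw [e1, e2, ← map_pow, dg_pow, show m' = m ^ j from Units.ext (by simp [m1, m2])]

/-- if `a` normalises `⟨b, c⟩` then the centre of `a` lies in the orbit -/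
theorem DS.orb (D : DS p Eq E) (ha : a ∈ E α) {S : Subgroup G} (hb : b ∈ E β) (hs : b ∈ S) (h : a ∈ N(S)) :
    ∃ s ∈ S, s • β = α := by
  have cl : ∀ g ∈ zpowers a ⊔ S, ∀ δ ∈ orbit ↥(zpowers a ⊔ S) β, g • δ ∈ orbit ↥(zpowers a ⊔ S) β := fun g hg δ hδ => by
    obtain ⟨y, hy, rfl⟩ := H17.mem_orbit_sub_iff.1 hδ
    exact H17.mem_orbit_sub_iff.2 ⟨g * y, mul_mem hg hy, mul_smul _ _ _⟩
  have s1 := H17.ncard_modEq_fixedBy (k := 1) D.pp (by simpa using D.pow_p hb) _ (Set.finite_range _) (cl b (mem_sup_right hs))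
  have s2 := H17.ncard_modEq_fixedBy (k := 1) D.pp (by simpa using D.pow_p ha) _ (Set.finite_range _)
    (cl a (mem_sup_left (mem_zpowers a)))
  change (orbit ↥(zpowers a ⊔ S) β).ncard ≡ (orbit ↥(zpowers a ⊔ S) β ∩ _).ncard [MOD p] at s1 s2
  rw [show orbit ↥(zpowers a ⊔ S) β ∩ fixedBy Ω b = {β} from Set.eq_singleton_iff_unique_mem.2
    ⟨⟨mem_orbit_self β, D.fixE' hb⟩, fun δ hδ => (D.co_of_fix hb hδ.2).symm⟩, Set.ncard_singleton] at s1
  obtain ⟨δ, h1, h2⟩ : (orbit ↥(zpowers a ⊔ S) β ∩ fixedBy Ω a).Nonempty := Set.nonempty_iff_ne_empty.2 fun e => by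
    rw [e, Set.ncard_empty] at s2
    exact D.pp.one_lt.ne' (Nat.dvd_one.1 ((Nat.modEq_zero_iff_dvd).1 (s1.symm.trans s2)))
  obtain ⟨g, hg, rfl⟩ := H17.mem_orbit_sub_iff.1 h1
  obtain ⟨y, hy, s, hs, rfl⟩ := (mem_sup_of_norm' (zpowers_le.2 h)).1 hg
  refine ⟨s, hs, smul_left_cancel y ?_⟩
  rw [← mul_smul, ← D.co_of_fix ha h2, D.fixT' (zpowers_le.2 (mem_T ha) hy)]

theorem tl (gen : GEN) (D : DS p Eq E) (gd : Good p 2 k l) (n1 : α ≠ β) (n2 : α ≠ γ) (n3 : β ≠ γ) (ha : a ∈ E α) (hb : b ∈ E β)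
    (hc : c ∈ E γ) (h1 : Pr a b) (h2 : Pr a c) (wa : Commute w a) (wb : Commute w b) (wc : Commute w c)
    (e : hh a c k l = w * hh a b k l) : False := by
  have hk := gd.2.1
  have k2 : (p : ℤ) ∣ k ^ 2 + 1 := (gd.2.2.resolve_left fun h => h.1 rfl).2
  have l2 : (p : ℤ) ∣ l ^ 2 + 1 := (gd.symm.2.2.resolve_left fun h => h.1 rfl).2
  have wh := hh_comm wa wb k l
  have w4 : w ^ 4 = 1 := by
    have := D.hh_pow2 n2 ha hc h2 gd
    rwa [e, wh.mul_pow, D.hh_pow2 n1 ha hb h1 gd, mul_one] at this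
  obtain ⟨v, hv⟩ : ∃ v, v = a * c * a * (a * b * a)⁻¹ := ⟨_, rfl⟩
  have wn : Commute w (a * c * a) := (wa.mul_right wc).mul_right wa
  have wv : Commute w v := hv ▸ wn.mul_right ((wa.mul_right wb).mul_right wa).inv_right
  have wh' := hh_comm wa wc k l
  have vh : v * hh a b k l * v⁻¹ = hh a c k l * w := by
    have e1 := D.hh_n n1 ha hb h1 hk; have e2 := D.hh_n n2 ha hc h2 hk
    generalize a * b * a = n at *; generalize a * c * a = n' at *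
    generalize hh a b k l = h at *; generalize hh a c k l = h' at *
    have e3 : n⁻¹ * h * n = h'⁻¹ * w := by
      rw [e, mul_inv_rev, inv_mul_cancel_right]; nth_rw 1 [← inv_inv h, ← e1]; group
    calc _ = n' * (n⁻¹ * h * n) * n'⁻¹ := by rw [hv]; group
      _ = (n' * h' * n'⁻¹)⁻¹ * (n' * w) * n'⁻¹ := by rw [e3]; group
      _ = _ := by rw [e2, ← wn.eq]; group
  have U : ∀ j : ℕ, c ^ l ^ j * (b ^ l ^ j)⁻¹ = (w ^ j)⁻¹ * ((a ^ k ^ j)⁻¹ * v * a ^ k ^ j) := fun j => by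
    have e3 : v * hh a b k l ^ j * v⁻¹ = hh a c k l ^ j * w ^ j := by rw [← conj_pow, vh, wh'.symm.mul_pow]
    calc _ = (a ^ k ^ j)⁻¹ * (hh a c (k ^ j) (l ^ j) * v * (hh a b (k ^ j) (l ^ j))⁻¹) * a ^ k ^ j := by
          rw [hv]; simp only [hh]; group
      _ = (a ^ k ^ j)⁻¹ * (hh a c k l ^ j * (v * hh a b k l ^ j * v⁻¹)⁻¹ * v) * a ^ k ^ j := by
          rw [D.hh_pw n1 ha hb h1 hk, D.hh_pw n2 ha hc h2 hk]; group
      _ = (a ^ k ^ j)⁻¹ * (w ^ j)⁻¹ * v * a ^ k ^ j := by rw [e3, ← (wh'.pow_pow j j).eq]; group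
      _ = _ := by rw [← ((wa.zpow_right _).pow_left j).inv_inv.eq]; group
  have U4 : ∀ j i : ℕ, (c ^ l ^ j * (b ^ l ^ j)⁻¹) ^ (4 * i) = 1 ↔ v ^ (4 * i) = 1 := fun j i => by
    rw [U, (((wa.zpow_right _).inv_right.mul_right wv).mul_right (wa.zpow_right _)).pow_left j |>.inv_left.mul_pow,
      inv_pow, ← pow_mul, mul_left_comm, pow_mul, w4, one_pow, inv_one, one_mul, ← inv_inv (a ^ k ^ j), inv_inv (a ^ k ^ j)⁻¹,
      conj_pow, conj_eq_one_iff]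
  obtain ⟨K, _, _, _, φ, τ, N⟩ := D.nf n3 hb hc
  have cK : ∀ {n : ℤ}, (p : ℤ) ∣ n → (n : K) = 0 := (CharP.intCast_eq_zero_iff K p _).2
  have l2' := cK l2; push_cast at l2'
  have M : ∀ j : ℕ, φ (yy ((l : K) ^ j * τ) * xx (-(l : K) ^ j)) = c ^ l ^ j * (b ^ l ^ j)⁻¹ := fun j => by
    rw [← N.xa, ← N.yb, ← map_zpow, ← map_zpow, xx_zpow, yy_zpow, xx_neg]; simp
  have M2 := M 2
  rw [eq_neg_of_add_eq_zero_left l2', neg_neg, neg_one_mul] at M2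
  have sq : ∀ (g : SL(2, K)) (j : ℕ), φ g ^ (4 * j) = 1 → g ^ (8 * j) = 1 := fun g j h => by
    rw [show 8 * j = 4 * j * 2 by ring, pow_mul]
    rcases N.ker (g ^ (4 * j)) (by rw [map_pow, h]) with e | e <;> simp [e]
  haveI := Fact.mk D.pp
  have p4 : p % 4 = 1 := by
    have := ZMod.mod_four_ne_three_of_sq_eq_neg_one (p := p) (y := k) (by
      have := dvd_iff.1 k2; push_cast at this; linear_combination this)
    obtain ⟨j, hj⟩ := D.odd; omega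
  have top := gen K p ((l : K) ^ 3) τ p4 (by linear_combination ((l : K) ^ 4 - l ^ 2 + 1) * l2') N.t0 N.gen fun j =>
    ⟨fun h => sq _ j (by rw [M, U4, ← U4 2, ← M2, ← map_pow, h, map_one]),
      fun h => sq _ j (by rw [M2, U4, ← U4 3, ← M, ← map_pow, h, map_one])⟩
  have mb : b ∈ φ.range := ⟨_, N.xa⟩
  have mc : c ∈ φ.range := ⟨_, N.yb⟩
  have pf : φ.range ≤ ⁅φ.range, φ.range⁆ := N.rng.le.trans ((closure_le _).2 (by
    rintro _ (rfl | rfl); exacts [D.perf n3 hb hc mb mc, D.perf n3.symm hc hb mc mb]))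
  have wS : zpowers w ≤ N(φ.range) := norms_of_cents (zpowers_le.2 (mem_cent.2 (by
    rintro _ ⟨g, rfl⟩; exact (N.comm wb wc g).symm)))
  have sh : ∀ i j : ℕ, (p : ℤ) ∣ k ^ i + (1 + k) - k ^ j → c ^ l ^ i * (b ^ l ^ i)⁻¹ ∈ cj (a ^ (1 + k)) (φ.range ⊔ zpowers w) :=
    fun i j h => by
      have : (a ^ (1 + k))⁻¹ * (c ^ l ^ i * (b ^ l ^ i)⁻¹) * a ^ (1 + k) = (w ^ i)⁻¹ * w ^ j * (c ^ l ^ j * (b ^ l ^ j)⁻¹) := by
        rw [U, U, ← D.zpowT (mem_T ha) h, ← mul_assoc, ← ((wa.zpow_right _).pow_left i).inv_inv.eq]; group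
      rw [mem_cj, this]
      exact mul_mem (mem_sup_right (mul_mem (inv_mem (pow_mem (mem_zpowers w) i)) (pow_mem (mem_zpowers w) j)))
        (mem_sup_left (mul_mem (zpow_mem mc _) (inv_mem (zpow_mem mb _))))
  have le : φ.range ≤ cj (a ^ (1 + k)) (φ.range ⊔ zpowers w) := by
    conv_lhs => rw [MonoidHom.range_eq_map, ← top, MonoidHom.map_closure, Set.image_pair, M, M2]
    refine (closure_le _).2 ?_
    rintro _ (rfl | rfl)
    · exact sh 2 1 (dv k2)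
    · exact sh 3 0 (dv (k2.mul_left k))
  have nS : a ∈ N(φ.range) := D.root (mem_T ha) (n := 1 + k) (fun d => gd.k2 D.p5 (dv (d.mul_right (k - 1)))) (mem_norm_of_le_cj (pf.trans ((der_mono le).trans (by
    rw [← cj_comm, cj_le_cj]
    exact (der_sup_le wS).trans (sup_le le_rfl (by rw [comm_iff_der.1 (comm_zpowers w)]; exact bot_le))))))
  obtain ⟨_, ⟨g, rfl⟩, hg⟩ := D.orb ha hb mb nS
  have l0 : (l : K) ≠ 0 := fun e => by simp [e] at l2'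
  have iv : ∀ {t x : G}, t * x * t⁻¹ = x⁻¹ → φ (dg (Units.mk0 _ l0)) * x * (φ (dg (Units.mk0 _ l0)))⁻¹ = x⁻¹ →
      Commute (t⁻¹ * φ (dg (Units.mk0 _ l0))) x := fun {t x} h h' => by
    rw [Commute, SemiconjBy, mul_assoc, mul_inv_eq_iff_eq_mul.1 h', ← h]; group
  have tb : hh a c k l * b * (hh a c k l)⁻¹ = b⁻¹ := by
    calc _ = w * (hh a b k l * b * (hh a b k l)⁻¹) * w⁻¹ := by rw [e]; group
      _ = _ := by rw [D.hh_b n1 ha hb h1 hk, D.zpowT (mem_T hb) (n := -1) (by simpa using l2), zpow_neg_one, wb.inv_right.eq]; group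
  have tc : hh a c k l * c * (hh a c k l)⁻¹ = c⁻¹ := by
    rw [D.hh_b n2 ha hc h2 hk, D.zpowT (mem_T hc) (n := -1) (by simpa using l2), zpow_neg_one]
  have cb := iv tb (by
    rw [← N.xa, ← map_inv, ← map_mul, ← map_mul, dg_xx, ← map_inv, ← xx_neg]; congr 2; simpa using eq_neg_of_add_eq_zero_left l2')
  have cc := iv tc (by
    rw [← N.yb, ← map_inv, ← map_mul, ← map_mul, dg_yy, ← map_inv, ← yy_neg, Units.val_mk0, inv_pow,
      eq_neg_of_add_eq_zero_left l2']; simp)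
  have f1 : φ (g⁻¹ * dg (Units.mk0 _ l0) * g) • β = β := by
    have := congrArg (· • β) (N.comm cb cc g).eq
    beta_reduce at this
    rw [mul_smul, hg, mul_smul (φ g), D.fix_of_comm hb cb, hg, mul_smul, inv_smul_eq_iff, D.hh_fa n2 ha hc h2 hk] at this
    rw [map_mul, map_mul, map_inv, mul_smul, mul_smul, hg, this, inv_smul_eq_iff, hg]
  rw [N.fa] at f1
  revert f1; mat; simp only [Units.val_mk0]; intro f1
  have : g 1 0 * g 0 0 * 2 = 0 := by field_simp at f1; linear_combination f1 + g 1 0 * g 0 0 * l2'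
  rcases mul_eq_zero.1 ((mul_eq_zero.1 this).resolve_right (two_ne D.p5)) with h | h
  · exact n1 (hg.symm.trans ((N.fa g).2 h))
  · have := (N.fa ((ww K)⁻¹ * g)).2 (by mat; simp [h])
    rw [map_mul, map_inv, mul_smul, hg, inv_smul_eq_iff, N.wa] at this
    exact n2 this

/-- an `s`-invariant subgroup `⟨e⟩` of `T β` -/
theorem DS.ex_inv (D : DS p Eq E) (gd : Good p r k l) (n : β ≠ α) {s : G} (s1 : s ^ r ^ 2 = 1) (s2 : s • α = α) (s3 : s • β = β)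
    (h : ∀ b ∈ E β, (b ^ l ^ 2)⁻¹ * (s * b * s⁻¹) ∈ Un E β α) (h' : ∀ x ∈ T E α, s * x * s⁻¹ = x ^ k ^ 2) :
    ∃ e ∈ E β, s * e * s⁻¹ = e ^ l ^ 2 := by
  obtain ⟨b, hb⟩ := D.ne β
  have kl := dvd_pw gd.2.1 2
  have bb : ∀ x ∈ T E β, (x ^ l ^ 2) ^ k ^ 2 = x := fun x hx => by
    rw [← zpow_mul, D.zpowT hx (n := 1) (dv kl), _root_.zpow_one]
  let f : Function.End (Un E β α) := fun u => ⟨((b ^ l ^ 2)⁻¹ * (s * b * s⁻¹) * (s * u * s⁻¹)) ^ k ^ 2,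
    zpow_mem (mul_mem (h b hb) (by simpa only [s2, s3] using D.cjU s u.2)) _⟩
  have f1 : ∀ u, b * f u = (s * (b * u) * s⁻¹) ^ k ^ 2 := fun u => by
    have m := (mul_mem (h b hb) (by simpa only [s2, s3] using D.cjU s u.2 : s * u * s⁻¹ ∈ Un E β α)).1
    conv_lhs => rw [← bb b (mem_T hb)]
    rw [← (D.commT (zpow_mem (mem_T hb) _) m).mul_zpow]; congr 1; group
  have f2 : ∀ (j : ℕ) u, b * (f ^ j) u = (s ^ j * (b * u) * (s ^ j)⁻¹) ^ (k ^ 2) ^ j := fun j u => by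
    induction j with
    | zero => simp; rfl
    | succ j ih =>
      rw [show (f ^ (j + 1)) u = f ((f ^ j) u) by rw [pow_succ']; rfl, f1, ih, ← conj_zpow, ← zpow_mul, pow_succ', pow_succ]
      congr 1; group
  haveI := Fact.mk gd.1
  have kr : (p : ℤ) ∣ k ^ r ^ 2 - 1 := by
    rcases gd.2.2 with ⟨-, d, -⟩ | ⟨rfl, d⟩
    · rw [sq, pow_mul, ← one_pow r]; exact d.trans (sub_dvd_pow_sub_pow _ _ r)
    · exact dv (d.mul_right (k ^ 2 - 1))
  have f3 : f ^ r ^ 2 = 1 := funext fun u => Subtype.ext (mul_left_cancel (a := b) (by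
    rw [f2, s1, D.zpowT (by simpa using mul_mem (mem_T hb) u.2.1) (n := 1) (dv (kr.mul_right (k ^ r ^ 2 + 1)))]; simp; rfl))
  classical
  haveI := Fintype.ofFinite (Un E β α)
  have c := Equiv.Perm.card_fixedPoints_modEq f3
  obtain ⟨u, hu⟩ : f.fixedPoints.Nonempty := Set.nonempty_iff_ne_empty.2 fun e => by
    simp only [e, ← Nat.card_eq_fintype_card, Nat.card_coe_set_eq, Set.ncard_empty] at c
    obtain rfl : r = p := PiN.eq_of_dvd ((D.pgT β).dvd (card_dvd inf_le_left)) gd.1 (Nat.modEq_zero_iff_dvd.1 c)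
    rcases gd.2.2 with ⟨-, d, d'⟩ | ⟨e, -⟩
    · rw [dvd_iff] at d d'; push_cast at d d'; rw [ZMod.pow_card] at d; exact d' d
    · have := D.p5; omega
  obtain ⟨w, hw, z, hz, e⟩ := D.uk5 n hb u.2
  have he := D.eqv1 hb hw.2
  have := f1 u
  rw [hu, e] at this
  generalize w * b * w⁻¹ = y at *
  have e2 : y ^ l ^ 2 * (z ^ l ^ 2 * (z ^ k ^ 2)⁻¹) = s * y * s⁻¹ := by
    rw [← mul_assoc, ← (D.commT (mem_T he) hz.1).mul_zpow, this, ← zpow_mul, ← h' z hz.2,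
      D.zpowT (D.cjT1 s3 (mul_mem (mem_T he) hz.1)) kl]; group
  have l0 : ¬ (p : ℤ) ∣ l ^ 2 := fun d => D.nd5 (n := 1) (by decide) (by decide) (dv ((d.mul_left (k ^ 2)).sub kl))
  rw [D.uk2 n (D.pw _ _ he _ l0) (mul_mem (zpow_mem hz _) (inv_mem (zpow_mem hz _))) (e2 ▸ D.eqv1 he s3), mul_one] at e2
  exact ⟨y, he, e2.symm⟩

theorem fix (gen : GEN) : FIX.{u} := fun G Ω _ _ _ p E D α γ n u1 u2 a ha c hc h r k l gd β hβ => by
  by_contra m; push Not at m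
  have q1 := D.uq_of u1; have q2 := D.uq_of u2
  obtain ⟨c1, c2, c3⟩ := sc' D n q1 q2 ha hc h gd.2.1
  have s2 := D.hh_fa n ha hc h gd.2.1; have s3 := D.hh_fb n ha hc h gd.2.1
  have key : ∀ {δ k l} {s : G}, β ≠ δ → s • β = β → (p : ℤ) ∣ k * l - 1 → (∀ x ∈ T E δ, s * x * s⁻¹ = x ^ k ^ 2) →
      ∀ b ∈ E β, (b ^ l ^ 2)⁻¹ * (s * b * s⁻¹) ∈ Un E β δ := fun {δ k l s} m hs hk hx b hb => by
    obtain ⟨d, hd, e⟩ := D.ex_pr m hb
    have kl := dvd_pw hk 2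
    have nd : ¬ (p : ℤ) ∣ k ^ 2 * l ^ 2 := fun d => D.nd5 (n := 1) (by decide) (by decide) (dv (d.sub kl))
    exact D.pr_un (D.eqv1 hb hs) (D.pw _ _ hb _ fun d => nd (d.mul_left _)) (D.pw _ _ hd _ fun d => nd (d.mul_right _))
      (hx d (mem_T hd) ▸ e.cj s) (D.pr_pow m hb hd e (by rwa [mul_comm]))
  obtain ⟨e, he, k1⟩ := D.ex_inv gd m.1 (D.hh_pow2 n ha hc h gd) s2 hβ (key m.1 hβ gd.2.1 c2) c2
  by_cases r2 : r = 2
  swap
  · have := (key m.2 hβ gd.symm.2.1 c3 e he).2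
    rw [k1, ← zpow_neg, ← zpow_add] at this
    refine m.2 (D.co_of_fix (D.pw _ _ he _ fun d => gd.odd_pow r2 2 ?_) this)
    exact dv ((dvd_pw gd.2.1 2).sub (d.mul_left (k ^ 2)))
  subst r2
  obtain ⟨a1, ha1, p1⟩ := D.ex_pr' m.1.symm he
  obtain ⟨d, hd, p2⟩ := D.ex_pr n ha1
  rw [← c1 a1 ha1 d hd p2] at k1 c2
  have cm : ∀ {x : G} {j : ℤ}, hh a1 d k l * x * (hh a1 d k l)⁻¹ = x ^ j → hh a1 e k l * x * (hh a1 e k l)⁻¹ = x ^ j →
      Commute ((hh a1 e k l)⁻¹ * hh a1 d k l) x := fun h h' => by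
    rw [Commute, SemiconjBy, mul_assoc, mul_inv_eq_iff_eq_mul.1 h, ← h']; group
  have wa := cm (c2 a1 (mem_T ha1)) (D.hh_a m.1.symm ha1 he p1 gd.2.1)
  have we := cm k1 (D.hh_b m.1.symm ha1 he p1 gd.2.1)
  have wt := hh_comm wa we k l
  obtain ⟨w, hw⟩ : ∃ w, w = (hh a1 e k l)⁻¹ * hh a1 d k l := ⟨_, rfl⟩
  rw [← hw] at wa we wt
  have e1 : hh a1 d k l = w * hh a1 e k l := by rw [wt.eq, hw]; group
  have p3 : Pr a1 (w * d * w⁻¹) := by simpa [wa.eq] using p2.cj w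
  have e2 : hh a1 (w * d * w⁻¹) k l = hh a1 d k l := by
    have := hh_cj a1 d w k l
    rwa [wa.eq, mul_inv_cancel_right, e1, ((Commute.refl w).mul_right wt).eq, mul_inv_cancel_right, ← e1] at this
  by_cases f : w • γ = γ
  · exact tl gen D gd m.1.symm n m.2 ha1 he hd p1 p2 wa we
      (mul_inv_eq_iff_eq_mul.1 (q2 _ (D.eqv1 hd f) d hd a1 ha1 p3.symm p2.symm)) e1
  · exact tl gen D gd n (fun e => n (smul_left_cancel w ((D.fix_of_comm ha1 wa).trans e))) (Ne.symm f) ha1 hd (D.eqv _ _ hd w) p2 p3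
      (Commute.one_left _) (Commute.one_left _) (Commute.one_left _) (by rw [e2, one_mul])
end H5.AS
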