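/-
Two applications of Dickson's theorem (`GEN`, `GE2`).
-/
import Cfsg.Agent.H5.AS1
import Cfsg.Agent.H27.DicksonFin

set_option autoImplicit false
set_option linter.unusedSectionVars false
set_option linter.style.haveILetI false

open Cfsg Subgroup H19
open scoped MatrixGroups
namespace H5.AS

variable {K : Type} [Field K] {g h : SL(2, K)} {p : ℕ}
/-- the projection to `PGL₂` -/
abbrev pj : SL(2, K) →* H27.PG K := Matrix.SpecialLinearGroup.toPGL
/-- the trace -/
def tc (g : SL(2, K)) : K := g 0 0 + g 1 1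
theorem pm_of (h1 : g 0 1 = 0) (h2 : g 1 0 = 0) (h3 : g 0 0 = g 1 1) : g = 1 ∨ g = -1 := by
  have d := det2 g
  rw [h1, ← h3, zero_mul, sub_zero] at d
  exact (mul_self_eq_one_iff.1 d).imp (fun e => ext2 e h1 h2 (h3 ▸ e)) fun e =>
    ext2 e (h1.trans neg_zero.symm) (h2.trans neg_zero.symm) (h3 ▸ e)
theorem pj_one : pj g = 1 ↔ g = 1 ∨ g = -1 := ⟨fun e => let ⟨a, b, c⟩ := (H27.pg_mk_eq_one_iff _).1 e; pm_of a b c,
  by rintro (rfl | rfl) <;> exact (H27.pg_mk_eq_one_iff _).2 (by simp)⟩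
theorem pj_eq (e : pj g = pj h) : g = h ∨ g = -h :=
  (pj_one.1 (show pj (g * h⁻¹) = 1 by rw [map_mul, map_inv, e, mul_inv_cancel])).imp (fun k => by rwa [mul_inv_eq_one] at k)
    fun k => by rw [mul_inv_eq_iff_eq_mul] at k; simp [k]
theorem pj_pow {n : ℕ} (e : pj g ^ n = 1) : g ^ (2 * n) = 1 := by
  rw [mul_comm, pow_mul]; rcases pj_one.1 (map_pow pj g n ▸ e) with k | k <;> simp [k]
theorem sq_one (h2 : (2 : K) ≠ 0) (e : g ^ 2 = 1) : pj g = 1 := by
  have d := det2 g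
  rw [sq] at e
  have e0 := congrArg (· 0 0) e; have e1 := congrArg (· 0 1) e; have e2 := congrArg (· 1 0) e; have e3 := congrArg (· 1 1) e
  revert e0 e1 e2 e3; mat; intro e0 e1 e2 e3
  have t : g 0 0 + g 1 1 ≠ 0 := fun t => h2 (by linear_combination (g 0 0) * t - e0 - d)
  exact pj_one.2 (pm_of (mul_left_cancel₀ t (by linear_combination e1)) (mul_left_cancel₀ t (by linear_combination e2))
    (mul_left_cancel₀ t (by linear_combination e0 - e3)))
theorem mul_zero_of {u : K} (n : pj g ≠ 1) (h1 : u * g 0 1 = 0) (h2 : u * g 1 0 = 0) (h3 : u * (g 0 0 - g 1 1) = 0) : u = 0 :=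
  by_contra fun e => n (pj_one.2 (pm_of ((mul_eq_zero.1 h1).resolve_left e) ((mul_eq_zero.1 h2).resolve_left e)
    (sub_eq_zero.1 ((mul_eq_zero.1 h3).resolve_left e))))
/-- the trace of an element of small projective order -/
theorem tc_pow (n : pj g ≠ 1) : (pj g ^ 2 = 1 → tc g = 0) ∧ (pj g ^ 3 = 1 → tc g ^ 2 = 1) ∧
    (pj g ^ 4 = 1 → tc g * (tc g ^ 2 - 2) = 0) ∧ (pj g ^ 5 = 1 → tc g ^ 4 - 3 * tc g ^ 2 + 1 = 0) := by
  have d := det2 g
  have k : ∀ n, pj g ^ n = 1 → (g ^ n) 0 1 = 0 ∧ (g ^ n) 1 0 = 0 ∧ (g ^ n) 0 0 = (g ^ n) 1 1 := fun n e =>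
    (H27.pg_mk_eq_one_iff _).1 (map_pow pj g n ▸ e)
  refine ⟨fun e => ?_, fun e => sub_eq_zero.1 ?_, fun e => ?_, fun e => ?_⟩ <;> obtain ⟨a, b, c⟩ := k _ e <;>
    simp only [pow_succ, pow_zero, one_mul, mul_ap] at a b c <;> refine mul_zero_of n ?_ ?_ ?_ <;> unfold tc
  · linear_combination a
  · linear_combination b
  · linear_combination c
  · linear_combination a + g 0 1 * d
  · linear_combination b + g 1 0 * d
  · linear_combination c + (g 0 0 - g 1 1) * d
  · linear_combination a + g 0 1 * 2 * (g 0 0 + g 1 1) * d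
  · linear_combination b + g 1 0 * 2 * (g 0 0 + g 1 1) * d
  · linear_combination c + (g 0 0 - g 1 1) * 2 * (g 0 0 + g 1 1) * d
  · linear_combination a + g 0 1 * (3 * (g 0 0 + g 1 1) ^ 2 - (g 0 0 * g 1 1 - g 0 1 * g 1 0 + 1)) * d
  · linear_combination b + g 1 0 * (3 * (g 0 0 + g 1 1) ^ 2 - (g 0 0 * g 1 1 - g 0 1 * g 1 0 + 1)) * d
  · linear_combination c + (g 0 0 - g 1 1) * (3 * (g 0 0 + g 1 1) ^ 2 - (g 0 0 * g 1 1 - g 0 1 * g 1 0 + 1)) * d
theorem tc_sq : tc (g * g) = tc g ^ 2 - 2 := by unfold tc; mat; linear_combination (-2 : K) * det2 g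

theorem small {Q : Type*} [Group Q] (h : Nonempty (Q ≃* alternatingGroup (Fin 4)) ∨
    Nonempty (Q ≃* Equiv.Perm (Fin 4)) ∨ Nonempty (Q ≃* alternatingGroup (Fin 5))) :
    (∀ x : Q, x ^ 3 = 1 ∨ x ^ 4 = 1 ∨ x ^ 5 = 1) ∧
      (Nat.card Q = 12 ∨ (Nat.card Q = 24 ∧ ∃ x : Q, orderOf x = 4) ∨ Nat.card Q = 60) := by
  have a : ∀ x : Equiv.Perm (Fin 4), x ^ 3 = 1 ∨ x ^ 4 = 1 := by decide +kernel
  have b : ∀ x : Equiv.Perm (Fin 5), Equiv.Perm.sign x = 1 → x ^ 3 = 1 ∨ x ^ 4 = 1 ∨ x ^ 5 = 1 := by decide +kernel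
  rcases h with ⟨⟨e⟩⟩ | ⟨⟨e⟩⟩ | ⟨⟨e⟩⟩ <;> refine ⟨fun x => ?_, ?_⟩
  · simp only [← e.map_eq_one_iff, map_pow, Subtype.ext_iff]; exact (a _).imp_right .inl
  · rw [Nat.card_congr e.toEquiv, nat_card_alternatingGroup]; simp [Nat.factorial]
  · simp only [← e.map_eq_one_iff, map_pow]; exact (a _).imp_right .inl
  · refine .inr (.inl ⟨by rw [Nat.card_congr e.toEquiv, Nat.card_perm]; simp [Nat.factorial], e.symm (finRotate 4), ?_⟩)
    rw [e.symm.orderOf_eq]; exact (orderOf_eq_iff (by decide)).2 (by decide)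
  · simp only [← e.map_eq_one_iff, map_pow, Subtype.ext_iff]; exact b _ (e x).2
  · rw [Nat.card_congr e.toEquiv, nat_card_alternatingGroup]; simp [Nat.factorial]

theorem tc_mem {F : Subfield K} {c : H27.PG K} (h : c⁻¹ * pj g * c ∈ H27.pglOf F) : tc g ^ 2 ∈ F := by
  obtain ⟨c, rfl⟩ := Matrix.ProjGenLinGroup.mk_surjective c
  obtain ⟨y, e, hy⟩ := H27.mem_pglOf_iff.1 h
  obtain ⟨κ, k0, e⟩ := (H27.pg_mk_eq_mk_iff (c⁻¹ * Matrix.SpecialLinearGroup.toGL g * c) y).1 (by rw [e]; simp)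
  have t := Matrix.trace_units_conj' c (g : Matrix _ _ K)
  have d := Matrix.det_units_conj' c (g : Matrix _ _ K)
  rw [g.det_coe, Matrix.det_fin_two] at d; rw [Matrix.trace_fin_two, Matrix.trace_fin_two] at t
  have : tc g ^ 2 = (y 0 0 + y 1 1) ^ 2 / (y 0 0 * y 1 1 - y 0 1 * y 1 0) := by
    rw [eq_div_iff (H27.gl_det_ne y), tc, ← t]
    simp only [e, Units.val_mul, Matrix.SpecialLinearGroup.coe_GL_coe_matrix]
    linear_combination (κ ^ 2 * (((c⁻¹).1 * g.1 * c.1) 0 0 + ((c⁻¹).1 * g.1 * c.1) 1 1) ^ 2) * d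
  rw [this]
  exact div_mem (pow_mem (add_mem (hy _ _) (hy _ _)) 2) (sub_mem (mul_mem (hy _ _) (hy _ _)) (mul_mem (hy _ _) (hy _ _)))

theorem gen : GEN := fun K _ _ p _ i τ p4 ii t0 top hy => by
  haveI := Fact.mk (CharP.char_is_prime K p)
  have p5 : 5 ≤ p := by have := (Fact.out : p.Prime).two_le; omega
  have h2 := two_ne (K := K) p5
  have nz : ∀ n : ℕ, (n : K) = 0 → p ∣ n := fun n => (CharP.cast_eq_zero_iff K p n).1
  have nz' : ∀ n : ℕ, 0 < n → (n : K) = 0 → p ≤ n ∧ p ∣ n := fun n h e => ⟨Nat.le_of_dvd h (nz n e), nz n e⟩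
  have h8 : (8 : K) ≠ 0 := by rw [show (8 : K) = 2 ^ 3 by norm_num]; exact pow_ne_zero _ h2
  have h14 : (14 : K) ≠ 0 := fun e => by obtain ⟨a, b⟩ := nz' 14 (by decide) (by simpa using e); interval_cases p <;> omega
  have i0 : i ≠ 0 := by rintro rfl; simp at ii
  have i1 : 1 - i ≠ 0 := fun e => h2 (by linear_combination (1 + i) * e + ii)
  obtain ⟨A, hA⟩ : ∃ A, A = yy (-τ) * xx 1 := ⟨_, rfl⟩
  obtain ⟨B, hB⟩ : ∃ B, B = yy (i * τ) * xx (-i) := ⟨_, rfl⟩
  have tA : tc A = 2 - τ := by rw [hA, tc]; mat; ring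
  have tB : tc B = 2 + τ := by rw [hB, tc]; mat; linear_combination (-τ) * ii
  have nA : pj A ≠ 1 := fun e => by
    have := ((H27.pg_mk_eq_one_iff _).1 e).1; change A 0 1 = 0 at this; revert this; rw [hA]; mat; simp
  have nB : pj B ≠ 1 := fun e => by
    have := ((H27.pg_mk_eq_one_iff _).1 e).1; change B 0 1 = 0 at this; revert this; rw [hB]; mat; simpa using i0
  rw [← hA, ← hB] at hy ⊢
  obtain ⟨R, hR⟩ : ∃ R, R = closure {A, B} := ⟨_, rfl⟩
  let X : R.map pj := ⟨_, A, hR ▸ subset_closure (by simp), rfl⟩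
  let Y : R.map pj := ⟨_, B, hR ▸ subset_closure (by simp), rfl⟩
  have nc : X * Y ≠ Y * X := fun e => by
    rcases pj_eq (g := A * B) (h := B * A) (by rw [map_mul, map_mul]; exact congrArg Subtype.val e) with e | e
    · have := congrArg (· 0 1) e; revert this; rw [hA, hB]; mat; intro e
      exact mul_ne_zero t0 i1 (by linear_combination e + τ * ii)
    · have e0 := congrArg (· 0 0) e; have e1 := congrArg (· 1 1) e; revert e0 e1; rw [hA, hB]; mat; intro e0 e1
      exact mul_ne_zero h2 (pow_ne_zero 2 t0) (by linear_combination e0 - e1 - 2 * (1 - τ) * τ * ii)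
  have s4 : ∀ {g : SL(2, K)}, g ^ 8 = 1 → pj g ^ 4 = 1 := fun e => by rw [← map_pow]; exact sq_one h2 (by rwa [← pow_mul])
  have c44 : pj A ^ 4 = 1 → pj B ^ 4 = 1 → False := fun a b => by
    have a := (tc_pow nA).2.2.1 a; have b := (tc_pow nB).2.2.1 b
    rw [tA] at a; rw [tB] at b
    rcases mul_eq_zero.1 a with a | a <;> rcases mul_eq_zero.1 b with b | b
    · exact h8 (by linear_combination 2 * a + 2 * b)
    · exact h14 (by linear_combination b + (6 + τ) * a)
    · exact h14 (by linear_combination a + (6 - τ) * b)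
    · exact mul_ne_zero h8 t0 (by linear_combination b - a)
  have gc : ∀ {g : SL(2, K)} {m n : ℕ}, pj g ≠ 1 → g ^ m = 1 → g ^ n = 1 → m.gcd n = 2 → False := fun n a b e =>
    n (sq_one h2 (by have := pow_gcd_eq_one.2 ⟨a, b⟩; rwa [e] at this))
  rw [← hR]
  rcases H27.dickson_hom p (R.map pj).subtype Subtype.val_injective with h | ⟨-, u, h⟩ | ⟨d, -, h, h'⟩ | h | h | ⟨c, F, -, -, h, h'⟩
  · letI := h.1.commGroup
    exact absurd (mul_comm _ _) nc
  · induction u using Projectivization.ind with | h u hu =>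
    have h1 := (H27.mk_smul_eq_iff _ u u hu hu).1 (h X)
    have h2 := (H27.mk_smul_eq_iff _ u u hu hu).1 (h Y)
    change (A 0 0 * _ + A 0 1 * _) * _ = (A 1 0 * _ + A 1 1 * _) * _ at h1
    change (B 0 0 * _ + B 0 1 * _) * _ = (B 1 0 * _ + B 1 1 * _) * _ at h2
    revert h1 h2; rw [hA, hB]; mat; intro h1 h2
    have h3 : u 0 * u 1 = 0 := mul_left_cancel₀ (mul_ne_zero t0 i1) (by linear_combination -h2 - i * h1 + τ * u 0 * u 1 * ii)
    have h4 : u 1 ^ 2 + τ * u 0 ^ 2 = 0 := by linear_combination h1 - τ * h3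
    refine absurd (funext fun j => ?_) hu
    rcases mul_eq_zero.1 h3 with e | e <;> fin_cases j <;> simp_all
  · have o : ∀ Z : R.map pj, Z ∉ zpowers d → Z.1 ^ 2 = 1 := fun Z n => by rw [sq]; exact congrArg Subtype.val (h' Z n)
    have o4 : ∀ {x : H27.PG K}, x ^ 2 = 1 → x ^ 4 = 1 := fun e => by rw [show 4 = 2 * 2 from rfl, pow_mul, e, one_pow]
    by_cases a : X ∈ zpowers d
    · by_cases b : Y ∈ zpowers d
      · exact absurd (congrArg Subtype.val (mul_comm' (⟨_, a⟩ : zpowers d) ⟨_, b⟩)) nc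
      · exact (c44 (s4 ((hy 1).2 (pj_pow (o Y b)))) (o4 (o Y b))).elim
    · exact (c44 (o4 (o X a)) (s4 ((hy 1).1 (pj_pow (o X a))))).elim
  · exfalso
    have s := (small h.2).1
    have q : ∀ {g : SL(2, K)}, g ^ 6 = 1 → g ^ (4 * 3) = 1 := fun e => by rw [show 4 * 3 = 6 * 2 from rfl, pow_mul, e, one_pow]
    rcases s X with a | a | a <;> rcases s Y with b | b | b <;> replace a : pj A ^ _ = 1 := congrArg Subtype.val a <;>
      replace b : pj B ^ _ = 1 := congrArg Subtype.val b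
    · have a := (tc_pow nA).2.1 a; have b := (tc_pow nB).2.1 b
      rw [tA] at a; rw [tB] at b
      exact mul_ne_zero h8 t0 (by linear_combination b - a)
    · exact gc nA ((hy 2).2 (pj_pow b)) (pj_pow a) rfl
    · exact gc nB ((hy 3).1 (q (pj_pow a))) (pj_pow b) rfl
    · exact gc nB ((hy 2).1 (pj_pow a)) (pj_pow b) rfl
    · exact c44 a b
    · exact gc nB ((hy 2).1 (pj_pow a)) (pj_pow b) rfl
    · exact gc nA ((hy 3).2 (q (pj_pow b))) (pj_pow a) rfl
    · exact gc nA ((hy 2).2 (pj_pow b)) (pj_pow a) rfl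
    · have a := (tc_pow nA).2.2.2 a; have b := (tc_pow nB).2.2.2 b
      rw [tA] at a; rw [tB] at b
      have e : 2 * τ ^ 2 + 5 = 0 := mul_left_cancel₀ (mul_ne_zero h8 t0) (by linear_combination b - a)
      have d := nz 165 (by push_cast; linear_combination (2 * τ ^ 2 - 16 * τ + 37 ) * e - 4 * a)
      obtain rfl : p = 5 := by
        rcases (Nat.Prime.dvd_mul Fact.out).1 (show p ∣ 5 * 33 from d) with d | d
        · exact le_antisymm (Nat.le_of_dvd (by decide) d) p5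
        · rcases (Nat.Prime.dvd_mul Fact.out).1 (show p ∣ 3 * 11 from d) with d | d <;>
            have := (Nat.prime_dvd_prime_iff_eq Fact.out (by norm_num)).1 d <;> omega
      exact mul_ne_zero h2 (pow_ne_zero 2 t0) (by linear_combination e - CharP.cast_eq_zero K 5)
  · omega
  · have a := tc_mem (h' X); have b := tc_mem (h' Y)
    rw [tA] at a; rw [tB] at b
    have tF : τ ∈ F := by
      have := div_mem (sub_mem b a) (ofNat_mem F 8)
      rwa [show ((2 + τ) ^ 2 - (2 - τ) ^ 2) / 8 = τ by field_simp; ring] at this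
    have al : ∀ g : SL(2, K), ∀ i j, g i j ∈ F := fun g => by
      have hg : g ∈ closure {xx (1 : K), yy τ} := top ▸ mem_top g
      simp only [Fin.forall_fin_two]
      induction hg using closure_induction with
      | mem x hx => rcases hx with rfl | rfl <;> mat <;> simp [tF]
      | one => mat; simp
      | mul x y _ _ a b => mat; refine ⟨⟨?_, ?_⟩, ?_, ?_⟩ <;> apply add_mem <;> apply mul_mem <;> simp [a, b]
      | inv x _ a => mat; simp [a]
    refine top_of h2 fun g => ?_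
    obtain ⟨c, rfl⟩ := Matrix.ProjGenLinGroup.mk_surjective c
    obtain ⟨⟨_, y, hy, rfl⟩, e⟩ := h _ (H27.mem_pslOf_iff.2 ⟨c⁻¹ * Matrix.SpecialLinearGroup.toGL g * c, rfl,
      fun _ _ => al (xx _) 0 1, by
        have d := Matrix.det_units_conj' c (g : Matrix _ _ K)
        rwa [g.det_coe, Matrix.det_fin_two] at d⟩)
    rcases pj_eq (g := y) (h := g) (by simpa [mul_assoc] using e) with rfl | rfl
    exacts [.inl hy, .inr hy]

theorem diag {m : Kˣ} (n : (m : K) - (m : K)⁻¹ ≠ 0) (t : tc g = m + (m : K)⁻¹) : ∃ P : SL(2, K), g = P * dg m * P⁻¹ := by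
  have d := det2 g
  have e : (m : K) * (m : K)⁻¹ = 1 := mul_inv_cancel₀ m.ne_zero
  unfold tc at t
  have k : ∀ x y, x * (g 1 0 * x + g 1 1 * y) - y * (g 0 0 * x + g 0 1 * y) ≠ 0 → ∃ P : SL(2, K), g = P * dg m * P⁻¹ := fun x y h => by
    obtain ⟨l, hl⟩ : ∃ l, l * (((m : K) - (m : K)⁻¹) * (x * (g 1 0 * x + g 1 1 * y) - y * (g 0 0 * x + g 0 1 * y))) = 1 :=
      ⟨_, inv_mul_cancel₀ (mul_ne_zero n h)⟩
    obtain ⟨P, p0, p1, p2, p3⟩ : ∃ P : SL(2, K), P 0 0 = (g 0 0 - (m : K)⁻¹) * x + g 0 1 * y ∧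
        P 0 1 = l * ((g 0 0 - m) * x + g 0 1 * y) ∧ P 1 0 = g 1 0 * x + (g 1 1 - (m : K)⁻¹) * y ∧
        P 1 1 = l * (g 1 0 * x + (g 1 1 - m) * y) := ⟨H29.AS.mk ((g 0 0 - (m : K)⁻¹) * x + g 0 1 * y)
          (l * ((g 0 0 - m) * x + g 0 1 * y)) (g 1 0 * x + (g 1 1 - (m : K)⁻¹) * y) (l * (g 1 0 * x + (g 1 1 - m) * y))
          (by linear_combination hl), rfl, rfl, rfl, rfl⟩
    refine ⟨P, eq_mul_inv_of_mul_eq ?_⟩
    apply ext2 <;> mat <;> simp only [p0, p1, p2, p3]
    · linear_combination (g 0 0 * x + g 0 1 * y) * t - x * d + x * e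
    · linear_combination l * ((g 0 0 * x + g 0 1 * y) * t - x * d + x * e)
    · linear_combination (g 1 0 * x + g 1 1 * y) * t - y * d + y * e
    · linear_combination l * ((g 1 0 * x + g 1 1 * y) * t - y * d + y * e)
  by_contra c
  have a := not_not.1 (mt (k 1 0) c); have b := not_not.1 (mt (k 0 1) c); have f := not_not.1 (mt (k 1 1) c)
  have h1 : g 1 0 = 0 := by linear_combination a
  have h2 : g 0 1 = 0 := by linear_combination -b
  have h3 : g 1 1 = g 0 0 := by linear_combination f - a - b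
  rw [h1, h2, h3] at d; rw [h3] at t
  exact n (pow_eq_zero_iff two_ne_zero |>.1 (by linear_combination 4 * d - 4 * e - (2 * g 0 0 + m + (m : K)⁻¹) * t))
theorem tc_two [Fact p.Prime] [CharP K p] (h : g ^ p = 1) : tc g = 2 := by
  obtain ⟨a, b, c, d, e, rfl⟩ := H29.AS.ex_mk g
  obtain ⟨x, y, n, e1, e2⟩ := H29.AS.fix_vec h
  change a + d = 2
  rcases n with n | n
  · exact mul_left_cancel₀ n (by linear_combination x * e + (1 - d) * e1 + b * e2)
  · exact mul_left_cancel₀ n (by linear_combination y * e + c * e1 + (1 - a) * e2)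
theorem pow_char [CharP K p] (h : tc g = 2) : g ^ p = 1 := by
  have d := det2 g
  unfold tc at h
  have : ∀ n : ℕ, (g ^ n) 0 0 = 1 + n * (g 0 0 - 1) ∧ (g ^ n) 0 1 = n * g 0 1 ∧ (g ^ n) 1 0 = n * g 1 0 ∧
      (g ^ n) 1 1 = 1 + n * (g 1 1 - 1) := fun n => by
    induction n with
    | zero => simp
    | succ n ih =>
      obtain ⟨a, b, c, e⟩ := ih
      simp only [pow_succ, mul_ap, a, b, c, e]; push_cast
      exact ⟨by linear_combination n * g 0 0 * h - n * d, by linear_combination n * g 0 1 * h,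
        by linear_combination n * g 1 0 * h, by linear_combination n * g 1 1 * h - n * d⟩
  obtain ⟨a, b, c, e⟩ := this p
  apply ext2 <;> simp [a, b, c, e]
/-- three commuting translates of unipotent elements -/
theorem three {b : SL(2, K)} (h2 : (2 : K) ≠ 0) (c : g * h = h * g) (t : tc b = 2) (t1 : tc (g * b) = 2) (t2 : tc (h * b) = 2) :
    h = 1 ∨ h = g ∨ tc g = 2 := by
  by_cases n : pj g = 1
  · rcases pj_one.1 n with rfl | rfl
    · exact .inr (.inr one_add_one_eq_two)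
    · refine absurd ?_ (mul_ne_zero h2 h2)
      revert t t1; unfold tc; mat; intro t t1; linear_combination -t - t1
  have c0 := congrArg (· 0 0) c; have c1 := congrArg (· 0 1) c; have c2 := congrArg (· 1 0) c
  revert c0 c1 c2; mat; intro c0 c1 c2
  obtain ⟨s, e1, e2, e3⟩ : ∃ s, h 0 1 = s * g 0 1 ∧ h 1 0 = s * g 1 0 ∧ h 0 0 - h 1 1 = s * (g 0 0 - g 1 1) := by
    by_cases a : g 0 1 = 0
    · by_cases b : g 1 0 = 0
      · have c : g 0 0 - g 1 1 ≠ 0 := fun c => n (pj_one.2 (pm_of a b (sub_eq_zero.1 c)))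
        refine ⟨(h 0 0 - h 1 1) / (g 0 0 - g 1 1), ?_, ?_, ?_⟩ <;> field_simp
        · linear_combination c1
        · linear_combination -c2
      · refine ⟨h 1 0 / g 1 0, ?_, ?_, ?_⟩ <;> field_simp
        · linear_combination -c0
        · linear_combination c2
    · refine ⟨h 0 1 / g 0 1, ?_, ?_, ?_⟩ <;> field_simp
      · linear_combination c0
      · linear_combination -c1
  revert t t1 t2; unfold tc; mat; intro t t1 t2
  have e0 : h 0 0 = 1 - s + s * g 0 0 := mul_left_cancel₀ h2 (by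
    linear_combination t2 - s * t1 - (h 0 0 - s * g 0 0) * t - b 1 0 * e1 - b 0 1 * e2 + b 1 1 * e3)
  have e4 : h 1 1 = 1 - s + s * g 1 1 := by linear_combination e0 - e3
  have d := det2 h
  rw [e0, e1, e2, e4] at d
  have : s * (1 - s) * (g 0 0 + g 1 1 - 2) = 0 := by linear_combination d - s ^ 2 * det2 g
  rcases mul_eq_zero.1 this with k | k
  · refine (mul_eq_zero.1 k).imp (fun k => ?_) fun k => .inl ?_
    · apply ext2 <;> mat <;> simp [e0, e1, e2, e4, k]
    · obtain rfl := sub_eq_zero.1 k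
      apply ext2 <;> simp [e0, e1, e2, e4]
  · exact .inr (.inr (sub_eq_zero.1 k))

theorem ge2 : GE2 := fun K _ _ p _ ι _ b R p5 lt inj ob hR => by
  classical
  haveI := Fact.mk (CharP.char_is_prime K p)
  have pp : p.Prime := Fact.out
  have h2 := two_ne (K := K) p5
  have cK : ∀ {n : ℤ}, (p : ℤ) ∣ n ↔ (n : K) = 0 := (CharP.intCast_eq_zero_iff K p _).symm
  refine or_iff_not_imp_left.2 fun np => ?_
  have tb : ∀ i, tc (b i) = 2 := fun i => tc_two (ob i ▸ pow_orderOf_eq_one _)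
  have lift : ∀ x : R.map pj, ∃ g ∈ R, pj g = x := fun x => x.2
  have nd : ¬ p ∣ Nat.card (R.map pj) := fun d => by
    obtain ⟨x, hx⟩ := exists_prime_orderOf_dvd_card' p d
    obtain ⟨g, hg, e⟩ := lift x
    refine np ⟨g ^ 2, pow_mem hg 2, orderOf_eq_prime (by
      rw [← pow_mul]; exact pj_pow (by rw [e, ← hx]; exact congrArg Subtype.val (pow_orderOf_eq_one x))) fun k => ?_⟩
    obtain rfl : x = 1 := Subtype.ext (e ▸ sq_one h2 k)
    exact pp.one_lt.ne (by simpa using hx)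
  have q5 : p ≤ Fintype.card K := by
    obtain ⟨n, -, e⟩ := FiniteField.card K p
    exact e ▸ Nat.le_self_pow n.ne_zero p
  have cnt : ∀ c : R.map pj, Fintype.card K < 2 * (zpowers c).index := fun c => lt.trans_le (not_lt.1 fun k => by
    obtain ⟨i0⟩ : Nonempty ι := Fintype.card_pos_iff.1 (by omega)
    haveI := Fintype.ofFinite (R.map pj ⧸ zpowers c)
    obtain ⟨y, hy⟩ := Fintype.exists_lt_card_fiber_of_mul_lt_card
      (fun i => ((⟨_, b i0 * (b i)⁻¹, hR _ _, rfl⟩ : R.map pj) : R.map pj ⧸ zpowers c)) (n := 2) (by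
        rwa [mul_comm, ← Nat.card_eq_fintype_card])
    obtain ⟨i, hi, j, hj, l, hl, n1, n2, n3⟩ := Finset.two_lt_card.1 hy
    simp only [Finset.mem_filter, Finset.mem_univ, true_and] at hi hj hl
    obtain ⟨C, -, hC⟩ := lift c
    have k : ∀ {j}, ((⟨_, b i0 * (b j)⁻¹, hR _ _, rfl⟩ : R.map pj) : R.map pj ⧸ zpowers c) = y →
        ∃ n : ℤ, b j * (b i)⁻¹ = C ^ n ∨ b j * (b i)⁻¹ = -C ^ n := fun hj => by
      obtain ⟨n, e⟩ := QuotientGroup.eq.1 (hj.trans hi.symm)
      refine ⟨n, pj_eq ?_⟩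
      rw [map_zpow, hC]
      refine Eq.trans ?_ (congrArg Subtype.val e).symm
      change _ = (pj _)⁻¹ * pj _
      rw [← map_inv, ← map_mul]; congr 1; group
    obtain ⟨m, e1⟩ := k hj; obtain ⟨n, e2⟩ := k hl
    rcases three (g := b j * (b i)⁻¹) (h := b l * (b i)⁻¹) (b := b i) h2
      (by rcases e1 with e1 | e1 <;> rcases e2 with e2 | e2 <;> simp [e1, e2, zpow_mul_comm])
      (tb i) (by simpa using tb j) (by simpa using tb l) with e | e | e
    · exact n2 (inj (mul_inv_eq_one.1 e)).symm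
    · exact n3 (inj (mul_right_cancel e)).symm
    · exact np ⟨_, hR j i, orderOf_eq_prime (pow_char e) fun e => n1 (inj (mul_inv_eq_one.1 e)).symm⟩)
  have out : ∀ g ∈ R, ∀ r k l, Good p r k l → tc g = k + l → ∃ r k l, Good p r k l ∧ ∃ (m : Kˣ) (g : SL(2, K)),
      (m : K) = k ∧ g * dg m * g⁻¹ ∈ R := fun g hg r k l gd t => by
    have kl := cK.1 gd.2.1; push_cast at kl
    have k0 := left_ne_zero_of_mul_eq_one (sub_eq_zero.1 kl)
    have el : (l : K) = (k : K)⁻¹ := eq_inv_of_mul_eq_one_right (sub_eq_zero.1 kl)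
    obtain ⟨P, rfl⟩ := diag (g := g) (m := Units.mk0 _ k0) (fun e => gd.k2 p5 (cK.2 (by
      push_cast; rw [Units.val_mk0, ← el] at e; linear_combination k * e + kl))) (el ▸ t)
    exact ⟨r, k, l, gd, _, P, rfl, hg⟩
  have ex : ∀ r : ℕ, r.Prime → r ∣ Nat.card (R.map pj) → ∃ g ∈ R, pj g ≠ 1 ∧ pj g ^ r = 1 := fun r hr d => by
    haveI := Fact.mk hr
    obtain ⟨x, hx⟩ := exists_prime_orderOf_dvd_card' r d
    obtain ⟨g, hg, e⟩ := lift x
    refine ⟨g, hg, fun k => ?_, by rw [e, ← hx]; exact congrArg Subtype.val (pow_orderOf_eq_one x)⟩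
    obtain rfl : x = 1 := Subtype.ext (e ▸ k)
    exact hr.one_lt.ne (by simpa using hx)
  have ix : ∀ c : R.map pj, (zpowers c).index * orderOf c = Nat.card (R.map pj) := fun c => by
    rw [← Nat.card_zpowers, index_mul_card]
  rcases H27.dickson_hom p (R.map pj).subtype Subtype.val_injective with h | h | ⟨d, -, h, -⟩ | h | h | ⟨c, F, h, h', -⟩
  · obtain ⟨c, e⟩ := h.1.exists_generator
    have := cnt c; rw [(eq_top_iff' _).2 e, index_top] at this; omega
  · exact absurd h.1 nd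
  · have := cnt d; omega
  rotate_left
  · omega
  · rw [h', Nat.factorization_eq_zero_of_not_dvd nd, pow_zero] at h; omega
  have s := (small h.2).2
  have d12 : 12 ∣ Nat.card (R.map pj) := by rcases s with e | ⟨e, -⟩ | e <;> rw [e] <;> decide
  by_cases p4 : p % 4 = 3
  swap
  · obtain ⟨y, hy⟩ := ZMod.exists_sq_eq_neg_one_iff.2 p4
    obtain ⟨k, rfl⟩ := ZMod.intCast_surjective y
    obtain ⟨g, hg, n, e⟩ := ex 2 Nat.prime_two (Dvd.dvd.trans (by decide) d12)
    refine out g hg 2 k (-k) ⟨Nat.prime_two, ?_, .inr ⟨rfl, ?_⟩⟩ (by simp [(tc_pow n).1 e]) <;> rw [dvd_iff] <;> push_cast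
    · linear_combination hy
    · linear_combination -hy
  by_cases p3 : p % 3 = 1
  · obtain ⟨u, hu⟩ := exists_prime_orderOf_dvd_card' (G := (ZMod p)ˣ) 3 (by rw [Nat.card_eq_fintype_card, ZMod.card_units]; omega)
    obtain ⟨k, hk⟩ := ZMod.intCast_surjective (u : ZMod p)
    have k3 : (k : ZMod p) ^ 3 = 1 := by rw [hk, ← Units.val_pow_eq_pow_val, show u ^ 3 = 1 from hu ▸ pow_orderOf_eq_one u]; rfl
    have k1 : (k : ZMod p) - 1 ≠ 0 := by rw [hk, sub_ne_zero, Ne, Units.val_eq_one]; rintro rfl; simp at hu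
    have k2 : (p : ℤ) ∣ k ^ 2 + k + 1 := dvd_iff.2 (mul_left_cancel₀ k1 (by push_cast; linear_combination k3))
    obtain ⟨g, hg, n, e⟩ := ex 3 Nat.prime_three (Dvd.dvd.trans (by decide) d12)
    refine out (g * g) (mul_mem hg hg) 3 k (k ^ 2) ⟨Nat.prime_three, ?_, .inl ⟨by decide, ?_, ?_⟩⟩ ?_
    · rw [dvd_iff]; push_cast; linear_combination k3
    · rw [dvd_iff]; push_cast; linear_combination k3
    · rw [dvd_iff]; push_cast; exact k1
    · have := cK.1 k2; push_cast at this ⊢; rw [tc_sq, (tc_pow n).2.1 e]; linear_combination -this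
  have p12 : p % 12 = 11 := by
    have : p % 3 ≠ 0 := fun e => by have := (Nat.prime_dvd_prime_iff_eq Nat.prime_three pp).1 (by omega); omega
    omega
  have qp : Fintype.card K < 24 → Fintype.card K = p := fun k => by
    obtain ⟨⟨n, n0⟩, -, e⟩ := FiniteField.card K p
    rcases n with _ | _ | n
    · omega
    · simpa using e
    · have : p ^ 2 ≤ p ^ (n + 1 + 1) := Nat.pow_le_pow_right pp.pos (by omega)
      change _ = p ^ (n + 1 + 1) at e; nlinarith
  have ord : ∀ c : R.map pj, orderOf c ≠ 1 → Fintype.card K = p → orderOf c ∣ (p - 1) / 2 ∨ orderOf c ∣ (p + 1) / 2 := fun c n e => by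
    have := H27.orderOf_PS p (c := c.1) (let ⟨g, _, e⟩ := lift c; ⟨g, e⟩)
    rw [e, Nat.gcd_eq_left (by omega), orderOf_coe] at this
    refine this.resolve_left fun k => ?_
    rcases (Nat.dvd_prime pp).1 (orderOf_dvd_of_pow_eq_one (show c ^ p = 1 from Subtype.ext k)) with k | k
    exacts [n k, nd (k ▸ orderOf_dvd_natCard c)]
  rcases s with e | ⟨e, c, hc⟩ | e
  · obtain ⟨c, hc⟩ := exists_prime_orderOf_dvd_card' (G := R.map pj) 3 (by rw [e]; decide)
    have := ix c; have := cnt c; rw [hc, e] at *; omega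
  · have h1 := ix c; have h2 := cnt c; rw [hc, e] at h1
    have := ord c (by omega) (qp (by omega))
    rw [show p = 11 by omega, hc] at this; omega
  · haveI := Fact.mk Nat.prime_five
    obtain ⟨c, hc⟩ := exists_prime_orderOf_dvd_card' (G := R.map pj) 5 (by rw [e]; decide)
    have h1 := ix c; have h2 := cnt c; rw [hc, e] at h1
    have h3 := ord c (by omega) (qp (by omega))
    obtain rfl : p = 11 := by rw [hc] at h3; omega
    obtain ⟨g, hg, n, e⟩ := ex 5 Nat.prime_five (by rw [e]; decide)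
    have t := (tc_pow n).2.2.2 e
    have z : (11 : K) = 0 := CharP.cast_eq_zero K 11
    rcases mul_eq_zero.1 (show (tc (g * g) - 14) * (tc (g * g) - 7) = 0 by
      rw [tc_sq]; linear_combination t + (13 - 2 * tc g ^ 2) * z) with k | k
    · exact out _ (mul_mem hg hg) 5 5 9 ⟨Nat.prime_five, by decide, .inl (by decide)⟩ (by push_cast; linear_combination k)
    · exact out _ (mul_mem hg hg) 5 3 4 ⟨Nat.prime_five, by decide, .inl (by decide)⟩ (by push_cast; linear_combination k)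
end H5.AS
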