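import Cfsg.Agent.H21.ExcInt

/-! # Brauer-Fong, lattice lemmas -/

set_option autoImplicit false

namespace H5.BF

open Finset

variable {I L : Type*} [Fintype I] [DecidableEq I]

theorem norm_one {u : I → ℤ} (h : ∑ i, u i * u i = 1) :
    ∃ a ε, (ε = 1 ∨ ε = -1) ∧ ∀ i, u i = if i = a then ε else 0 := by
  obtain ⟨a, -, ha⟩ := exists_ne_zero_of_sum_ne_zero (h ▸ one_ne_zero)
  rw [← add_sum_erase _ _ (mem_univ a)] at h
  have h1 : 0 ≤ ∑ i ∈ univ.erase a, u i * u i := sum_nonneg fun i _ => mul_self_nonneg _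
  have h2 := mul_self_nonneg (u a)
  have h3 : u a * u a = 1 := by omega
  refine ⟨a, u a, mul_self_eq_one_iff.1 h3, fun i => ?_⟩
  split_ifs with e
  · rw [e]
  · exact mul_self_eq_zero.1 ((sum_eq_zero_iff_of_nonneg fun i _ => mul_self_nonneg _).1
      (show ∑ i ∈ univ.erase a, u i * u i = 0 by omega) i (by simp [e]))

theorem sum_mul_two (u : I → ℤ) (a b : I) (s t : ℤ) :
    ∑ i, u i * ((if i = a then s else 0) - t * if i = b then s else 0) = s * (u a - t * u b) := by
  simp only [mul_sub, sum_sub_distrib, mul_ite, mul_zero, sum_ite_eq', mem_univ, if_true]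
  ring

theorem coh [Fintype L] [DecidableEq L] {c : L → I → ℤ} {E : ℤ} {b : L → ℕ}
    (hG : ∀ l k, ∑ i, c l i * c k i = E * b l * b k + if l = k then 1 else 0)
    {f : I → ℤ} (hf : ∀ i, 0 < f i) (h0 : ∀ l, ∑ i, c l i * f i = 0)
    {l0 l1 : L} (h01 : l0 ≠ l1) (b0 : b l0 = 1) (b1 : b l1 = 1) (hb : ∀ l, 1 ≤ b l)
    (hs : ∀ l, 1 < b l → 2 * b l + 2 ≤ ∑ k with b k < b l, b k ^ 2) :
    ∃ (δ : ℤ) (ζ : L → I) (w : I → ℤ), (δ = 1 ∨ δ = -1) ∧ Function.Injective ζ ∧
      ∀ l i, c l i = b l * w i + if i = ζ l then δ else 0 := by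
  obtain ⟨δ, z, w, hδ, -, hz⟩ := H21.exc_int (L := {l // b l = 1}) (c := fun l => c l.1) (e := E)
    (fun l k => by rw [hG, l.2, k.2]; simp [Subtype.ext_iff]) hf (fun l => h0 l)
    (Fintype.one_lt_card_iff.2 ⟨⟨l0, b0⟩, ⟨l1, b1⟩, fun e => h01 (congrArg Subtype.val e)⟩)
  have dd : δ * δ = 1 := by rcases hδ with h | h <;> simp [h]
  have d0 : δ ≠ 0 := by rintro rfl; simp at dd
  set i0 := z ⟨l0, b0⟩
  have c0 : ∀ j, c l0 j = w j + if j = i0 then δ else 0 := hz ⟨l0, b0⟩
  let Rep : L → I → Prop := fun l i => ∀ j, c l j = b l * w j + if j = i then δ else 0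
  have ip : ∀ l k, ∑ j, (c l j - b l * c l0 j) * (c k j - b k * c l0 j) = (if l = k then 1 else 0) -
      (b k * if l = l0 then 1 else 0) - (b l * if l0 = k then 1 else 0) + b l * b k := by
    intro l k
    have : ∀ j, (c l j - b l * c l0 j) * (c k j - b k * c l0 j) = c l j * c k j -
      b k * (c l j * c l0 j) - b l * (c l0 j * c k j) + b l * b k * (c l0 j * c l0 j) := fun j => by
      ring
    simp only [this, sum_add_distrib, sum_sub_distrib, ← mul_sum, hG, b0, if_true]
    push_cast; ring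
  have rp : ∀ {k i}, Rep k i → ∀ j, c k j - b k * c l0 j =
      (if j = i then δ else 0) - b k * if j = i0 then δ else 0 := fun h j => by
    rw [h, c0]; ring
  have r0 : ∀ {l i}, Rep l i → (i = i0 ↔ l = l0) := fun {l i} h => by
    have h1 := ip l l
    simp only [rp h] at h1
    rw [sum_mul_two] at h1
    have h2 := hb l
    refine ⟨fun e => by_contra fun e' => ?_, fun e => by_contra fun e' => ?_⟩
    · simp only [e, if_true, e', Ne.symm e', if_false] at h1
      have : (1 : ℤ) ≤ b l := by exact_mod_cast h2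
      nlinarith
    · subst e
      have := (h i0).symm.trans (c0 i0)
      simp [b0, Ne.symm e', d0] at this
  have inj : ∀ {l k i j}, Rep l i → Rep k j → i = j → l = k := fun {l k i j} h h' e => by
    by_contra e'
    subst e
    have h1 := ip l k
    simp only [rp h, rp h'] at h1
    rw [sum_mul_two] at h1
    have h2 := r0 h
    have h3 := r0 h'
    by_cases e0 : i = i0
    · exact e' ((h2.1 e0).trans (h3.1 e0).symm)
    · simp only [if_true, e0, Ne.symm e0, e', h2.not.1 e0, Ne.symm (h3.not.1 e0), if_false] at h1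
      have : (1 : ℤ) = 0 := by linear_combination h1 - (1 + b l * b k) * dd
      omega
  have key : ∀ n l, b l = n → ∃ i, Rep l i := by
    intro n
    induction n using Nat.strong_induction_on with | _ n ih =>
    intro l hl
    rcases (hb l).eq_or_lt with e | e
    · exact ⟨z ⟨l, e.symm⟩, fun j => by rw [hz ⟨l, e.symm⟩]; simp [← e]⟩
    have ih' : ∀ k, ∃ i, b k < b l → Rep k i := fun k => by
      by_cases h : b k < b l
      · exact (ih _ (hl ▸ h) k rfl).imp fun _ h _ => h
      · exact ⟨i0, fun h' => (h h').elim⟩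
    choose ζ hζ using ih'
    have n0 : l ≠ l0 := fun h => by rw [h, b0] at e; omega
    set W : I → ℤ := fun j => c l j - b l * c l0 j with hW
    have w1 : ∑ j, W j * W j = 1 + b l * b l := by
      rw [ip l l]; simp [n0, n0.symm]
    obtain ⟨μ, hμ⟩ : ∃ μ, μ = δ * W i0 + b l := ⟨_, rfl⟩
    have w2 : ∀ k, b k < b l → W (ζ k) * W (ζ k) =
        μ ^ 2 * b k ^ 2 + if k = l0 then (b l * b l - 2 * b l * μ) else 0 := fun k hk => by
      by_cases e0 : k = l0
      · rw [(r0 (hζ k hk)).2 e0, e0, b0, if_pos rfl, hμ]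
        push_cast
        linear_combination (-(W i0) ^ 2) * dd
      have h1 := ip l k
      simp only [rp (hζ k hk)] at h1
      rw [sum_mul_two W, if_neg n0, if_neg (Ne.symm e0),
        if_neg fun h : l = k => by rw [h] at hk; omega] at h1
      have h2 : δ * W (ζ k) = μ * b k := by rw [hμ]; linear_combination h1
      rw [if_neg e0]
      linear_combination (δ * W (ζ k) + μ * b k) * h2 - W (ζ k) ^ 2 * dd
    have w3 : ∑ k with b k < b l, W (ζ k) * W (ζ k) ≤ ∑ j, W j * W j := by
      rw [← sum_image (f := fun j => W j * W j) fun k hk k' hk' e =>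
        inj (hζ k (mem_filter.1 hk).2) (hζ k' (mem_filter.1 hk').2) e]
      exact sum_le_sum_of_subset_of_nonneg (subset_univ _) fun _ _ _ => mul_self_nonneg _
    rw [sum_congr rfl fun k hk => w2 k (mem_filter.1 hk).2, sum_add_distrib, ← mul_sum,
      sum_ite_eq', if_pos (by simpa [b0] using e), w1] at w3
    have w4 : (2 * b l + 2 : ℤ) ≤ ∑ k with b k < b l, (b k : ℤ) ^ 2 := by exact_mod_cast hs l e
    have w5 : μ = 0 := by
      by_contra h
      have h1 : 1 ≤ μ ^ 2 := by have := sq_pos_of_ne_zero h; omega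
      have h2 : μ ≤ μ ^ 2 := by nlinarith
      have h3 : (0 : ℤ) ≤ b l := by positivity
      nlinarith
    have w6 : W i0 = - b l * δ := by linear_combination δ * (hμ.symm.trans w5) - W i0 * dd
    obtain ⟨a, ε, hε, ha⟩ := norm_one (u := fun j => W j + if j = i0 then b l * δ else 0) (by
      have : ∀ j, (W j + if j = i0 then b l * δ else 0) * (W j + if j = i0 then b l * δ else 0) =
          W j * W j + if j = i0 then - (b l * b l : ℤ) else 0 := fun j => by
        split_ifs with h
        · rw [h, w6]; linear_combination (-(b l : ℤ) ^ 2) * dd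
        · ring
      simp only [this, sum_add_distrib, w1, sum_ite_eq', mem_univ, if_true]; ring)
    have w7 : ε * f a = b l * δ * f i0 := by
      have h1 : ∑ j, (W j + if j = i0 then b l * δ else 0) * f j = ε * f a := by simp [ha]
      have h2 : ∀ j, (W j + if j = i0 then b l * δ else 0) * f j = c l j * f j -
          b l * (c l0 j * f j) + if j = i0 then b l * δ * f j else 0 := fun j => by
        rw [hW]; split_ifs <;> ring
      simpa [h2, sum_add_distrib, ← mul_sum, h0] using h1.symm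
    have w8 : ε = δ := by
      have := hf a
      have := mul_pos (show (0 : ℤ) < b l by exact_mod_cast e.le) (hf i0)
      rcases hε with h | h <;> rcases hδ with h' | h' <;> subst h h' <;> first | rfl | nlinarith
    refine ⟨a, fun j => ?_⟩
    have := ha j
    simp only [hW, c0, w8] at this
    rw [← this]; split_ifs <;> ring
  choose ζ hζ using fun l => key _ l rfl
  exact ⟨δ, ζ, w, hδ, fun l k e => inj (hζ l) (hζ k) e, hζ⟩

theorem arith {A f : I → ℤ} {N : ℤ} {i0 : I} (a0 : A i0 = 1) (f0 : f i0 = 1) (hf : ∀ i, 0 < f i)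
    (hN : 3 ≤ N) (h1 : ∑ i, A i ^ 2 = N) (h2 : (N : ℝ) ≤ 2 * ∑ i, (A i : ℝ) ^ 3 / f i)
    (h3 : ∑ i, A i * f i = 0) (h4 : ∀ i ≠ i0, N * A i ≤ (f i - A i) * (N - 2)) : False := by
  obtain ⟨j, hj⟩ : ∃ j, A j < 0 := by
    by_contra! h
    have := (sum_eq_zero_iff_of_nonneg fun i _ => mul_nonneg (h i) (hf i).le).1 h3 i0 (mem_univ _)
    simp [a0, f0] at this
  have n3 : (3 : ℝ) ≤ N := by exact_mod_cast hN
  have k : ∑ i ∈ univ.erase i0, (A i : ℝ) ^ 3 / f i <
      ∑ i ∈ univ.erase i0, (A i : ℝ) ^ 2 * ((N - 2) / (2 * N - 2)) := by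
    refine sum_lt_sum (fun i hi => ?_) ⟨j, by simp; rintro rfl; omega, ?_⟩
    · have e1 : (0 : ℝ) < f i := by exact_mod_cast hf i
      have e2 : (N : ℝ) * A i ≤ (f i - A i) * (N - 2) := by
        exact_mod_cast h4 i (mem_erase.1 hi).1
      rw [pow_succ, mul_div_assoc]
      refine mul_le_mul_of_nonneg_left ?_ (sq_nonneg _)
      rw [div_le_div_iff₀ e1 (by linarith)]; nlinarith
    · have e1 : (0 : ℝ) < f j := by exact_mod_cast hf j
      have e2 : (A j : ℝ) < 0 := by exact_mod_cast hj
      rw [pow_succ, mul_div_assoc]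
      exact mul_lt_mul_of_pos_left ((div_neg_of_neg_of_pos e2 e1).trans
        (div_pos (by linarith) (by linarith))) (sq_pos_of_neg e2)
  rw [← add_sum_erase _ _ (mem_univ i0), a0] at h1
  rw [← add_sum_erase _ _ (mem_univ i0), a0, f0] at h2
  have e : ∑ i ∈ univ.erase i0, (A i : ℝ) ^ 2 = N - 1 := by
    rw [← h1]; push_cast; ring
  rw [← sum_mul, e] at k
  have : ((N : ℝ) - 1) * ((N - 2) / (2 * N - 2)) = (N - 2) / 2 := by
    rw [mul_div_assoc', div_eq_div_iff (by linarith) two_ne_zero]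
    ring
  push_cast at h2
  linarith

end H5.BF
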