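import Cfsg.Agent.H5.BF1
import Cfsg.Agent.H5.BF2
import Cfsg.Agent.H5.FrobChar
import Cfsg.Agent.H6.PermChar
import Cfsg.Agent.H6.Degree
import Cfsg.Agent.H7.Quot

/-! # Brauer-Fong, the principal block -/

set_option autoImplicit false
set_option linter.unusedSectionVars false

namespace H5.BF

open H19 Subgroup _root_.Cfsg H18 Finset MulAction H5
open scoped ComplexConjugate Classical

abbrev B0 (M : Ideal AlgInt) (G : Type*) [Group G] :=
  {χ : IrrCharacter G // χ ∈ principalBlock M G}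

variable {G : Type*} [Group G] [Fintype G] {p : ℕ} [hp : Fact p.Prime] {M : Ideal AlgInt}
  {P X Y : Subgroup G} {a b g n u v x y : G}

theorem sum_B0 (F : IrrCharacter G → ℂ) :
    ∑ χ with χ ∈ principalBlock M G, F χ = ∑ χ : B0 M G, F χ.1 := sum_subtype _ (by simp) F

noncomputable instance irrAct (P : Subgroup G) : MulAction N(P) (IrrCharacter P) where
  smul n χ := ⟨fun u => χ.1 (n⁻¹ • u), χ.2.comp_equiv (P.normalizerMonoidHom n⁻¹)⟩
  one_smul χ := Subtype.ext (funext fun u => by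
    show χ.1 _ = _
    rw [inv_one, one_smul])
  mul_smul m n χ := Subtype.ext (funext fun u => by
    show χ.1 _ = χ.1 _
    rw [mul_inv_rev, mul_smul])

theorem act_apply (n : N(P)) (χ : IrrCharacter P) (u : P) : (n • χ).1 u = χ.1 (n⁻¹ • u) := rfl

theorem coe_smul (n : N(P)) (u : P) : ((n • u : P) : G) = n * u * (n : G)⁻¹ := rfl

theorem act_one (n : N(P)) (χ : IrrCharacter P) : (n • χ).1 1 = χ.1 1 := by
  rw [act_apply, smul_one]

theorem inner_act {φ : G → ℂ} (h : IsClassFunction G φ) (n : N(P)) (χ : IrrCharacter P) :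
    classInner (fun u : P => φ u) (n • χ).1 = classInner (fun u : P => φ u) χ.1 := by
  rw [← classInner_comp_equiv (P.normalizerMonoidHom n⁻¹) (fun u : P => φ u) χ.1]
  congr 1
  funext u
  exact (h _ _).symm

theorem ker_act (hX : N(P) ≤ N(X)) (n : N(P)) {χ : IrrCharacter P}
    (h : X.subgroupOf P ≤ charKer χ.1) : X.subgroupOf P ≤ charKer (n • χ).1 := fun u hu => by
  rw [(n • χ).2.mem_charKer_iff, act_one, act_apply, ← χ.2.mem_charKer_iff]
  exact h (conj_mem_of_norm (hX (n⁻¹).2) hu)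

theorem const_val (hY : Ab Y) (h1 : Y ≠ ⊥) {χ : G → ℂ} (hχ : IsCharacter G χ) {a : ℂ}
    (h : ∀ u ∈ Y, u ≠ 1 → χ u = a) : ∃ m : ℕ, a = χ 1 - #Y * m := by
  obtain ⟨y, hy, y1⟩ := exists_ne_one h1
  obtain ⟨μ, h2, h3⟩ := exists_irr_not_mem_charKer (g := (⟨y, hy⟩ : Y)) (by simpa using y1)
  obtain ⟨m, e⟩ := (hχ.restrict Y).exists_classInner_nat h2.isCharacter
  have h4 := h2.apply_one_of_comm fun a b => Subtype.ext (mul_comm_of_comm hY a.2 b.2)
  have h5 : ∑ u : Y, conj (μ u) = 0 := by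
    have := h2.classInner_one fun e => h3 (by rw [e]; exact fun _ => rfl)
    rw [classInner_one_right, mul_eq_zero, inv_eq_zero] at this
    rw [← map_sum, this.resolve_left (card_ne_zero_complex Y), map_zero]
  refine ⟨m, ?_⟩
  rw [← e, card_mul_classInner]
  rw [← add_sum_erase _ _ (mem_univ 1)] at h5 ⊢
  rw [sum_congr rfl fun (u : Y) hu => by
    rw [h u u.2 (by simpa using (mem_erase.1 hu).1)], ← mul_sum]
  simp only [h4, map_one, OneMemClass.coe_one] at h5 ⊢
  linear_combination a * h5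

structure Cx (p : ℕ) (M : Ideal AlgInt) (P : Subgroup G) : Prop where
  hM : IsPModular p M
  hy : Hy p G
  syl : Syl p P ⊤

namespace Cx

variable (h : Cx p M P)
include h

theorem val (χ : B0 M G) (hg : IsPPart p g u) (h1 : u ≠ 1) (e : IsConj u v) :
    χ.1.1 g = χ.1.1 v := by
  rw [H7.principal_apply_of_hasNPC h.hM χ.2 hg (h.hy.npc' (pie_elt (H7.isPPart_isPElt hg)) h1),
    χ.1.2.isClassFunction.eq_of_isConj e]

theorem gram (hu : u ∈ P) (h1 : u ≠ 1) (hv : v ∈ P) : ∑ χ : B0 M G, χ.1.1 u * conj (χ.1.1 v) =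
    if IsConj u v then (#(P ⊓ C[u]) : ℂ) else 0 := by
  have k := fun {w} (hw : w ∈ P) => elt_pie (h.syl.pi.elt hw)
  rw [← sum_B0 fun χ => χ.1 u * conj (χ.1 v)]
  split_ifs with e
  · obtain ⟨S, e'⟩ := (h.hy.aut.syl_cent h.syl hu).exists_sylow
    rw [← e', card_map_of_injective (subtype_injective _), S.card_eq_multiplicity,
      ← H7.sum_principal_of_hasNPC_centralizer h.hM (k hu) (h.hy.npc' (h.syl.pi.elt hu) h1)]
    exact sum_congr rfl fun χ _ => by rw [χ.2.isClassFunction.eq_of_isConj e]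
  · rw [← H7.block_orth h.hM H7.isPBlock_principalBlock (H7.isPPart_self hp.out.ne_one (k hu))
      (H7.isPPart_self hp.out.ne_one (k hv)) e]
    exact sum_congr rfl fun χ _ => by rw [χ.2.apply_inv]

theorem reg (hg : ¬ p ∣ orderOf g) (hu : u ∈ P) (h1 : u ≠ 1) :
    ∑ χ : B0 M G, χ.1.1 g * conj (χ.1.1 u) = 0 := by
  rw [← sum_B0 fun χ => χ.1 g * conj (χ.1 u)]
  exact H7.weak_block_orth h.hM H7.isPBlock_principalBlock hg
    ((elt_pie (h.syl.pi.elt hu)).dvd_orderOf h1)

theorem mem_orbit {u v : P} : v ∈ orbit N(P) u ↔ IsConj (u : G) v :=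
  ⟨fun ⟨n, e⟩ => isConj_iff.2 ⟨n, congrArg Subtype.val e⟩, fun e =>
    let ⟨n, hn, e'⟩ := h.hy.aut.fus1 h.syl u.2 v.2 e; ⟨⟨n, hn⟩, Subtype.ext e'⟩⟩

theorem card_stab {u : P} (h1 : u ≠ 1) :
    #(stabilizer N(P) u) * #P = #(C(P) ⊔ P) * #(P ⊓ C[(u : G)]) := by
  have n1 : P ≤ N(C(P)) := norms_cent le_normalizer
  have e1 : stabilizer N(P) u = C[(u : G)].subgroupOf N(P) := by
    ext n
    rw [mem_stabilizer_iff, mem_subgroupOf, mem_cent1, Subtype.ext_iff, coe_smul,
      mul_inv_eq_iff_eq_mul]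
  have e2 : C[(u : G)] ⊓ N(P) = C(P) ⊔ (P ⊓ C[(u : G)]) := by
    rw [← sup_inf_modl n1 (cent_le_cent1 u.2)]
    exact le_antisymm (fun n hn => ⟨h.hy.mem_M h.syl hn.2 u.2 (by simpa using h1) hn.1, hn.1⟩)
      (le_inf inf_le_right (inf_le_left.trans (sup_le (cent_le_norm P) le_normalizer)))
  have e3 := card_sup_mul_inf (A := C(P)) (B := P ⊓ C[(u : G)]) (inf_le_left.trans n1)
  have e4 := card_sup_mul_inf n1
  rw [inf_left_comm, inf_eq_left.2 (cent_le_cent1 u.2), inf_comm P C(P)] at e3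
  rw [e1, card_subgroupOf, e2]
  refine Nat.eq_of_mul_eq_mul_right (card_pos (C(P) ⊓ P)) ?_
  rw [mul_right_comm, e3, mul_right_comm #(C(P) ⊔ P), e4]; ring

theorem stab_irr {χ : IrrCharacter P} (h1 : χ ≠ irrOne P) :
    stabilizer N(P) χ = (C(P) ⊔ P).subgroupOf N(P) := by
  ext n
  rw [mem_stabilizer_iff, mem_subgroupOf]
  refine ⟨fun e => by_contra fun k => h1 (Subtype.ext (H6.eq_one_of_fixed_aut
    (P.normalizerMonoidHom n⁻¹) (fun u hu => by_contra fun u1 => k ?_) χ.2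
    (congrArg Subtype.val e))), fun e => Subtype.ext (funext fun u => ?_)⟩
  · obtain ⟨c, hc⟩ := isConj_iff.1 hu
    have e1 : (c : G) * u * (c : G)⁻¹ = (n : G)⁻¹ * u * (n : G)⁻¹⁻¹ := congrArg Subtype.val hc
    have := h.hy.mem_M h.syl (mul_mem n.2 (le_normalizer c.2)) u.2 (by simpa using u1)
      (mem_cent1.2 (by
        calc _ = n * ((c : G) * u * (c : G)⁻¹) * c := by group
          _ = _ := by rw [e1]; group))
    simpa using mul_mem this (inv_mem (mem_sup_right c.2))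
  · obtain ⟨c, hc, s, hs, e'⟩ := (mem_sup_of_norm (norms_cent le_normalizer)).1 e
    rw [act_apply, ← χ.2.isClassFunction.conj_apply' ⟨s, hs⟩ u]
    refine congrArg χ.1 (Subtype.ext ?_)
    have := mem_cent.1 hc u u.2
    simp only [coe_smul, InvMemClass.coe_inv, e', MulMemClass.coe_mul, mul_inv_rev, inv_inv]
    rw [← mul_assoc, mul_assoc _ _ c, this]; group

theorem gram_inner {θ η : P → ℂ} (h0 : θ 1 = 0) :
    (#(C(P) ⊔ P) : ℂ) * ∑ χ : B0 M G, classInner (fun u : P => χ.1.1 u) θ *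
      conj (classInner (fun u : P => χ.1.1 u) η) =
    ∑ n : N(P), classInner (fun u => η (n⁻¹ • u)) θ := by
  have hP := card_ne_zero_complex P
  rw [← Equiv.sum_comp (Equiv.inv N(P))]
  simp only [classInner_def, map_mul, map_sum, Complex.conj_conj, map_inv₀, map_natCast,
    Equiv.inv_apply, inv_inv, mul_sum, sum_mul]
  rw [sum_comm, sum_comm (s := (univ : Finset N(P)))]
  conv_lhs => enter [2, v]; rw [sum_comm]
  rw [sum_comm]
  refine sum_congr rfl fun u _ => ?_
  by_cases h1 : u = 1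
  · simp [h1, h0]
  have e1 := H6.sum_smul_eq (G := N(P)) u η
  have e2 : (#(stabilizer N(P) u) : ℂ) * #P = #(C(P) ⊔ P) * #(P ⊓ C[(u : G)]) := by
    exact_mod_cast h.card_stab h1
  rw [← mul_sum, ← sum_mul, e1, sum_filter, mul_sum, sum_mul, mul_sum]
  refine sum_congr rfl fun v _ => ?_
  have e3 := h.gram u.2 (by simpa using h1) v.2
  simp only [← h.mem_orbit] at e3
  rw [sum_congr rfl (g := fun χ : B0 M G => (#(C(P) ⊔ P) * (#P : ℂ)⁻¹ * (#P : ℂ)⁻¹ * conj (θ u) *
    η v) * (χ.1.1 u * conj (χ.1.1 v))) fun χ _ => by ring, ← mul_sum, e3]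
  split_ifs
  · field_simp
    linear_combination (- conj (θ u) * η v) * e2
  · simp

theorem sum_inner {θ : P → ℂ} (h0 : θ 1 = 0) (F : B0 M G → ℂ) (w : P → ℂ)
    (hw : ∀ u : P, u ≠ 1 → ∑ χ : B0 M G, χ.1.1 u * F χ = w u) :
    ∑ χ : B0 M G, classInner (fun u : P => χ.1.1 u) θ * F χ = classInner w θ := by
  simp only [classInner_def, mul_sum, sum_mul]
  rw [sum_comm]
  refine sum_congr rfl fun u _ => ?_
  by_cases h1 : u = 1
  · simp [h1, h0]
  rw [← hw u h1, sum_mul, mul_sum]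
  exact sum_congr rfl fun χ _ => by ring

end Cx

/-- orbits of irreducible characters of `P` nontrivial on `X` -/
def Lo (P X : Subgroup G) := {l : orbitRel.Quotient N(P) (IrrCharacter P) //
  ¬ X.subgroupOf P ≤ charKer l.out.1}

noncomputable instance : Fintype (Lo P X) := by unfold Lo; exact Fintype.ofFinite _

noncomputable def Lo.ch (l : Lo P X) : IrrCharacter P := l.1.out

noncomputable def Lo.d (l : Lo P X) : ℕ := charDegree l.ch.1

theorem Lo.ch_one (l : Lo P X) : l.ch.1 1 = l.d := H7.irr_apply_one _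

theorem Lo.ne (l : Lo P X) : l.ch ≠ irrOne P := fun e => l.2 (by
  rw [show l.1.out = irrOne P from e]; exact fun _ _ _ => rfl)

theorem Lo.exists (hX : N(P) ≤ N(X)) {χ : IrrCharacter P} (h : ¬ X.subgroupOf P ≤ charKer χ.1) :
    ∃ (l : Lo P X) (n : N(P)), n • l.ch = χ := by
  obtain ⟨n, e⟩ : χ ∈ orbit N(P) (Quotient.out (Quotient.mk (orbitRel N(P) _) χ)) :=
    orbitRel_apply.1 ((orbitRel N(P) _).symm (Quotient.mk_out (s := orbitRel N(P) _) χ))
  exact ⟨⟨_, fun k => h (e ▸ ker_act hX n k)⟩, n, e⟩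

theorem Lo.mem_orbit {l k : Lo P X} : l.ch ∈ orbit N(P) k.ch ↔ l = k := by
  exact orbitRel_apply.symm.trans (Quotient.out_equiv_out.trans Subtype.ext_iff.symm)

noncomputable def th (χ : IrrCharacter P) : P → ℂ := χ.1 - χ.1 1 • fun _ => 1

theorem th_one (χ : IrrCharacter P) : th χ 1 = 0 := by simp [th]

theorem inner_th {χ ψ : IrrCharacter P} (h1 : χ ≠ irrOne P) (h2 : ψ ≠ irrOne P) :
    classInner (th χ) (th ψ) = χ.1 1 * ψ.1 1 + if χ = ψ then 1 else 0 := by
  have e1 := χ.2.classInner_one fun e => h1 (Subtype.ext e)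
  have e2 := (classInner_eq_zero_comm _ _).1 (ψ.2.classInner_one fun e => h2 (Subtype.ext e))
  simp only [th, classInner_sub_left, classInner_sub_right, classInner_smul_left,
    classInner_smul_right, e1, e2, classInner_irr, classInner_one_one, H7.conj_irr_one]
  ring

/-- the index of `P C(P)` in `N(P)` -/
noncomputable abbrev ee (P : Subgroup G) : ℕ := (C(P) ⊔ P).relIndex N(P)

theorem M_le (P : Subgroup G) : C(P) ⊔ P ≤ N(P) := sup_le (cent_le_norm P) le_normalizer

structure Cy (p : ℕ) (M : Ideal AlgInt) (P X : Subgroup G) : Prop extends Cx p M P where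
  le : X ≤ P
  cen : P ≤ C(X)
  nrm : N(P) ≤ N(X)
  ne : X ≠ ⊥
  exp : ∀ x ∈ X, x ^ p = 1

namespace Cy

variable (h : Cy p M P X)
include h

theorem normal : (X.subgroupOf P).Normal := NormalIn.subgroupOf ⟨h.le, norms_of_cents h.cen⟩

theorem sum_d : ee P * ∑ l : Lo P X, l.d ^ 2 + X.relIndex P = #P := by
  have := h.normal
  have e1 := sum_irr_not_le_charKer (K := X.subgroupOf P) (one_mem _)
  rw [regChar_one, sum_filter, ← sum_fiberwise _ (Quotient.mk (orbitRel N(P) _))] at e1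
  have e2 : ∀ q : orbitRel.Quotient N(P) (IrrCharacter P),
      ∑ χ with Quotient.mk (orbitRel N(P) _) χ = q,
      (if ¬ X.subgroupOf P ≤ charKer χ.1 then χ.1 1 * χ.1 1 else 0) =
      if ¬ X.subgroupOf P ≤ charKer q.out.1 then ee P * (q.out.1 1 * q.out.1 1) else 0 := by
    intro q
    have k : ∀ χ, Quotient.mk (orbitRel N(P) _) χ = q ↔ χ ∈ orbit N(P) q.out := fun χ => by
      rw [Quotient.mk_eq_iff_out, ← orbitRel_apply]
    simp only [k]
    split_ifs with e
    · refine sum_eq_zero fun χ hχ => ?_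
      obtain ⟨n, rfl⟩ := (mem_filter.1 hχ).2
      exact if_neg (not_not.2 (ker_act h.nrm n e))
    have e3 := H6.sum_smul_eq (G := N(P)) q.out fun χ =>
      if ¬ X.subgroupOf P ≤ charKer χ.1 then χ.1 1 * χ.1 1 else 0
    rw [sum_congr rfl fun n _ => by
      rw [if_pos fun k => e (by simpa using ker_act h.nrm n⁻¹ k), act_one],
      h.stab_irr (χ := q.out) (Lo.ne ⟨q, e⟩), sum_const, card_univ, ← Nat.card_eq_fintype_card,
      card_subgroupOf' (M_le P), ← card_mul_relIndex (M_le P), nsmul_eq_mul] at e3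
    refine mul_left_cancel₀ (card_ne_zero_complex ↥(C(P) ⊔ P)) ?_
    rw [← e3]; push_cast; ring
  rw [sum_congr rfl fun q _ => e2 q, ← sum_filter, sum_subtype (p := fun q : orbitRel.Quotient N(P)
    (IrrCharacter P) => ¬ X.subgroupOf P ≤ charKer q.out.1) _ (by simp)] at e1
  have e4 : (ee P : ℂ) * ∑ l : Lo P X, (l.d : ℂ) ^ 2 = #P - X.relIndex P := by
    rw [mul_sum]
    exact (sum_congr rfl fun l _ => by rw [sq, ← l.ch_one]; rfl).trans e1
  have : (ee P : ℂ) * ∑ l : Lo P X, (l.d : ℂ) ^ 2 + X.relIndex P = #P := by rw [e4]; ring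
  exact_mod_cast this

theorem d_pow (l : Lo P X) : ∃ k, l.d = p ^ k :=
  PiN.exists_pow (h.syl.pi.dvd (l.ch.2.dvd_card l.ch_one)) (H7.charDegree_ne_zero _)

theorem d_le (l : Lo P X) : l.d ^ 2 ≤ X.relIndex P := by
  have := l.ch.2.apply_one_sq_le_index (X.subgroupOf P) (le_trans (fun x hx => mem_center_iff.2
    fun y => Subtype.ext (mem_cent.1 (h.cen y.2) x hx).symm) l.ch.2.center_le_charCenter)
  rw [l.ch_one] at this
  exact_mod_cast this

theorem d_dvd (l : Lo P X) : l.d ^ 2 ∣ ∑ k : Lo P X, k.d ^ 2 := by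
  obtain ⟨k, e⟩ := h.d_pow l
  obtain ⟨j, e'⟩ := PiN.exists_pow (h.syl.pi.relIndex X) (relIndex_ne_zero' X P)
  have h1 := h.d_le l
  rw [e, e', ← pow_mul] at h1
  have h2 : l.d ^ 2 ∣ X.relIndex P := by
    rw [e, e', ← pow_mul]
    exact pow_dvd_pow p ((Nat.pow_le_pow_iff_right hp.out.one_lt).1 h1)
  have h3 : l.d ^ 2 ∣ ee P * ∑ k : Lo P X, k.d ^ 2 := (Nat.dvd_add_left h2).1 (by
    rw [h.sum_d]; exact h2.trans (Dvd.intro_left _ (card_mul_relIndex h.le)))
  refine Nat.Coprime.dvd_of_dvd_mul_left ?_ h3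
  rw [e, ← pow_mul]
  exact ((Nat.Prime.coprime_iff_not_dvd hp.out).2 ((h.syl.of_le le_normalizer le_top).not_dvd_relIndex
    hp.out le_sup_right)).pow_left _

theorem d_step {l0 l : Lo P X} (h1 : l0.d < l.d) : l.d ^ 2 ≤ ∑ k : Lo P X with k.d < l.d, k.d ^ 2 := by
  refine Nat.le_of_dvd (sum_pos' (fun _ _ => Nat.zero_le _) ⟨l0, by simpa using h1,
    pow_pos (H7.charDegree_pos _) 2⟩) ?_
  have h2 := h.d_dvd l
  rw [← sum_filter_add_sum_filter_not _ fun k : Lo P X => k.d < l.d] at h2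
  refine (Nat.dvd_add_left (dvd_sum fun k hk => pow_dvd_pow_of_dvd ?_ 2)).1 h2
  obtain ⟨i, e⟩ := h.d_pow l
  obtain ⟨j, e'⟩ := h.d_pow k
  have := not_lt.1 (mem_filter.1 hk).2
  rw [e, e'] at this ⊢
  exact pow_dvd_pow p ((Nat.pow_le_pow_iff_right hp.out.one_lt).1 this)

theorem gram_th (l k : Lo P X) : ∑ χ : B0 M G, classInner (fun u : P => χ.1.1 u) (th l.ch) *
    conj (classInner (fun u : P => χ.1.1 u) (th k.ch)) =
    ee P * l.d * k.d + if l = k then 1 else 0 := by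
  refine mul_left_cancel₀ (card_ne_zero_complex ↥(C(P) ⊔ P)) ?_
  have e1 := H6.sum_smul_eq (G := N(P)) k.ch fun χ => if χ = l.ch then 1 else 0
  rw [h.gram_inner (th_one _), sum_congr rfl (g := fun n : N(P) => (k.d : ℂ) * l.d +
    if n • k.ch = l.ch then 1 else 0) fun n _ => by
      rw [← k.ch_one, ← l.ch_one, ← act_one n, ← inner_th (fun e => k.ne (by
        rw [← inv_smul_smul n k.ch, e]; rfl)) l.ne]
      congr 1; funext u; simp [th, act_apply],
    sum_add_distrib, e1, h.stab_irr k.ne, card_subgroupOf' (M_le P), sum_const, card_univ,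
    ← Nat.card_eq_fintype_card, ← card_mul_relIndex (M_le P), sum_ite_eq']
  simp only [mem_filter, mem_univ, true_and, Lo.mem_orbit, nsmul_eq_mul]
  push_cast; ring

theorem coh (h2 : p ≠ 2) [Nontrivial (Lo P X)] : ∃ (l0 : Lo P X) (δ : ℤ) (ζ : Lo P X → B0 M G)
    (w : B0 M G → ℤ) (b : Lo P X → ℕ), (δ = 1 ∨ δ = -1) ∧ Function.Injective ζ ∧
    (∀ l, l.d = b l * l0.d) ∧ ∀ l χ, classInner (fun u : P => χ.1.1 u) (th l.ch) =
      (b l * w χ + if χ = ζ l then δ else 0 : ℤ) := by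
  have k : ∀ (l : Lo P X) (χ : B0 M G), ∃ m : ℤ, classInner (fun u : P => χ.1.1 u) (th l.ch) = m :=
    fun l χ => (χ.1.2.isCharacter.restrict P).isGeneralizedCharacter.exists_classInner_int (by
      rw [th, l.ch_one]
      exact l.ch.2.isGeneralizedCharacter.sub (isGeneralizedCharacter_one.natCast_smul _))
  choose c hc using k
  obtain ⟨l0, -, m0⟩ := exists_min_image univ (Lo.d (P := P) (X := X)) univ_nonempty
  have d0 : 0 < l0.d := H7.charDegree_pos _
  have k2 : ∀ l : Lo P X, ∃ j, l.d = p ^ j * l0.d := fun l => by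
    obtain ⟨i, e⟩ := h.d_pow l
    obtain ⟨j, e'⟩ := h.d_pow l0
    have := m0 l (mem_univ _)
    rw [e, e'] at this ⊢
    exact ⟨i - j, by rw [← pow_add,
      Nat.sub_add_cancel ((Nat.pow_le_pow_iff_right hp.out.one_lt).1 this)]⟩
  choose j hj using k2
  have lt : ∀ k l, p ^ j k < p ^ j l ↔ k.d < l.d := fun k l => by
    rw [hj k, hj l, Nat.mul_lt_mul_right d0]
  have b0 : p ^ j l0 = 1 := (Nat.mul_eq_right d0.ne').1 (hj l0).symm
  obtain ⟨l1, n1, m1⟩ := exists_min_image (univ.erase l0) (Lo.d (P := P) (X := X))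
    (let ⟨l, e⟩ := exists_ne l0; ⟨l, by simpa using e⟩)
  have b1 : p ^ j l1 = 1 := by
    by_contra e
    have e1 : l0.d < l1.d := (lt _ _).1 (b0 ▸ (Nat.one_le_pow _ _ hp.out.pos).lt_of_ne' e)
    have e2 := (h.d_step e1).trans (sum_le_sum_of_subset (t := {l0}) fun k hk => by
      by_contra e3
      exact (m1 k (by simpa using e3)).not_gt (mem_filter.1 hk).2)
    rw [sum_singleton] at e2
    exact (Nat.pow_lt_pow_left e1 two_ne_zero).not_ge e2
  obtain ⟨δ, ζ, w, h3, h4, h5⟩ := BF.coh (c := c) (E := ee P * l0.d ^ 2) (b := fun l => p ^ j l)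
    (f := fun χ => charDegree χ.1.1) (fun l k => by
      have := h.gram_th l k
      simp only [hc, map_intCast, hj l, hj k] at this
      have e : ((∑ i, c l i * c k i : ℤ) : ℂ) = ((ee P * l0.d ^ 2 * (p ^ j l : ℕ) * (p ^ j k : ℕ) +
        if l = k then 1 else 0 : ℤ) : ℂ) := by push_cast at this ⊢; rw [this]; ring
      exact_mod_cast e)
    (fun χ => by exact_mod_cast H7.charDegree_pos _) (fun l => by
      have := h.sum_inner (th_one l.ch) (fun χ => χ.1.1 1) 0 fun u hu => by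
        simpa [mul_comm, H7.conj_irr_one] using congrArg conj (h.reg (g := 1) (by simpa using hp.out.ne_one) u.2
          (by simpa using hu))
      simp only [hc, H7.irr_apply_one, classInner_zero_left] at this
      exact_mod_cast this)
    (mem_erase.1 n1).1.symm b0 b1 (fun l => Nat.one_le_pow _ _ hp.out.pos) fun l hl => by
      have e1 := h.d_step ((lt _ _).1 (b0 ▸ hl))
      simp only [← lt] at e1
      rw [hj l, sum_congr rfl fun k _ => by rw [hj k, mul_pow], ← sum_mul, mul_pow] at e1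
      have e2 := Nat.le_of_mul_le_mul_right e1 (pow_pos d0 2)
      have e3 : 3 ≤ p ^ j l := ((Nat.succ_le_of_lt (hp.out.two_le.lt_of_ne' h2))).trans
        (Nat.le_self_pow (fun e => by simp [e] at hl) p)
      nlinarith
  exact ⟨l0, δ, ζ, w, _, h3, h4, hj, fun l χ => by rw [hc, h5]⟩

end Cy

end H5.BF
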