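import Cfsg.Agent.H5.BF3
import Mathlib.GroupTheory.FixedPointFree

/-! # Brauer-Fong, odd primes -/

set_option autoImplicit false
set_option linter.unusedSectionVars false

namespace H5.BF

open H19 Subgroup _root_.Cfsg H18 Finset MulAction H5
open scoped ComplexConjugate Classical

variable {G : Type*} [Group G] [Fintype G] {p : ℕ} [hp : Fact p.Prime] {M : Ideal AlgInt}
  {P X Y : Subgroup G} {a b g n t u v w x y : G}

theorem bound {n t A N : ℤ} (h1 : 3 ≤ n) (h2 : n ≤ t) (h3 : A ^ 2 < n) (h4 : A ^ 2 < N)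
    (h5 : N = 3 ∨ 5 ≤ N) : N * A ≤ t * (N - 2) := by
  rcases h5 with rfl | h5
  · have : A ≤ 1 := by nlinarith
    omega
  · have : 5 * A ≤ 3 * t := by nlinarith
    nlinarith

theorem Hy.ab (h : Hy p G) (h2 : p ≠ 2) (hP : PG p P) (hx : x ∈ P) (h1 : x ≠ 1) (hn : n ∈ N(P))
    (e : n * x * n⁻¹ = x⁻¹) : Ab P := by
  obtain ⟨k, m, ⟨j, rfl⟩, e1⟩ := Nat.exists_eq_two_pow_mul_odd (orderOf_pos n).ne'
  have sq : ∀ {s : G}, s * x * s⁻¹ = x⁻¹ → s ^ 2 ∈ C[x] := fun {s} k => mem_cent1.2 (by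
    rw [pow_two]
    calc _ = s * (s * x * s⁻¹)⁻¹⁻¹ * s := by group
      _ = (s * x * s⁻¹)⁻¹ * (s * s) := by nth_rw 1 [k]; group
      _ = _ := by rw [k]; group)
  obtain ⟨t, ht⟩ : ∃ t, t = n ^ (2 * j + 1) := ⟨_, rfl⟩
  have t1 : t * x * t⁻¹ = x⁻¹ := by
    have := mem_cent1.1 (inv_mem (pow_mem (sq e) j) : _ ∈ C[x])
    rw [ht, pow_succ', pow_mul]
    calc _ = n * (n ^ 2) ^ j * (x * ((n ^ 2) ^ j)⁻¹) * n⁻¹ := by group
      _ = _ := by rw [← this, ← e]; group
  have t2 : PiE {p}ᶜ t := ((PiN.prime_pow Nat.prime_two k).sing_ne h2.symm).dvd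
    (orderOf_dvd_of_pow_eq_one (by rw [ht, ← pow_mul, mul_comm, ← e1, pow_orderOf_eq_one]))
  have t3 : t ∈ N(P) := ht ▸ pow_mem hn _
  have t4 := h.cent hP (pow_mem t3 2) (t2.e_pow 2) hx h1 (sq t1)
  have t5 : t ∉ C(P) := fun k => by
    rw [← mem_cent.1 k x hx, mul_inv_cancel_right, eq_inv_iff_mul_eq_one, ← pow_two] at t1
    exact h1 ((hP.elt hx).e_eq_one (((PiN.prime_pow Nat.prime_two 1).sing_ne h2.symm).dvd
      (orderOf_dvd_of_pow_eq_one t1)))
  refine ⟨⟨fun a b => MonoidHom.FixedPointFree.commute_all_of_involutive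
    (φ := P.normalizerMonoidHom ⟨t, t3⟩) (fun u hu => by_contra fun u1 => t5 ?_)
    (fun u => Subtype.ext ?_) a b⟩⟩
  · exact h.cent hP t3 t2 u.2 (by simpa using u1)
      (mem_cent1.2 (mul_inv_eq_iff_eq_mul.1 (congrArg Subtype.val hu)))
  · have := mem_cent.1 t4 u u.2
    calc _ = t * (t * u * t⁻¹) * t⁻¹ := rfl
      _ = t ^ 2 * u * (t ^ 2)⁻¹ := by rw [pow_two]; group
      _ = _ := by rw [← this]; group

namespace Cx

def one (h : Cx p M P) : B0 M G := ⟨irrOne G, H7.irrOne_mem_principalBlock h.hM⟩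

variable (h : Cx p M P)
include h

theorem one_apply (g : G) : h.one.1.1 g = 1 := rfl

theorem val_ne [IsSimpleGroup G] {χ : B0 M G} (h0 : χ ≠ h.one) (h1 : x ≠ 1) :
    χ.1.1 x ≠ χ.1.1 1 := fun e => h1 (by
  have := χ.1.2.mem_charKer_iff.2 e
  rwa [χ.1.2.charKer_eq_bot_of_simple fun k => h0 (Subtype.ext (Subtype.ext k)), mem_bot] at this)

theorem val_of (e : ∀ u, IsPPart p w u → IsConj u t) (h1 : t ≠ 1) (χ : B0 M G) :
    χ.1.1 w = χ.1.1 t := by
  obtain ⟨u, hu⟩ := H7.exists_isPPart (p := p) w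
  exact h.val χ hu (fun k => h1 (isConj_one_right.1 (k ▸ e u hu))) (e u hu)

omit h in
theorem reg_of (e : ∀ u, IsPPart p w u → IsConj u 1) : ¬ p ∣ orderOf w := by
  obtain ⟨u, hu⟩ := H7.exists_isPPart (p := p) w
  exact (H7.isPPart_eq_one_iff hu).1 (isConj_one_left.1 (e u hu))

end Cx

namespace Cy

variable (h : Cy p M P X)
include h

theorem ab : Ab X := comm_iff_le_cent.2 (h.le.trans h.cen)

theorem mem_X (hx : x ∈ X) (ha : a ∈ P) (e : IsConj x a) : a ∈ X := by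
  obtain ⟨n, hn, rfl⟩ := h.hy.aut.fus1 h.syl (h.le hx) ha e
  exact conj_mem_of_norm (h.nrm hn) hx

theorem pair (hx : x ∈ X) (x1 : x ≠ 1) (hy : y ∈ X) (y1 : y ≠ 1) (g : G) :
    ∃ a ∈ X, ∃ b ∈ X, IsConj y a ∧ IsConj x b ∧
      (∀ u, IsPPart p (g * y * g⁻¹ * x) u → IsConj u (a * b)) ∧
      ∀ u, IsPPart p (g * y * g⁻¹ * x⁻¹) u → IsConj u (a * b⁻¹) := by
  obtain ⟨a, ha, b, hb, e1, e2, e3⟩ := h.hy.pair (x := g * y * g⁻¹) h.syl
    (by rw [H19.orderOf_conj', orderOf_eq_prime (h.exp y hy) y1]) (orderOf_eq_prime (h.exp x hx) x1)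
  have e4 : IsConj y a := (isConj_iff.2 ⟨g, rfl⟩).trans e1
  exact ⟨a, h.mem_X hy ha e4, b, h.mem_X hx hb e2, e4, e2, e3⟩

theorem card_class (hx : x ∈ X) (x1 : x ≠ 1) :
    (univ.filter fun v : P => IsConj x v).card = ee P := by
  have e1 := H6.sum_smul_eq (G := N(P)) (⟨x, h.le hx⟩ : P) fun _ => 1
  have e2 := h.card_stab (u := ⟨x, h.le hx⟩) (by simpa using x1)
  rw [inf_eq_left.2 (le_cent1_iff.2 (cents_symm h.cen hx)), mul_left_inj' (card_ne_zero P)] at e2
  simp only [h.mem_orbit, e2, sum_const, card_univ, nsmul_eq_mul, mul_one,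
    ← Nat.card_eq_fintype_card, ← card_mul_relIndex (M_le P)] at e1
  exact (mul_right_inj' (card_ne_zero _)).1 (by exact_mod_cast e1.symm)

theorem card_X : ((univ.filter fun v : P => (v : G) ∈ X).erase 1).card + 1 = #X := by
  rw [card_erase_add_one (by simp), ← card_subgroupOf' h.le, ← Fintype.card_subtype,
    ← Nat.card_eq_fintype_card]
  rfl

theorem class_sub (hx : x ∈ X) (x1 : x ≠ 1) : (univ.filter fun v : P => IsConj x v) ⊆
    (univ.filter fun v : P => (v : G) ∈ X).erase 1 := fun v hv => by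
  have := (mem_filter.1 hv).2
  exact mem_erase.2 ⟨fun e => x1 (isConj_one_left.1 (by simpa [e] using this)),
    by simpa using h.mem_X hx v.2 this⟩

theorem coh' (h2 : p ≠ 2) [Nontrivial (Lo P X)] : ∃ (l0 : Lo P X) (δ : ℤ) (ζ : Lo P X → B0 M G)
    (w : B0 M G → ℤ) (b : Lo P X → ℕ), δ ≠ 0 ∧ Function.Injective ζ ∧ (∀ l, l.d = b l * l0.d) ∧
    (∀ l χ, classInner (fun u : P => χ.1.1 u) (th l.ch) =
      (b l * w χ + if χ = ζ l then δ else 0 : ℤ)) ∧ (∀ l, ζ l ≠ h.one) ∧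
    (∀ l, (ζ l).1.1 1 = b l * (ζ l0).1.1 1) ∧ ∀ χ, χ ∉ Set.range ζ → ∀ x ∈ X, x ≠ 1 →
      χ.1.1 x = χ.1.1 1 - classInner (fun u : P => χ.1.1 u) l0.ch.1 / l0.d * #P := by
  obtain ⟨l0, δ, ζ, w, b, h3, h4, h5, h6⟩ := h.coh h2
  have d0 : (l0.d : ℂ) ≠ 0 := Nat.cast_ne_zero.2 (H7.charDegree_ne_zero _)
  have b0 : b l0 = 1 := (Nat.mul_eq_right (H7.charDegree_ne_zero _)).1 (h5 l0).symm
  have δ0 : δ ≠ 0 := by omega
  refine ⟨l0, δ, ζ, w, b, δ0, h4, h5, h6, fun l e => ?_, fun l => ?_, fun χ hχ x hx x1 => ?_⟩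
  · have k : ∀ k : Lo P X, classInner (fun u : P => h.one.1.1 u) (th k.ch) = - (b k * l0.d) :=
      fun k => by
        simp only [h.one_apply, th, classInner_sub_right, classInner_smul_right, classInner_one_one,
          (classInner_eq_zero_comm _ _).1 (k.ch.2.classInner_one fun e => k.ne (Subtype.ext e)),
          k.ch_one, h5 k]
        simp
    obtain ⟨l', e'⟩ := exists_ne l
    have e1 := (k l').symm.trans (h6 l' _)
    have e2 := (k l).symm.trans (h6 l _)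
    rw [if_neg fun j => e' (h4 (j.symm.trans e.symm))] at e1
    rw [if_pos e.symm] at e2
    have b1 : (b l' : ℂ) ≠ 0 := Nat.cast_ne_zero.2 fun j =>
      H7.charDegree_ne_zero _ ((h5 l').trans (by rw [j, zero_mul]))
    push_cast at e1 e2
    have e3 : (w h.one : ℂ) = - l0.d := mul_left_cancel₀ b1 (by linear_combination - e1)
    exact δ0 (Int.cast_injective (α := ℂ) (by rw [e3] at e2; linear_combination - e2))
  · have k : ∀ k : Lo P X, (b k : ℂ) * ∑ χ : B0 M G, w χ * χ.1.1 1 + δ * (ζ k).1.1 1 = 0 :=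
      fun k => by
        have := h.sum_inner (th_one k.ch) (fun χ => χ.1.1 1) 0 fun u hu => by
          simpa [mul_comm, H7.conj_irr_one] using congrArg conj
            (h.reg (g := 1) (by simpa using hp.out.ne_one) u.2 (by simpa using hu))
        simpa [h6, classInner_zero_left, add_mul, sum_add_distrib, mul_sum, mul_assoc] using this
    have e1 := k l0
    rw [b0] at e1
    exact mul_left_cancel₀ (Int.cast_ne_zero.2 δ0 : (δ : ℂ) ≠ 0)
      (by linear_combination k l - b l * e1)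
  · have := h.normal
    refine (χ.1.2.isClassFunction.restrict P).apply_eq_of_proportional (K := X.subgroupOf P) _
      (fun μ hμ k => ?_) (a := ⟨x, h.le hx⟩) hx (by simpa using x1)
    obtain ⟨l, n, e⟩ := Lo.exists h.nrm (χ := ⟨μ, hμ⟩) k
    obtain rfl : (n • l.ch).1 = μ := congrArg Subtype.val e
    have e1 := h6 l χ
    have e2 := h6 l0 χ
    rw [if_neg fun j => hχ ⟨_, j.symm⟩] at e1 e2
    simp only [th, classInner_sub_right, classInner_smul_right, Lo.ch_one, map_natCast, b0,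
      h5 l] at e1 e2
    rw [inner_act χ.1.2.isClassFunction, act_one, l.ch_one, h5 l]
    push_cast at e1 e2 ⊢
    field_simp
    linear_combination e1 - b l * e2

variable [IsSimpleGroup G]

theorem const (hx : x ∈ X) (x1 : x ≠ 1) (hy : y ∈ X) (y1 : y ≠ 1) (e : ¬ IsConj y x⁻¹)
    {χ : B0 M G} (h0 : χ ≠ h.one) {c : ℂ} (hc : ∀ u ∈ X, u ≠ 1 → χ.1.1 u = c) : c = 0 := by
  have e1 := H6.sum_conj_mul χ.1.2 y x
  rw [sum_congr rfl (g := fun _ => c) fun g _ => by
    obtain ⟨a, ha, b, hb, e1, e2, e3, -⟩ := h.pair hx x1 hy y1 g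
    have k : a * b ≠ 1 := fun k => e (e1.trans (by
      rw [eq_inv_of_mul_eq_one_left k]
      obtain ⟨s, rfl⟩ := isConj_iff.1 e2.symm
      exact isConj_iff.2 ⟨s, by group⟩))
    rw [h.val_of e3 k, hc _ (mul_mem ha hb) k], hc x hx x1, hc y hy y1, sum_const, card_univ,
    ← Nat.card_eq_fintype_card, nsmul_eq_mul, eq_div_iff χ.1.2.apply_one_ne_zero] at e1
  by_contra k
  refine h.val_ne h0 x1 ((hc x hx x1).trans (mul_left_cancel₀
    (mul_ne_zero (card_ne_zero_complex G) k) e1.symm))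

theorem caseB (h2 : p ≠ 2) (hG : ¬ IsMulCommutative G) (hx : x ∈ X) (x1 : x ≠ 1) (hy : y ∈ X)
    (y1 : y ≠ 1) (e : ¬ IsConj y x) : False := by
  have e1 : ee P + 1 < #X := by
    rw [← h.card_class hy y1, ← h.card_X]
    exact Nat.succ_lt_succ (card_lt_card ⟨h.class_sub hy y1, fun k =>
      e (mem_filter.1 (k (x := ⟨x, h.le hx⟩) (by simp [hx, x1]))).2⟩)
  have : Nontrivial (Lo P X) := not_subsingleton_iff_nontrivial.1 fun _ => by
    have e2 : ∑ l : Lo P X, l.d ^ 2 ≤ X.relIndex P := by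
      rcases isEmpty_or_nonempty (Lo P X) with _ | ⟨⟨l⟩⟩
      · simp
      · rw [Fintype.sum_subsingleton _ l]; exact h.d_le l
    have e3 := h.sum_d
    rw [← card_mul_relIndex h.le] at e3
    have := relIndex_pos X P
    nlinarith [Nat.mul_le_mul_left (ee P) e2]
  obtain ⟨l0, δ, ζ, w, b, -, h4, -, -, h7, h8, h9⟩ := h.coh' h2
  have e2 := h.reg (g := 1) (by simpa using hp.out.ne_one) (h.le hx) x1
  rw [← add_sum_erase _ _ (mem_univ h.one), ← sum_subset (s₁ := univ.image ζ) (fun χ hχ => by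
    obtain ⟨l, -, rfl⟩ := mem_image.1 hχ
    simpa using h7 l) (fun χ hχ k => by
      have k1 := h9 χ (by simpa using k)
      rw [k1 x hx x1, h.const (inv_mem hx) (inv_ne_one.2 x1) hy y1 (by rwa [inv_inv])
        (mem_erase.1 hχ).1 k1, map_zero, mul_zero]), sum_image h4.injOn] at e2
  rw [sum_congr rfl fun l _ => by rw [h8 l]] at e2
  simp only [h.one_apply, map_one, mul_one, ← H7.irr_apply_inv] at e2
  have e3 : charDegree (ζ l0).1.1 ∣ 1 := nat_dvd_of_isIntegral_div (H7.charDegree_ne_zero _) (by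
    have : ((1 : ℕ) : ℂ) / charDegree (ζ l0).1.1 = - ∑ l, b l * (ζ l).1.1 x⁻¹ := by
      rw [← H7.irr_apply_one, div_eq_iff (ζ l0).1.2.apply_one_ne_zero, neg_mul, sum_mul,
        sum_congr rfl (g := fun l => b l * (ζ l0).1.1 1 * (ζ l).1.1 x⁻¹) fun l _ => by ring]
      linear_combination e2
    rw [this]
    exact (IsIntegral.sum _ fun l _ => (isIntegral_natCast _).mul
      ((ζ l).1.2.isCharacter.isIntegral_apply _)).neg)
  have e4 := (ζ l0).1.2.apply_one_eq_one_iff.1 (by rw [H7.irr_apply_one, Nat.dvd_one.1 e3]; simp)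
  rw [(ζ l0).1.2.charKer_eq_bot_of_simple fun k => h7 l0 (Subtype.ext (Subtype.ext k)),
    le_bot_iff, commutator_eq_bot_iff_center_eq_top] at e4
  exact hG ⟨⟨fun a b => mem_center_iff.1 (e4 ▸ mem_top b) a⟩⟩

theorem count {A : B0 M G → ℤ} (h2 : p ≠ 2) (hx : x ∈ X) (x1 : x ≠ 1)
    (hA : ∀ χ, ∀ u ∈ X, u ≠ 1 → χ.1.1 u = A χ) (h1 : ∑ χ, A χ ^ 2 = #P) :
    (#P : ℝ) ≤ 2 * ∑ χ, (A χ : ℝ) ^ 3 / charDegree χ.1.1 := by
  let Φ : G → ℂ := fun g => ∑ χ : B0 M G, χ.1.1 g * A χ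
  have k1 : ∀ w, ∀ t ∈ X, (∀ u, IsPPart p w u → IsConj u t) →
      (Φ w).re = if t = 1 then 0 else #P := fun w t ht e => by
    split_ifs with t1
    · have := h.reg (Cx.reg_of (t1 ▸ e)) (h.le hx) x1
      simp only [hA _ x hx x1, map_intCast] at this
      rw [show Φ w = 0 from this]; simp
    · have : Φ w = ((∑ χ, A χ ^ 2 : ℤ) : ℂ) := by
        push_cast
        exact sum_congr rfl fun χ _ => by rw [h.val_of e t1, hA χ t ht t1, sq]
      rw [this, h1]; simp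
  have k2 : ∀ y ∈ X, y ≠ 1 → ∑ g, (Φ (g * x * g⁻¹ * y)).re =
      Nat.card G * ∑ χ, (A χ : ℝ) ^ 3 / charDegree χ.1.1 := fun y hy y1 => by
    rw [← Complex.re_sum, sum_comm, ← Complex.ofReal_re (_ * _)]
    congr 1
    push_cast
    rw [mul_sum]
    refine sum_congr rfl fun χ _ => ?_
    rw [← sum_mul, H6.sum_conj_mul χ.1.2, hA χ x hx x1, hA χ y hy y1, H7.irr_apply_one]; ring
  have k3 : ∑ _g : G, (#P : ℝ) ≤ ∑ g, ((Φ (g * x * g⁻¹ * x)).re + (Φ (g * x * g⁻¹ * x⁻¹)).re) := by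
    refine sum_le_sum fun g _ => ?_
    obtain ⟨a, ha, b, hb, -, e2, e3, e4⟩ := h.pair hx x1 hx x1 g
    rw [k1 _ _ (mul_mem ha hb) e3, k1 _ _ (mul_mem ha (inv_mem hb)) e4]
    split_ifs with j1 j2
    · rw [mul_inv_eq_one.1 j2, ← pow_two] at j1
      have b1 : b ≠ 1 := fun k => x1 (isConj_one_left.1 (k ▸ e2))
      exact (h2 ((Nat.prime_dvd_prime_iff_eq hp.out Nat.prime_two).1
        (orderOf_eq_prime (h.exp b hb) b1 ▸ orderOf_dvd_of_pow_eq_one j1))).elim
    all_goals simp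
  rw [sum_add_distrib, k2 x hx x1, k2 _ (inv_mem hx) (inv_ne_one.2 x1), sum_const, card_univ,
    ← Nat.card_eq_fintype_card, nsmul_eq_mul] at k3
  exact le_of_mul_le_mul_left (by linarith) (card_pos_real G)

theorem caseA (h2 : p ≠ 2) (hc : ∀ x ∈ X, ∀ y ∈ X, x ≠ 1 → y ≠ 1 → IsConj x y) : False := by
  obtain ⟨x, hx, x1⟩ := exists_ne_one h.ne
  obtain ⟨n, hn, e⟩ := h.hy.aut.fus1 h.syl (h.le hx) (inv_mem (h.le hx))
    (hc x hx _ (inv_mem hx) x1 (inv_ne_one.2 x1))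
  have hP := h.hy.ab h2 h.syl.pi (h.le hx) x1 hn e
  have k0 : ∀ χ : B0 M G, ∀ u ∈ X, u ≠ 1 → χ.1.1 u = χ.1.1 x := fun χ u hu u1 =>
    χ.1.2.isClassFunction.eq_of_isConj (hc u hu x hx u1 x1)
  choose m hm using fun χ : B0 M G => const_val h.ab h.ne χ.1.2.isCharacter (k0 χ)
  obtain ⟨A, eA⟩ : ∃ A : B0 M G → ℤ, A = fun χ => (charDegree χ.1.1 : ℤ) - #X * m χ := ⟨_, rfl⟩
  have hA : ∀ χ, ∀ u ∈ X, u ≠ 1 → χ.1.1 u = A χ := fun χ u hu u1 => by
    rw [k0 χ u hu u1, hm, eA, H7.irr_apply_one]; simp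
  have a1 : A h.one = 1 := Int.cast_injective (α := ℂ) (by rw [← hA _ x hx x1, h.one_apply]; simp)
  have h1 : ∑ χ, A χ ^ 2 = #P := by
    have := h.gram (h.le hx) x1 (h.le hx)
    rw [if_pos (IsConj.refl x), inf_eq_left.2 (le_cent1_iff.2 (cents_symm h.cen hx))] at this
    simp only [hA _ x hx x1, map_intCast, ← sq] at this
    exact_mod_cast this
  have h3 : ∑ χ, A χ * charDegree χ.1.1 = 0 := by
    have := h.reg (g := 1) (by simpa using hp.out.ne_one) (h.le hx) x1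
    simp only [hA _ x hx x1, map_intCast, H7.irr_apply_one, mul_comm] at this
    exact_mod_cast this
  have lt : ∀ s : Finset (B0 M G), h.one ∉ s → ∑ χ ∈ s, A χ ^ 2 < #P := fun s hs => by
    have := sum_le_sum_of_subset_of_nonneg (subset_univ (insert h.one s))
      (f := fun χ => A χ ^ 2) fun _ _ _ => sq_nonneg _
    rw [sum_insert hs, h1, a1] at this
    omega
  have lt1 : ∀ χ ≠ h.one, A χ ^ 2 < #P := fun χ e => by simpa using lt {χ} (by simpa using e.symm)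
  have pos : ∀ (n k : ℕ) χ, χ ≠ h.one → (charDegree χ.1.1 : ℤ) - A χ = n * k →
      (n : ℤ) ≤ charDegree χ.1.1 - A χ := fun n k χ e e' => by
    rcases k with _ | k
    · refine (h.val_ne e x1 ?_).elim
      rw [hA χ x hx x1, H7.irr_apply_one]
      exact_mod_cast (by simpa using e' : (charDegree χ.1.1 : ℤ) - A χ = 0) |> sub_eq_zero.1 |>.symm
    · rw [e']; push_cast; nlinarith
  have p3 : 3 ≤ p := hp.out.two_le.lt_of_ne' h2
  have q3 : 3 ≤ #X := p3.trans (Nat.le_of_dvd (card_pos X)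
    ((h.syl.pi.of_le h.le).dvd_of_ne_bot h.ne))
  have n3 := q3.trans (card_le h.le)
  have n5 : (#P : ℤ) = 3 ∨ (5 : ℤ) ≤ #P := by
    have := (h.syl.pi.sing_ne h2).not_dvd Nat.prime_two rfl
    omega
  have kX : ∀ χ ≠ h.one, (#X : ℤ) ≤ charDegree χ.1.1 - A χ := fun χ e =>
    pos _ (m χ) χ e (by rw [eA]; ring)
  refine arith (f := fun χ => charDegree χ.1.1) a1
    (Int.cast_injective (α := ℂ) (by simpa [h.one_apply] using (H7.irr_apply_one h.one.1).symm))
    (fun χ => by exact_mod_cast H7.charDegree_pos _) (by exact_mod_cast n3) h1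
    (by exact_mod_cast h.count h2 hx x1 hA h1) h3 fun χ hχ => ?_
  by_cases eX : X = P
  · exact bound (by exact_mod_cast n3) (eX ▸ kX χ hχ) (lt1 χ hχ) (lt1 χ hχ) n5
  have d1 : ∀ l : Lo P X, l.d = 1 := fun l => by
    exact_mod_cast l.ch_one.symm.trans (l.ch.2.apply_one_of_comm fun a b => mul_comm' a b)
  have cl : (univ.filter fun v : P => IsConj x v) =
      (univ.filter fun v : P => (v : G) ∈ X).erase 1 :=
    (h.class_sub hx x1).antisymm fun v hv => by
      simp only [mem_erase, mem_filter, mem_univ, true_and] at hv ⊢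
      exact hc x hx v hv.2 x1 (by simpa using hv.1)
  have e1 : ee P + 1 = #X := by rw [← h.card_class hx x1, cl, h.card_X]
  have e2 := h.sum_d
  simp only [d1, one_pow, sum_const, card_univ, smul_eq_mul, mul_one] at e2
  rw [← card_mul_relIndex h.le, ← e1, add_mul, one_mul, add_left_inj,
    mul_right_inj' (by omega)] at e2
  have : Nontrivial (Lo P X) := Fintype.one_lt_card_iff_nontrivial.1 (by
    have := relIndex_pos X P
    have := (relIndex_eq_one (H := X) (K := P)).not.2 fun k => eX (h.le.antisymm k)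
    omega)
  obtain ⟨l0, δ, ζ, w, b, δ0, h4, h5, h6, h7, -, h9⟩ := h.coh' h2
  by_cases e3 : χ ∈ Set.range ζ; swap
  · obtain ⟨k, e4⟩ := (χ.1.2.isCharacter.restrict P).exists_classInner_nat l0.ch.2.isCharacter
    have := h9 χ e3 x hx x1
    rw [e4, d1, hA χ x hx x1, H7.irr_apply_one] at this
    refine bound (by exact_mod_cast n3) (pos #P k χ hχ (Int.cast_injective (α := ℂ) ?_))
      (lt1 χ hχ) (lt1 χ hχ) n5
    push_cast at this ⊢
    linear_combination - this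
  obtain ⟨l, rfl⟩ := e3
  have k1 : ∀ l : Lo P X, ∑ χ, (w χ : ℂ) * A χ + δ * A (ζ l) = - #X := fun l => by
    have := h.normal
    have e3 := h.sum_inner (th_one l.ch) (fun χ => A χ)
      (fun u => if (u : G) ∈ X then #P else 0) fun u u1 => by
        have := h.gram u.2 (by simpa using u1) (h.le hx)
        simp only [hA _ x hx x1, map_intCast] at this
        rw [this, inf_eq_left.2 (le_cent1_iff.2 (comm_iff_le_cent.1 hP u.2))]
        exact if_congr ⟨fun e => h.mem_X hx u.2 e.symm, fun e => hc _ e x hx (by simpa using u1) x1⟩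
          rfl rfl
    have e4 : ∑ u : X.subgroupOf P, l.ch.1 u = 0 := by
      have := not_not.1 (mt (l.ch.2.le_charKer_of_classInner_one (K := X.subgroupOf P)) l.2)
      rwa [classInner_one_right, mul_eq_zero, inv_eq_zero,
        or_iff_right (card_ne_zero_complex _)] at this
    have b1 : b l = 1 := by simpa [d1] using (h5 l).symm
    simp only [h6, b1, Int.cast_add, add_mul, sum_add_distrib, ite_mul,
      zero_mul, Int.cast_ite, Int.cast_zero, sum_ite_eq', mem_univ, if_true,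
      Nat.cast_one, one_mul] at e3
    simp only [classInner_def, ite_mul, zero_mul, ← sum_filter] at e3
    rw [e3, ← mul_sum, ← mul_assoc, inv_mul_cancel₀ (card_ne_zero_complex P), one_mul, ← map_sum,
      sum_subtype (p := (· ∈ X.subgroupOf P)) (F := inferInstance) _ (by simp [mem_subgroupOf]),
      ← card_subgroupOf' h.le]
    simp [th, e4, l.ch_one, d1]
  have k2 : ∀ l' : Lo P X, A (ζ l') = A (ζ l) := fun l' => Int.cast_injective (α := ℂ)
    (mul_left_cancel₀ (Int.cast_ne_zero.2 δ0 : (δ : ℂ) ≠ 0) (by linear_combination k1 l' - k1 l))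
  have k3 := lt (univ.image ζ) (by simpa using h7)
  rw [sum_image h4.injOn, sum_congr rfl fun l' _ => by rw [k2 l'], sum_const, card_univ, e2,
    ← card_mul_relIndex h.le, nsmul_eq_mul, Nat.cast_mul, mul_comm,
    mul_lt_mul_iff_left₀ (by exact_mod_cast relIndex_pos X P)] at k3
  exact bound (by exact_mod_cast q3) (kX _ hχ) k3 (lt1 _ hχ) n5

end Cy

theorem Hy.cy (h : Hy p G) (hP : Syl p P ⊤) (h1 : P ≠ ⊥) : ∃ M, Cy p M P (Ohm1 p Z(P)) :=
  let ⟨M, hM⟩ := H7.exists_isPModular hp.out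
  ⟨M, ⟨hM, h, hP⟩, (Ohm1_le _ _).trans inf_le_left,
    cents_symm ((Ohm1_le _ _).trans inf_le_right), norm_le_norm_Ohm1_center p P,
    hP.pi.Ohm1_center_ne_bot h1, fun _ => pow_of_mem_Ohm1 (comm_center P)⟩

theorem Hy.odd_simple {G : Type*} [Group G] [Finite G] [IsSimpleGroup G] (h : Hy p G) (h2 : p ≠ 2) :
    HasNormalPComplement p G := by
  have := Fintype.ofFinite G
  by_contra e
  obtain ⟨P, hP⟩ := exists_syl p (⊤ : Subgroup G)
  obtain ⟨M, k⟩ := h.cy hP fun j => e (h.npc_of hP fun n _ _ => by rw [j]; simp)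
  exact k.caseA h2 fun x hx y hy x1 y1 => by_contra fun j => k.caseB h2
    (fun _ => e (H3.hasNPC_of_comm fun a b => mul_comm' a b)) hy y1 hx x1 j

theorem Hy.odd {G : Type*} [Group G] [Finite G] (h : Hy p G) (h2 : p ≠ 2)
    (h0 : Oc {p}ᶜ (⊤ : Subgroup G) = ⊥) {P : Subgroup G} (hP : Syl p P ⊤) : ⊤ ≤ N(P) := by
  by_contra e
  obtain ⟨K, -, -, k1, k2⟩ := h.reduce h0 hP e
  exact k1 ((h.sub K).odd_simple h2)

end H5.BF
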