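import Cfsg.Agent.H5.BF4
import Cfsg.Agent.H18.Top

/-! # Brauer-Fong, cyclic Sylow subgroups -/

set_option autoImplicit false
set_option linter.unusedSectionVars false

namespace H5.BF

open H19 Subgroup _root_.Cfsg H18

variable {G : Type*} [Group G] [Finite G] {p : ℕ} [hp : Fact p.Prime] {P : Subgroup G}

theorem psol_of_normal (hP : Syl p P ⊤) (hn : ⊤ ≤ N(P)) : IsPSolvable p G := by
  have : P.Normal := normalizer_eq_top_iff.1 (top_le_iff.1 hn)
  refine H1.isPSolvable_of_normal P (H1.isPSolvable_of_isPGroup hP.pi.isPGroup)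
    (H1.isPSolvable_of_coprime ?_)
  rw [← index_eq_card, ← relIndex_top_right]
  exact hP.idx.coprime_prime hp.out

theorem psol_of_npc (h : HasNormalPComplement p G) : IsPSolvable p G := by
  obtain ⟨S, K, _, e⟩ := h
  refine H1.isPSolvable_of_normal K (H1.isPSolvable_of_coprime ?_)
    (H1.isPSolvable_of_isPGroup (S.isPGroup'.of_equiv e.symm.QuotientMulEquiv.symm))
  rw [← e.index_eq_card]
  exact ((Nat.Prime.coprime_iff_not_dvd hp.out).2 S.not_dvd_index).symm

theorem hy_of_cyc (h2 : p ≠ 2) (hP : Syl p P ⊤) (hc : Cyc P)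
    (h : ∀ x y : G, orderOf x = p → orderOf y = p → IsPSolvable p (closure {x, y})) : Hy p G := by
  have ab := comm_iff_le_cent.1 (comm_of_cyclic hc)
  refine hy_of_orig hP (fun x hx y hy ⟨g, e⟩ => ?_) (fun x hx ox => ?_) h
  · obtain ⟨S, rfl⟩ := hP.exists_sylow_top
    obtain ⟨n, hn, k⟩ := S.conj_eq_normalizer_conj_of_mem_centralizer x g⁻¹ (ab hx)
      (by rw [inv_inv, e]; exact ab hy)
    exact ⟨n⁻¹, inv_mem hn, by rw [← e]; simpa using k.symm⟩
  · have h1 : P ≤ C[x] := le_cent1_iff.2 (ab hx)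
    refine hasNPC_of_hall hp.out (Burnside_normal_complement (hP.of_le h1 le_top) fun n hn => ?_)
    rw [← constt_mul_compl {p} n]
    refine mul_mem (ab (hP.mem_of_norm (mem_top _) (constt_pi _ n) (constt_mem _ hn.2))) ?_
    refine coprime_odd_faithful_Ohm1 (A := zpowers (constt {p}ᶜ n)) hP.pi
      (zpowers_le.2 (constt_mem _ hn.2)) (hP.pi.coprime (piG_zpowers.2 (constt_pi _ n))) ?_ ?_
      (mem_zpowers _)
    · exact Nat.odd_iff.2 (Nat.two_dvd_ne_zero.1 ((hP.pi.sing_ne h2).not_dvd Nat.prime_two rfl))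
    · rw [(el1_zpowers hp.out hx ox).eq_Ohm1 hc, cent_zpowers, zpowers_le]
      exact constt_mem _ hn.1

theorem psol_of_cyc (S : Sylow p G) (hc : IsCyclic S)
    (h : ∀ x y : G, orderOf x = p → orderOf y = p → IsPSolvable p (closure {x, y})) :
    IsPSolvable p G := by
  by_cases h2 : p = 2
  · by_cases h3 : p ∣ Nat.card G
    · subst h2
      exact psol_of_npc ⟨S, _, inferInstance, hc.isComplement' ((Nat.minFac_eq_two_iff _).2 h3)⟩
    · exact H1.isPSolvable_of_coprime ((Nat.Prime.coprime_iff_not_dvd hp.out).2 h3).symm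
  have hf := QuotientGroup.mk'_surjective (pPrimeCore p G)
  have hP := syl_sylow_top (S.mapSurjective hf)
  refine H1.isPSolvable_of_normal (pPrimeCore p G) (H1.isPSolvable_of_coprime H1.pPrimeCore_coprime)
    (psol_of_normal hP ((hy_of_cyc h2 hP ?_ fun x y hx hy => ?_).odd h2 ?_ hP))
  · exact isCyclic_of_surjective _ (MonoidHom.subgroupMap_surjective _ S.1)
  · have k : ∀ z : G ⧸ pPrimeCore p G, orderOf z = p → ∃ a : G, orderOf a = p ∧
        QuotientGroup.mk' _ a = z := fun z hz => by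
      obtain ⟨g, rfl⟩ := hf z
      obtain ⟨a, -, ⟨j, h3⟩, e⟩ := H3.exists_pelt_lift hp.out.ne_zero _ g (k := 1)
        (by rw [pow_one, ← hz, pow_orderOf_eq_one])
      refine ⟨a, orderOf_eq_prime ?_ fun k => ?_, e⟩
      · refine ((pie_of_pow h3).e_pow p).e_eq_one ((PiN.of_not_dvd
          ((Nat.Prime.coprime_iff_not_dvd hp.out).1 H1.pPrimeCore_coprime.symm)).elt ?_)
        rw [← QuotientGroup.eq_one_iff, ← QuotientGroup.mk'_apply, map_pow, e,
          ← orderOf_dvd_iff_pow_eq_one, hz]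
      · rw [← e, k, map_one, orderOf_one] at hz
        exact hp.out.ne_one hz.symm
    obtain ⟨a, ha, rfl⟩ := k x hx
    obtain ⟨b, hb, rfl⟩ := k y hy
    rw [← Set.image_pair, ← MonoidHom.map_closure]
    exact H1.isPSolvable_map (h a b ha hb) _
  · rw [Oc_top_p' hp.out, H1.pPrimeCore_quotient_pPrimeCore]

theorem two_of_simple [IsSimpleGroup G] (hG : ¬ IsMulCommutative G) (h : Hy p G) (hP : Syl p P ⊤)
    (h1 : P ≠ ⊥) : p = 2 := by
  by_contra h2
  have h3 := hall_of_hasNPC hp.out (H3.hasNPC_of_equiv (h.odd_simple h2) topEquiv.symm)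
  rcases (normalizer_eq_top_iff.1 (top_le_iff.1 (Oc_norm {p}ᶜ (⊤ : Subgroup G)))).eq_bot_or_eq_top with e | e
  · rw [e] at h3
    have := (by simpa using h3.pi'_of_eq_bot : PG p (⊤ : Subgroup G)).isPGroup.isNilpotent
    have := Group.nilpotent_of_mulEquiv (topEquiv (G := G))
    exact hG ⟨⟨IsSimpleGroup.comm_iff_isSolvable.2 inferInstance⟩⟩
  · exact h1 (hP.pi.eq_bot ((e ▸ Oc_pi {p}ᶜ (⊤ : Subgroup G)).of_le le_top))

end H5.BF
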