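import Cfsg.Agent.H5.BF5
import Cfsg.Agent.H5.Spec
import Cfsg.Agent.H17.GF0
import Cfsg.Agent.H18.Be12

/-! # Brauer-Fong, the prime 2 -/

set_option autoImplicit false
set_option linter.unusedSectionVars false

namespace H5.BF

open H19 Subgroup _root_.Cfsg H18
open scoped Classical

variable {G : Type*} [Group G] [Finite G] {K P Q : Subgroup G}

/-- trivial intersection -/
def TI (P : Subgroup G) : Prop := ∀ x ∈ P, x ≠ 1 → ∀ g, g * x * g⁻¹ ∈ P → g ∈ N(P)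

/-- elementary abelian with one class of involutions -/
def One (P : Subgroup G) : Prop :=
  Abelem 2 P ∧ ∀ x ∈ P, ∀ y ∈ P, x ≠ 1 → y ≠ 1 → ∃ g : G, g * x * g⁻¹ = y

theorem TI.J (h : TI P) (n : G) : TI (cj n P) := fun x hx x1 g hg => by
  obtain ⟨y, hy, rfl⟩ := mem_cj'.1 hx
  rw [← cj_norm, mem_cj]
  refine h y hy (fun e => x1 (by simp [e])) _ ?_
  convert mem_cj.1 hg using 1
  group

theorem TI.se (h : TI P) (hP : Syl 2 P ⊤) (h1 : P ≠ ⊥) (hn : ¬ ⊤ ≤ N(P)) :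
    IsStronglyEmbedded N(P) := by
  have k : ∀ t ∈ N(P), orderOf t = 2 → t ∈ P := fun t ht t2 =>
    hP.mem_of_norm (mem_top _) (pie_elt ⟨1, by simpa using t2⟩) ht
  obtain ⟨u, hu, u2⟩ := exists_orderOf_eq_prime Nat.prime_two (hP.pi.dvd_of_ne_bot h1)
  exact H10.isStronglyEmbedded_iff.2 ⟨fun e => hn e.ge, ⟨u, le_normalizer hu, u2⟩,
    fun t ht t2 g hg => h t (k t ht t2) (Be.of_ord2 t2).1 g
      (k _ hg (by rwa [H19.orderOf_conj']))⟩

theorem Hy.four (h : Hy 2 G) (hP : Syl 2 P ⊤) (h1 : El 2 2 P ⊤)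
    (hn : ¬ HasNormalPComplement 2 G) : One P := by
  have := Fintype.ofFinite G
  obtain ⟨M, k⟩ := h.cy hP h1.ne_bot
  rw [inf_eq_left.2 h1.le_cent, Ohm1_eq_self h1.ab.2] at k
  refine ⟨h1.ab, fun x hx y hy x1 y1 => isConj_iff.1 ?_⟩
  have e1 := k.card_X
  have e2 := k.card_class hx x1
  have e3 := Finset.card_le_card (k.class_sub hx x1)
  have e4 : ¬ 2 ∣ ee P := fun j => (hP.of_le le_normalizer le_top).idx.not_dvd Nat.prime_two (by simp)
    (j.trans (relIndex_dvd_of_le_left _ le_sup_right))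
  have e5 : ee P ≠ 1 := fun j => hn (h.npc_of hP fun n hn _ =>
    (sup_le le_rfl h1.le_cent) (relIndex_eq_one.1 j hn))
  rw [h1.card] at e1
  have e6 := Finset.eq_of_subset_of_card_le (k.class_sub hx x1) (by omega)
  have : (⟨y, hy⟩ : P) ∈ Finset.univ.filter fun v : P => IsConj x v := by
    rw [e6]; simp [hy, y1]
  exact (Finset.mem_filter.1 this).2

theorem sol_of_npc (h : HasNormalPComplement 2 K) : Sol K := by
  have h1 := hall_of_hasNPC Nat.prime_two h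
  obtain ⟨S, hS⟩ := exists_syl 2 K
  rw [← (sdprod_of_hall' h1 (Oc_norm _ _) hS).sup]
  exact sol_sup (H20.sol_of_odd (Be.odd_iff_pi.2 h1.pi)) (sol_of_nil hS.pi.nil)
    (hS.le.trans (Oc_norm _ _))

theorem Hy.two_simple [IsSimpleGroup G] (h : Hy 2 G) (hP : Syl 2 P ⊤)
    (hn : ¬ HasNormalPComplement 2 G) : One P ∨ TI P ∧ H3.Rk2 G := by
  have := Fintype.ofFinite G
  have hG : ¬ IsMulCommutative G := fun _ => hn (H3.hasNPC_of_comm fun a b => mul_comm' a b)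
  obtain ⟨M, k⟩ := h.cy hP fun j => hn (h.npc_of hP fun n _ _ => by rw [j]; simp)
  rcases H17.GS.gold (H17.GS.sim_top hG) k.ab (H17.GS.SCl.of_syl hP k.le fun a ha g _ hg =>
    k.mem_X ha hg (isConj_iff.2 ⟨g, rfl⟩)) k.ne with ⟨Y, hY⟩ | ⟨V, h1, h2⟩ | hJ
  · obtain ⟨t, Q, s, r, hR⟩ := Be.r1_simple hY.isSE' (by
      by_contra! e
      exact hG ⟨⟨e⟩⟩)
    have hQ := Be.R1_syl hR
    have e := (Be.R1_norm hR).trans Be.stab_pt
    obtain ⟨g, -, rfl⟩ := hQ.sconj hP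
    refine .inr ⟨TI.J (fun x hx x1 g hg => ?_) g, hR.rk⟩
    obtain ⟨v, ⟨j, rfl⟩, v2⟩ := exists_ord (hQ.pi.elt hx) x1
    rw [e]
    refine H10.SE.mem hY.isSE' (e ▸ le_normalizer (zpow_mem hx j)) v2 (e ▸ le_normalizer ?_)
    rw [← conj_zpow]; exact zpow_mem hg j
  · obtain ⟨g, -, rfl⟩ := h2.sconj hP
    exact .inl (h.four hP (h1.J g).top hn)
  · obtain ⟨t, ht, t1⟩ := exists_ne_one k.ne
    have t2 := orderOf_eq_prime (k.exp t ht) t1
    exact (hJ.nsol t trivial t2 (by rw [top_inf_eq]; exact sol_of_npc (h.npc t t2))).elim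

theorem Hy.suzuki (h : Hy 2 G) (h0 : Oc {2}ᶜ (⊤ : Subgroup G) = ⊥) (hP : Syl 2 P ⊤)
    (hn : ¬ ⊤ ≤ N(P)) (hd : ¬ One P) : Lie.IsoSuzuki G := by
  obtain ⟨K, hK, h1, h2, _⟩ := h.reduce h0 hP hn
  have h3 : P ≠ ⊥ := fun e => hn (by rw [e, norm_bot])
  have hP' := hP.of_le h1 le_top
  rcases (h.sub K).two_simple hP'.subgroupOf_top h2 with ⟨k1, k2⟩ | ⟨k1, k2⟩
  · refine (hd ⟨?_, fun x hx y hy x1 y1 => ?_⟩).elim
    · have e4 : ∀ x ∈ P, x ^ 2 = 1 := fun x hx => congrArg Subtype.val (k1.2 ⟨x, h1 hx⟩ hx)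
      exact ⟨comm_iff_le_cent.2 (comm_of_sq e4), e4⟩
    · obtain ⟨g, e⟩ := k2 ⟨x, h1 hx⟩ hx ⟨y, h1 hy⟩ hy (by simpa using x1) (by simpa using y1)
      exact ⟨g, congrArg Subtype.val e⟩
  have ti : TI P := fun x hx x1 g hg => by
    have : g ∈ K ⊔ (⊤ ⊓ N(P)) := by rw [hP'.frattini hK]; trivial
    rw [top_inf_eq, mem_sup_of_norm (hK.norms le_top)] at this
    obtain ⟨a, ha, n, hn, rfl⟩ := this
    have := k1 ⟨_, h1 (conj_mem_of_norm hn hx)⟩ (conj_mem_of_norm hn hx) (by simpa using x1) ⟨a, ha⟩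
      (by rw [mem_subgroupOf]; convert hg using 1; simp [mul_assoc])
    rw [← subgroupOf_normalizer_eq h1] at this
    exact mul_mem this hn
  have se := ti.se hP h3 hn
  have rk : H3.Rk2 G := Be.rk2_map (f := K.subtype) (by simp) k2
  obtain ⟨t, t1, t2⟩ := Be.ex_out se
  obtain ⟨Q, s, r, hR⟩ := Be.r1_coset se rk
    (by rw [Be.core_eq se rk, ← Oc_top_p' Nat.prime_two, h0]) t1 t2
  have e1 := Be.R1_O hR
  rw [Be.stab_pt] at e1
  obtain ⟨u, hu, u2⟩ := exists_orderOf_eq_prime Nat.prime_two (hP.pi.dvd_of_ne_bot h3)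
  have e2 : C(P) ≤ P := hP.le_of_norm' le_top (pg_of_npc e1 (cent_normal_norm P)
    (H3.hasNPC_of_le (h.npc u u2) (cent_le_cent1 hu))) (le_normalizer.trans (norm_le_norm_cent P))
  have tc : TC P := ⟨ti, fun x hx x1 c hc => sup_le e2 le_rfl (h.mem_M hP
    (ti x hx x1 c (by rwa [mem_cent1.1 hc, mul_inv_cancel_right])) hx x1 hc), u, hu, u2⟩
  obtain ⟨j1, j2⟩ := tc.ne_of_not_sol (sol_of_nil hP.pi.nil) fun _ => h2 (H3.hasNPC_of_comm
    (IsSimpleGroup.comm_iff_isSolvable.2 inferInstance))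
  rcases tc.classify j1 j2 with ⟨F, _, _, -, f1, f2, ⟨e⟩⟩ | ⟨-, -, e⟩
  swap
  · exact e
  obtain ⟨m, e3⟩ := hP.pi.exists_card
  have m1 : 1 ≤ m := by
    rcases m with _ | m
    · omega
    · omega
  have e4 : ∀ x ∈ P, x ^ 2 = 1 := fun x hx => by
    have k : ∀ n, Odd n → orderOf x ∣ n → x ^ 2 = 1 := fun n n1 n2 => by
      rw [(hP.pi.elt hx).e_eq_one ((PiN.of_not_dvd n1.not_two_dvd_nat).dvd n2), one_pow]
    have ev : Even (2 ^ m) := Nat.even_pow.2 ⟨even_two, by omega⟩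
    rcases ((l2e_data m1 (f2.trans e3) e).2 _).1 ⟨x, rfl⟩ with j | j | j
    · exact orderOf_dvd_iff_pow_eq_one.1 j
    · exact k _ (Nat.Even.sub_odd (Nat.one_le_two_pow) ev odd_one) j
    · exact k _ ev.add_one j
  exact (hd ⟨⟨comm_iff_le_cent.2 (comm_of_sq e4), e4⟩, fun x hx y hy x1 y1 => isConj_iff.1
    (H10.SE.isConj se (orderOf_eq_prime (e4 x hx) x1) (orderOf_eq_prime (e4 y hy) y1))⟩).elim

end H5.BF
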