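import Cfsg.Agent.H5.HL6

/-! Doubly transitive groups with `L₃(2ⁿ)` normal in a point stabilizer, part 7:
the geometry of lines and planes. -/

set_option autoImplicit false
set_option linter.unusedSectionVars false

open Cfsg Subgroup MulAction H19 H9.Dt
namespace H5.HL
open H5

variable {G Ω : Type*} [Group G] [Finite G] [Finite Ω] [MulAction G Ω] {Nf : Ω → Subgroup G} {q : ℕ}
  {D D' E E' F F' K : Subgroup G} {g k r s u x y z : G} {a b c d : Ω}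

local notation "𝐒" => stabilizer G
local notation "𝐧" => Nat.card Ω

def Ln (Nf : Ω → Subgroup G) (q : ℕ) (a b : Ω) (E : Subgroup G) : Prop :=
  a ≠ b ∧ EE (Nf a) q E ∧ Nf a ⊓ 𝐒 b ≤ N(E)

/-- lines -/
def Li (Nf : Ω → Subgroup G) (q : ℕ) (E : Subgroup G) : Prop := ∃ a b, Ln Nf q a b E

/-- planes -/
def Pl (Nf : Ω → Subgroup G) (q : ℕ) (F : Subgroup G) : Prop := ∃ a E, Li Nf q E ∧ Nb (Nf a) q E F

theorem Ln.li (l : Ln Nf q a b E) : Li Nf q E := ⟨a, b, l⟩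

namespace Hy
variable (h : Hy Nf q)
include h

theorem ee_on (e : EE (Nf a) q E) : E ≤ 𝐒 a := e.1.trans (h.le a)

theorem ex_ne (a : Ω) : ∃ b, b ≠ a := by
  by_contra! k
  obtain ⟨z, -, z1, -⟩ := (h.l3 a).ex_inv
  exact z1 (h.faith fun c => (k _).trans (k _).symm)

theorem ln_ex (ab : a ≠ b) : ∃ E, Ln Nf q a b E := by
  obtain ⟨E, F, n, e, f⟩ := h.flag_ex a b
  rcases (h.l3 a).f3 n (le_inf (sup_le n.1.1 n.2.1.1) (sup_le e f)) inf_le_left fun k =>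
    h.no_fix ab.symm (k.ge.trans inf_le_right) with k | k
  exacts [⟨E, ab, n.1, k⟩, ⟨F, ab, n.2.1, k⟩]

theorem ln_flag (l : Ln Nf q a b E) : E ≤ 𝐒 b ∧ ∃ F, Nb (Nf a) q E F ∧ F ≤ 𝐒 b := by
  obtain ⟨A, B, n, e, f⟩ := h.flag_ex a b
  rcases (h.l3 a).norm_only n l.2.1 ((le_inf (sup_le n.1.1 n.2.1.1) (sup_le e f)).trans l.2.2) with
    rfl | rfl
  exacts [⟨e, B, n, f⟩, ⟨f, A, n.symm, e⟩]

theorem ln_on (l : Ln Nf q a b E) : E ≤ 𝐒 b := (h.ln_flag l).1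

theorem ln_nb (l : Ln Nf q a b E) (n : Nb (Nf a) q E F) : F ≤ 𝐒 b := by
  obtain ⟨e, D, m, f⟩ := h.ln_flag l
  exact ((h.l3 a).all_nb m (le_inf m.2.1.1 f) inf_le_left l.2.2 (h.no_ty1 l.1 m e f l.2.2) n).trans
    inf_le_right

theorem ln_mem (l : Ln Nf q a b E) (e : EE (Nf a) q D) (o : D ≤ 𝐒 b) : D = E ∨ Nb (Nf a) q E D :=
  (h.l3 a).nz_ee l.2.1 e ((le_inf e.1 o).trans l.2.2)

theorem ln_uniq (l : Ln Nf q a b E) (l' : Ln Nf q a b E') : E' = E :=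
  (h.ln_mem l l'.2.1 (h.ln_on l')).resolve_right fun n =>
    h.no_ty1 l.1 n (h.ln_on l) (h.ln_on l') l.2.2 l'.2.2

theorem ln_J (l : Ln Nf q a b E) (g : G) : Ln Nf q (g • a) (g • b) (cj g E) :=
  ⟨by simpa using l.1, h.eqv g a ▸ l.2.1.J g, by
    rw [h.eqv, ← cj_stab, ← cj_inf, ← cj_norm]; exact cj_mono g l.2.2⟩

theorem ln_symm (l : Ln Nf q a b E) : Ln Nf q b a E := by
  obtain ⟨E', l'⟩ := h.ln_ex l.1.symm
  have e := h.ee_mv l.2.1 (h.ln_on l)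
  refine ((h.ln_mem l' e (h.ee_on l.2.1)).resolve_right fun n => ?_) ▸ l'
  obtain ⟨F, m, f, -⟩ := (h.l3 a).ex3 l.2.1 E' E'
  have m' := h.nb_mv m (h.ln_on l) (h.ln_nb l m)
  exact (h.l3 b).inst _ _ m' ((h.l3 b).same n ((h.ln_mem l' m'.2.1 (h.ee_on m.2.1)).resolve_left f))

theorem st_stab (ga : g • a = a) (e : EE (Nf a) q D) : St (Nf a) D (cj g D) := by
  by_contra n
  obtain ⟨j, m, o, k⟩ := Nat.exists_eq_two_pow_mul_odd (orderOf_pos g).ne'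
  have ga' : g ^ m • a = a := (𝐒 a).pow_mem ga m
  have p := par (F := {c | c ≠ a}) (v := g ^ m) (fun c hc e => hc (by
    rw [← smul_left_cancel_iff (g ^ m), e, ga'])) (k := j) Nat.prime_two
    (by rw [← pow_mul, mul_comm, ← k, pow_orderOf_eq_one])
  rw [ncard_ne, Nat.odd_iff.1 (h.odd_n a)] at p
  obtain ⟨c, ca, hc⟩ := (Set.ncard_pos (s := {c | c ≠ a} ∩ Fx Ω (g ^ m))).1 (by omega)
  obtain ⟨E, l⟩ := h.ln_ex (Ne.symm ca)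
  have l' := h.ln_J l (g ^ m)
  rw [ga', show g ^ m • c = c from hc] at l'
  exact (h.l3 a).swap_odd (h.nrm ga) e n o ((h.l3 a).st_all (h.nrm ga') l.2.1
    (by rw [h.ln_uniq l l']; exact St.refl _ _) e)

theorem ln_st (l : Ln Nf q a b E) (l' : Ln Nf q a c E') : St (Nf a) E E' := by
  obtain ⟨g, ga, rfl⟩ := h.tr1 l.1.symm l'.1.symm
  have := h.ln_J l g
  rw [ga] at this
  rw [h.ln_uniq this l']; exact h.st_stab ga l.2.1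

theorem ln_mv (l : Ln Nf q a b E) (ac : a ≠ c) (o : E ≤ 𝐒 c) : Ln Nf q a c E := by
  obtain ⟨E', l'⟩ := h.ln_ex ac
  exact ((h.ln_mem l' l.2.1 o).resolve_right fun n => (h.l3 a).inst _ _ n (h.ln_st l' l)) ▸ l'

theorem li_ln (l : Li Nf q E) (ab : a ≠ b) (oa : E ≤ 𝐒 a) (ob : E ≤ 𝐒 b) : Ln Nf q a b E := by
  obtain ⟨c, d, l⟩ := l
  by_cases e : c = a
  · exact h.ln_mv (e ▸ l) ab ob
  · exact h.ln_mv (h.ln_symm (h.ln_mv l e oa)) ab ob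

theorem li_ex (ab : a ≠ b) : ∃ E, Li Nf q E ∧ E ≤ 𝐒 a ∧ E ≤ 𝐒 b :=
  let ⟨E, l⟩ := h.ln_ex ab; ⟨E, l.li, h.ee_on l.2.1, h.ln_on l⟩

theorem li_uniq (l : Li Nf q E) (l' : Li Nf q E') (ab : a ≠ b) (oa : E ≤ 𝐒 a) (ob : E ≤ 𝐒 b)
    (oa' : E' ≤ 𝐒 a) (ob' : E' ≤ 𝐒 b) : E = E' := h.ln_uniq (h.li_ln l' ab oa' ob') (h.li_ln l ab oa ob)

theorem li_pt (l : Li Nf q E) (a : Ω) : ∃ b, b ≠ a ∧ E ≤ 𝐒 b := by
  obtain ⟨c, d, l⟩ := l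
  by_cases e : c = a
  · exact ⟨d, e ▸ l.1.symm, h.ln_on l⟩
  · exact ⟨c, e, h.ee_on l.2.1⟩

theorem li_ln' (l : Li Nf q E) (o : E ≤ 𝐒 a) : ∃ b, Ln Nf q a b E :=
  let ⟨b, ba, ob⟩ := h.li_pt l a; ⟨b, h.li_ln l ba.symm o ob⟩

theorem li_ee (l : Li Nf q E) (o : E ≤ 𝐒 a) : EE (Nf a) q E := let ⟨_, m⟩ := h.li_ln' l o; m.2.1

theorem li_J (l : Li Nf q E) (g : G) : Li Nf q (cj g E) := let ⟨_, _, m⟩ := l; (h.ln_J m g).li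

theorem li_st (l : Li Nf q E) (l' : Li Nf q E') (o : E ≤ 𝐒 a) (o' : E' ≤ 𝐒 a) : St (Nf a) E E' :=
  let ⟨_, m⟩ := h.li_ln' l o; let ⟨_, m'⟩ := h.li_ln' l' o'; h.ln_st m m'

theorem li_of_st (l : Li Nf q E) (s : St (Nf a) E E') : Li Nf q E' := by
  obtain ⟨g, -, rfl⟩ := s; exact h.li_J l g

theorem li_at (a : Ω) : ∃ E, Li Nf q E ∧ E ≤ 𝐒 a :=
  let ⟨_, ba⟩ := h.ex_ne a; let ⟨E, l, _, o⟩ := h.li_ex ba; ⟨E, l, o⟩

theorem nb_J (n : Nb (Nf a) q E F) (g : G) : Nb (Nf (g • a)) q (cj g E) (cj g F) := h.eqv g a ▸ n.J g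

theorem pl_J (p : Pl Nf q F) (g : G) : Pl Nf q (cj g F) :=
  let ⟨_, _, l, n⟩ := p; ⟨_, _, h.li_J l g, h.nb_J n g⟩

theorem sub_nb (l : Li Nf q E) (n : Nb (Nf a) q E F) (o : E ≤ 𝐒 c) : F ≤ 𝐒 c := by
  by_cases e : a = c
  · exact e ▸ h.ee_on n.2.1
  · exact h.ln_nb (h.li_ln l e (h.ee_on n.1) o) n

theorem pl_ee (p : Pl Nf q F) (o : F ≤ 𝐒 a) : EE (Nf a) q F := let ⟨_, _, _, n⟩ := p; h.ee_mv n.2.1 o

theorem pl_nst (l : Li Nf q E) (p : Pl Nf q F) (o : E ≤ 𝐒 a) (o' : F ≤ 𝐒 a) : ¬ St (Nf a) E F := by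
  obtain ⟨c, D, m, n⟩ := p
  by_cases e : c = a
  · subst e
    exact fun s => (h.l3 c).inst _ _ n ((h.li_st m l (h.ee_on n.1) o).trans s)
  obtain ⟨A, u⟩ := h.ln_ex e
  have v := (h.ln_mem u n.2.1 o').resolve_left fun k => (h.l3 c).inst _ _ n
    (k ▸ h.li_st m u.li (h.ee_on n.1) (h.ee_on u.2.1))
  exact fun s => (h.l3 a).inst _ _ (h.nb_mv v (h.ln_on u) o') ((h.li_st u.li l (h.ln_on u) o).trans s)

theorem li_nb (p : Pl Nf q F) (n : Nb (Nf a) q F E) : Li Nf q E := by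
  obtain ⟨D, l, o⟩ := h.li_at a
  exact h.li_of_st l ((h.l3 a).st_of n.1 (h.li_ee l o) n.2.1
    (fun s => h.pl_nst l p o (h.ee_on n.1) s.symm) ((h.l3 a).inst _ _ n))

theorem li_or (e : EE (Nf a) q D) : Li Nf q D ∨ Pl Nf q D := by
  obtain ⟨E, l, o⟩ := h.li_at a
  by_cases s : St (Nf a) E D
  · exact .inl (h.li_of_st l s)
  obtain ⟨F, n⟩ := (h.l3 a).ex_nb e
  exact .inr ⟨a, F, h.li_of_st l ((h.l3 a).st_of e (h.li_ee l o) n.2.1 (fun t => s t.symm)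
    ((h.l3 a).inst _ _ n)), n.symm⟩

theorem pl_st (p : Pl Nf q F) (p' : Pl Nf q F') (o : F ≤ 𝐒 a) (o' : F' ≤ 𝐒 a) : St (Nf a) F F' := by
  obtain ⟨E, l, u⟩ := h.li_at a
  exact (h.l3 a).st_of (h.li_ee l u) (h.pl_ee p o) (h.pl_ee p' o') (h.pl_nst l p u o) (h.pl_nst l p' u o')

theorem nb_two (l : Li Nf q E) (p : Pl Nf q F) (ab : a ≠ b) (ea : E ≤ 𝐒 a) (eb : E ≤ 𝐒 b)
    (fa : F ≤ 𝐒 a) (fb : F ≤ 𝐒 b) : Nb (Nf a) q E F :=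
  (h.ln_mem (h.li_ln l ab ea eb) (h.pl_ee p fa) fb).resolve_left fun e =>
    h.pl_nst l p ea fa (e ▸ St.refl _ _)

theorem sub_two (l : Li Nf q E) (p : Pl Nf q F) (ab : a ≠ b) (ea : E ≤ 𝐒 a) (eb : E ≤ 𝐒 b)
    (fa : F ≤ 𝐒 a) (fb : F ≤ 𝐒 b) : Fs Ω E ⊆ Fs Ω F := fun _ => h.sub_nb l (h.nb_two l p ab ea eb fa fb)

theorem nb_sub (l : Li Nf q E) (p : Pl Nf q F) (o : E ≤ 𝐒 a) (s : Fs Ω E ⊆ Fs Ω F) : Nb (Nf a) q E F :=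
  let ⟨_, ba, ob⟩ := h.li_pt l a; h.nb_two l p ba.symm o ob (s o) (s ob)

theorem pl_fix (p : Pl Nf q F) (hz : z ∈ F) (z1 : z ≠ 1) (o : z • c = c) : F ≤ 𝐒 c := by
  obtain ⟨a, E, l, n⟩ := id p
  obtain ⟨K, k1, k2, k3⟩ := h.inv_on (n.2.1.1 hz) (n.2.1.2.1 z hz) o
  by_cases e : K = F
  · exact e ▸ k3
  have m := Nb.mk' k1 n.2.1 e z1 k2 hz
  exact h.sub_nb (h.li_nb p m.symm) m k3

/-- two lines through a point lie in a plane -/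
theorem pl_two (l : Li Nf q E) (l' : Li Nf q E') (o : E ≤ 𝐒 a) (o' : E' ≤ 𝐒 a) :
    ∃ F, Pl Nf q F ∧ Fs Ω E ⊆ Fs Ω F ∧ Fs Ω E' ⊆ Fs Ω F := by
  obtain ⟨F, n, n'⟩ := (h.l3 a).com _ _ (h.li_ee l o) (h.li_st l l' o o')
  exact ⟨F, ⟨a, E, l, n⟩, fun _ => h.sub_nb l n, fun _ => h.sub_nb l' n'⟩

theorem pl_ex (l : Li Nf q E) (c : Ω) : ∃ F, Pl Nf q F ∧ Fs Ω E ⊆ Fs Ω F ∧ F ≤ 𝐒 c := by
  obtain ⟨a, ac, o⟩ := h.li_pt l c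
  obtain ⟨E', l', u, v⟩ := h.li_ex ac
  obtain ⟨F, p, s, t⟩ := h.pl_two l l' o u
  exact ⟨F, p, s, t v⟩

theorem pl_uniq (l : Li Nf q E) (n : ¬ E ≤ 𝐒 c) (p : Pl Nf q F) (p' : Pl Nf q F') (s : Fs Ω E ⊆ Fs Ω F)
    (s' : Fs Ω E ⊆ Fs Ω F') (o : F ≤ 𝐒 c) (o' : F' ≤ 𝐒 c) : F = F' := by
  obtain ⟨a, ac, ea⟩ := h.li_pt l c
  obtain ⟨D, m, u, v⟩ := h.li_ex ac
  exact (h.l3 a).uniq (h.nb_sub l p ea s).symm (h.nb_two m p ac u v (s ea) o).symm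
    (h.nb_sub l p' ea s').symm (h.nb_two m p' ac u v (s' ea) o').symm fun e => n (e ▸ v)

theorem meet (p : Pl Nf q F) (p' : Pl Nf q F') (ne : F ≠ F') (o : F ≤ 𝐒 a) (o' : F' ≤ 𝐒 a) :
    ∃ E, Li Nf q E ∧ Fs Ω E = Fs Ω F ∩ Fs Ω F' := by
  obtain ⟨E, n, n'⟩ := (h.l3 a).com _ _ (h.pl_ee p o) (h.pl_st p p' o o')
  have l := h.li_nb p n
  refine ⟨E, l, Set.Subset.antisymm (fun c k => ⟨h.sub_nb l n.symm k, h.sub_nb l n'.symm k⟩)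
    fun c k => ?_⟩
  by_contra e
  exact ne (h.pl_uniq l e p p' (fun _ => h.sub_nb l n.symm) (fun _ => h.sub_nb l n'.symm) k.1 k.2)

theorem li_card (l : Li Nf q E) (l' : Li Nf q E') : (Fs Ω E').ncard = (Fs Ω E).ncard := by
  obtain ⟨a, b, l⟩ := l
  obtain ⟨c, d, l'⟩ := l'
  obtain ⟨g, rfl, rfl⟩ := h.two l.1 l'.1
  rw [h.ln_uniq (h.ln_J l g) l', Fs_cj]

theorem k2 (l : Li Nf q E) : 2 ≤ (Fs Ω E).ncard :=
  let ⟨a, b, l⟩ := l; (Set.one_lt_ncard).2 ⟨a, h.ee_on l.2.1, b, h.ln_on l, l.1⟩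

theorem card_n (l : Li Nf q E) : 𝐧 - 1 = (q * q + q + 1) * ((Fs Ω E).ncard - 1) := by
  obtain ⟨a, b, m⟩ := id l
  have o := h.ee_on m.2.1
  have := dc {c | c ≠ a} {D | St (Nf a) E D} (fun c D => D ≤ 𝐒 c) (m := 1) (n := (Fs Ω E).ncard - 1)
    (fun c ca => by
      obtain ⟨D, u, v, w⟩ := h.li_ex (Ne.symm ca)
      exact Set.ncard_eq_one.2 ⟨D, Set.eq_singleton_iff_unique_mem.2 ⟨⟨h.li_st l u o v, w⟩, fun X i =>
        h.li_uniq (h.li_of_st l i.1) u (Ne.symm ca) (h.ee_on (St.ee i.1 m.2.1)) i.2 v w⟩⟩)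
    (fun D s => by
      rw [← h.li_card l (h.li_of_st l s), ← Set.ncard_sdiff_singleton_of_mem (a := a) (s := Fs Ω D)
        (h.ee_on (St.ee s m.2.1))]
      congr 1; ext c; exact and_comm)
  rwa [ncard_ne, mul_one, (h.l3 a).card_st m.2.1] at this

theorem card_pl (l : Li Nf q E) (p : Pl Nf q F) : (Fs Ω F).ncard = (q + 1) * ((Fs Ω E).ncard - 1) + 1 := by
  obtain ⟨a, A, -, n⟩ := id p
  have o := h.ee_on n.2.1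
  have := dc (Fs Ω F \ {a}) {D | Nb (Nf a) q F D} (fun c D => D ≤ 𝐒 c) (m := 1)
    (n := (Fs Ω E).ncard - 1)
    (fun c hc => by
      have ca : a ≠ c := Ne.symm hc.2
      obtain ⟨D, u, v, w⟩ := h.li_ex ca
      exact Set.ncard_eq_one.2 ⟨D, Set.eq_singleton_iff_unique_mem.2
        ⟨⟨(h.nb_two u p ca v w o hc.1).symm, w⟩, fun X i =>
        h.li_uniq (h.li_nb p i.1) u ca (h.ee_on i.1.2.1) i.2 v w⟩⟩)
    (fun D s => by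
      rw [← h.li_card l (h.li_nb p s), ← Set.ncard_sdiff_singleton_of_mem (a := a) (s := Fs Ω D)
        (h.ee_on s.2.1)]
      congr 1; ext c
      exact ⟨fun i => ⟨i.2, i.1.2⟩, fun i => ⟨⟨h.sub_nb (h.li_nb p s) (Nb.symm s) i.1, i.2⟩, i.1⟩⟩)
  rw [mul_one, (h.l3 a).card_nb n.2.1, Set.ncard_sdiff_singleton_of_mem (s := Fs Ω F) o] at this
  have p : 0 < (Fs Ω F).ncard := (Set.ncard_pos).2 ⟨a, o⟩
  omega

theorem k_even (l : Li Nf q E) : Even (Fs Ω E).ncard := by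
  obtain ⟨a, -, -⟩ := id l
  have := h.odd_n a
  rw [h.card_n l, Nat.odd_mul] at this
  have := h.k2 l
  grind

/-- the lines joining a point to the points of a line -/
theorem card_join (l : Li Nf q E) (n : ¬ E ≤ 𝐒 c) :
    {D | Li Nf q D ∧ D ≤ 𝐒 c ∧ ∃ d : Ω, E ≤ 𝐒 d ∧ D ≤ 𝐒 d}.ncard = (Fs Ω E).ncard := by
  have := dc (Fs Ω E) {D | Li Nf q D ∧ D ≤ 𝐒 c ∧ ∃ d : Ω, E ≤ 𝐒 d ∧ D ≤ 𝐒 d} (fun d D => D ≤ 𝐒 d) (m := 1)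
    (n := 1)
    (fun d hd => by
      have cd : c ≠ d := fun e => n (e ▸ hd)
      obtain ⟨D, u, v, w⟩ := h.li_ex cd
      exact Set.ncard_eq_one.2 ⟨D, Set.eq_singleton_iff_unique_mem.2
        ⟨⟨⟨u, v, d, hd, w⟩, w⟩, fun X i => h.li_uniq i.1.1 u cd i.1.2.1 i.2 v w⟩⟩)
    (fun D ⟨u, v, d, hd, w⟩ => Set.ncard_eq_one.2 ⟨d, Set.eq_singleton_iff_unique_mem.2
      ⟨⟨hd, w⟩, fun x i => by
        by_contra e
        exact n (h.li_uniq l u e i.1 hd i.2 w ▸ v)⟩⟩)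
  simpa using this.symm

theorem join_sub (l : Li Nf q E) (n : ¬ E ≤ 𝐒 c) (p : Pl Nf q F) (s : Fs Ω E ⊆ Fs Ω F) (o : F ≤ 𝐒 c) :
    {D | Li Nf q D ∧ D ≤ 𝐒 c ∧ ∃ d : Ω, E ≤ 𝐒 d ∧ D ≤ 𝐒 d} ⊆ {D | Nb (Nf c) q F D} :=
  fun _ ⟨u, v, d, hd, w⟩ => (h.nb_two u p (fun e : c = d => n (e ▸ hd)) v w o (s hd)).symm

theorem ex_off (l : Li Nf q E) : ∃ c : Ω, ¬ E ≤ 𝐒 c := by
  by_contra! k
  obtain ⟨a, b, l⟩ := l
  exact (h.l3 a).ne_bot l.2.1 (eq_bot_iff.2 fun x hx => h.faith fun c => k c hx)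

theorem k_le (l : Li Nf q E) : (Fs Ω E).ncard ≤ q := by
  obtain ⟨c, n⟩ := h.ex_off l
  obtain ⟨F, p, s, o⟩ := h.pl_ex l c
  have := Set.ncard_le_ncard (h.join_sub l n p s o)
  rw [h.card_join l n, (h.l3 c).card_nb (h.pl_ee p o)] at this
  have e := h.k_even l
  have := (h.l3 c).qe
  grind

theorem k_dvd (l : Li Nf q E) : (Fs Ω E).ncard ∣ ((q + 1) * ((Fs Ω E).ncard - 1) + 1) * (q + 1) := by
  obtain ⟨a, -, -⟩ := id l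
  obtain ⟨F, p, -, -⟩ := h.pl_ex l a
  have := dc (Fs Ω F) {D | Li Nf q D ∧ Fs Ω D ⊆ Fs Ω F} (fun c D => D ≤ 𝐒 c) (m := q + 1)
    (n := (Fs Ω E).ncard)
    (fun c hc => by
      rw [← (h.l3 c).card_nb (h.pl_ee p hc)]; congr 1; ext D
      exact ⟨fun i => (h.nb_sub i.1.1 p i.2 i.1.2).symm, fun i =>
        ⟨⟨h.li_nb p i, fun _ => h.sub_nb (h.li_nb p i) (Nb.symm i)⟩, h.ee_on i.2.1⟩⟩)
    (fun D i => by
      rw [← h.li_card l i.1]; congr 1; ext c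
      exact ⟨fun j => j.2, fun j => ⟨i.2 j, j⟩⟩)
  rw [h.card_pl l p] at this
  exact Dvd.intro_left _ this.symm

theorem pl_dvd (l : Li Nf q E) : (q + 1) * ((Fs Ω E).ncard - 1) + 1 ∣ 𝐧 * (q * q + q + 1) := by
  have := dc Set.univ {F | Pl Nf q F} (fun (c : Ω) F => F ≤ 𝐒 c) (m := q * q + q + 1)
    (n := (q + 1) * ((Fs Ω E).ncard - 1) + 1)
    (fun c _ => by
      obtain ⟨F, p, -, o⟩ := h.pl_ex l c
      rw [← (h.l3 c).card_st (h.pl_ee p o)]; congr 1; ext D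
      refine ⟨fun i => h.pl_st p i.1 o i.2, fun i => ⟨?_, h.ee_on (St.ee i (h.pl_ee p o))⟩⟩
      obtain ⟨g, -, rfl⟩ := i
      exact h.pl_J p g)
    (fun F p => by rw [← h.card_pl l p]; congr 1; ext c; simp [Fs])
  rw [Set.ncard_univ] at this
  exact Dvd.intro_left _ this.symm

end Hy
end H5.HL
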