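import Cfsg.Agent.H5.HL7

/-! Doubly transitive groups with `L₃(2ⁿ)` normal in a point stabilizer, part 8:
the number of points on a line. -/

set_option autoImplicit false
set_option linter.unusedSectionVars false

open Cfsg Subgroup MulAction H19 H9.Dt
namespace H5.HL
open H5

variable {G Ω : Type*} [Group G] [Finite G] [Finite Ω] [MulAction G Ω] {Nf : Ω → Subgroup G} {q : ℕ}
  {D D' E E' F F' K : Subgroup G} {g k r s t u x y z : G} {a b c d : Ω}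

local notation "𝐒" => stabilizer G
local notation "𝐧" => Nat.card Ω

theorem ex_third {α : Type*} [Finite α] {s : Set α} (h : 2 < s.ncard) (a b : α) :
    ∃ c ∈ s, c ≠ a ∧ c ≠ b := by
  by_contra! k
  have : s ⊆ {a, b} := fun c hc => by
    by_cases e : c = a
    exacts [.inl e, .inr (k c hc e)]
  have := (Set.ncard_le_ncard this).trans (Set.ncard_insert_le _ _)
  rw [Set.ncard_singleton] at this
  omega

theorem LL_nrm {N : Subgroup G} (hg : g ∈ N) (e : g ∈ N(E)) : g ∈ N(LL N q E) := by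
  rw [mem_norm_iff_cj, cj_LL, cj_of_mem hg, cj_of_mem_norm e]

theorem pow_mod {L : Subgroup G} (hx : x ∈ N(L)) (e : x * s⁻¹ ∈ L) (j : ℕ) : x ^ j * (s ^ j)⁻¹ ∈ L := by
  induction j with
  | zero => simp
  | succ j ih =>
    have := L.mul_mem (conj_mem_of_norm hx ih) e
    convert this using 1
    rw [pow_succ' x, pow_succ' s]; group

theorem zp_inf {L : Subgroup G} (h : ∀ i : ℕ, x ^ i ∈ L → x ^ i = 1) : L ⊓ zpowers x = ⊥ :=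
  eq_bot_iff.2 fun y hy => by
    obtain ⟨i, rfl⟩ := (mem_powers_iff_mem_zpowers).2 hy.2
    exact h i hy.1

namespace Hy
variable (h : Hy Nf q)
include h

theorem LL_on (l : Li Nf q E) (o : E ≤ 𝐒 c) : LL (Nf a) q E ≤ 𝐒 c := LL_le fun _ n => h.sub_nb l n o

theorem cy (l : Ln Nf q a b E) (l' : Ln Nf q a c D) (hx : x ∈ Nf a) (xb : x • b = b)
    (xl : ∀ i : ℕ, x ^ i ∈ LL (Nf a) q E → x ^ i = 1) (xD : x ∈ N(D)) : x • c = c := by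
  obtain ⟨g, ga, rfl⟩ := h.tr1 l.1.symm l'.1.symm
  have e := h.ln_J l g
  rw [ga] at e
  obtain rfl := h.ln_uniq e l'
  have gN := cj_of_mem_norm (h.nrm ga)
  have c1 : #(LL (Nf a) q (cj g E)) = #(LL (Nf a) q E) := by rw [← card_cj g (LL _ q E), cj_LL, gN]
  have c2 : #(Nf a ⊓ 𝐒 (g • b)) = #(Nf a ⊓ 𝐒 b) := by rw [← card_cj g (Nf a ⊓ 𝐒 b), cj_inf, gN, cj_stab]
  have d1 := card_dvd (sup_le (le_inf LL_le_N (h.LL_on l.li (h.ln_on l))) (zpowers_le.2 ⟨hx, xb⟩) :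
    LL (Nf a) q E ⊔ zpowers x ≤ Nf a ⊓ 𝐒 b)
  rw [card_sup_of_disjoint (zpowers_le.2 (LL_nrm hx (l.2.2 ⟨hx, xb⟩))) (zp_inf xl)] at d1
  obtain ⟨m, t, -, -, -, tN, tE, -, p1, p2, -⟩ := (h.l3 a).tor1 _ l'.2.1
  have lx : LL (Nf a) q (cj g E) ≤ Nf a ⊓ 𝐒 (g • b) := le_inf LL_le_N (h.LL_on l'.li (h.ln_on l'))
  have tl := zpowers_le.2 (LL_nrm (q := q) tN tE)
  have e1 : LL (Nf a) q (cj g E) ⊔ (zpowers t ⊓ (Nf a ⊓ 𝐒 (g • b))) = Nf a ⊓ 𝐒 (g • b) := by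
    rw [← sup_inf_modl tl lx]
    refine inf_eq_right.2 fun y hy => ?_
    obtain ⟨i, k⟩ := p1 y hy.1 (l'.2.2 hy)
    exact (mem_sup_of_norm tl).2 ⟨_, k, t ^ i, pow_mem (mem_zpowers t) i, by group⟩
  have c3 := congrArg (fun K : Subgroup G => #K) e1
  rw [card_sup_of_disjoint (inf_le_left.trans tl) (H19.eq_bot_mono (inf_le_inf_left _ inf_le_left) (zp_inf p2)),
    c1, c2] at c3
  rw [← c3, Nat.card_zpowers] at d1
  obtain ⟨i, k⟩ := p1 x hx xD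
  have m := pow_mod (LL_nrm hx xD) k #(zpowers t ⊓ (Nf a ⊓ 𝐒 (g • b)))
  rw [orderOf_dvd_iff_pow_eq_one.1 (Nat.dvd_of_mul_dvd_mul_left (card_pos _) d1), one_mul, inv_mem_iff,
    ← pow_mul] at m
  have := (cyc_mem_iff (cyc_zpowers t) inf_le_left).2 ⟨pow_mem (mem_zpowers t) i, by
    rw [← pow_mul]; exact p2 _ m⟩
  have := (𝐒 (g • b)).mul_mem (lx k).2 this.2.2
  simpa using this

theorem li_fix (l : Li Nf q E) (ab : a ≠ b) (ea : E ≤ 𝐒 a) (eb : E ≤ 𝐒 b) (xa : x • a = a)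
    (xb : x • b = b) : x ∈ N(E) :=
  mem_norm_iff_cj.2 (h.li_uniq (h.li_J l x) l ab (xa ▸ on_smul ea x) (xb ▸ on_smul eb x) ea eb)

theorem sub_J (s : Fs Ω E ⊆ Fs Ω F) (g : G) : Fs Ω (cj g E) ⊆ Fs Ω (cj g F) := fun c hc => by
  have : E ≤ 𝐒 (g⁻¹ • c) := by simpa using on_smul hc g⁻¹
  show cj g F ≤ _
  simpa using on_smul (s this) g

theorem pl_fix3 (l : Li Nf q E) (p : Pl Nf q F) (s : Fs Ω E ⊆ Fs Ω F) (n : ¬ E ≤ 𝐒 c) (o : F ≤ 𝐒 c)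
    (xE : x ∈ N(E)) (xc : x • c = c) : x ∈ N(F) :=
  mem_norm_iff_cj.2 (h.pl_uniq l n (h.pl_J p x) p (cj_of_mem_norm xE ▸ h.sub_J s x) s
    (xc ▸ on_smul o x) o)

theorem hom_triv (l : Ln Nf q a b E) (k3 : 2 < (Fs Ω E).ncard) (p : Pl Nf q F) (fa : F ≤ 𝐒 a)
    (n : ¬ Nb (Nf a) q E F) (hx : x ∈ Nf a) (xb : x • b = b)
    (xl : ∀ i : ℕ, x ^ i ∈ LL (Nf a) q E → x ^ i = 1) (xF : ∀ D, Nb (Nf a) q F D → x ∈ N(D)) : x = 1 := by
  have ea := h.ee_on l.2.1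
  have eb := h.ln_on l
  have xa := h.le a hx
  have xE := l.2.2 ⟨hx, xb⟩
  have fb : ¬ F ≤ 𝐒 b := fun o => n (h.nb_two l.li p l.1 ea eb fa o)
  have f1 : ∀ c, E ≤ 𝐒 c → x • c = c := fun c o => by
    by_cases e : a = c
    · exact e ▸ xa
    · exact h.cy l (h.ln_mv l e o) hx xb xl xE
  have f2 : ∀ c, F ≤ 𝐒 c → x • c = c := fun c o => by
    by_cases e : a = c
    · exact e ▸ xa
    obtain ⟨D, m⟩ := h.ln_ex e
    exact h.cy l m hx xb xl (xF D (h.nb_two m.li p e (h.ee_on m.2.1) (h.ln_on m) fa o).symm)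
  obtain ⟨D, d1⟩ := (h.l3 a).ex_nb (h.pl_ee p fa)
  obtain ⟨D', d2, ne, -⟩ := (h.l3 a).ex3 (h.pl_ee p fa) D D
  have l1 := h.li_nb p d1
  have l2 := h.li_nb p d2
  have a1 := h.ee_on d1.2.1
  have a2 := h.ee_on d2.2.1
  obtain ⟨c', ca', o'⟩ := h.li_pt l2 a
  have fc' := h.sub_nb l2 d2.symm o'
  have key : ∀ c, c ≠ a → D ≤ 𝐒 c → ∃ M, Pl Nf q M ∧ M ≤ 𝐒 b ∧ M ≤ 𝐒 c ∧ ¬ M ≤ 𝐒 a ∧ x ∈ N(M) := by
    intro c ca o
    have fc := h.sub_nb l1 d1.symm o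
    have cc : c ≠ c' := fun e => ne (h.li_uniq l2 l1 ca' o' a2 (e ▸ o) a1)
    obtain ⟨U, u, u1, u2⟩ := h.li_ex cc
    have s := h.sub_two u p cc u1 u2 fc fc'
    obtain ⟨M, m, s', o2⟩ := h.pl_ex u b
    refine ⟨M, m, o2, s' u1, fun o3 => fb (h.pl_uniq u (fun o4 => ne ?_) m p s' s o3 fa ▸ o2),
      h.pl_fix3 u m s' (fun o4 => fb (s o4)) o2 (h.li_fix u cc u1 u2 (f2 c fc) (f2 c' fc')) xb⟩
    exact (h.li_uniq l2 u ca' o' a2 u2 o4).trans (h.li_uniq u l1 ca u1 o4 o a1)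
  rw [← h.li_card l.li l1] at k3
  obtain ⟨c1, o1, n1, -⟩ := ex_third k3 a a
  obtain ⟨c2, o2, n2, n3⟩ := ex_third k3 a c1
  obtain ⟨M, m1, m2, m3, m4, m5⟩ := key c1 n1 o1
  obtain ⟨M', k1, k2, k3, k4, k5⟩ := key c2 n2 o2
  have xc := (h.l3 b).pl (h.nrm xb) (h.li_ee l.li eb) (fun P np => by
      have pp : Pl Nf q P := ⟨b, E, l.li, np⟩
      have s : Fs Ω E ⊆ Fs Ω P := fun _ => h.sub_nb l.li np
      obtain ⟨U, u, e⟩ := h.meet pp p (fun e => fb (e ▸ s eb)) (s ea) fa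
      obtain ⟨c, ca, o⟩ := h.li_pt u a
      have o' := e.le o
      refine h.pl_fix3 l.li pp s (fun o2 => fb ?_) o'.1 xE (f2 c o'.2)
      exact h.sub_two l.li p ca o2 ea o'.2 fa eb)
    (h.pl_ee m1 m2) (h.pl_ee k1 k2) (h.pl_nst l.li m1 eb m2) (h.pl_nst l.li k1 eb k2)
    (fun v => m4 (h.sub_nb l.li v ea)) (fun v => k4 (h.sub_nb l.li v ea))
    (fun e => m4 (h.sub_two l1 m1 n3 o2 o1 (e ▸ k3) m3 a1)) m5 k5
  refine h.faith fun d => ?_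
  by_cases e : b = d
  · exact e ▸ xb
  obtain ⟨U, u, u1, u2⟩ := h.li_ex e
  obtain ⟨g, hg, rfl⟩ := h.li_st l.li u eb u1
  have := fix_of_comm (mem_cent.1 xc g hg) (f1 (g⁻¹ • d) (by simpa using on_smul u2 g⁻¹))
  simpa using this

theorem pl_of (l : Li Nf q E) (o : E ≤ 𝐒 a) (e : EE (Nf a) q F) (s : ¬ St (Nf a) E F) : Pl Nf q F :=
  (h.li_or e).resolve_left fun l' => s (h.li_st l l' o (h.ee_on e))

/-- a cyclic group acting semiregularly on a punctured line -/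
theorem semireg (l : Li Nf q E) (o : E ≤ 𝐒 a) (k3 : 2 < (Fs Ω E).ncard) : ∃ t ∈ Nf a,
    orderOf t * Nat.gcd 3 (q - 1) = q - 1 ∧ (∀ g ∈ zpowers t, ∀ b ∈ Fs Ω E \ {a}, g • b ∈ Fs Ω E \ {a}) ∧
    ∀ b ∈ Fs Ω E \ {a}, {c | ∃ g ∈ zpowers t, g • b = c}.ncard = orderOf t := by
  obtain ⟨m, t, e, s, n, tN, tE, f, -, p2, ot⟩ := (h.l3 a).tor1 _ (h.li_ee l o)
  refine ⟨t, tN, ot, fun g hg b hb => ⟨?_, fun k => hb.2 ?_⟩, fun b hb => ?_⟩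
  · exact cj_of_mem_norm (zpowers_le.2 tE hg) ▸ on_smul hb.1 g
  · rw [Set.mem_singleton_iff, ← smul_left_cancel_iff g, k]; exact (h.le a (zpowers_le.2 tN hg)).symm
  have c := card_orbit (zpowers t) b (Y := {c | ∃ g ∈ zpowers t, g • b = c}) fun _ => Iff.rfl
  rw [show zpowers t ⊓ 𝐒 b = ⊥ from eq_bot_iff.2 fun y hy => by
    obtain ⟨i, rfl⟩ := (mem_powers_iff_mem_zpowers).2 hy.1
    exact h.hom_triv (h.li_ln l (Ne.symm hb.2) o hb.1) k3 (h.pl_of l o e s) (h.ee_on e) n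
      (pow_mem tN i) hy.2 (fun j => by simp only [← pow_mul]; exact p2 _)
      fun D d => pow_mem (f D d) i, card_bot, mul_one, Nat.card_zpowers] at c
  exact c.symm

theorem no_three (l : Li Nf q E) (e : (Fs Ω E).ncard = q) (d : 3 ∣ q - 1) : False := by
  obtain ⟨a, b, l0⟩ := id l
  have o := h.ee_on l0.2.1
  obtain ⟨E₂, m, E₃, g, ne, n1, n2, n3, g1, g2, g3⟩ := (h.l3 a).tor2 d E l0.2.1
  have p : Pl Nf q m := ⟨a, E, l, n1.symm⟩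
  have l2 := h.li_nb p n2
  have l3 := h.li_nb p n3
  have a2 := h.ee_on n2.2.1
  have a3 := h.ee_on n3.2.1
  obtain ⟨c, ca, oc⟩ := h.li_pt l3 a
  have c1 : ¬ E ≤ 𝐒 c := fun k => g3 (h.li_uniq l l3 ca k o oc a3 ▸ (h.l3 a).LL_norm g1)
  have c2 : ¬ E₂ ≤ 𝐒 c := fun k => g3 (h.li_uniq l2 l3 ca k a2 oc a3 ▸ (h.l3 a).LL_norm g2)
  have mc := h.sub_nb l3 n3.symm oc
  have i := Set.ncard_inter_add_ncard_union {D | Li Nf q D ∧ D ≤ 𝐒 c ∧ ∃ d : Ω, E ≤ 𝐒 d ∧ D ≤ 𝐒 d}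
    {D | Li Nf q D ∧ D ≤ 𝐒 c ∧ ∃ d : Ω, E₂ ≤ 𝐒 d ∧ D ≤ 𝐒 d}
  have j := Set.ncard_le_ncard (Set.union_subset (h.join_sub l c1 p (fun _ => h.sub_nb l n1.symm) mc)
    (h.join_sub l2 c2 p (fun _ => h.sub_nb l2 n2.symm) mc))
  rw [h.card_join l c1, h.card_join l2 c2, h.li_card l l2, e] at i
  rw [(h.l3 c).card_nb (h.pl_ee p mc)] at j
  have q2 := (h.l3 a).q2
  have k : 2 < ({D | Li Nf q D ∧ D ≤ 𝐒 c ∧ ∃ d : Ω, E ≤ 𝐒 d ∧ D ≤ 𝐒 d} ∩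
    {D | Li Nf q D ∧ D ≤ 𝐒 c ∧ ∃ d : Ω, E₂ ≤ 𝐒 d ∧ D ≤ 𝐒 d}).ncard := by omega
  have key : ∀ D ∈ {D | Li Nf q D ∧ D ≤ 𝐒 c ∧ ∃ d : Ω, E ≤ 𝐒 d ∧ D ≤ 𝐒 d} ∩
      {D | Li Nf q D ∧ D ≤ 𝐒 c ∧ ∃ d : Ω, E₂ ≤ 𝐒 d ∧ D ≤ 𝐒 d}, D ≠ E₃ → D ≤ 𝐒 (g • c) := by
    rintro D ⟨⟨u, v, d, d1, d2⟩, -, -, d', d3, d4⟩ w
    have dd : d ≠ d' := fun e => by
      subst e
      by_cases e : d = a
      · exact w (h.li_uniq u l3 ca v (e ▸ d2) oc a3)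
      · exact ne (h.li_uniq l2 l e d3 a2 d1 o)
    exact cj_of_mem_norm (h.li_fix u dd d2 d4 (h.LL_on l d1 g1) (h.LL_on l2 d3 g2)) ▸ on_smul v g
  obtain ⟨D, u, v, -⟩ := ex_third k E₃ E₃
  obtain ⟨D', u', v', w⟩ := ex_third k E₃ D
  refine g3 (h.li_fix l3 ca oc a3 ?_ (h.LL_on l o g1))
  by_contra e
  exact w (h.li_uniq u'.1.1 u.1.1 e (key _ u' v') u'.1.2.1 (key _ u v) u.1.2.1)

theorem kc (l : Li Nf q E) : (Fs Ω E).ncard = q ∧ ¬ 3 ∣ q - 1 ∨ (Fs Ω E).ncard = 2 ∧ q = 4 := by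
  obtain ⟨a, b, l0⟩ := id l
  have k2 := h.k2 l
  have kq := h.k_le l
  have q2 := (h.l3 a).q2
  by_cases k3 : 2 < (Fs Ω E).ncard
  · obtain ⟨t, -, ot, pr, sr⟩ := h.semireg l (h.ee_on l0.2.1) k3
    have d := dvd_of_cls (s := Fs Ω E \ {a}) (fun x y => ∃ g ∈ zpowers t, g • x = y) (c := orderOf t)
      (fun x _ => ⟨1, one_mem _, one_smul _ _⟩)
      (fun x _ y _ ⟨g, hg, e⟩ => ⟨g⁻¹, inv_mem hg, by rw [← e, inv_smul_smul]⟩)
      (fun x _ y _ z _ ⟨g, hg, e⟩ ⟨k, hk, f⟩ => ⟨k * g, mul_mem hk hg, by rw [mul_smul, e, f]⟩)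
      fun x hx => by
        rw [← sr x hx]; congr 1; ext y
        exact ⟨fun i => i.2, fun ⟨g, hg, e⟩ => ⟨e ▸ pr g hg x hx, g, hg, e⟩⟩
    rw [Set.ncard_sdiff_singleton_of_mem (s := Fs Ω E) (h.ee_on l0.2.1)] at d
    by_cases d3 : 3 ∣ q - 1
    · exfalso
      rw [Nat.gcd_eq_left d3] at ot
      have ev := h.k_even l
      have dv := h.k_dvd l
      have n3 : (Fs Ω E).ncard ≠ q := fun e => h.no_three l e d3
      generalize (Fs Ω E).ncard = k at *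
      obtain ⟨j, hj⟩ := d
      have j3 : j ≤ 3 := by nlinarith [orderOf_pos t, show k - 1 ≤ q - 1 by omega]
      obtain ⟨i, hi⟩ := ev
      have : j = 1 := by interval_cases j <;> omega
      subst this
      obtain ⟨m, rfl⟩ : ∃ m, k = m + 1 := ⟨k - 1, by omega⟩
      obtain rfl : q = 3 * m + 1 := by omega
      rw [Nat.add_sub_cancel] at dv
      have := Nat.le_of_dvd two_pos ((Nat.dvd_add_right dv).1
        ⟨9 * m * m + 3 * m + 4, by ring⟩)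
      omega
    · rw [(Nat.Prime.coprime_iff_not_dvd Nat.prime_three).2 d3, mul_one] at ot
      have := Nat.le_of_dvd (by omega) d
      exact .inl ⟨by omega, d3⟩
  have e : (Fs Ω E).ncard = 2 := by omega
  have d := h.pl_dvd l
  have n := h.card_n l
  have n0 : 0 < 𝐧 := by haveI : Nonempty Ω := ⟨a⟩; exact Nat.card_pos
  rw [e] at d n
  obtain ⟨r, rfl⟩ : ∃ r, q = r + 2 := ⟨q - 2, by omega⟩
  rw [show 𝐧 = (r + 2) * (r + 2) + (r + 2) + 2 by omega, show (r + 2 + 1) * (2 - 1) + 1 = r + 4 by omega,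
    show ((r + 2) * (r + 2) + (r + 2) + 2) * ((r + 2) * (r + 2) + (r + 2) + 1) =
      (r + 4) * (r ^ 3 + 6 * r ^ 2 + 16 * r + 11) + 12 by ring] at d
  have d' := (Nat.dvd_add_right (dvd_mul_right _ _)).1 d
  have := Nat.le_of_dvd (by norm_num) d'
  obtain ⟨j, hj⟩ := (h.l3 a).pw
  have : j < 3 := by
    by_contra k
    have := Nat.pow_le_pow_right two_pos (show 4 ≤ j + 1 by omega)
    omega
  interval_cases j
  · omega
  · omega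
  · obtain rfl : r = 6 := by omega
    omega

theorem ntr (ba : b ≠ a) (ca : c ≠ a) : ∃ g ∈ Nf a, g • b = c := by
  obtain ⟨E, l, o, ob⟩ := h.li_ex ba.symm
  obtain ⟨D, l', o', oc⟩ := h.li_ex ca.symm
  obtain ⟨g, hg, rfl⟩ := h.li_st l l' o o'
  suffices ∃ k ∈ Nf a, k • g • b = c from let ⟨k, hk, e⟩ := this; ⟨k * g, mul_mem hk hg, by rw [mul_smul, e]⟩
  have m1 : g • b ∈ Fs Ω (cj g E) \ {a} := ⟨on_smul ob g, fun k => ba (by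
    rw [← smul_left_cancel_iff g, k]; exact (h.le a hg).symm)⟩
  have m2 : c ∈ Fs Ω (cj g E) \ {a} := ⟨oc, ca⟩
  have cd := Set.ncard_sdiff_singleton_of_mem (s := Fs Ω (cj g E)) o'
  by_cases k3 : 2 < (Fs Ω (cj g E)).ncard
  · obtain ⟨t, tN, ot, pr, sr⟩ := h.semireg l' o' k3
    obtain ⟨e, d⟩ := (h.kc l').resolve_right fun e => by omega
    rw [(Nat.Prime.coprime_iff_not_dvd Nat.prime_three).2 d, mul_one] at ot
    obtain ⟨k, hk, f⟩ := (Set.eq_of_subset_of_ncard_le (s := {c | ∃ k ∈ zpowers t, k • g • b = c})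
      (by rintro _ ⟨k, hk, rfl⟩; exact pr k hk _ m1) (by rw [sr _ m1, cd, e, ot])).ge m2
    exact ⟨k, zpowers_le.2 tN hk, f⟩
  · exact ⟨1, one_mem _, by
      rw [one_smul]; exact (Set.ncard_le_one (Set.toFinite _)).1 (by omega) _ m1 _ m2⟩

end Hy
end H5.HL
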