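import Cfsg.Agent.H5.HL8

/-! Doubly transitive groups with `L₃(2ⁿ)` normal in a point stabilizer, part 9:
the affine space. -/

set_option autoImplicit false
set_option linter.unusedSectionVars false

open Cfsg Subgroup MulAction H19 H9.Dt
namespace H5.HL
open H5

variable {G Ω : Type*} [Group G] [Finite G] [Finite Ω] [MulAction G Ω] {Nf : Ω → Subgroup G} {q : ℕ}
  {D D' E E' F F' K U U' V V' : Subgroup G} {g k r s t u x y z : G} {a b c d : Ω}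

local notation "𝐒" => stabilizer G
local notation "𝐧" => Nat.card Ω

def Dj (Ω : Type*) [MulAction G Ω] (E D : Subgroup G) : Prop := ∀ c : Ω, E ≤ 𝐒 c → ¬ D ≤ 𝐒 c

/-- parallel lines -/
def Par (Nf : Ω → Subgroup G) (q : ℕ) (E D : Subgroup G) : Prop :=
  E = D ∨ (∃ F, Pl Nf q F ∧ Fs Ω E ⊆ Fs Ω F ∧ Fs Ω D ⊆ Fs Ω F) ∧ Dj Ω E D

theorem Dj.symm (h : Dj Ω E D) : Dj Ω D E := fun c a b => h c b a

theorem Par.symm (h : Par Nf q E D) : Par Nf q D E :=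
  h.imp Eq.symm fun ⟨⟨F, p, a, b⟩, c⟩ => ⟨⟨F, p, b, a⟩, c.symm⟩

theorem Par.eq (h : Par Nf q E D) (a : E ≤ 𝐒 c) (b : D ≤ 𝐒 c) : E = D :=
  h.resolve_right fun k => k.2 c a b

structure Af (Nf : Ω → Subgroup G) (q : ℕ) : Prop extends Hy Nf q where
  kq : ∀ E, Li Nf q E → (Fs Ω E).ncard = q

namespace Af
variable (h : Af Nf q)
include h

theorem par_J (p : Par Nf q E D) (g : G) : Par Nf q (cj g E) (cj g D) :=
  p.imp (congrArg _) fun ⟨⟨F, p, a, b⟩, c⟩ => ⟨⟨_, h.pl_J p g, h.sub_J a g, h.sub_J b g⟩, fun d u v =>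
    c (g⁻¹ • d) (by simpa using on_smul u g⁻¹) (by simpa using on_smul v g⁻¹)⟩

theorem pf (l : Li Nf q E) (p : Pl Nf q F) (s : Fs Ω E ⊆ Fs Ω F) (o : F ≤ 𝐒 c) (n : ¬ E ≤ 𝐒 c) :
    ∃ D, {D | Li Nf q D ∧ D ≤ 𝐒 c ∧ Fs Ω D ⊆ Fs Ω F ∧ Dj Ω E D} = {D} := by
  have := Set.ncard_sdiff (h.join_sub l n p s o)
  rw [h.card_join l n, (h.l3 c).card_nb (h.pl_ee p o), h.kq E l, Nat.add_sub_cancel_left] at this
  obtain ⟨D, e⟩ := Set.ncard_eq_one.1 this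
  refine ⟨D, e ▸ Set.ext fun X => ⟨fun ⟨u, v, w, i⟩ => ⟨(h.nb_sub u p v w).symm, fun ⟨_, _, d, j, k⟩ =>
    i d j k⟩, fun ⟨i, j⟩ => ?_⟩⟩
  have u := h.li_nb p i
  exact ⟨u, h.ee_on i.2.1, fun _ => h.sub_nb u (Nb.symm i), fun d v w => j ⟨u, h.ee_on i.2.1, d, v, w⟩⟩

theorem pf_uniq (l : Li Nf q E) (p : Pl Nf q F) (s : Fs Ω E ⊆ Fs Ω F) (u : Li Nf q D) (u' : Li Nf q D')
    (o : D ≤ 𝐒 c) (o' : D' ≤ 𝐒 c) (t : Fs Ω D ⊆ Fs Ω F) (t' : Fs Ω D' ⊆ Fs Ω F) (j : Dj Ω E D)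
    (j' : Dj Ω E D') : D = D' := by
  obtain ⟨X, e⟩ := h.pf l p s (t o) fun k => j c k o
  exact (e.le ⟨u, o, t, j⟩).trans (e.le ⟨u', o', t', j'⟩).symm

theorem par_ex (l : Li Nf q E) (c : Ω) : ∃ D, Li Nf q D ∧ D ≤ 𝐒 c ∧ Par Nf q E D := by
  by_cases n : E ≤ 𝐒 c
  · exact ⟨E, l, n, .inl rfl⟩
  obtain ⟨F, p, s, o⟩ := h.pl_ex l c
  obtain ⟨D, e⟩ := h.pf l p s o n
  obtain ⟨u, v, w, i⟩ := e.ge rfl
  exact ⟨D, u, v, .inr ⟨⟨F, p, s, w⟩, i⟩⟩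

theorem par_sub (l : Li Nf q E) (r : Par Nf q E D) (p : Pl Nf q F) (s : Fs Ω E ⊆ Fs Ω F) (o : D ≤ 𝐒 c)
    (o' : F ≤ 𝐒 c) : Fs Ω D ⊆ Fs Ω F := by
  rcases r with rfl | ⟨⟨P, p', a, b⟩, j⟩
  · exact s
  · exact h.pl_uniq l (fun k => j c k o) p' p a s (b o) o' ▸ b

theorem par_uniq (l : Li Nf q E) (u : Li Nf q D) (u' : Li Nf q D') (r : Par Nf q E D)
    (r' : Par Nf q E D') (o : D ≤ 𝐒 c) (o' : D' ≤ 𝐒 c) : D = D' := by
  by_cases n : E ≤ 𝐒 c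
  · exact (r.eq n o).symm.trans (r'.eq n o')
  obtain ⟨F, p, s, f⟩ := h.pl_ex l c
  exact h.pf_uniq l p s u u' o o' (h.par_sub l r p s o f) (h.par_sub l r' p s o' f)
    (r.resolve_left fun e => n (e ▸ o)).2 (r'.resolve_left fun e => n (e ▸ o')).2

theorem par_trans (l : Li Nf q E) (u : Li Nf q D) (l' : Li Nf q E') (r : Par Nf q E D)
    (r' : Par Nf q D E') : Par Nf q E E' := by
  by_cases e : E = E'
  · exact .inl e
  have j : Dj Ω E E' := fun c a b => e (h.par_uniq u l l' r.symm r' a b)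
  rcases id r with rfl | ⟨⟨T, t, t1, t2⟩, j1⟩
  · exact r'
  rcases id r' with rfl | ⟨⟨S, s, s1, s2⟩, j2⟩
  · exact r
  obtain ⟨c, _, m⟩ := id l'
  have o := h.ee_on m.2.1
  obtain ⟨R, p, p1, p2⟩ := h.pl_ex l c
  refine .inr ⟨⟨R, p, p1, ?_⟩, j⟩
  by_cases rs : R = S
  · exact rs ▸ s2
  obtain ⟨W, w, k⟩ := h.meet p s rs p2 (s2 o)
  rw [← h.pf_uniq u s s1 w l' (k.ge ⟨p2, s2 o⟩) o (k.le.trans Set.inter_subset_right) s2
    (fun d a b => rs ?_) j2]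
  · exact k.le.trans Set.inter_subset_left
  · obtain rfl := h.pl_uniq l (fun i => j1 d i a) p t p1 t1 (k.le b).1 (t2 a)
    exact h.pl_uniq u (fun i => j2 c i o) p s t2 s1 p2 (s2 o)

theorem pp (p : Pl Nf q F) (p' : Pl Nf q F') (n : ¬ F ≤ 𝐒 c) (u : Li Nf q U) (u' : Li Nf q U')
    (ne : U ≠ U') (o : U ≤ 𝐒 c) (o' : U' ≤ 𝐒 c) (s : Fs Ω U ⊆ Fs Ω F') (s' : Fs Ω U' ⊆ Fs Ω F')
    (v : Li Nf q V) (v' : Li Nf q V') (t : Fs Ω V ⊆ Fs Ω F) (t' : Fs Ω V' ⊆ Fs Ω F) (r : Par Nf q V U)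
    (r' : Par Nf q V' U') : Dj Ω F F' := fun d a b => by
  obtain ⟨W, w, k⟩ := h.meet p p' (fun e => n (e ▸ s o)) a b
  exact ne (h.pf_uniq w p' (k.le.trans Set.inter_subset_right) u u' o o' s s'
    (fun x i j => n (h.par_sub v r p t j (k.le i).1 o)) fun x i j => n (h.par_sub v' r' p t' j (k.le i).1 o'))

theorem ex_dir : ∀ a : Ω, ∃ y : G, y ≠ 1 ∧ ∀ E, Li Nf q E → Par Nf q E (cj y E) := by
  intro c
  obtain ⟨V, v, vc⟩ := h.li_at c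
  obtain ⟨F, n⟩ := (h.l3 c).ex_nb (h.li_ee v vc)
  have p : Pl Nf q F := ⟨c, V, v, n⟩
  have fc := h.ee_on n.2.1
  obtain ⟨e, eV, eF, e1, e2⟩ := n.ex
  obtain ⟨a, ea⟩ : ∃ a : Ω, e • a ≠ a := by
    by_contra! k; exact e1 (h.faith k)
  have fa : ¬ F ≤ 𝐒 a := fun k => ea (k eF)
  have l := h.l3 a
  obtain ⟨V', n', ne, -⟩ := (h.l3 c).ex3 n.2.1 V V
  have v' := h.li_nb p n'
  have sV : Fs Ω V ⊆ Fs Ω F := fun _ => h.sub_nb v n
  have sV' : Fs Ω V' ⊆ Fs Ω F := fun _ => h.sub_nb v' n'.symm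
  obtain ⟨L, l0, la, r0⟩ := h.par_ex v a
  obtain ⟨L', l0', la', r0'⟩ := h.par_ex v' a
  obtain ⟨P, p0, sL, sL'⟩ := h.pl_two l0 l0' la la'
  have pa := sL la
  have dj : Dj Ω F P := h.pp p p0 fa l0 l0' (fun k => ne ((h.par_trans v' l0 v (k ▸ r0') r0.symm).eq
    (h.ee_on n'.2.1) vc)) la la' sL sL' v v' sV sV' r0 r0'
  have i1 : ∀ E, Nb (Nf a) q P E → Par Nf q E (cj e E) := fun E m => by
    have u := h.li_nb p0 m
    obtain ⟨S, s, s1, s2⟩ := h.pl_ex u c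
    obtain ⟨W, w, k⟩ := h.meet s p (fun i => fa (i ▸ s1 (h.ee_on m.2.1))) s2 fc
    have r : Par Nf q E W := .inr ⟨⟨S, s, s1, k.le.trans Set.inter_subset_left⟩, fun d i j =>
      dj d (k.le j).2 (h.sub_nb u m.symm i)⟩
    have r' := h.par_J r e
    rw [cj_of_mem_norm ((h.l3 c).nrm (h.nb_sub w p (k.ge ⟨s2, fc⟩)
      (k.le.trans Set.inter_subset_right)) eF)] at r'
    exact h.par_trans u w (h.li_J u e) r r'.symm
  have i2 : ∀ E, Li Nf q E → E ≤ 𝐒 a → ¬ Nb (Nf a) q P E → ∃ d : Ω, E ≤ 𝐒 d ∧ F ≤ 𝐒 d := fun E u o m => by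
    by_contra! k
    obtain ⟨S, s, s1, s2⟩ := h.pl_ex u c
    obtain ⟨W, w, k1⟩ := h.meet s p (fun i => fa (i ▸ s1 o)) s2 fc
    obtain ⟨W', w', k2⟩ := h.meet s p0 (fun i => dj c fc (i ▸ s2)) (s1 o) pa
    refine m (h.nb_sub u p0 o ?_).symm
    rw [h.pf_uniq w s (k1.le.trans Set.inter_subset_left) u w' o (k2.ge ⟨s1 o, pa⟩) s1
      (k2.le.trans Set.inter_subset_left) (fun d i j => k d j (k1.le i).2)
      fun d i j => dj d (k1.le i).2 (k2.le j).2]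
    exact k2.le.trans Set.inter_subset_right
  have nLP := h.nb_sub l0 p0 la sL
  have i3 : ∀ R, Nb (Nf a) q L R → R ≠ P → e ∈ N(R) := fun R m ne => by
    have r : Pl Nf q R := ⟨a, L, l0, m⟩
    obtain ⟨E, m', ne', -⟩ := l.ex3 m.2.1 L L
    have u := h.li_nb r m'
    obtain ⟨d, d1, d2⟩ := i2 E u (h.ee_on m'.2.1) fun k => ne (l.uniq m' m.symm k nLP.symm ne')
    obtain ⟨W, w, eW⟩ := (h.l3 d).other (h.pl_ee p d2) e1 eF
    have w0 := h.li_nb p w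
    have r1 : Par Nf q V W := by
      by_cases k : V = W
      · exact .inl k
      exact .inr ⟨⟨F, p, sV, fun _ => h.sub_nb w0 w.symm⟩, fun x i j =>
        k ((h.l3 x).st_eq (h.li_ee v i) (h.li_st v w0 i j) e1 eV eW)⟩
    have wd := h.ee_on w.2.1
    exact (h.l3 d).nrm (h.nb_sub w0 r wd (h.par_sub l0 (h.par_trans l0 v w0 r0.symm r1) r
      (fun _ => h.sub_nb l0 m) wd (h.sub_nb u m'.symm d1))).symm eW
  obtain ⟨R, m1, ne1, -⟩ := l.ex3 nLP.1 P P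
  obtain ⟨R', m2, ne2, ne3⟩ := l.ex3 nLP.1 P R
  have r1 : Pl Nf q R := ⟨a, L, l0, m1⟩
  have r2 : Pl Nf q R' := ⟨a, L, l0, m2⟩
  obtain ⟨A, a1, a2, -⟩ := l.ex3 m1.2.1 L L
  obtain ⟨A', a1', a2', -⟩ := l.ex3 m2.2.1 L L
  have a0 := h.li_nb r1 a1
  have a0' := h.li_nb r2 a1'
  obtain ⟨U, u0, ua, ru⟩ := h.par_ex (h.li_J a0 e) a
  obtain ⟨z, hz, zA⟩ := l.tr0 m1.symm nLP ne1.symm a1 a2 (h.nb_sub u0 r1 ua
    (h.par_sub (h.li_J a0 e) ru r1 (cj_of_mem_norm (i3 R m1 ne1) ▸ h.sub_J (fun _ => h.sub_nb a0 a1.symm) e)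
      ua (h.ee_on a1.1))).symm fun k => a2 (by
    have := h.par_J (h.par_trans (h.li_J a0 e) l0 (h.li_J l0 e) (k ▸ ru) (i1 L nLP.symm)) e⁻¹
    simp only [cj_inv_cj] at this
    exact this.eq (h.ee_on a1.2.1) la)
  have za : (e * z) • a ≠ a := by rwa [mul_smul, show z • a = a from la hz.1]
  have j1 : ∀ E, Nb (Nf a) q P E → Par Nf q E (cj (e * z) E) := fun E m => by
    rw [cj_mul, cj_of_mem_norm (l.nrm m.symm hz.2)]; exact i1 E m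
  have j3 : ∀ R, Nb (Nf a) q L R → R ≠ P → cj (e * z) R = R := fun R m ne =>
    cj_of_mem_norm (mul_mem (i3 R m ne) (l.nrm m.symm hz.1))
  have jA : Par Nf q A (cj (e * z) A) := by
    have := h.par_J ru e
    rwa [cj_cj, e2, cj_one, ← zA, cj_cj] at this
  have ja : L ≤ 𝐒 ((e * z) • a) := by
    by_contra k
    exact ne3 (h.pl_uniq l0 k r2 r1 (fun _ => h.sub_nb l0 m2) (fun _ => h.sub_nb l0 m1)
      (j3 R' m2 ne2 ▸ on_smul (h.ee_on m2.2.1) _) (j3 R m1 ne1 ▸ on_smul (h.ee_on m1.2.1) _))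
  have step : ∀ B Q E, Nb (Nf a) q L Q → Q ≠ P → Nb (Nf a) q Q B → B ≠ L → Par Nf q B (cj (e * z) B) →
      Li Nf q E → E ≤ 𝐒 a → ¬ Nb (Nf a) q P E → ¬ Nb (Nf a) q Q E → Par Nf q E (cj (e * z) E) := by
    intro B Q E m ne b bl rb u o x1 x2
    have b0 := h.li_nb ⟨a, L, l0, m⟩ b
    have ba := h.ee_on b.2.1
    obtain ⟨T, t, t1, t2⟩ := h.pl_two b0 u ba o
    have tB := h.nb_sub b0 t ba t1
    have tE := h.nb_sub u t o t2
    obtain ⟨W, w, k⟩ := h.meet t p0 (fun i => x1 (i ▸ tE.symm)) (t1 ba) pa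
    have wa := k.ge ⟨t1 ba, pa⟩
    have wP := (h.nb_sub w p0 wa (k.le.trans Set.inter_subset_right)).symm
    obtain ⟨S, s, s1, s2⟩ := h.pl_two l0 u la o
    have d := h.pp t (h.pl_J t (e * z)) (fun i => x2 ((l.uniq (h.nb_two l0 t za ja la i (t1 ba) |> fun _ =>
        (h.nb_two l0 t za.symm la ja (t1 ba) i).symm) tB.symm m.symm b bl.symm) ▸ tE.symm))
      (h.li_J b0 _) (h.li_J w _) (fun i => ne (l.uniq b m.symm (cj_inj.1 i ▸ wP) nLP.symm bl))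
      (on_smul ba _) (on_smul wa _) (h.sub_J t1 _) (h.sub_J (k.le.trans Set.inter_subset_left) _) b0 w t1
      (k.le.trans Set.inter_subset_left) rb (j1 W wP)
    exact .inr ⟨⟨S, s, s2, j3 S (h.nb_sub l0 s la s1) (fun i => x1 (i ▸ (h.nb_sub u s o s2).symm)) ▸
      h.sub_J s2 _⟩, fun x i j => d x (t2 i) (h.sub_J t2 _ j)⟩
  have all : ∀ E, Li Nf q E → E ≤ 𝐒 a → Par Nf q E (cj (e * z) E) := fun E u o => by
    by_cases x1 : Nb (Nf a) q P E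
    · exact j1 E x1
    by_cases x2 : Nb (Nf a) q R E
    swap; · exact step A R E m1 ne1 a1 a2 jA u o x1 x2
    exact step A' R' E m2 ne2 a1' a2' (step A R A' m1 ne1 a1 a2 jA a0' (h.ee_on a1'.2.1)
      (fun k => ne2 (l.uniq a1' m2.symm k nLP.symm a2')) fun k => ne3 (l.uniq a1' m2.symm k m1.symm a2'))
      u o x1 fun k => ne3 (l.uniq k m2.symm x2 m1.symm fun i => x1 (i ▸ nLP.symm))
  refine ⟨e * z, fun k => za (by rw [k, one_smul]), fun E u => ?_⟩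
  obtain ⟨D, d0, d1, d2⟩ := h.par_ex u a
  exact h.par_trans u (h.li_J d0 _) (h.li_J u _) (h.par_trans u d0 (h.li_J d0 _) d2 (all D d0 d1))
    (h.par_J d2 _).symm

theorem rns (a : Ω) : ∃ V : Subgroup G, RegN Ω V := by
  let D : Subgroup G :=
    { carrier := {y | ∀ E, Li Nf q E → Par Nf q E (cj y E)}
      one_mem' := fun E _ => .inl (cj_one E).symm
      mul_mem' := fun {x y} u v E l => h.par_trans l (h.li_J l x) (h.li_J l _) (u E l)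
        (by rw [cj_mul]; exact h.par_J (v E l) x)
      inv_mem' := fun {x} u E l => by simpa using (h.par_J (u E l) x⁻¹).symm }
  have nD : D.Normal := ⟨fun x u g E l => by
    have := h.par_J (u _ (h.li_J l g⁻¹)) g
    rwa [cj_cj_inv, cj_cj, cj_cj] at this⟩
  obtain ⟨y, y1, hy⟩ := h.ex_dir a
  have tr := h.nrm_tr nD (ne_bot_of_mem (x := y) hy y1)
  have fr : ∀ x ∈ D, ∀ b : Ω, b ≠ a → x • a = a → x • b = b → x = 1 := fun x hx b ba xa xb => by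
    obtain ⟨E, l, o⟩ := h.li_at a
    have c := (h.l3 a).fixall (h.nrm xa) (h.li_ee l o) fun F s => by
      have f := h.ee_on (s.ee (h.li_ee l o))
      exact mem_norm_iff_cj.2 ((hx F (h.li_of_st l s)).eq f (xa ▸ on_smul f x)).symm
    refine h.faith fun d => ?_
    by_cases e : d = a
    · exact e ▸ xa
    obtain ⟨g, hg, rfl⟩ := h.ntr ba e
    exact fix_of_comm (mem_cent.1 c g hg) xb
  obtain ⟨N, -, m, cp⟩ := frobenius_kernel ((𝐒 a).subgroupOf D) fun x hx t ht k => Subtype.ext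
    (fr t t.2 ((x : G)⁻¹ • a) (fun e => hx (by
      rw [mem_subgroupOf, mem_stabilizer_iff]; exact (inv_smul_eq_iff.1 e).symm)) ht (conj_fix.1 k))
  have mm : ∀ g, g ∈ N.map D.subtype ↔ g ∈ D ∧ (g = 1 ∨ ∀ c : Ω, g • c ≠ c) := fun g => by
    refine ⟨?_, fun ⟨u, v⟩ => ⟨⟨g, u⟩, (m _).2 (v.imp Subtype.ext fun k x e => k _ (conj_fix.1 e)), rfl⟩⟩
    rintro ⟨g, hg, rfl⟩
    refine ⟨g.2, ((m g).1 hg).imp (congrArg Subtype.val) fun k c e => ?_⟩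
    obtain ⟨x, hx, rfl⟩ := tr a c
    exact k ⟨x, hx⟩⁻¹ (conj_fix.2 (by simpa using e))
  have nV : (N.map D.subtype).Normal := ⟨fun x u g => (mm _).2 ⟨nD.conj_mem _ ((mm x).1 u).1 g,
    ((mm x).1 u).2.imp (by rintro rfl; simp) fun k c e => k _ (conj_fix.1 e)⟩⟩
  refine ⟨_, nV, h.nrm_tr nV fun e => ?_, fun n hn c e => ((mm n).1 hn).2.resolve_right fun k => k c e⟩
  obtain ⟨b, ba⟩ := h.ex_ne a
  obtain ⟨x, hx, rfl⟩ := tr a b
  obtain ⟨⟨n, s⟩, k⟩ := (cp.existsUnique ⟨x, hx⟩).exists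
  have : (n.1 : G) ∈ N.map D.subtype := ⟨n, n.2, rfl⟩
  rw [e, mem_bot] at this
  have k := congrArg Subtype.val k
  simp only [coe_mul, this, one_mul] at k
  exact ba (k ▸ s.2)

end Af
end H5.HL
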