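import Cfsg.Agent.H5.IS0
import Cfsg.Agent.H24.Zsig

/-! Assembly of S3535 from the chunks of `IS0`. -/

set_option autoImplicit false

namespace H5.IS

open Subgroup Function

/-- all chunks -/
structure All : Prop where
  sc : SC
  sb : SB
  dc : DC
  dn : DN
  de : DE
  dd : DO
  v8 : V8
  v6 : V6
  v5 : V5
  nu : NU
  di : DI
  rt : RT
  cq : CQ
  cy : CY
  ct : CT
  fr : FR
  p27 : P27
  j6 : J6
  ha : HA
  so : SO
  c7 : C7
  hn : HN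
  hk : HK
  h1 : H1
  h2 : H2
  h3 : H3

section
variable {G H : Type*} [Group G] [Group H]

theorem om_eq (e : G ≃* H) : om G = om H := Set.ext fun _ =>
  ⟨fun ⟨x, h⟩ => ⟨e x, (e.orderOf_eq x).trans h⟩, fun ⟨x, h⟩ => ⟨e.symm x, (e.symm.orderOf_eq x).trans h⟩⟩

theorem om_of (T : Subgroup H) (j : G ≃* T) {m : ℕ} (h : m ∈ om T) : m ∈ om G := (om_eq j).ge h

theorem om_dvd [Finite G] {m d : ℕ} (h : m ∈ om G) (hd : d ∣ m) : d ∈ om G :=
  let ⟨x, hx⟩ := h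
  ⟨_, orderOf_pow_orderOf_div (orderOf_pos x).ne' (hx ▸ hd)⟩

theorem om_sj [Finite G] {f : G →* H} (hf : Surjective f) : om H ⊆ om G := by
  rintro _ ⟨y, rfl⟩
  obtain ⟨x, rfl⟩ := hf y
  exact om_dvd ⟨x, rfl⟩ (orderOf_map_dvd f x)

theorem om_sub (S : Subgroup G) : om S ⊆ om G := by
  rintro _ ⟨y, rfl⟩
  exact ⟨y, Subgroup.orderOf_coe y⟩

theorem om_prime [Finite G] {r : ℕ} (hr : r.Prime) (h : r ∣ Nat.card G) : r ∈ om G :=
  haveI := Fact.mk hr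
  exists_prime_orderOf_dvd_card' r h
end

/-- the spectral facts -/
structure Fa (W : Set ℕ) (t n p f : ℕ) : Prop where
  pr : p.Prime
  f0 : 0 < f
  t2 : t ≤ 2
  n2 : 2 ≤ n
  n4 : t ≠ 0 → 4 ≤ n
  q4 : n = 2 → 3 < p ^ f
  cm : Cm W p (p ^ f) (if t = 0 then n else n - 1) n
  eo : ∀ e ∈ Es t n (p ^ f), Eo W (p ^ f) e
  en : ∀ e ∈ Es t n (p ^ f), En W (p ^ f) e
  v5 : n = 2 → p ^ f = 5 → 8 ∉ W
  v6 : p ^ f = 2 → t = 0 ∧ n = 3 ∨ t = 1 ∧ n = 4 → W6 W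
  v8 : p ^ f = 2 → n = 4 → t ≠ 1 → W8 W ∧ 9 ∈ W ∧ 21 ∈ W

theorem fld (F : Type) [Field F] [Fintype F] : ∃ (p f : ℕ) (_ : Fact p.Prime) (_ : CharP F p), 0 < f ∧
    Fintype.card F = p ^ f :=
  let ⟨p, i, f, hp, h⟩ := FiniteField.card' F
  ⟨p, f, ⟨hp⟩, i, f.pos, h⟩

theorem All.fa (A : All) {L : Type*} [Group L]
    (hL : (Cfsg.IsPSp L ∧ ∀ (F : Type) [Field F] [Fintype F], Fintype.card F = 3 → ¬ Nonempty (L ≃* Cfsg.PSp 2 F)) ∨
      Cfsg.IsPOmegaOdd L ∨ Cfsg.IsPOmegaPlus L ∨ Cfsg.IsPOmegaMinus L) : ∃ t n p f, Fa (om L) t n p f := by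
  rcases hL with ⟨⟨F, _, _, n, h1, h2, ⟨e⟩⟩, h3⟩ | ⟨F, _, _, n, h1, h2, ⟨e⟩⟩ | ⟨F, _, _, n, h1, ⟨e⟩⟩ |
    ⟨F, _, _, n, a, b, h1, h2, ⟨e⟩⟩ <;> obtain ⟨p, f, hp, _, f0, hq⟩ := fld F <;> rw [om_eq e]
  · obtain ⟨c, d⟩ := A.sc F p n h1
    rw [hq] at c d
    refine ⟨0, n, p, f, hp.out, f0, by omega, h1, by omega, ?_, c, fun e h => (d e h).1, fun e h => (d e h).2, ?_, ?_, ?_⟩
    · rintro rfl
      exact hq ▸ (h2 rfl).lt_of_ne fun h => h3 F h.symm ⟨e⟩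
    · rintro rfl h; exact A.v5.1 F (hq.trans h)
    · rintro h (⟨-, rfl⟩ | ⟨h, -⟩)
      exacts [(A.v6 F (hq.trans h)).1, by omega]
    · rintro h rfl -; exact (A.v8 F (hq.trans h)).1
  · obtain ⟨c, d⟩ := A.sb F p n h1 h2
    rw [hq] at c d h2
    exact ⟨0, n, p, f, hp.out, f0, by omega, by omega, by omega, by omega, c, fun e h => (d e h).1, fun e h => (d e h).2,
      by omega, fun h => absurd (h ▸ h2) (by decide), fun h => absurd (h ▸ h2) (by decide)⟩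
  · have c := (A.dc F p n h1).1
    have d := (A.dn F p n h1).1
    have d0 := (A.de F p n h1).1
    have d1 := (A.dd F p n h1).1
    rw [hq] at c d d0 d1
    refine ⟨1, n, p, f, hp.out, f0, by omega, by omega, by omega, by omega, c, (Nat.mod_two_eq_zero_or_one _).elim d0 d1, d,
      by omega, ?_, by omega⟩
    rintro h (⟨h, -⟩ | ⟨-, rfl⟩)
    exacts [by omega, (A.v6 F (hq.trans h)).2]
  · have c := (A.dc F p n h1).2 a b h2
    have d := (A.dn F p n h1).2 a b h2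
    have d0 := (A.de F p n h1).2 a b h2
    have d1 := (A.dd F p n h1).2 a b h2
    rw [hq] at c d d0 d1
    refine ⟨2, n, p, f, hp.out, f0, by omega, by omega, by omega, by omega, c, (Nat.mod_two_eq_zero_or_one _).elim d0 d1, d,
      by omega, by omega, ?_⟩
    rintro h rfl -
    exact (A.v8 F (hq.trans h)).2 a b h2

variable {W : Set ℕ} {t n p f q lo hi : ℕ}

theorem Cm.mono (h : Cm W p q lo hi) {lo' hi' : ℕ} (h1 : lo' ≤ lo) (h2 : hi ≤ hi') : Cm W p q lo' hi' :=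
  ⟨h.pin, fun r m a b c d => h.inn r m a b c (d.trans h1), fun r j a b c d e => let ⟨m, x, y⟩ := h.pw r j a b c d e
    ⟨m, x.trans h2, y⟩, fun r s a b c d e f g i => (h.rs r s a b c d e f g i).imp
      (fun ⟨m, x, l, y, z, w, u, v⟩ => ⟨m, x.trans h2, l, y.trans h2, z, w, u.trans h2, v⟩)
      fun ⟨m, x, y⟩ => ⟨m, x.trans h2, y⟩, fun r a b c d => let ⟨m, x, y⟩ := h.rp r a b c d; ⟨m, x.trans_le h2, y⟩⟩

theorem Es_ge (h1 : 2 ≤ n) (h2 : t ≠ 0 → 4 ≤ n) : ∀ e ∈ Es t n q, 3 ≤ e := by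
  intro e
  unfold Es
  split_ifs <;> simp only [List.mem_cons, List.not_mem_nil, or_false] <;> omega

theorem Es_ex (h1 : 2 ≤ n) (h2 : t ≠ 0 → 4 ≤ n) : ∃ e ∈ Es t n q, ¬ (q = 2 ∧ e = 6) := by
  unfold Es
  split_ifs <;> simp only [List.mem_cons, List.not_mem_nil, or_false, exists_eq_or_imp, exists_eq_left] <;> omega

theorem Fa.prim (h : Fa W t n p f) {e r : ℕ} (he : e ∈ Es t n (p ^ f)) (hr : r.Prime)
    (o : orderOf ((p ^ f : ℕ) : ZMod r) = e) : r ≠ 2 ∧ r ∈ W ∧ 2 * r ∉ W := by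
  have h3 := Es_ge h.n2 h.n4 e he
  refine ⟨?_, ?_, h.eo e he r hr o⟩
  · rintro rfl
    have := Nat.le_of_dvd one_pos (o ▸ H24.orderOf_dvd_sub_one (a := p ^ f) hr (by omega) :)
    omega
  · simpa using h.en e he r 1 hr o (by
      rw [pow_one, H24.dvd_pow_sub_one_iff (Nat.one_le_pow _ _ h.pr.pos), o])

theorem pf_eq {q : ℕ} (hp : p.Prime) (f0 : 0 < f) (h : p ^ f = q) {r : ℕ} (hr : r.Prime) (k : ℕ) (e : q = r ^ k) : p = r :=
  (Nat.prime_dvd_prime_iff_eq hp hr).1 (hp.dvd_of_dvd_pow (e ▸ h ▸ dvd_pow_self p f0.ne'))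

/-- the adjacency condition -/
def RS (q hi r s : ℕ) : Prop :=
  (∃ m ≤ hi, ∃ l ≤ hi, 0 < m ∧ 0 < l ∧ m + l ≤ hi ∧ r ∣ q ^ (2 * m) - 1 ∧ s ∣ q ^ (2 * l) - 1) ∨
    ∃ m ≤ hi, 0 < m ∧ (r * s ∣ q ^ m - 1 ∨ r * s ∣ q ^ m + 1)

/-- the membership condition -/
def IN (q lo r : ℕ) : Prop := ∃ m ≤ lo, 0 < m ∧ r ∣ q ^ (2 * m) - 1

instance (q hi r s : ℕ) : Decidable (RS q hi r s) := by unfold RS; infer_instance
instance (q lo r : ℕ) : Decidable (IN q lo r) := by unfold IN; infer_instance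

theorem Cm.nadj (c : Cm W p q lo hi) {r s : ℕ} (hr : r.Prime) (hs : s.Prime)
    (d : r ≠ 2 ∧ s ≠ 2 ∧ r ≠ p ∧ s ≠ p ∧ r ≠ s ∧ ¬ RS q hi r s) : r * s ∉ W := fun h =>
  d.2.2.2.2.2 (c.rs r s hr hs d.1 d.2.1 d.2.2.1 d.2.2.2.1 d.2.2.2.2.1 h)

theorem Cm.mem (c : Cm W p q lo hi) {r : ℕ} (hr : r.Prime) (d : r ≠ 2 ∧ IN q lo r) : r ∈ W :=
  let ⟨m, a, b, e⟩ := d.2; c.inn r m hr d.1 b a e

theorem Cm.nsq (c : Cm W p q lo hi) {r : ℕ} (hr : r.Prime) (d : r ≠ 2 ∧ r ≠ p ∧ ¬ IN q hi (r ^ 2)) : r ^ 2 ∉ W :=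
  fun h => d.2.2 (c.pw r 2 hr d.1 d.2.1 two_pos h)

theorem ord_eq {q r e : ℕ} [NeZero r] (d : 0 < e ∧ (q : ZMod r) ^ e = 1 ∧ ∀ m < e, 0 < m → (q : ZMod r) ^ m ≠ 1) :
    orderOf (q : ZMod r) = e := (orderOf_eq_iff d.1).2 d.2

variable {G B : Type} [Group G] [Finite G] [Group B] [Finite B] {π : G →* B} {S : Subgroup B} {N : ℕ}

theorem St.om (h : St π S) : om S ⊆ om G := (om_sub S).trans (om_sj h.sj)

theorem All.cq' (A : All) (h : St π S) (hN : Nat.card S = N) (c : Cm (om G) p q lo hi) (t s u : ℕ) (ht : t.Prime)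
    (hs : s.Prime) (hu : u.Prime) (d : (N = t ^ 1 * (N / t) ∧ ¬ t ∣ N / t ∧ ¬ s ∣ N ∧ ¬ u ∣ N ∧ ¬ s ∣ t ^ 1 - 1 ∧
      ¬ u ∣ t ^ 1 - 1) ∧ (s ≠ 2 ∧ IN q lo s) ∧ (u ≠ 2 ∧ IN q lo u) ∧
      (t ≠ 2 ∧ s ≠ 2 ∧ t ≠ p ∧ s ≠ p ∧ t ≠ s ∧ ¬ RS q hi t s) ∧ (t ≠ 2 ∧ u ≠ 2 ∧ t ≠ p ∧ u ≠ p ∧ t ≠ u ∧ ¬ RS q hi t u) ∧
      (s ≠ 2 ∧ u ≠ 2 ∧ s ≠ p ∧ u ≠ p ∧ s ≠ u ∧ ¬ RS q hi s u)) : False := by
  subst hN
  obtain ⟨⟨a1, a2, a3, a4, a5, a6⟩, b1, b2, b3, b4, b5⟩ := d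
  exact A.cq G B π S t s u 1 _ h ht hs hu b5.2.2.2.2.1 a1 a2 one_pos a3 a4 a5 a6 (c.mem hs b1) (c.mem hu b2)
    (c.nadj ht hs b3) (c.nadj ht hu b4) (c.nadj hs hu b5)

theorem All.cy' (A : All) (h : St π S) (hN : Nat.card S = N) (c : Cm (om G) p q lo hi) (s k : ℕ) (hs : s.Prime)
    (h1 : s ∈ om G) (h2 : 5 * s ∉ om G) (d : (N = 5 ^ k * (N / 5 ^ k) ∧ ¬ 5 ∣ N / 5 ^ k ∧ 2 ≤ k ∧ ¬ s ∣ N ∧
      ¬ s ∣ 5 ^ k - 1) ∧ 5 ≠ 2 ∧ 5 ≠ p ∧ ¬ IN q hi (5 ^ 2)) : False := by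
  subst hN
  obtain ⟨⟨a1, a2, a3, a4, a5⟩, b⟩ := d
  exact c.nsq Nat.prime_five b (A.cy G B π S 5 s k _ h Nat.prime_five hs b.1 a1 a2 a3 a4 a5 h1 h2)

theorem All.he (A : All) (h : St π S) (hN : Nat.card S = 4030387200) (w : W8 (om G)) (h9 : 9 ∈ om G)
    (h21 : 21 ∈ om G) : False := by
  obtain ⟨rfl, k⟩ := A.ha (A.rt A.di).2 A.fr G B π S h hN w
  have := h.sim
  have hs : IsSimpleGroup B := topEquiv.symm.isSimpleGroup
  have he : He B := ⟨card_top.symm.trans hN, fun m hm => w m (om_sj h.sj hm)⟩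
  obtain ⟨hd, nc⟩ := A.hn A.c7 B he
  by_cases k1 : π.ker = ⊥
  · have e := om_eq (MulEquiv.ofBijective π ⟨(MonoidHom.ker_eq_bot_iff π).1 k1, h.sj⟩)
    rw [e] at h9 h21
    obtain ⟨a, b, s, p9⟩ := A.p27 B hs (fun c => h.nab inferInstance) (by rw [he.cd]; decide) (by rw [he.cd]; decide) h9
      fun c => absurd (he.om _ c) (by decide)
    have n7 := A.h1 A.so B a b s he hd p9
    exact (A.h2 A.so B a b s he hd p9 n7 h21).elim (A.h3 A.c7 B a b s _ he hd p9 n7 (.inl rfl))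
      (A.h3 A.c7 B a b s _ he hd p9 n7 (.inr rfl))
  · exact nc (A.hk A.so G B π h.sj hs k k1 he w)

set_option synthInstance.maxSize 1000 in
theorem All.res (A : All) (F : Fa (om G) t n p f) (h : St π S) (h8 : Nat.card S = 17971200 → 8 ∈ om S)
    (r : (t, n, p ^ f, Nat.card S) ∈ resid) : False := by
  have c := F.cm
  have eo := F.eo
  have en := F.en
  have T := (A.rt A.di).2
  have p2 := Nat.prime_two
  have p3 := Nat.prime_three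
  have p5 := Nat.prime_five
  have p7 := Nat.prime_seven
  have p11 := Nat.prime_eleven
  have p13 : Nat.Prime 13 := by norm_num
  have p17 : Nat.Prime 17 := by norm_num
  have p31 : Nat.Prime 31 := by norm_num
  have p307 : Nat.Prime 307 := by norm_num
  simp only [resid, List.mem_cons, Prod.mk.injEq, List.not_mem_nil, or_false] at r
  rcases r with r | r | r | r | r | r | r | r | r | r | r | r | r | r | r | r | r | r | r | r | r | r | r | r | r <;>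
    obtain ⟨rfl, rfl, hq, hN⟩ := r <;> rw [hq] at c eo en
  iterate 4 · obtain rfl := pf_eq F.pr F.f0 hq p11 1 rfl
              exact A.cq' h hN c 7 37 61 p7 (by norm_num) (by norm_num) (by decide)
  iterate 2 · obtain rfl := pf_eq F.pr F.f0 hq p5 1 rfl
              exact A.cq' h hN c 7 13 31 p7 p13 p31 (by decide)
  iterate 5 · obtain rfl := pf_eq F.pr F.f0 hq p2 1 rfl
              exact A.cq' h hN c 13 17 31 p13 p17 p31 (by decide)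
  iterate 2 · obtain rfl := pf_eq F.pr F.f0 hq p17 1 rfl
              exact A.cy' h hN c 307 3 p307 (c.mem p307 (by decide)) (c.nadj p5 p307 (by decide)) (by decide)
  · obtain rfl := pf_eq F.pr F.f0 hq p13 1 rfl
    exact A.cy' h hN c 13 2 p13 c.pin (fun e => absurd (c.rp 5 p5 (by decide) (by decide) e) (by decide)) (by decide)
  · obtain rfl := pf_eq F.pr F.f0 hq p2 3 rfl
    exact A.cy' h hN c 7 2 p7 (c.mem p7 (by decide)) (c.nadj p5 p7 (by decide)) (by decide)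
  iterate 2 · obtain rfl := pf_eq F.pr F.f0 hq p3 1 rfl
              exact A.cy' h hN c 7 2 p7 (c.mem p7 (by decide)) (c.nadj p5 p7 (by decide)) (by decide)
  · obtain rfl := pf_eq F.pr F.f0 hq p307 1 rfl
    have o : orderOf ((307 : ℕ) : ZMod 5) = 4 := ord_eq (by decide)
    exact A.ct T G B π S h (.inr ⟨hN, en 4 (by decide) 5 3 p5 o (by decide)⟩) (eo 4 (by decide) 5 p5 o)
      (c.nadj p3 p5 (by decide)) (c.nadj p5 p7 (by decide))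
  · obtain rfl := pf_eq F.pr F.f0 hq p7 1 rfl
    have o : orderOf ((7 : ℕ) : ZMod 5) = 4 := ord_eq (by decide)
    exact A.ct T G B π S h (.inl ⟨hN, en 4 (by decide) 5 2 p5 o (by decide)⟩) (eo 4 (by decide) 5 p5 o)
      (c.nadj p3 p5 (by decide)) fun e => absurd (c.rp 5 p5 (by decide) (by decide) e) (by decide)
  · exact F.v5 rfl hq (h.om (h8 hN))
  · exact A.j6 T A.fr A.p27 G B π S h hN (F.v6 hq (.inl ⟨rfl, rfl⟩))
  · exact A.j6 T A.fr A.p27 G B π S h hN (F.v6 hq (.inr ⟨rfl, rfl⟩))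
  · exact (F.v6 hq (.inr ⟨rfl, rfl⟩)).2.2.1 (h.om (om_prime p17 (by rw [hN]; decide)))
  all_goals
    obtain ⟨a, b, d⟩ := F.v8 hq rfl (by decide)
    exact A.he h hN a b d

theorem All.core (A : All) {X : Type} [Group X] (F : Fa (om G) t n p f) {H : Subgroup G} {φ : H →* X}
    (hH : H.IsSubnormal) (sj : Surjective φ) (hs : IsSimpleGroup X) (hn : ¬ IsMulCommutative X)
    (hc : Nat.card X ∈ ords.map Prod.fst) (h8 : Nat.card X = 17971200 → 8 ∈ om X) : False := by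
  obtain ⟨R, T⟩ := A.rt A.di
  have q1 : 1 < p ^ f := Nat.one_lt_pow F.f0.ne' F.pr.one_lt
  obtain ⟨e, he, h6⟩ := Es_ex (q := p ^ f) F.n2 F.n4
  have e3 := Es_ge F.n2 F.n4 e he
  obtain ⟨r, hr, r1, r2⟩ := H24.zsigmondy q1 (n := e) (by omega) h6 (by omega)
  obtain ⟨a1, a2, a3⟩ := F.prim he hr (H24.dvd_of_prim q1.le (by omega) hr r1 r2).1
  obtain ⟨B, _, π, S, h, ⟨i⟩⟩ := R G X H φ r hH sj hs hn hc hr a1 a2 a3
  have := Finite.of_surjective π h.sj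
  rw [← Nat.card_congr i.toEquiv, ← om_eq i] at *
  obtain ⟨⟨N, a⟩, ha, hN⟩ := List.mem_map.1 hc
  subst hN
  refine A.res F h h8 (A.nu t n p f _ a F.pr F.f0 F.t2 F.n2 F.n4 F.q4 ha (fun e he r hr o => ?_) fun r hr d => ?_)
  · obtain ⟨a1, a2, a3⟩ := F.prim he hr o
    obtain ⟨b1, b2, b3⟩ := T G B π S a r h ha hr a1 a2 a3
    obtain c : Nat.card G = Nat.card B * Nat.card π.ker := by
      rw [card_eq_card_quotient_mul_card_subgroup π.ker,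
        Nat.card_congr (QuotientGroup.quotientKerEquivOfSurjective π h.sj).toEquiv]
    refine ⟨b2, fun j hj => b3 j (((hr.coprime_iff_not_dvd.2 b1).pow_left j).dvd_of_dvd_mul_right ?_)⟩
    obtain ⟨x, hx⟩ := F.en e he r j hr o hj
    rw [← c, ← hx]; exact orderOf_dvd_natCard x
  · by_contra! k
    obtain ⟨m, b1, b2, b3⟩ := F.cm.pw r 1 hr k.1 k.2.1 one_pos (by simpa using h.om (om_prime hr d))
    exact k.2.2 m b1 b2 (by simpa using b3)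

theorem All.main (A : All) {L : Type*} [Group L] [Finite L]
    (hL : (Cfsg.IsPSp L ∧ ∀ (F : Type) [Field F] [Fintype F], Fintype.card F = 3 → ¬ Nonempty (L ≃* Cfsg.PSp 2 F)) ∨
      Cfsg.IsPOmegaOdd L ∨ Cfsg.IsPOmegaPlus L ∨ Cfsg.IsPOmegaMinus L)
    {G : Type*} [Group G] [Finite G] (h : Set.range (orderOf : G → ℕ) = Set.range (orderOf : L → ℕ))
    (H : Subgroup G) (hH : H.IsSubnormal) (N : Subgroup ↥H) [N.Normal]
    (hs : IsSimpleGroup (↥H ⧸ N)) (hna : ¬ IsMulCommutative (↥H ⧸ N)) :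
    ¬ Cfsg.IsSporadic (↥H ⧸ N) ∧ ¬ Nonempty ((↥H ⧸ N) ≃* Cfsg.Lie.TitsGroup) := by
  obtain ⟨t, n, p, f, F⟩ := A.fa hL
  obtain ⟨G0, _, _, ⟨e⟩⟩ := Finite.exists_type_univ_nonempty_mulEquiv.{_, 0} G
  obtain ⟨X, _, _, ⟨i⟩⟩ := Finite.exists_type_univ_nonempty_mulEquiv.{_, 0} (H ⧸ N)
  have key : Nat.card (H ⧸ N) ∈ ords.map Prod.fst → (Nat.card (H ⧸ N) = 17971200 → 8 ∈ om (H ⧸ N)) → False := by
    rw [Nat.card_congr i.toEquiv, om_eq i]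
    exact A.core (G := G0) (by rwa [← om_eq e, om, h]) (H := H.map (e : G →* G0))
      (φ := (i.toMonoidHom.comp (QuotientGroup.mk' N)).comp (e.subgroupMap H).symm.toMonoidHom) (hH.map e.surjective)
      (i.surjective.comp ((QuotientGroup.mk'_surjective N).comp (e.subgroupMap H).symm.surjective)) i.symm.isSimpleGroup
      fun c => hna ⟨⟨fun x y => i.injective (by rw [map_mul, map_mul, c.is_comm.comm])⟩⟩
  have h8 := A.v5.2.1
  refine ⟨fun s => ?_, fun ⟨j⟩ => key (by rw [Nat.card_congr j.toEquiv, A.v5.2.2]; decide +kernel) fun _ => om_of _ j h8⟩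
  rcases s with s | s | s | s | s | s | s | s | s | s | s | s | s | s | s | s | s | s | s | s | s | s | s | s | s | s <;>
    exact key (by rw [s.2]; decide +kernel) fun c => absurd (s.2.symm.trans c) (by decide +kernel)

end H5.IS
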