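import Cfsg.Agent.H5.KT4
import Cfsg.Agent.H0.ES3
import Cfsg.Agent.H1.TD
import Cfsg.Prelude.Def_ClassificationK

/-! Simple groups of order `p * 3 ^ a * 2 ^ b`: an involution centralizing a good `3 ^ 2`. -/

set_option autoImplicit false
set_option linter.unusedSectionVars false

namespace H5.KT
open _root_.Cfsg Subgroup H19 H22.KM
open scoped commutatorElement

variable {G : Type*} [Group G] [Finite G] {p n m d : ℕ}
  {A B D E F H K L M P Q R S T U V W X Y : Subgroup G} {a b c g r s t u x y z : G}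

theorem rank3 (hB : El 2 3 B M) (hP : PG 3 P) (hn : B ≤ N(P)) (hf : B ⊓ C(P) = ⊥) :
    ∃ E, El 3 3 E P := by
  obtain ⟨N, n1, n2, n3, n4⟩ := H1.exists_ab_faithful hB.ab hn (odd3 hP) hP.sol hf
  have pN := hP.of_le n1
  obtain ⟨a, x, h1, -⟩ := H1.exists_dual hB.ab n3 (odd3 pN) n4 3 B le_rfl hB.card
  have k : ∀ i, ∃ y ∈ N, orderOf y = 3 ∧ a i * y * (a i)⁻¹ = y⁻¹ ∧ ∀ j, j ≠ i → a j ∈ C[y] :=
    fun i => by
      obtain ⟨a1, a2, a3, a4, a5⟩ := h1 i
      obtain ⟨y, hy, ho⟩ := exists_orderOf_eq_prime Nat.prime_three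
        ((pN.of_le (zpowers_le.2 a2)).dvd_of_ne_bot
          fun e => a4 (by rw [zpowers_eq_bot.1 e, cent1_one]; trivial))
      refine ⟨y, zpowers_le.2 a2 hy, ho, ?_, fun j e => cent1_le_cent1_of_mem_zpowers hy (a5 j e)⟩
      obtain ⟨j, rfl⟩ := mem_zpowers_iff.1 hy
      rw [← conj_zpow, (a3 _ a1).resolve_left fun e =>
        a4 (mem_cent1.2 (mul_inv_eq_iff_eq_mul.1 e)), inv_zpow]
  choose y y1 y2 y3 y4 using k
  have c : ∀ i, ∀ D ≤ N, y i ∈ C(D) := fun i D l => cent_mono l (comm_iff_le_cent.1 n2 (y1 i))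
  have l := fun i => zpowers_le.2 (y1 i)
  exact ⟨_, (el_adj (by decide) (el_adj (by decide) (el13 (y2 0)) (y2 1) (c 1 _ (l 0)) (y3 1)
    (cent_zpowers (y 0) ▸ y4 0 1 (by decide))) (y2 2) (c 2 _ (sup_le (l 0) (l 1))) (y3 2)
    (by rw [cent_sup, cent_zpowers, cent_zpowers]; exact ⟨y4 0 2 (by decide), y4 1 2 (by decide)⟩)).of_le
    ((sup_le (sup_le (l 0) (l 1)) (l 2)).trans n1)⟩

namespace Hy
variable (h : Hy p G)
include h

theorem wide (ht : orderOf t = 2) (e : H0.LE (Oc {2} C[t]) t) (hg : g * t * g⁻¹ ∈ Oc {2} C[t])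
    (ne : g * t * g⁻¹ ≠ t) (hc : #(Oc {2} C[t]) = 2 ^ (2 * (m + 4) + 1)) : False := by
  have s := sol_quo (h.sol2 ht) (Oc {2} C[t])
  have k : Oc {3}ᶜ (quo (Oc {2} C[t]) C[t]) = ⊥ := H19.eq_bot_mono (le_Oc (Oc_normal _ _)
    fun q hq hd => by
      have d := hd.trans ((card_dvd (Oc_le _ _)).trans (card_quo_dvd _ _))
      rcases h.prm hq (d.trans (card_subgroup_dvd_card _)) with rfl | rfl | rfl
      exacts [absurd d (h.np2 ht), absurd rfl (Oc_pi _ _ 3 hq hd), rfl]) (Oc_quo_Oc {2} C[t])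
  have k0 := H18.cent_pcore_sub s k
  generalize Oc {2} C[t] = Q at *
  have e' := e.es.J g
  have t2 : orderOf (g * t * g⁻¹) = 2 := by rw [orderOf_conj', ht]
  have hF : El 2 2 (zpowers (g * t * g⁻¹) ⊔ zpowers t) ⊤ := (el12 t2).sup2 (el12 ht)
    (by rw [cent_zpowers, zpowers_le]; exact e.es.le_cent hg) fun e =>
      ((mem_zp ht).1 (e ▸ mem_zpowers _)).elim (ne1 t2) ne
  have k1 := e'.card_cent (mem_sup_left (mem_zpowers _)) (sup_le e'.zp_le (zpowers_le.2 (e.symm hg)))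
  have l1 : cj g Q ⊓ C(zpowers (g * t * g⁻¹) ⊔ zpowers t) ≤ C[t] :=
    inf_le_right.trans (cent_le_cent1 (mem_sup_right (mem_zpowers t)))
  have l2 : cj g Q ⊓ C(zpowers (g * t * g⁻¹) ⊔ zpowers t) ≤ cj g Q := inf_le_left
  rw [hF.card, card_cj, hc] at k1
  generalize cj g Q ⊓ C(zpowers (g * t * g⁻¹) ⊔ zpowers t) = A at k1 l1 l2
  have k2 := e.es.card_le_of_not (e.es.not_hasEA hc) (inf_le_left (b := A))
    (H0.abelem2_iff.2 fun x hx => (e.es.sq x hx.1).resolve_right fun e1 =>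
      (e'.sq x (l2 hx.2)).elim (fun e2 => ne1 ht (e1.symm.trans e2)) fun e2 => ne (e2.symm.trans e1))
  have nA := l1.trans e.norm
  have z := zpowers_le.2 hg
  obtain ⟨j, hj⟩ := abelem_el Nat.prime_two ((abelem_quo_iff nA).2
    ⟨(der_mono l2).trans (e'.der_le.trans z), fun x hx => z (pow_two x ▸ e'.sq_mem (l2 hx))⟩)
    (quo_mono Q l1)
  have k3 := card_inf_mul_relIndex Q A
  rw [← card_quo nA, hj.card] at k3
  obtain ⟨B, hB⟩ := hj.exists_sub (show 3 ≤ j from le_of_not_gt fun l => by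
    have k4 := Nat.mul_le_mul k2 (Nat.pow_le_pow_right (n := 2) (by decide) (Nat.le_of_lt_succ l))
    have k5 := Nat.mul_le_mul_left (2 ^ 2) k4
    rw [k3, k1, ← pow_succ', ← pow_add, ← pow_add, Nat.pow_le_pow_iff_right (by decide)] at k5
    omega)
  have lB := hB.le.trans hj.le
  obtain ⟨E, hE⟩ := rank3 hB (Oc_pi _ _) (lB.trans (Oc_norm _ _)) (H19.eq_bot_mono
    (le_inf inf_le_left ((inf_le_inf_right _ lB).trans k0)) (hB.pg.inf_eq_bot (pg23 (Oc_pi _ _))))
  obtain ⟨D, hD⟩ := exists_el Nat.prime_three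
    (prk_quo e.norm (pg32 e.es.pg) ▸ (hE.mono (Oc_le _ _)).le_prk)
  exact h.ng3 ⟨t, D, ht, hD⟩

theorem gfO (ht : orderOf t = 2) :
    (generalizedFittingSubgroup C[t]).map C[t].subtype = Oc {2} C[t] := by
  have := Fact.mk Nat.prime_two
  rw [H1.gf_eq_pCore_iff_of_subgroup.2 (pCore_map_eq Nat.prime_two C[t] ▸ h.c2t ht),
    pCore_map_eq Nat.prime_two]

theorem symp (ht : orderOf t = 2) (hD : El 3 2 D C[t]) (hg : AG D) :
    IsOfSymplecticType (generalizedFittingSubgroup C[t]) := by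
  have e := h.gfO ht
  generalize hF : generalizedFittingSubgroup C[t] = F at e
  have : F.Normal := hF ▸ inferInstance
  have i := C[t].subtype_injective
  have pF : IsPGroup 2 F := (show PG 2 (F.map C[t].subtype) from e ▸ Oc_pi {2} C[t]).isPGroup.of_equiv
    (F.equivMapOfInjective _ i).symm
  refine ⟨pF, fun A hA ab => ?_⟩
  have n := normalIn_map_subtype (A.map F.subtype)
  have j := ((A.equivMapOfInjective _ F.subtype_injective).trans
    ((A.map F.subtype).equivMapOfInjective _ i))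
  have pA : PG 2 _ := PiN.of_isPGroup Nat.prime_two ((pF.to_subgroup A).of_equiv j)
  have aA : Ab ((A.map F.subtype).map C[t].subtype) := inferInstance
  generalize (A.map F.subtype).map C[t].subtype = A' at n j pA aA
  have k := h.le_zp (d := 0) hg h.ng3 ht hD (abelem_Ohm1 aA 2) ((Ohm1_le _ _).trans n.le)
    (norms_Ohm1 2 (hD.le.trans n.norm))
  exact isCyclic_of_surjective j.symm j.symm.surjective (hH := H4.isCyclic_of_card_omega_le
    pA.isPGroup aA ((card_le (fun x hx => k (mem_Ohm1 hx.1 hx.2) : H4.omegaComm A' aA 2 ≤ _)).trans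
      (el12 ht).card.le))

theorem not8 (ht : orderOf t = 2) (hD : El 3 2 D C[t]) : #(Oc {2} C[t]) ≠ 8 := fun e => by
  have z := le_Oc ⟨zpowers_le.2 (mem_cent1_self t), cent1_le_norm_zpowers t⟩ (el12 ht).pg
  have k := faith_bd (Oc_pi {2} C[t]) (ne_bot_mono z (el12 ht).ne_bot) 1 hD.pg
    (hD.le.trans (Oc_norm _ _)) (by have := card_pos (Oc {2} C[t] ⊓ C(D)); omega)
  rw [H19.eq_bot_mono (le_inf inf_le_left ((inf_le_inf_right _ hD.le).trans (h.c2t ht)))
    ((pg23 hD.pg).inf_eq_bot' (Oc_pi _ _)), card_bot, e, hD.card] at k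
  omega

end Hy

end H5.KT
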