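import Cfsg.Agent.H23.SzOvoid

/-! Martineau's theorem on Suzuki groups acting on 2-groups, part 1: computations in the natural module. -/

set_option autoImplicit false

namespace H5.MZ
open Matrix H23 H23.Sz

variable {F : Type*} [Field F] [Tits F]

/-- the natural module -/
abbrev W4 (F : Type*) := Fin 4 → F

theorem Tm_mulVec (a b : F) (v : W4 F) : Tm a b *ᵥ v =
    ![v 0 + a * v 1 + (b + a * θ a) * v 2 + nf a b * v 3, v 1 + θ a * v 2 + b * v 3, v 2 + a * v 3, v 3] := by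
  ext i; fin_cases i <;> simp [Tm, mulVec, dotProduct, Fin.sum_univ_four]

theorem Mm_mulVec (k : F) (v : W4 F) : Mm k *ᵥ v = ![k * v 0, θ k / k * v 1, k / θ k * v 2, k⁻¹ * v 3] := by
  ext i; fin_cases i <;> simp [Mm, mulVec, dotProduct, Fin.sum_univ_four]

omit [Tits F] in
theorem J_mulVec (v : W4 F) : J F *ᵥ v = ![v 3, v 2, v 1, v 0] := by
  ext i; fin_cases i <;> simp [Cfsg.suzukiForm, mulVec, dotProduct, Fin.sum_univ_four]

omit [Tits F] in
theorem ext4 {v w : W4 F} (h0 : v 0 = w 0) (h1 : v 1 = w 1) (h2 : v 2 = w 2) (h3 : v 3 = w 3) : v = w := by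
  ext i; fin_cases i <;> assumption

omit [Tits F] in
theorem dec4 (v : W4 F) : v = ![v 0, 0, 0, 0] + ![0, v 1, 0, 0] + ![0, 0, v 2, 0] + ![0, 0, 0, v 3] :=
  ext4 (by simp) (by simp) (by simp) (by simp)

theorem nf_zero_left (b : F) : nf 0 b = θ b := by simp [nf]

theorem nf_one_zero : nf (1 : F) 0 = 1 := by simp [nf]

theorem exists_sq [Finite F] (b : F) : ∃ c : F, c ^ 2 = b :=
  ((Finite.injective_iff_surjective (f := fun x : F => x ^ 2)).1 fun _ _ h => sq_inj h) b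

theorem exists_θ [Finite F] (b : F) : ∃ c : F, θ c = b :=
  (Finite.injective_iff_surjective.1 (θ_inj (F := F))) b

section endS
variable (L : W4 F →+ W4 F) (hL : ∀ a b v, L (Tm a b *ᵥ v) = Tm a b *ᵥ L v)
include hL

theorem endS_one (y : F) : L ![y, 0, 0, 0] = ![y * L ![1, 0, 0, 0] 0, 0, 0, 0] := by
  have fx : ∀ y : F, L ![y, 0, 0, 0] 1 = 0 ∧ L ![y, 0, 0, 0] 2 = 0 ∧ L ![y, 0, 0, 0] 3 = 0 := fun y => by
    have h := hL 1 0 ![y, 0, 0, 0]
    rw [show Tm (1 : F) 0 *ᵥ ![y, 0, 0, 0] = ![y, 0, 0, 0] by simp [Tm_mulVec], Tm_mulVec] at h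
    have h0 := congrFun h 0
    have h1 := congrFun h 1
    have h2 := congrFun h 2
    simp [nf_one_zero] at h0 h1 h2
    grind
  have key : ∀ b : F, L ![b, 0, 0, 0] 0 = b * L ![0, 0, 1, 0] 2 + θ b * L ![0, 0, 1, 0] 3 ∧
      L ![b, 0, 0, 0] 1 = b * L ![0, 0, 1, 0] 3 := fun b => by
    have h := hL 0 b ![0, 0, 1, 0]
    rw [show Tm (0 : F) b *ᵥ ![0, 0, 1, 0] = ![b, 0, 0, 0] + ![0, 0, 1, 0] by simp [Tm_mulVec], map_add,
      Tm_mulVec] at h
    have h0 := congrFun h 0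
    have h1 := congrFun h 1
    simp [nf_zero_left] at h0 h1
    grind
  have k1 := key 1
  have ky := key y
  have f1 := fx 1
  have fy := fx y
  simp only [map_one] at k1
  refine ext4 ?_ ?_ ?_ ?_ <;> simp <;> grind

theorem endS_two [Big F] (h0 : ∀ y, L ![y, 0, 0, 0] = 0) (y : F) :
    L ![0, 0, 0, y] 2 = 0 ∧ L ![0, 0, 0, y] 3 = 0 := by
  have e1 : ∀ b y : F, L ![0, b * y, 0, 0] = Tm 0 b *ᵥ L ![0, 0, 0, y] - L ![0, 0, 0, y] := fun b y => by
    rw [← hL, ← map_sub, show Tm (0 : F) b *ᵥ ![0, 0, 0, y] - ![0, 0, 0, y] =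
      ![θ b * y, 0, 0, 0] + ![0, b * y, 0, 0] by
        refine ext4 ?_ ?_ ?_ ?_ <;> simp [Tm_mulVec, nf_zero_left], map_add, h0, zero_add]
  have e2 : ∀ a y : F, L ![0, 0, a * y, 0] = Tm a 0 *ᵥ L ![0, 0, 0, y] - L ![0, 0, 0, y] := fun a y => by
    rw [← hL, ← map_sub, show Tm a (0 : F) *ᵥ ![0, 0, 0, y] - ![0, 0, 0, y] =
      ![nf a 0 * y, 0, 0, 0] + ![0, 0, a * y, 0] by
        refine ext4 ?_ ?_ ?_ ?_ <;> simp [Tm_mulVec], map_add, h0, zero_add]
  have e3 : ∀ y : F, L ![0, 0, 0, y] 3 = 0 := fun y => by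
    have h := hL 1 0 ![0, y, 0, 0]
    rw [show Tm (1 : F) 0 *ᵥ ![0, y, 0, 0] = ![y, 0, 0, 0] + ![0, y, 0, 0] by simp [Tm_mulVec], map_add, h0,
      zero_add] at h
    have h1 := e1 1 y
    rw [one_mul] at h1
    rw [h1, Tm_mulVec, Tm_mulVec] at h
    have := congrFun h 0
    simp [nf_zero_left] at this
    exact this
  refine ⟨?_, e3 y⟩
  obtain ⟨a, ha⟩ := exists_θ_ne (F := F)
  have a1 := congrFun (e1 a y) 0
  have a2 := congrFun (e1 1 (a * y)) 0
  have a3 := congrFun (e2 a y) 1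
  have a4 := congrFun (e2 1 (a * y)) 1
  rw [one_mul] at a2 a4
  rw [a1] at a2
  rw [a3] at a4
  simp [Tm_mulVec, e3] at a2 a4
  have : (θ a - a) * L ![0, 0, 0, y] 2 = 0 := by grind
  rcases mul_eq_zero.1 this with h | h
  · exact absurd (sub_eq_zero.1 h) ha
  · exact h

theorem endS_zero (h0 : ∀ y, L ![y, 0, 0, 0] = 0) (h3 : ∀ y, L ![0, 0, 0, y] = 0) (v : W4 F) : L v = 0 := by
  have h1 : ∀ y, L ![0, y, 0, 0] = 0 := fun y => by
    have h := hL 0 1 ![0, 0, 0, y]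
    rw [show Tm (0 : F) 1 *ᵥ ![0, 0, 0, y] = ![y, 0, 0, 0] + ![0, y, 0, 0] + ![0, 0, 0, y] by
      simp [Tm_mulVec, nf_zero_left], map_add, map_add, h0, h3] at h
    simpa using h
  have h2 : ∀ y, L ![0, 0, y, 0] = 0 := fun y => by
    have h := hL 1 0 ![0, 0, 0, y]
    rw [show Tm (1 : F) 0 *ᵥ ![0, 0, 0, y] = ![y, 0, 0, 0] + ![0, 0, y, 0] + ![0, 0, 0, y] by
      simp [Tm_mulVec, nf_one_zero], map_add, map_add, h0, h3] at h
    simpa using h
  rw [dec4 v, map_add, map_add, map_add, h0, h1, h2, h3]; simp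

end endS

/-- there is no invariant biadditive map on the natural module -/
theorem biadd_zero [Big F] (β : W4 F →+ W4 F →+ W4 F)
    (hT : ∀ a b x y, β (Tm a b *ᵥ x) (Tm a b *ᵥ y) = Tm a b *ᵥ β x y)
    (hM : ∀ k : F, k ≠ 0 → ∀ x y, β (Mm k *ᵥ x) (Mm k *ᵥ y) = Mm k *ᵥ β x y)
    (hJ : ∀ x y, β (J F *ᵥ x) (J F *ᵥ y) = J F *ᵥ β x y) (x y : W4 F) : β x y = 0 := by
  have fx : ∀ a b x : F, Tm a b *ᵥ ![x, 0, 0, 0] = ![x, 0, 0, 0] := fun a b x => by simp [Tm_mulVec]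
  have hL : ∀ x : F, ∀ a b v, β ![x, 0, 0, 0] (Tm a b *ᵥ v) = Tm a b *ᵥ β ![x, 0, 0, 0] v := fun x a b v => by
    rw [← hT, fx]
  have hR : ∀ x : F, ∀ a b v, β.flip ![x, 0, 0, 0] (Tm a b *ᵥ v) = Tm a b *ᵥ β.flip ![x, 0, 0, 0] v :=
    fun x a b v => by
      simp only [AddMonoidHom.flip_apply]
      rw [← hT, fx]
  have h11 : ∀ x y : F, β ![x, 0, 0, 0] ![y, 0, 0, 0] = ![x * y * β ![1, 0, 0, 0] ![1, 0, 0, 0] 0, 0, 0, 0] :=
    fun x y => by
      have a1 := endS_one _ (hL x) y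
      have a2 := endS_one _ (hR 1) x
      simp only [AddMonoidHom.flip_apply] at a2
      rw [a1, a2]
      refine ext4 ?_ rfl rfl rfl
      simp; ring
  have h00 : ∀ x y : F, β ![x, 0, 0, 0] ![y, 0, 0, 0] = 0 := by
    obtain ⟨k, k0, k1⟩ := Big.ex (F := F)
    have h := hM k k0 ![1, 0, 0, 0] ![1, 0, 0, 0]
    rw [show Mm k *ᵥ ![1, 0, 0, 0] = ![k, 0, 0, 0] by simp [Mm_mulVec], h11, Mm_mulVec] at h
    have := congrFun h 0
    simp only [cons_val_zero] at this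
    have h2 : β ![1, 0, 0, 0] ![1, 0, 0, 0] 0 = 0 := by
      have : k * (k - 1) * β ![1, 0, 0, 0] ![1, 0, 0, 0] 0 = 0 := by linear_combination this
      simpa [k0, sub_eq_zero, k1] using this
    intro x y
    rw [h11, h2]; simp
  have h03 : ∀ x y : F, β ![x, 0, 0, 0] ![0, 0, 0, y] = 0 := fun x y => by
    have a1 := endS_two _ (hL x) (h00 x) y
    have a2 := endS_two _ (hR y) (fun x => h00 x y) x
    simp only [AddMonoidHom.flip_apply] at a2
    have a3 := hJ ![0, 0, 0, x] ![y, 0, 0, 0]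
    rw [J_mulVec, J_mulVec, J_mulVec] at a3
    simp only [cons_val] at a3
    refine ext4 ?_ ?_ a1.1 a1.2
    · rw [a3]; exact a2.2
    · rw [a3]; exact a2.1
  have h0 : ∀ (x : F) v, β ![x, 0, 0, 0] v = 0 := fun x v => endS_zero _ (hL x) (h00 x) (h03 x) v
  have h3 : ∀ (x : F) v, β ![0, 0, 0, x] v = 0 := fun x v => by
    have := hJ ![x, 0, 0, 0] (J F *ᵥ v)
    rw [mulVec_mulVec, J_mul_J, one_mulVec, h0, J_mulVec] at this
    simpa using this
  have hc : ∀ a b x : F, ∀ v, β (Tm a b *ᵥ ![0, 0, 0, x]) v = 0 := fun a b x v => by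
    have := hT a b ![0, 0, 0, x] (Tm a (b + a * θ a) *ᵥ v)
    rw [mulVec_mulVec, Tm_mul, h3, show a + a = 0 from add_self a,
      show b + (b + a * θ a) + θ a * a = 0 by grind, Tm_zero, one_mulVec] at this
    simpa using this
  have h1 : ∀ (x : F) v, β ![0, x, 0, 0] v = 0 := fun x v => by
    have := hc 0 1 x v
    rw [show Tm (0 : F) 1 *ᵥ ![0, 0, 0, x] = ![x, 0, 0, 0] + ![0, x, 0, 0] + ![0, 0, 0, x] by
      simp [Tm_mulVec, nf_zero_left]] at this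
    simpa only [map_add, AddMonoidHom.add_apply, h0, h3, zero_add, add_zero] using this
  have h2 : ∀ (x : F) v, β ![0, 0, x, 0] v = 0 := fun x v => by
    have := hc 1 0 x v
    rw [show Tm (1 : F) 0 *ᵥ ![0, 0, 0, x] = ![x, 0, 0, 0] + ![0, 0, x, 0] + ![0, 0, 0, x] by
      simp [Tm_mulVec, nf_one_zero]] at this
    simpa only [map_add, AddMonoidHom.add_apply, h0, h3, zero_add, add_zero] using this
  rw [dec4 x]
  simp only [map_add, AddMonoidHom.add_apply, h0, h1, h2, h3, add_zero]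

/-- a homogeneous biadditive form vanishing on the diagonal is zero -/
theorem form_zero [Finite F] (β : F → F → F) (χ : F → F) (h1 : ∀ a b c, β (a + b) c = β a c + β b c)
    (h2 : ∀ a b c, β a (b + c) = β a b + β a c) (hχ : ∀ c, χ (c + 1) = χ c + 1)
    (h3 : ∀ c a b, β (c * a) (c * b) = χ c * β a b) (h4 : ∀ c, β c c = 0) (a b : F) : β a b = 0 := by
  have sw : ∀ c a b, β (c * a) b = β a (c * b) := fun c a b => by
    have := h3 (c + 1) a b
    rw [add_mul, add_mul, one_mul, one_mul, h1, h2, h2, h3, hχ] at this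
    grind
  obtain ⟨c, hc⟩ := exists_sq (a * b)
  have e1 := sw a 1 b
  have e2 := sw c 1 c
  rw [mul_one] at e1 e2
  rw [e1, ← hc, sq, ← e2, h4]

end H5.MZ
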