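import Cfsg.Agent.H5.MZ1

/-! Martineau's theorem on Suzuki groups acting on 2-groups, part 2: the quadratic action of the
involutions, coordinate part. -/

set_option autoImplicit false

namespace H5.MZ
open Matrix H23 H23.Sz

variable {F : Type*} [Field F] [Tits F]

/-- the action of `T 0 b - 1` -/
def nb (b : F) (v : W4 F) : W4 F := ![b * v 2 + θ b * v 3, b * v 3, 0, 0]

theorem Tm_sub (b : F) (v : W4 F) : Tm 0 b *ᵥ v - v = nb b v := by
  refine ext4 ?_ ?_ ?_ ?_ <;> simp [Tm_mulVec, nb, nf_zero_left]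
  ring

/-- the properties of the maps induced by `(T 0 b - 1) (T 0 c - 1)` -/
structure QD (φ : F → F → W4 F →+ W4 F) : Prop where
  sym : ∀ b c, φ b c = φ c b
  add : ∀ b c d y, φ b (c + d) y = φ b c y + φ b d y
  im : ∀ b c y, φ b c y 2 = 0 ∧ φ b c y 3 = 0
  ker : ∀ b c x y, φ b c ![x, y, 0, 0] = 0
  hT : ∀ b c a y, φ b c (Tm a 0 *ᵥ y) = Tm a 0 *ᵥ φ b c y
  hM : ∀ b c k y, k ≠ 0 → φ (θ k * b) (θ k * c) (Mm k *ᵥ y) = Mm k *ᵥ φ b c y
  fac : ∀ c y y', nb 1 y' = nb c y → ∃ z, ∀ b, φ b c y - φ b 1 y' = nb b z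

namespace QD
variable {φ : F → F → W4 F →+ W4 F} (h : QD φ)
include h

theorem add' (b c d : F) (y : W4 F) : φ (b + c) d y = φ b d y + φ c d y := by
  rw [h.sym, h.add, h.sym d, h.sym d]

theorem zero (b : F) (y : W4 F) : φ b 0 y = 0 := by
  have := h.add b 0 0 y
  rw [add_zero] at this
  simpa using this

theorem two (b c a y : F) : φ b c ![0, 0, a * y, 0] = ![a * φ b c ![0, 0, 0, y] 1, 0, 0, 0] := by
  have e := h.hT b c a ![0, 0, 0, y]
  rw [show Tm a (0 : F) *ᵥ ![0, 0, 0, y] = ![nf a 0 * y, 0, 0, 0] + ![0, 0, a * y, 0] + ![0, 0, 0, y] by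
    refine ext4 ?_ ?_ ?_ ?_ <;> simp [Tm_mulVec], map_add, map_add, h.ker, zero_add, Tm_mulVec] at e
  have i1 := h.im b c ![0, 0, 0, y]
  have i2 := h.im b c ![0, 0, a * y, 0]
  have e0 := congrFun e 0
  have e1 := congrFun e 1
  simp [i1.1, i1.2] at e0 e1
  refine ext4 ?_ ?_ i2.1 i2.2
  · simp; grind
  · simpa using e1

theorem two' (b c y : F) : φ b c ![0, 0, y, 0] = ![y * φ b c ![0, 0, 1, 0] 0, 0, 0, 0] := by
  have e1 := h.two b c y 1
  have e2 := h.two b c 1 1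
  rw [mul_one] at e1 e2
  rw [e1, e2]; simp

theorem two'' (b c y : F) : φ b c ![0, 0, 0, y] 1 = y * φ b c ![0, 0, 1, 0] 0 := by
  have e1 := congrFun (h.two b c 1 y) 0
  rw [one_mul, h.two'] at e1
  simpa using e1.symm

theorem homog [Finite F] (c a b : F) :
    φ (c * a) (c * b) ![0, 0, 1, 0] 0 = c * φ a b ![0, 0, 1, 0] 0 := by
  obtain ⟨k, rfl⟩ := exists_θ c
  by_cases k0 : k = 0
  · simp [k0, h.zero]
  have e := congrFun (h.hM a b k ![0, 0, 1, 0] k0) 0
  rw [show Mm k *ᵥ ![0, 0, 1, 0] = ![0, 0, k / θ k, 0] by simp [Mm_mulVec], h.two', Mm_mulVec] at e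
  simp only [cons_val_zero] at e
  have := θ_ne_zero k0
  field_simp at e
  exact e

theorem al_fac (b c : F) : φ b c ![0, 0, 1, 0] 0 = φ b 1 ![0, 0, 1, 0] 0 * c + b * φ 1 c ![0, 0, 1, 0] 0 +
    b * c * φ 1 1 ![0, 0, 1, 0] 0 := by
  obtain ⟨z, hz⟩ := h.fac c ![0, 0, 1, 0] ![0, 0, c, 0] (by simp [nb])
  have a1 := hz b
  have a2 := hz 1
  rw [h.two' b 1 c, h.two' b c 1] at a1
  rw [h.two' 1 1 c, h.two' 1 c 1] at a2
  have b0 := congrFun a1 0
  have b1 := congrFun a2 0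
  have b2 := congrFun a2 1
  simp [nb] at b0 b1 b2
  grind

theorem al_one [Finite F] [Big F] : φ 1 1 ![0, 0, 1, 0] 0 = 0 := by
  obtain ⟨b, b0, b1⟩ := Big.ex (F := F)
  have e1 := h.al_fac b b
  have e2 := h.homog b 1 1
  rw [mul_one] at e2
  rw [h.sym 1 b, e2] at e1
  have : b * (b - 1) * φ 1 1 ![0, 0, 1, 0] 0 = 0 := by grind
  simpa [b0, sub_eq_zero, b1] using this

theorem one [Finite F] [Big F] : φ 1 1 ![0, 0, 1, 0] = 0 := by
  rw [h.two', h.al_one]; simp

theorem al_zero [Finite F] [Big F] (a b : F) : φ a b ![0, 0, 1, 0] 0 = 0 :=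
  form_zero (fun a b => φ a b ![0, 0, 1, 0] 0) id (fun a b c => by simp [h.add'])
    (fun a b c => by simp [h.add]) (fun _ => rfl) h.homog (fun c => by
      have := h.homog c 1 1
      rwa [mul_one, h.al_one, mul_zero] at this) a b

theorem om_fac [Finite F] [Big F] (hd : ∀ b y, φ b b y = 0) (b c y : F) :
    φ b c ![0, 0, 0, y] 0 = φ b 1 ![0, 0, 0, c * y] 0 + b * φ c 1 ![0, 0, 0, y] 0 := by
  obtain ⟨z, hz⟩ := h.fac c ![0, 0, 0, y] (![0, 0, (θ c + c) * y, 0] + ![0, 0, 0, c * y]) (by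
    refine ext4 ?_ ?_ ?_ ?_ <;> simp [nb]; grind)
  have a1 := hz b
  have a2 := hz 1
  rw [map_add, h.two', h.al_zero] at a1
  rw [hd, h.sym 1 c] at a2
  have b0 := congrFun a1 0
  have b1 := congrFun a2 0
  have b2 := congrFun a2 1
  have b3 := h.two'' c 1 y
  rw [h.al_zero] at b3
  simp only [nb, Pi.sub_apply, Pi.add_apply, cons_val, mul_zero, zero_add, Pi.zero_apply, sub_zero, one_mul,
    map_one] at b0 b1 b2 b3
  rw [b3] at b2
  rw [← b2] at b0 b1
  linear_combination b0 - b * b1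

theorem om_lin [Finite F] [Big F] (hd : ∀ b y, φ b b y = 0) (b y : F) :
    φ b 1 ![0, 0, 0, y] 0 = y * φ b 1 ![0, 0, 0, 1] 0 := by
  obtain ⟨g, hg⟩ := IsCyclic.exists_monoid_generator (α := Fˣ)
  have lin : ∀ b : F, (∀ y, φ b 1 ![0, 0, 0, g * y] 0 = g * φ b 1 ![0, 0, 0, y] 0) →
      ∀ y, φ b 1 ![0, 0, 0, y] 0 = y * φ b 1 ![0, 0, 0, 1] 0 := fun b hb y => by
    by_cases y0 : y = 0
    · subst y0
      have : (![0, 0, 0, 0] : W4 F) = 0 := by simp
      simp [this]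
    obtain ⟨n, hn⟩ := hg (Units.mk0 y y0)
    have e : y = (g : F) ^ n := by simpa using (congrArg Units.val hn).symm
    rw [e]
    clear e hn
    induction n with
    | zero => simp
    | succ n ih => rw [pow_succ', hb, ih, mul_assoc]
  have lg := lin g fun y => by
    have := h.om_fac hd g g y
    rw [hd] at this
    simp only [Pi.zero_apply] at this
    grind
  refine lin b (fun y => ?_) y
  have e1 := h.om_fac hd b g y
  have e2 := h.om_fac hd g b y
  rw [h.sym g b, e1, lg (b * y), lg y] at e2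
  grind

theorem eq_zero [Finite F] [Big F] (hd : ∀ b y, φ b b y = 0) (b c : F) (y : W4 F) : φ b c y = 0 := by
  have lin : ∀ b c y : F, φ b c ![0, 0, 0, y] 0 = y * φ b c ![0, 0, 0, 1] 0 := fun b c y => by
    rw [h.om_fac hd b c y, h.om_fac hd b c 1, h.om_lin hd b (c * y), h.om_lin hd c y, h.om_lin hd b (c * 1)]
    ring
  have z : ∀ b c : F, φ b c ![0, 0, 0, 1] 0 = 0 :=
    form_zero (fun a b => φ a b ![0, 0, 0, 1] 0) θ (fun a b c => by simp [h.add'])
      (fun a b c => by simp [h.add]) (fun _ => by simp) (fun c a b => by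
        obtain ⟨k, rfl⟩ := exists_θ c
        by_cases k0 : k = 0
        · simp [k0, h.zero]
        have e := congrFun (h.hM a b k ![0, 0, 0, 1] k0) 0
        rw [show Mm k *ᵥ ![0, 0, 0, 1] = ![0, 0, 0, k⁻¹] by simp [Mm_mulVec], lin, Mm_mulVec] at e
        simp only [cons_val_zero] at e
        field_simp at e
        rw [e, θθ]) (fun c => by simp [hd])
  have e3 : ∀ y, φ b c ![0, 0, 0, y] = 0 := fun y =>
    ext4 (by rw [lin, z]; simp) (by rw [h.two'', h.al_zero]; simp) (h.im _ _ _).1 (h.im _ _ _).2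
  rw [dec4 y, map_add, map_add, map_add, h.ker, h.ker, h.two', h.al_zero, e3]
  simp

end QD

end H5.MZ
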