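import Cfsg.Agent.H5.MZ2
import Cfsg.Agent.H23.SzAct

/-! Martineau's theorem on Suzuki groups acting on 2-groups, part 3: the simple modules. -/

set_option autoImplicit false

namespace H5.MZ
open Matrix H23 H23.Sz

/-- the integral group ring -/
abbrev RG (G : Type*) [Group G] := MonoidAlgebra ℤ G

/-- group elements in the group ring -/
noncomputable def ι {G : Type*} [Group G] : G →* RG G := MonoidAlgebra.of ℤ G

section gen
variable {G : Type*} [Group G] {V : Type*} [AddCommGroup V] [Module (RG G) V]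

theorem ι_mul (g h : G) (v : V) : ι (g * h) • v = ι g • ι h • v := by rw [map_mul, mul_smul]

theorem ι_one (v : V) : ι (1 : G) • v = v := by rw [map_one, one_smul]

/-- an invariant subgroup is a submodule -/
def mkSub (U : AddSubgroup V) (h : ∀ g : G, ∀ x ∈ U, ι g • x ∈ U) : Submodule (RG G) V where
  toAddSubmonoid := U.toAddSubmonoid
  smul_mem' r x hx := by
    change r • x ∈ U
    induction r using MonoidAlgebra.induction_on with
    | of m => exact h m x hx
    | add a b ha hb => rw [add_smul]; exact U.add_mem ha hb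
    | smul r a ha => rw [← Int.cast_smul_eq_zsmul (RG G), smul_eq_mul, mul_smul, Int.cast_smul_eq_zsmul]
                     exact U.zsmul_mem ha r

theorem mem_mkSub {U : AddSubgroup V} {h : ∀ g : G, ∀ x ∈ U, ι g • x ∈ U} {x : V} : x ∈ mkSub U h ↔ x ∈ U :=
  Iff.rfl

theorem simple_inv [IsSimpleModule (RG G) V] (U : AddSubgroup V) (h : ∀ g : G, ∀ x ∈ U, ι g • x ∈ U) :
    (∀ x ∈ U, x = 0) ∨ ∀ x, x ∈ U := by
  rcases eq_bot_or_eq_top (mkSub U h) with e | e
  · exact Or.inl fun x hx => by simpa [e] using (mem_mkSub (h := h)).2 hx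
  · exact Or.inr fun x => (mem_mkSub (h := h)).1 (by simp [e])

theorem span_orbit [IsSimpleModule (RG G) V] {p : V} (hp : p ≠ 0) (U : AddSubgroup V) (h : ∀ g : G, ι g • p ∈ U)
    (x : V) : x ∈ U := by
  rcases simple_inv (G := G) (AddSubgroup.closure (Set.range fun g : G => ι g • p)) (fun g x hx => by
    induction hx using AddSubgroup.closure_induction with
    | mem x hx => obtain ⟨k, rfl⟩ := hx
                  exact AddSubgroup.subset_closure ⟨g * k, ι_mul g k p⟩
    | zero => rw [smul_zero]; exact zero_mem _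
    | add x y _ _ hx hy => rw [smul_add]; exact add_mem hx hy
    | neg x _ hx => rw [smul_neg]; exact neg_mem hx) with e | e
  · exact absurd (e p (AddSubgroup.subset_closure ⟨1, ι_one p⟩)) hp
  · exact (AddSubgroup.closure_le U).2 (by rintro _ ⟨g, rfl⟩; exact h g) (e x)

theorem ext_orbit [IsSimpleModule (RG G) V] {p : V} (hp : p ≠ 0) {A : Type*} [AddCommGroup A] (f f' : V →+ A)
    (h : ∀ g : G, f (ι g • p) = f' (ι g • p)) (x : V) : f x = f' x :=
  span_orbit (G := G) hp (f.eqLocus f') h x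

/-- the additive map given by a ring element -/
noncomputable def sm (r : RG G) : V →+ V := DistribSMul.toAddMonoidHom V r

@[simp] theorem sm_apply (r : RG G) (v : V) : sm r v = r • v := rfl

theorem exists_fix [Finite V] [Finite G] (S : Subgroup G) (hS : IsPGroup 2 S) (h : 2 ∣ Nat.card V) :
    ∃ p : V, p ≠ 0 ∧ ∀ s ∈ S, ι s • p = p := by
  letI : MulAction S V := MulAction.compHom V (ι.comp S.subtype)
  obtain ⟨b, hb, hne⟩ := hS.exists_fixed_point_of_prime_dvd_card_of_fixed_point V h (a := 0)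
    fun s => smul_zero (ι (s : G))
  exact ⟨b, hne.symm, fun s hs => hb ⟨s, hs⟩⟩

theorem exists_cofix [Finite V] [Finite G] (S : Subgroup G) (hS : IsPGroup 2 S) (h : 2 ∣ Nat.card V) :
    ∃ ψ : AddChar V ℂ, ψ ≠ 1 ∧ ∀ s ∈ S, ∀ v, ψ (ι s • v) = ψ v := by
  letI : MulAction S (AddChar V ℂ) :=
    { smul := fun s ψ => ψ.compAddMonoidHom (sm (ι (s : G)⁻¹))
      one_smul := fun ψ => by
        ext v
        change ψ (ι ((1 : S) : G)⁻¹ • v) = ψ v
        simp
      mul_smul := fun s t ψ => by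
        ext v
        change ψ (ι ((s * t : S) : G)⁻¹ • v) = ψ (ι (t : G)⁻¹ • ι (s : G)⁻¹ • v)
        rw [← ι_mul]; simp }
  have := Fintype.ofFinite V
  have hc : 2 ∣ Nat.card (AddChar V ℂ) := by
    rw [Nat.card_eq_fintype_card, AddChar.card_eq, ← Nat.card_eq_fintype_card]; exact h
  obtain ⟨b, hb, hne⟩ := hS.exists_fixed_point_of_prime_dvd_card_of_fixed_point (AddChar V ℂ) hc (a := 1)
    fun s => by ext v; rfl
  refine ⟨b, hne.symm, fun s hs v => ?_⟩
  have := DFunLike.congr_fun (hb ⟨s⁻¹, inv_mem hs⟩) v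
  change b (ι (s⁻¹)⁻¹ • v) = b v at this
  rwa [inv_inv] at this

end gen

variable {F : Type*} [Field F] [Tits F] {G : Type*} [Group G] [Model F G]

theorem WfW : (W F : G) * T (1 : F) 0 * W F = T (0 : F) 1 * W F * T (1 : F) 0 := by
  apply ρ_inj (F := F)
  simp only [map_mul, ρ_T, ρ_W]
  ext i j
  fin_cases i <;> fin_cases j <;> simp [Tm, nf, Cfsg.suzukiForm, Matrix.mul_apply, Fin.sum_univ_four] <;> grind

theorem WtW : (W F : G) * T (0 : F) 1 * W F = T (1 : F) 0 * W F * T (1 : F) 1 := by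
  apply ρ_inj (F := F)
  simp only [map_mul, ρ_T, ρ_W]
  ext i j
  fin_cases i <;> fin_cases j <;> simp [Tm, nf, Cfsg.suzukiForm, Matrix.mul_apply, Fin.sum_univ_four] <;> grind

theorem Wf3W : (W F : G) * T (1 : F) 1 * W F = T (1 : F) 1 * W F * T (0 : F) 1 := by
  apply ρ_inj (F := F)
  simp only [map_mul, ρ_T, ρ_W]
  ext i j
  fin_cases i <;> fin_cases j <;> simp [Tm, nf, Cfsg.suzukiForm, Matrix.mul_apply, Fin.sum_univ_four] <;> grind

variable (F G) in
/-- an element of order five -/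
noncomputable def u5 : G := T (0 : F) 1 * W F

theorem t_t : (T (0 : F) 1 : G) * T (0 : F) 1 = 1 := by rw [T_sq]; simp

theorem u5_pow : u5 F G ^ 5 = 1 := by
  have e : u5 F G ^ 5 = T (0 : F) 1 * (W F * T (0 : F) 1 * W F) * T (0 : F) 1 * (W F * T (0 : F) 1 * W F) *
      T (0 : F) 1 * W F := by
    simp only [u5, pow_succ, pow_zero, one_mul, mul_assoc]
  have a1 : (T (0 : F) 1 : G) * T (1 : F) 0 = T (1 : F) 1 := by simp [T_mul]
  have a2 : (T (1 : F) 1 : G) * T (0 : F) 1 = T (1 : F) 0 := by simp [T_mul, add_self]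
  have a3 : (T (1 : F) 0 : G) * T (1 : F) 0 = T (0 : F) 1 := by simp [T_mul, add_self]
  have a4 : (T (1 : F) 1 : G) * T (1 : F) 0 = 1 := by simp [T_mul, add_self]
  rw [e, WtW]
  calc _ = (T (0 : F) 1 * T (1 : F) 0 : G) * (W F * (T (1 : F) 1 * T (0 : F) 1 * T (1 : F) 0) * W F) *
        (T (1 : F) 1 * T (0 : F) 1) * W F := by simp only [mul_assoc]
    _ = (T (1 : F) 1 * T (1 : F) 0 : G) * W F * (T (1 : F) 1 * T (1 : F) 0) * W F := by
      rw [a1, a2, a3, WtW]; simp only [mul_assoc]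
    _ = 1 := by rw [a4, one_mul, mul_one, W_W]

theorem t_u5 : (T (0 : F) 1 : G) * u5 F G = u5 F G ^ 4 * T (0 : F) 1 := by
  have h : u5 F G ^ 4 = (u5 F G)⁻¹ := eq_inv_of_mul_eq_one_left (by rw [← pow_succ, u5_pow])
  rw [h, u5, _root_.mul_inv_rev, W_inv, ← mul_assoc, t_t, inv_mul_cancel_right, one_mul]

variable (F G) in
/-- `2`-groups on which the element of order five acts without fixed points -/
structure Fp (V : Type*) [AddCommGroup V] [Module (RG G) V] : Prop where
  two : ∀ v : V, ∃ n : ℕ, 2 ^ n • v = 0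
  fpf : ∀ v : V, ι (u5 F G) • v = v → v = 0

variable {V : Type*} [AddCommGroup V] [Module (RG G) V]

theorem Fp.sub (h : Fp F G V) (U : Submodule (RG G) V) : Fp F G U :=
  ⟨fun v => (h.two v).imp fun _ hn => Subtype.ext hn, fun v hv => Subtype.ext (h.fpf v (congrArg Subtype.val hv))⟩

theorem Fp.quot [Finite V] (h : Fp F G V) (U : Submodule (RG G) V) : Fp F G (V ⧸ U) := by
  refine ⟨fun v => ?_, fun v hv => ?_⟩
  · obtain ⟨v, rfl⟩ := U.mkQ_surjective v
    obtain ⟨n, hn⟩ := h.two v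
    exact ⟨n, by rw [← map_nsmul, hn, map_zero]⟩
  · have s1 : Function.Surjective (sm (ι (u5 F G) - 1) : V →+ V) :=
      Finite.injective_iff_surjective.1 ((injective_iff_map_eq_zero _).2 fun v hv =>
        h.fpf v (by simpa [sub_smul, sub_eq_zero] using hv))
    have s2 : Function.Surjective (sm (ι (u5 F G) - 1) : V ⧸ U →+ V ⧸ U) := fun x => by
      obtain ⟨x, rfl⟩ := U.mkQ_surjective x
      obtain ⟨y, rfl⟩ := s1 x
      exact ⟨U.mkQ y, by simp⟩
    have : Finite (V ⧸ U) := Finite.of_surjective _ U.mkQ_surjective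
    exact (injective_iff_map_eq_zero _).1 (Finite.injective_iff_surjective.2 s2) v (by simp [sub_smul, hv])

theorem Fp.two_dvd (h : Fp F G V) [Nontrivial V] : 2 ∣ Nat.card V := by
  obtain ⟨v, hv⟩ := exists_ne (0 : V)
  obtain ⟨n, hn⟩ := h.two v
  obtain ⟨k, -, hk⟩ := (Nat.dvd_prime_pow Nat.prime_two).1 (addOrderOf_dvd_of_nsmul_eq_zero hn)
  refine dvd_trans ?_ (addOrderOf_dvd_natCard v)
  rw [hk]
  refine dvd_pow_self 2 ?_
  rintro rfl
  exact hv (AddMonoid.addOrderOf_eq_one_iff.1 (by simpa using hk))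

theorem Fp.simple_two [IsSimpleModule (RG G) V] (h : Fp F G V) (v : V) : v + v = 0 := by
  have := IsSimpleModule.nontrivial (RG G) V
  rcases simple_inv (G := G) (AddMonoidHom.id V + AddMonoidHom.id V).ker (fun g x hx => by
    have hx' : x + x = 0 := hx
    change ι g • x + ι g • x = 0
    rw [← smul_add, hx', smul_zero]) with e | e
  · obtain ⟨w, hw⟩ := exists_ne (0 : V)
    obtain ⟨n, hn⟩ := h.two w
    exfalso
    induction n with
    | zero => exact hw (by simpa using hn)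
    | succ n ih => exact ih (e _ (by
        change 2 ^ n • w + 2 ^ n • w = 0
        rw [← two_nsmul, ← mul_nsmul', ← pow_succ', hn]))
  · exact e v

theorem Fp.sum5 (h : Fp F G V) (v : V) : v + ι (u5 F G) • v + ι (u5 F G ^ 2) • v + ι (u5 F G ^ 3) • v +
    ι (u5 F G ^ 4) • v = 0 := by
  refine h.fpf _ ?_
  simp only [smul_add, ← ι_mul, ← pow_succ']
  rw [← sq, u5_pow, ι_one]
  abel

theorem Fp.free (h : Fp F G V) {v : V} (hv : ι (T (0 : F) 1 : G) • v = v) :
    ∃ x : V, v = -(x + ι (T (0 : F) 1 : G) • x) := by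
  refine ⟨ι (u5 F G) • v + ι (u5 F G ^ 2) • v, ?_⟩
  have e1 : ι (T (0 : F) 1 : G) • ι (u5 F G) • v = ι (u5 F G ^ 4) • v := by
    rw [← ι_mul, t_u5, ι_mul, hv]
  have e2 : ι (T (0 : F) 1 : G) • ι (u5 F G ^ 2) • v = ι (u5 F G ^ 3) • v := by
    rw [← ι_mul, sq, ← mul_assoc, t_u5, mul_assoc, t_u5, ← mul_assoc, ← pow_add, ι_mul, hv,
      show 4 + 4 = 5 + 3 from rfl, pow_add, u5_pow, one_mul]
  rw [smul_add, e1, e2, eq_neg_iff_add_eq_zero, ← h.sum5 v]
  abel

theorem Fp.rel (h : Fp F G V) {p : V} (hp : ∀ a b : F, ι (T a b : G) • p = p) :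
    p + ι (W F : G) • p + ι (T (1 : F) 0 * W F : G) • p + ι (T (0 : F) 1 * W F : G) • p +
      ι (T (1 : F) 1 * W F : G) • p = 0 := by
  refine h.fpf _ ?_
  have a1 : (T (0 : F) 1 : G) * T (1 : F) 0 = T (1 : F) 1 := by simp [T_mul]
  have a2 : (T (0 : F) 1 : G) * T (1 : F) 1 = T (1 : F) 0 := by simp [T_mul, add_self]
  rw [u5, ι_mul]
  simp only [smul_add, ← ι_mul, ← mul_assoc]
  simp only [mul_assoc (T (0 : F) 1 : G) (W F)]
  simp only [mul_assoc (T (0 : F) 1 : G) (W F * _)]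
  rw [WfW, WtW, Wf3W, W_W]
  simp only [← mul_assoc, a1, a2, t_t, mul_one, one_mul]
  simp only [ι_mul, hp]
  abel

end H5.MZ
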