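import Cfsg.Agent.H5.MZ3

/-! Martineau's theorem on Suzuki groups acting on 2-groups, part 4: the simple modules are natural. -/

set_option autoImplicit false

namespace H5.MZ
open Matrix H23 H23.Sz

variable {F : Type*} [Field F] [Tits F] {G : Type*} [Group G] [Model F G]
variable {V : Type*} [AddCommGroup V] [Module (RG G) V]

theorem ρ30_B (a b : F) (k : Fˣ) : ρ F (T a b * M k : G) 3 0 = 0 := by
  simp [Tm, Mm, Matrix.mul_apply, Fin.sum_univ_four]

theorem ρ30_W (a b c d : F) (k : Fˣ) : ρ F (T a b * W F * (T c d * M k) : G) 3 0 = k := by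
  simp [Tm, Mm, Cfsg.suzukiForm, Matrix.mul_apply, Fin.sum_univ_four]

theorem M_fix_T {p : V} (hp : ∀ a b : F, ι (T a b : G) • p = p) (k : Fˣ) (a b : F) :
    ι (T a b : G) • ι (M k : G) • p = ι (M k : G) • p := by
  have e := M_T_conj (G := G) k⁻¹ a b
  rw [map_inv, inv_inv] at e
  have e2 : (T a b : G) * M k = M k * T (dl k⁻¹ * a) (θ ((k⁻¹ : Fˣ) : F) * b) := by
    rw [← e]; group
  rw [← ι_mul, e2, ι_mul, hp]

theorem exists_K [Finite F] [Finite V] [Nontrivial V] (h : Fp F G V) :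
    ∃ K : AddSubgroup V, (¬ ∀ x, x ∈ K) ∧ (∀ (a b : F) v, ι (T a b : G) • v - v ∈ K) ∧
      ∀ (k : Fˣ), ∀ v ∈ K, ι (M k : G) • v ∈ K := by
  have := finite_G F G
  obtain ⟨ψ, h1, h2⟩ := exists_cofix (V := V) (Q F G) isPGroup_Q h.two_dvd
  refine ⟨{ carrier := {v | ∀ k : Fˣ, ψ (ι (M k : G) • v) = 1}
            add_mem' := fun {x y} hx hy k => by rw [smul_add, AddChar.map_add_eq_mul, hx, hy, one_mul]
            zero_mem' := fun k => by simp
            neg_mem' := fun {x} hx k => by rw [smul_neg, AddChar.map_neg_eq_inv, hx, inv_one] }, ?_, ?_, ?_⟩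
  · intro e
    refine h1 ?_
    ext v
    simpa using e v 1
  · intro a b v k
    have : ψ (ι (M k : G) • v) ≠ 0 := fun e => by
      have := ψ.map_add_eq_mul (ι (M k : G) • v) (-(ι (M k : G) • v))
      simp [e] at this
    rw [smul_sub, AddChar.map_sub_eq_div, ← ι_mul, M_T, ι_mul, h2 _ (T_mem_Q _ _), div_self this]
  · intro l v hv k
    rw [← ι_mul, ← map_mul]
    exact hv _

theorem exists_lam [Finite F] [Finite V] [IsSimpleModule (RG G) V] (h : Fp F G V) :
    ∃ (p : V) (l : V →+ F), p ≠ 0 ∧ ∀ g : G, l (ι g • p) = ρ F g 3 0 := by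
  classical
  have := finite_G F G
  have := IsSimpleModule.nontrivial (RG G) V
  obtain ⟨p, p0, hp'⟩ := exists_fix (V := V) (Q F G) isPGroup_Q h.two_dvd
  have hp : ∀ a b : F, ι (T a b : G) • p = p := fun a b => hp' _ (T_mem_Q a b)
  obtain ⟨K, K0, K1, K2⟩ := exists_K h
  set π := QuotientAddGroup.mk' K with hπ
  have π0 : ∀ v, π v = 0 ↔ v ∈ K := fun v => QuotientAddGroup.eq_zero_iff v
  have πT : ∀ (a b : F) v, π (ι (T a b : G) • v) = π v := fun a b v => by
    rw [← sub_eq_zero, ← map_sub, π0]; exact K1 a b v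
  have π2 : ∀ v, π v + π v = 0 := fun v => by rw [← map_add, h.simple_two, map_zero]
  have πP : ∀ p : V, (∀ a b : F, ι (T a b : G) • p = p) → π p = 0 := fun p hp => by
    have e := congrArg π (h.rel hp)
    simp only [map_add, ι_mul, πT, map_zero] at e
    have := π2 (ι (W F : G) • p)
    rw [← e, add_assoc, add_assoc, add_assoc, this, add_zero, this, add_zero]
  let i : F → V ⧸ K := fun c => if hc : c = 0 then 0 else π (ι (W F * M (Units.mk0 c hc) : G) • p)
  have iu : ∀ k : Fˣ, i k = π (ι (W F * M k : G) • p) := fun k => by simp [i]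
  have i0 : i 0 = 0 := by simp [i]
  have hi : ∀ g : G, π (ι g • p) = i (ρ F g 3 0) := fun g => by
    rcases bruhat F g with ⟨a, b, k, rfl⟩ | ⟨a, b, c, d, k, rfl⟩
    · rw [ρ30_B, i0, ι_mul, πT, πP _ (M_fix_T hp k)]
    · rw [ρ30_W, iu, mul_assoc, ι_mul, πT, ι_mul, ι_mul, M_fix_T hp, ι_mul]
  have i2 : ∀ c, i c + i c = 0 := fun c => by
    obtain ⟨v, hv⟩ := QuotientAddGroup.mk'_surjective K (i c)
    rw [← hv]; exact π2 v
  have iadd : ∀ x y, i (x + y) = i x + i y := fun x y => by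
    by_cases x0 : x = 0
    · rw [x0, i0, zero_add, zero_add]
    obtain ⟨b, hb⟩ := exists_θ (y / x)
    have e := congrArg (fun v => π (ι (M (Units.mk0 x x0)⁻¹ * W F * T 0 b : G) • v)) (h.rel hp)
    simp only [smul_add, map_add, ← ι_mul, hi, smul_zero, map_zero] at e
    have c1 : ρ F (M (Units.mk0 x x0)⁻¹ * W F * T 0 b : G) 3 0 = x := by
      simp [Tm, Mm, Cfsg.suzukiForm, Matrix.mul_apply, Fin.sum_univ_four, -map_inv]
    have c2 : ρ F (M (Units.mk0 x x0)⁻¹ * W F * T 0 b * W F : G) 3 0 = y := by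
      simp [Tm, Mm, nf, Cfsg.suzukiForm, Matrix.mul_apply, Fin.sum_univ_four, -map_inv, hb]
      field_simp
    have c3 : ρ F (M (Units.mk0 x x0)⁻¹ * W F * T 0 b * (T (1 : F) 0 * W F) : G) 3 0 = x + x * b + y := by
      simp [Tm, Mm, nf, Cfsg.suzukiForm, Matrix.mul_apply, Fin.sum_univ_four, -map_inv, hb]
      field_simp
    have c4 : ρ F (M (Units.mk0 x x0)⁻¹ * W F * T 0 b * (T (0 : F) 1 * W F) : G) 3 0 = x + y := by
      simp [Tm, Mm, nf, Cfsg.suzukiForm, Matrix.mul_apply, Fin.sum_univ_four, -map_inv, hb]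
      field_simp
    have c5 : ρ F (M (Units.mk0 x x0)⁻¹ * W F * T 0 b * (T (1 : F) 1 * W F) : G) 3 0 = x + x * b + y := by
      simp [Tm, Mm, nf, Cfsg.suzukiForm, Matrix.mul_apply, Fin.sum_univ_four, -map_inv, hb]
      field_simp
      grind
    rw [c1, c2, c3, c4, c5] at e
    have a1 := i2 (x + x * b + y)
    have a2 := i2 (x + y)
    rw [← sub_eq_zero]
    calc i (x + y) - (i x + i y) = (i (x + y) + i (x + y)) + (i (x + x * b + y) + i (x + x * b + y)) -
          (i x + i y + i (x + x * b + y) + i (x + y) + i (x + x * b + y)) := by abel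
      _ = 0 := by rw [a1, a2, e]; simp
  let i' : F →+ V ⧸ K := AddMonoidHom.mk' i iadd
  have inj : Function.Injective i' := (injective_iff_map_eq_zero _).2 fun c hc => by
    by_contra c0
    refine K0 (span_orbit (G := G) p0 K fun g => ?_)
    rw [← π0, hi]
    by_cases d0 : ρ F g 3 0 = 0
    · rw [d0, i0]
    have a1 : π (ι (W F * M (Units.mk0 c c0) : G) • p) = 0 := by rw [← iu]; exact hc
    have a2 := K2 (Units.mk0 c c0 * (Units.mk0 _ d0)⁻¹) _ ((π0 _).1 a1)
    have a3 : ∀ k l : Fˣ, (M (k * l⁻¹) : G) * (W F * M k) = W F * M l := fun k l => by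
      rw [← mul_assoc, ← inv_inv (k * l⁻¹), ← W_M, mul_assoc, ← map_mul, _root_.mul_inv_rev, inv_inv,
        inv_mul_cancel_right]
    rw [← ι_mul, a3, ← π0, ← iu] at a2
    exact a2
  have sur : Function.Surjective i' := fun y => by
    obtain ⟨v, rfl⟩ := QuotientAddGroup.mk'_surjective K y
    exact span_orbit (G := G) p0 (i'.range.comap π) (fun g => ⟨_, (hi g).symm⟩) v
  refine ⟨p, (AddEquiv.ofBijective i' ⟨inj, sur⟩).symm.toAddMonoidHom.comp π, p0, fun g => ?_⟩
  change (AddEquiv.ofBijective i' ⟨inj, sur⟩).symm (π (ι g • p)) = _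
  rw [AddEquiv.symm_apply_eq, hi]
  rfl

/-- a simple module without fixed points of the element of order five is the natural module -/
theorem struct [Finite F] [Finite V] [IsSimpleModule (RG G) V] (h : Fp F G V) :
    ∃ e : V ≃+ W4 F, ∀ (g : G) v, e (ι g • v) = ρ F g *ᵥ e v := by
  obtain ⟨p, l, p0, hl⟩ := exists_lam h
  let e : V →+ W4 F := AddMonoidHom.mk' (fun v => ![l (ι (W F : G) • v),
      l (ι (W F * T (1 : F) 0 : G) • v) + l (ι (W F * T (0 : F) 1 : G) • v),
      l (ι (W F * T (0 : F) 1 : G) • v) + l (ι (W F : G) • v) + l v, l v]) fun x y => by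
    refine ext4 ?_ ?_ ?_ ?_ <;> simp <;> ring
  have he : ∀ g : G, e (ι g • p) = ρ F g *ᵥ ![1, 0, 0, 0] := fun g => by
    simp only [e, AddMonoidHom.mk'_apply, ← ι_mul, hl]
    refine ext4 ?_ ?_ ?_ ?_ <;>
      simp [Tm, nf, Cfsg.suzukiForm, Matrix.mul_apply, Fin.sum_univ_four, mulVec, dotProduct] <;>
      grind
  have eq : ∀ (g : G) v, e (ι g • v) = ρ F g *ᵥ e v := fun g =>
    ext_orbit (G := G) p0 (e.comp (sm (ι g))) ((ρ F g).mulVecLin.toAddMonoidHom.comp e) fun k => by
      change e (ι g • ι k • p) = ρ F g *ᵥ e (ι k • p)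
      rw [← ι_mul, he, he, map_mul, mulVec_mulVec]
  have inj : Function.Injective e := by
    rcases simple_inv (G := G) e.ker (fun g x hx => by
      rw [AddMonoidHom.mem_ker] at hx ⊢
      rw [eq, hx, mulVec_zero]) with a | a
    · exact (injective_iff_map_eq_zero _).2 a
    · have := he 1
      rw [ι_one, a p] at this
      simpa using congrFun this 0
  have sur : Function.Surjective e := by
    have r : ∀ (g : G) (y : W4 F), y ∈ e.range → ρ F g *ᵥ y ∈ e.range := by
      rintro g _ ⟨v, rfl⟩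
      exact ⟨_, eq g v⟩
    have r0 : ∀ y : F, ![y, 0, 0, 0] ∈ e.range := fun y => by
      by_cases y0 : y = 0
      · rw [y0, show (![0, 0, 0, 0] : W4 F) = 0 by simp]; exact zero_mem _
      · exact ⟨_, (he (M (Units.mk0 y y0))).trans (by simp [Mm_mulVec])⟩
    have r3 : ∀ y : F, ![0, 0, 0, y] ∈ e.range := fun y => by
      simpa [J_mulVec] using r (W F) _ (r0 y)
    have r1 : ∀ y : F, ![0, y, 0, 0] ∈ e.range := fun y => by
      have := sub_mem (sub_mem (r (T (0 : F) 1) _ (r3 y)) (r0 y)) (r3 y)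
      convert this using 1
      refine ext4 ?_ ?_ ?_ ?_ <;> simp [Tm_mulVec, nf]
    have r2 : ∀ y : F, ![0, 0, y, 0] ∈ e.range := fun y => by
      simpa [J_mulVec] using r (W F) _ (r1 y)
    intro y
    change y ∈ e.range
    rw [dec4 y]
    exact add_mem (add_mem (add_mem (r0 _) (r1 _)) (r2 _)) (r3 _)
  exact ⟨AddEquiv.ofBijective e ⟨inj, sur⟩, eq⟩

end H5.MZ
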