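import Cfsg.Agent.H5.MZ4

/-! Martineau's theorem on Suzuki groups acting on 2-groups, part 5: general modules. -/

set_option autoImplicit false

namespace H5.MZ
open Matrix H23 H23.Sz

universe u
variable {F : Type*} [Field F] [Tits F] {G : Type*} [Group G] [Model F G]

theorem card_quot_lt {R : Type*} [Ring R] {V : Type*} [AddCommGroup V] [Module R V] [Finite V]
    {U : Submodule R V} (h : U ≠ ⊥) : Nat.card (V ⧸ U) < Nat.card V := by
  rw [Submodule.card_eq_card_quotient_mul_card U]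
  have : Finite (V ⧸ U) := Finite.of_surjective _ U.mkQ_surjective
  have h1 : 1 < Nat.card U := Finite.one_lt_card_iff_nontrivial.2 (Submodule.nontrivial_iff_ne_bot.2 h)
  have h2 : 0 < Nat.card (V ⧸ U) := Nat.card_pos
  nlinarith

theorem card_sub_lt {R : Type*} [Ring R] {V : Type*} [AddCommGroup V] [Module R V] [Finite V]
    {U : Submodule R V} (h : U ≠ ⊤) : Nat.card U < Nat.card V := by
  obtain ⟨x, hx⟩ : ∃ x, x ∉ U := by
    by_contra h1
    exact h (eq_top_iff.2 fun x _ => by_contra fun hx => h1 ⟨x, hx⟩)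
  exact Finite.card_subtype_lt hx

theorem exists_atom {R : Type*} [Ring R] (V : Type*) [AddCommGroup V] [Module R V] [Finite V] [Nontrivial V] :
    ∃ U : Submodule R V, IsAtom U := by
  have : Finite (Submodule R V) := Finite.of_injective _ SetLike.coe_injective
  exact ((eq_bot_or_exists_atom_le (⊤ : Submodule R V)).resolve_left top_ne_bot).imp fun _ h => h.1

theorem Fp.ind (P : ∀ (V : Type u) [AddCommGroup V] [Module (RG G) V], Prop)
    (h : ∀ (V : Type u) [AddCommGroup V] [Module (RG G) V] [Finite V], Fp F G V →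
      (∀ (V' : Type u) [AddCommGroup V'] [Module (RG G) V'] [Finite V'], Fp F G V' → Nat.card V' < Nat.card V →
        P V') → P V)
    (V : Type u) [AddCommGroup V] [Module (RG G) V] [Finite V] (hV : Fp F G V) : P V := by
  induction hn : Nat.card V using Nat.strong_induction_on generalizing V with
  | _ n ih => exact h V hV fun V' _ _ _ h' hlt => ih _ (hn ▸ hlt) V' h' rfl

/-- invariant biadditive maps -/
def Eqv (G : Type*) [Group G] {A B C : Type*} [AddCommGroup A] [Module (RG G) A] [AddCommGroup B]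
    [Module (RG G) B] [AddCommGroup C] [Module (RG G) C] (β : A →+ B →+ C) : Prop :=
  ∀ (g : G) x y, β (ι g • x) (ι g • y) = ι g • β x y

section B
variable [Finite F] [Big F] {A B C : Type u} [AddCommGroup A] [Module (RG G) A] [AddCommGroup B]
  [Module (RG G) B] [AddCommGroup C] [Module (RG G) C] [Finite A] [Finite B] [Finite C]

theorem bi0 [IsSimpleModule (RG G) A] [IsSimpleModule (RG G) B] [IsSimpleModule (RG G) C] (hA : Fp F G A)
    (hB : Fp F G B) (hC : Fp F G C) (β : A →+ B →+ C) (h : Eqv G β) (x : A) (y : B) : β x y = 0 := by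
  obtain ⟨a, ha⟩ := struct hA
  obtain ⟨b, hb⟩ := struct hB
  obtain ⟨c, hc⟩ := struct hC
  let γ : W4 F →+ W4 F →+ W4 F := ((β.comp a.symm.toAddMonoidHom).compl₂ b.symm.toAddMonoidHom).compr₂
    c.toAddMonoidHom
  have hγ : ∀ x y, γ (a x) (b y) = c (β x y) := fun x y => by simp [γ]
  have e : ∀ (g : G) x y, γ (ρ F g *ᵥ x) (ρ F g *ᵥ y) = ρ F g *ᵥ γ x y := fun g x y => by
    obtain ⟨x, rfl⟩ := a.surjective x
    obtain ⟨y, rfl⟩ := b.surjective y
    rw [← ha, ← hb, hγ, hγ, h, hc]
  have := biadd_zero γ (fun s t x y => by simpa using e (T s t) x y)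
    (fun k hk x y => by simpa using e (M (Units.mk0 k hk)) x y) (fun x y => by simpa using e (W F) x y) (a x) (b y)
  rwa [hγ, c.map_eq_zero_iff] at this

theorem bi_left (h0 : ∀ (A : Type u) [AddCommGroup A] [Module (RG G) A] [Finite A] [IsSimpleModule (RG G) A],
      Fp F G A → ∀ β : A →+ B →+ C, Eqv G β → ∀ x y, β x y = 0) (hA : Fp F G A) :
    ∀ β : A →+ B →+ C, Eqv G β → ∀ x y, β x y = 0 := by
  refine Fp.ind (F := F) (fun A _ _ => ∀ β : A →+ B →+ C, Eqv G β → ∀ x y, β x y = 0) ?_ A hA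
  intro A _ _ _ hA ih β h x y
  rcases subsingleton_or_nontrivial A with _ | _
  · rw [Subsingleton.elim x 0, map_zero, AddMonoidHom.zero_apply]
  obtain ⟨U, hU⟩ := exists_atom (R := RG G) A
  have := isSimpleModule_iff_isAtom.2 hU
  have e := h0 U (hA.sub U) (β.comp U.subtype.toAddMonoidHom) fun g x y => h g x y
  have : Finite (A ⧸ U) := Finite.of_surjective _ U.mkQ_surjective
  exact ih (A ⧸ U) (hA.quot U) (card_quot_lt hU.1)
    (QuotientAddGroup.lift U.toAddSubgroup β fun x hx => AddMonoidHom.ext fun y => e ⟨x, hx⟩ y)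
    (fun g x y => by
      obtain ⟨x, rfl⟩ := U.mkQ_surjective x
      exact h g x y) (U.mkQ x) y

theorem bi2 [IsSimpleModule (RG G) C] (hA : Fp F G A) (hB : Fp F G B) (hC : Fp F G C) (β : A →+ B →+ C)
    (h : Eqv G β) (x : A) (y : B) : β x y = 0 :=
  bi_left (F := F) (fun A _ _ _ _ hA β h x y => bi_left (F := F) (fun _ _ _ _ _ hB γ h y x =>
    bi0 hB hA hC γ h y x) hB (AddMonoidHom.flip β) (fun g y x => h g x y) y x) hA β h x y

/-- there are no invariant biadditive maps -/
theorem bi (hA : Fp F G A) (hB : Fp F G B) (hC : Fp F G C) :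
    ∀ β : A →+ B →+ C, Eqv G β → ∀ x y, β x y = 0 := by
  refine Fp.ind (F := F) (fun C _ _ => ∀ β : A →+ B →+ C, Eqv G β → ∀ x y, β x y = 0) ?_ C hC
  intro C _ _ _ hC ih β h x y
  rcases subsingleton_or_nontrivial C with _ | _
  · exact Subsingleton.elim _ _
  obtain ⟨U, hU⟩ := exists_atom (R := RG G) C
  have := isSimpleModule_iff_isAtom.2 hU
  have : Finite (C ⧸ U) := Finite.of_surjective _ U.mkQ_surjective
  have e := ih (C ⧸ U) (hC.quot U) (card_quot_lt hU.1) (β.compr₂ U.mkQ.toAddMonoidHom) fun g x y => by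
    simp [h g x y]
  have e' : ∀ x y, β x y ∈ U := fun x y => (Submodule.Quotient.mk_eq_zero U).1 (e x y)
  let γ : A →+ B →+ U := AddMonoidHom.mk' (fun x => (β x).codRestrict U.toAddSubgroup (e' x)) fun x x' => by
    ext y; simp
  exact congrArg Subtype.val (bi2 hA hB (hC.sub U) γ (fun g x y => Subtype.ext (h g x y)) x y)

end B

variable (G) in
/-- the nilpotent element belonging to an involution -/
noncomputable def nn (b : F) : RG G := ι (T 0 b : G) - 1

theorem nn_comm_T (a b c : F) : ι (T a b : G) * nn G c = nn G c * ι (T a b : G) := by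
  rw [nn, mul_sub, sub_mul, ← map_mul, ← map_mul, (T_commute.2 (by simp)).eq, mul_one, one_mul]

theorem nn_comm (b c : F) : nn G b * nn G c = nn G c * nn G b := by
  rw [show nn G b = ι (T 0 b : G) - 1 from rfl, sub_mul, nn_comm_T, one_mul, mul_sub, mul_one]

theorem nn_add (b c : F) : nn G (b + c) = nn G b + nn G c + nn G b * nn G c := by
  have : (T 0 (b + c) : G) = T 0 b * T 0 c := by simp [T_mul]
  simp only [nn, this, map_mul]
  noncomm_ring

theorem nn_sq (b : F) : nn G b * nn G b = -(nn G b + nn G b) := by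
  have := nn_add (G := G) b b
  rw [add_self, nn, T_zero, map_one, sub_self] at this
  exact eq_neg_of_add_eq_zero_right this.symm

theorem nn_M (k : Fˣ) (b : F) : ι (M k : G) * nn G b = nn G (θ (k : F) * b) * ι (M k : G) := by
  rw [nn, nn, mul_sub, sub_mul, ← map_mul, ← map_mul, M_T, mul_zero, mul_one, one_mul]

variable {V : Type*} [AddCommGroup V] [Module (RG G) V]

theorem map_nn {e : V →+ W4 F} (he : ∀ (g : G) v, e (ι g • v) = ρ F g *ᵥ e v) (b : F) (v : V) :
    e (nn G b • v) = nb b (e v) := by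
  rw [nn, sub_smul, one_smul, map_sub, he, ρ_T, Tm_sub]

theorem map_nn' {j : W4 F →+ V} (hj : ∀ (g : G) y, j (ρ F g *ᵥ y) = ι g • j y) (b : F) (y : W4 F) :
    j (nb b y) = nn G b • j y := by
  rw [nn, sub_smul, one_smul, ← hj, ← map_sub, ρ_T, Tm_sub]

theorem Fp.two_of_quad (h : Fp F G V) (hq : ∀ v : V, nn G (1 : F) • nn G (1 : F) • v = 0) (v : V) :
    v + v = 0 := by
  have a : ∀ v : V, ι (T (0 : F) 1 : G) • (v + v) = v + v := fun v => by
    have := hq v
    rw [← mul_smul, nn_sq, neg_smul, neg_eq_zero, add_smul, ← smul_add, nn, sub_smul, one_smul] at this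
    exact sub_eq_zero.1 this
  have b : ι (u5 F G ^ 2) • (v + v) = v + v := by
    rw [sq, u5, ι_mul, ι_mul, ι_mul, smul_add (ι (W F)), a, ← smul_add, ← ι_mul (W F), W_W, ι_one, a]
  refine h.fpf _ ?_
  have : u5 F G = u5 F G ^ 2 * u5 F G ^ 2 * u5 F G ^ 2 := by
    rw [← pow_add, ← pow_add, show 2 + 2 + 2 = 5 + 1 from rfl, pow_succ, u5_pow, one_mul]
  rw [this, ι_mul, ι_mul, b, b, b]

theorem exists_fac {A B C : Type*} [AddCommGroup A] [AddCommGroup B] [AddCommGroup C] (E : A →+ B)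
    (hE : Function.Surjective E) (j : C →+ A) (hj : Function.Injective j) (f : A →+ A)
    (h1 : ∀ x, E x = 0 → f x = 0) (h2 : ∀ x, ∃ y, j y = f x) : ∃ φ : B →+ C, ∀ x, j (φ (E x)) = f x := by
  choose σ hσ using hE
  choose τ hτ using h2
  have e : ∀ x, f (σ (E x)) = f x := fun x => by
    rw [← sub_eq_zero, ← map_sub]; exact h1 _ (by rw [map_sub, hσ, sub_self])
  refine ⟨AddMonoidHom.mk' (fun y => τ (σ y)) fun y y' => hj ?_, fun x => (hτ _).trans (e x)⟩
  rw [map_add, hτ, hτ, hτ, ← map_add, ← e (σ y + σ y'), map_add, hσ, hσ]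

theorem nb_eq_zero {b : F} (hb : b ≠ 0) {y : W4 F} (h : nb b y = 0) : y 2 = 0 ∧ y 3 = 0 := by
  have h0 := congrFun h 0
  have h1 := congrFun h 1
  simp [nb, hb] at h0 h1
  simpa [h1, hb] using h0

theorem nb_of_low (b : F) {y : W4 F} (h : y 2 = 0 ∧ y 3 = 0) : nb b y = 0 := by
  simp [nb, h.1, h.2]

theorem exists_nb {y : W4 F} (h : y 2 = 0 ∧ y 3 = 0) : ∃ z, nb 1 z = y :=
  ⟨![0, 0, y 0 - y 1, y 1], ext4 (by simp [nb]) (by simp [nb]) (by simp [nb, h.1]) (by simp [nb, h.2])⟩

theorem quad_step [Finite F] [Big F] (E : V →+ W4 F) (hE : Function.Surjective E)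
    (eE : ∀ (g : G) v, E (ι g • v) = ρ F g *ᵥ E v) (j : W4 F →+ V) (hj : Function.Injective j)
    (ej : ∀ (g : G) y, j (ρ F g *ᵥ y) = ι g • j y) (Ej : ∀ y, E (j y) = 0)
    (hU : ∀ b c : F, ∀ x, E x = 0 → nn G b • nn G c • x = 0)
    (hN : ∀ b c : F, ∀ x, ∃ y, j y = nn G b • nn G c • x)
    (fr : ∀ x, E x = 0 → nn G (1 : F) • x = 0 → ∃ x', E x' = 0 ∧ x = nn G (1 : F) • x')
    (hΩ : (∃ x, E x ≠ 0 ∧ x + x = 0) → ∀ x : V, x + x = 0) (b c : F) (x : V) : nn G b • nn G c • x = 0 := by
  have ex : ∀ b c : F, ∃ φ : W4 F →+ W4 F, ∀ x, j (φ (E x)) = nn G b • nn G c • x := fun b c =>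
    exists_fac E hE j hj ((sm (nn G b)).comp (sm (nn G c))) (hU b c) (hN b c)
  choose φ hφ using ex
  have cm : ∀ (b c : F) (x : V), nn G b • nn G c • x = nn G c • nn G b • x := fun b c x => by
    rw [← mul_smul, nn_comm, mul_smul]
  have j2 : ∀ y, j y + j y = 0 := fun y => by
    rw [← map_add, show y + y = 0 from funext fun i => add_self _, map_zero]
  have im : ∀ b c y, φ b c y 2 = 0 ∧ φ b c y 3 = 0 := fun b c y => by
    obtain ⟨x, rfl⟩ := hE y
    by_cases b0 : b = 0
    · have : φ b c (E x) = 0 := hj (by rw [hφ, b0, nn, T_zero, map_one, sub_self, zero_smul, map_zero])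
      simp [this]
    refine nb_eq_zero b0 (hj ?_)
    rw [map_nn' ej, hφ, ← mul_smul, nn_sq, neg_smul, add_smul, ← hφ, j2, neg_zero, map_zero]
  have n3 : ∀ (a b c : F) (x : V), nn G a • nn G b • nn G c • x = 0 := fun a b c x => by
    rw [← hφ b c, ← map_nn' ej, nb_of_low a (im _ _ _), map_zero]
  have qd : QD φ :=
    { sym := fun b c => AddMonoidHom.ext fun y => by
        obtain ⟨x, rfl⟩ := hE y
        exact hj (by rw [hφ, hφ, cm])
      add := fun b c d y => by
        obtain ⟨x, rfl⟩ := hE y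
        refine hj ?_
        rw [map_add, hφ, hφ, hφ, nn_add, add_smul, add_smul, smul_add, smul_add, mul_smul, n3, add_zero]
      im := im
      ker := fun b c x y => by
        obtain ⟨z, hz⟩ := exists_nb (y := ![x, y, 0, 0]) ⟨rfl, rfl⟩
        obtain ⟨z, rfl⟩ := hE z
        refine hj ?_
        rw [← hz, ← map_nn eE, hφ, n3, map_zero]
      hT := fun b c a y => by
        obtain ⟨x, rfl⟩ := hE y
        refine hj ?_
        rw [← ρ_T (G := G), ← eE, ej, hφ, hφ]
        simp only [← mul_smul, ← mul_assoc, nn_comm_T]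
        simp only [mul_assoc, nn_comm_T]
      hM := fun b c k y hk => by
        obtain ⟨x, rfl⟩ := hE y
        refine hj ?_
        rw [← Units.val_mk0 hk, ← ρ_M (G := G), ← eE, ej, hφ, hφ]
        simp only [← mul_smul, ← mul_assoc, nn_M]
        simp only [mul_assoc, nn_M]
      fac := fun c y y' hy => by
        obtain ⟨x, rfl⟩ := hE y
        obtain ⟨x', rfl⟩ := hE y'
        have lo : (φ 1 c (E x) - φ 1 1 (E x')) 2 = 0 ∧ (φ 1 c (E x) - φ 1 1 (E x')) 3 = 0 := by
          simp [im]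
        obtain ⟨z, hz⟩ := exists_nb lo
        obtain ⟨w, hw, e⟩ := fr (nn G c • x - nn G (1 : F) • x' - j z)
          (by rw [map_sub, map_sub, Ej, map_nn eE, map_nn eE, hy, sub_self, sub_self])
          (by rw [smul_sub, smul_sub, ← map_nn' ej, hz, map_sub, hφ, hφ, sub_self])
        refine ⟨z, fun b => hj ?_⟩
        have := hU b 1 w hw
        rw [← e, smul_sub, smul_sub, sub_eq_zero] at this
        rw [map_sub, hφ, hφ, map_nn' ej, this] }
  have two : ∀ x : V, x + x = 0 := hΩ (by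
    obtain ⟨x, hx⟩ := hE ![0, 0, 1, 0]
    refine ⟨nn G (1 : F) • x, ?_, ?_⟩
    · rw [map_nn eE, hx]
      intro e
      simpa [nb] using congrFun e 0
    · have := hφ 1 1 x
      rw [hx, qd.one, map_zero, ← mul_smul, nn_sq, neg_smul, add_smul] at this
      exact neg_eq_zero.1 this.symm)
  rw [← hφ, qd.eq_zero (fun b y => ?_), map_zero]
  obtain ⟨x, rfl⟩ := hE y
  refine hj ?_
  rw [hφ, ← mul_smul, nn_sq, neg_smul, add_smul, two, neg_zero, map_zero]

theorem Fp.quad [Finite F] [Big F] {V : Type u} [AddCommGroup V] [Module (RG G) V] [Finite V] (hV : Fp F G V) :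
    ∀ (b c : F) (x : V), nn G b • nn G c • x = 0 := by
  refine Fp.ind (F := F) (fun V _ _ => ∀ (b c : F) (x : V), nn G b • nn G c • x = 0) ?_ V hV
  intro V _ _ _ hV ih b c x
  rcases subsingleton_or_nontrivial V with _ | _
  · exact Subsingleton.elim _ _
  have : Finite (Submodule (RG G) V) := Finite.of_injective _ SetLike.coe_injective
  obtain ⟨N, hN⟩ := exists_atom (R := RG G) V
  have := isSimpleModule_iff_isAtom.2 hN
  rcases eq_top_or_exists_le_coatom N with rfl | ⟨U, hU, NU⟩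
  · have : IsSimpleModule (RG G) V := IsSimpleModule.congr Submodule.topEquiv.symm
    obtain ⟨e, he⟩ := struct hV
    apply e.injective
    have h1 := map_nn (e := e.toAddMonoidHom) he
    simp only [AddEquiv.toAddMonoidHom_eq_coe, AddMonoidHom.coe_coe] at h1
    rw [h1, h1, map_zero]
    exact nb_of_low _ ⟨rfl, rfl⟩
  have := isSimpleModule_iff_isCoatom.2 hU
  have : Finite (V ⧸ U) := Finite.of_surjective _ U.mkQ_surjective
  have : Finite (V ⧸ N) := Finite.of_surjective _ N.mkQ_surjective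
  obtain ⟨e, he⟩ := struct (hV.quot U)
  obtain ⟨e', he'⟩ := struct (hV.sub N)
  have qU := ih U (hV.sub U) (card_sub_lt hU.1)
  have qN := ih (V ⧸ N) (hV.quot N) (card_quot_lt hN.1)
  have U2 := (hV.sub U).two_of_quad (qU 1 1)
  let E : V →+ W4 F := e.toAddMonoidHom.comp U.mkQ.toAddMonoidHom
  have E0 : ∀ x, E x = 0 ↔ x ∈ U := fun x => by simp [E]
  refine quad_step E (e.surjective.comp U.mkQ_surjective) (fun g v => he g (U.mkQ v))
    (N.subtype.toAddMonoidHom.comp e'.symm.toAddMonoidHom) (N.injective_subtype.comp e'.symm.injective)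
    (fun g y => ?_) (fun y => (E0 _).2 (NU (e'.symm y).2)) (fun b c x hx => ?_) (fun b c x => ?_)
    (fun x hx h => ?_) ?_ b c x
  · obtain ⟨y, rfl⟩ := e'.surjective y
    rw [← he']
    simp
  · exact congrArg Subtype.val (qU b c ⟨x, (E0 x).1 hx⟩)
  · exact ⟨e' ⟨_, (Submodule.Quotient.mk_eq_zero N).1 (qN b c (N.mkQ x))⟩, by simp⟩
  · obtain ⟨y, hy⟩ := (hV.sub U).free (v := ⟨x, (E0 x).1 hx⟩) (Subtype.ext (by
      rw [nn, sub_smul, one_smul, sub_eq_zero] at h
      exact h))
    refine ⟨y, (E0 _).2 y.2, ?_⟩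
    rw [neg_add, neg_eq_of_add_eq_zero_right (U2 (ι (T (0 : F) 1 : G) • y))] at hy
    rw [nn, sub_smul, one_smul, sub_eq_neg_add]
    exact congrArg Subtype.val hy
  · rintro ⟨y, hy, y2⟩ x
    let Ω : Submodule (RG G) V := mkSub (AddMonoidHom.id V + AddMonoidHom.id V).ker fun g x hx => by
      have hx' : x + x = 0 := hx
      change ι g • x + ι g • x = 0
      rw [← smul_add, hx', smul_zero]
    have : Ω = ⊤ := hU.2 Ω (lt_of_le_of_ne (fun x hx => congrArg Subtype.val (U2 ⟨x, hx⟩)) fun e =>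
      hy ((E0 y).2 (e ▸ y2)))
    exact (this ▸ Submodule.mem_top : x ∈ Ω)

/-- the modules are elementary abelian -/
theorem Fp.elem [Finite F] [Big F] {V : Type u} [AddCommGroup V] [Module (RG G) V] [Finite V] (hV : Fp F G V)
    (x : V) : x + x = 0 :=
  hV.two_of_quad (hV.quad 1 1) x

end H5.MZ
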