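import Cfsg.Agent.H5.MZ5

/-! Martineau's theorem on Suzuki groups acting on 2-groups, part 6: the theorem. -/

set_option autoImplicit false

namespace H5.MZ
open H23 H23.Sz Subgroup
open scoped commutatorElement

universe u

theorem exists_mod {Γ G A : Type*} [Group Γ] [Group G] [CommGroup A] (τ : Γ →* G) (hτ : Function.Surjective τ)
    (σ : Γ → A →* A) (h1 : ∀ γ, τ γ = 1 → ∀ a, σ γ a = a) (h2 : ∀ γ δ a, σ (γ * δ) a = σ γ (σ δ a)) :
    ∃ _ : Module (RG G) (Additive A), ∀ γ a, ι (τ γ) • Additive.ofMul a = Additive.ofMul (σ γ a) := by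
  choose s hs using hτ
  have e : ∀ γ δ, τ γ = τ δ → ∀ a, σ γ a = σ δ a := fun γ δ h a => by
    rw [← mul_inv_cancel_left δ γ, h2, h1 (δ⁻¹ * γ) (by simp [h])]
  let r : G →* Module.End ℤ (Additive A) :=
    { toFun := fun g => (MonoidHom.toAdditive (σ (s g))).toIntLinearMap
      map_one' := LinearMap.ext fun a => congrArg Additive.ofMul (h1 _ (hs 1) a.toMul)
      map_mul' := fun g h => LinearMap.ext fun a => congrArg Additive.ofMul
        ((e _ (s g * s h) (by simp [hs]) a.toMul).trans (h2 _ _ _)) }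
  refine ⟨Module.compHom (Additive A) (MonoidAlgebra.lift ℤ (Module.End ℤ (Additive A)) G r).toRingHom,
    fun γ a => ?_⟩
  change MonoidAlgebra.lift ℤ (Module.End ℤ (Additive A)) G r (MonoidAlgebra.of ℤ G (τ γ)) (Additive.ofMul a) = _
  rw [MonoidAlgebra.lift_of]
  exact congrArg Additive.ofMul (e _ _ (hs _) a)

theorem fpf_of_surj {A : Type*} [CommGroup A] [Finite A] (f : A →* A) (h : ∀ a, ∃ b, f b * b⁻¹ = a) {a : A}
    (e : f a = a) : a = 1 :=
  (injective_iff_map_eq_one (f * (MonoidHom.id A)⁻¹)).1 (Finite.injective_iff_surjective.2 h) a (by simp [e])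

theorem conj_surj {Γ : Type*} [Group Γ] [Finite Γ] {Y : Subgroup Γ} [hY : Y.Normal] {u : Γ}
    (h : ∀ x ∈ Y, u * x * u⁻¹ = x → x = 1) {y : Γ} (hy : y ∈ Y) : ∃ z ∈ Y, z⁻¹ * (u * z * u⁻¹) = y := by
  have : Function.Injective fun z : Y => (⟨z.1⁻¹ * (u * z * u⁻¹), mul_mem (inv_mem z.2) (hY.conj_mem _ z.2 u)⟩ : Y) :=
    fun z z' e => by
      have e' : z.1⁻¹ * (u * z * u⁻¹) = z'.1⁻¹ * (u * z' * u⁻¹) := congrArg Subtype.val e
      refine Subtype.ext (mul_inv_eq_one.1 (h _ (mul_mem z.2 (inv_mem z'.2)) ?_))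
      calc u * (z.1 * z'.1⁻¹) * u⁻¹ = z * (z.1⁻¹ * (u * z * u⁻¹)) * (u * z' * u⁻¹)⁻¹ := by group
        _ = _ := by rw [e']; group
  obtain ⟨z, hz⟩ := Finite.injective_iff_surjective.1 this ⟨y, hy⟩
  exact ⟨z, z.2, congrArg Subtype.val hz⟩

variable {F : Type*} [Field F] [Tits F] {G : Type*} [Group G] [Model F G] [Finite F] [Big F]

variable (F) in
/-- the hypotheses of the theorem -/
structure Hy {Γ : Type u} [Group Γ] (τ : Γ →* G) (u : Γ) : Prop where
  sur : Function.Surjective τ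
  pg : IsPGroup 2 τ.ker
  hu : τ u = u5 F G
  fpf : ∀ x ∈ τ.ker, u * x * u⁻¹ = x → x = 1

variable {Γ : Type u} [Group Γ] [Finite Γ] {τ : Γ →* G} {u : Γ}

omit [Finite F] [Big F] in
theorem Hy.ab (h : Hy F τ u) : ∃ _ : Module (RG G) (Additive (Abelianization τ.ker)),
    Fp F G (Additive (Abelianization τ.ker)) ∧ ∀ γ (x : τ.ker), ι (τ γ) • Additive.ofMul (Abelianization.of x) =
      Additive.ofMul (Abelianization.of (MulAut.conjNormal γ x)) := by
  have sur : Function.Surjective (Abelianization.of (G := τ.ker)) := QuotientGroup.mk_surjective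
  obtain ⟨m, hm⟩ := exists_mod τ h.sur
    (fun γ => Abelianization.map (MulAut.conjNormal (H := τ.ker) γ).toMonoidHom) (fun γ hγ a => by
      obtain ⟨x, rfl⟩ := sur a
      rw [Abelianization.map_of, show (MulAut.conjNormal (H := τ.ker) γ).toMonoidHom x =
        ⟨γ, hγ⟩ * x * (⟨γ, hγ⟩ : τ.ker)⁻¹ from rfl, map_mul, map_mul, map_inv, mul_inv_cancel_comm])
    (fun γ δ a => by
      obtain ⟨x, rfl⟩ := sur a
      simp)
  refine ⟨m, ⟨fun v => ?_, fun v hv => ?_⟩, fun γ x => hm γ _⟩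
  · obtain ⟨x, hx⟩ := sur v.toMul
    obtain ⟨n, hn⟩ := h.pg x
    exact ⟨n, Additive.toMul.injective (by rw [toMul_nsmul, ← hx, ← map_pow, hn, map_one, toMul_zero])⟩
  · have : Finite (Abelianization τ.ker) := Finite.of_surjective _ sur
    rw [← h.hu, ← ofMul_toMul v, hm] at hv
    refine fpf_of_surj _ (fun a => ?_) (Additive.ofMul.injective hv)
    obtain ⟨y, rfl⟩ := sur a
    obtain ⟨z, hz, e⟩ := conj_surj h.fpf y.2
    refine ⟨Abelianization.of ⟨z, hz⟩, ?_⟩
    rw [mul_comm, Abelianization.map_of, ← map_inv, ← map_mul]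
    exact congrArg _ (Subtype.ext e)

theorem Hy.class_two (h : Hy F τ u) (hc : ∀ x y : τ.ker, ⁅x, y⁆ ∈ center τ.ker) (x y : τ.ker) : x * y = y * x := by
  open scoped IsMulCommutative in
  obtain ⟨_, hA, eA⟩ := h.ab
  have cz : ∀ γ, ∀ z ∈ center τ.ker, MulAut.conjNormal (H := τ.ker) γ z ∈ center τ.ker := fun γ z hz => by
    rw [mem_center_iff] at hz ⊢
    intro g
    obtain ⟨g, rfl⟩ := (MulAut.conjNormal (H := τ.ker) γ).surjective g
    rw [← map_mul, hz, map_mul]
  open scoped IsMulCommutative in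
  obtain ⟨m, hm⟩ := exists_mod (A := center τ.ker) τ h.sur
    (fun γ => ((MulAut.conjNormal (H := τ.ker) γ).toMonoidHom.comp (center τ.ker).subtype).codRestrict _
      fun z => cz γ z z.2) (fun γ hγ a => Subtype.ext (by
        change (⟨γ, hγ⟩ * a.1 * (⟨γ, hγ⟩ : τ.ker)⁻¹ : τ.ker) = a.1
        rw [mem_center_iff.1 a.2, mul_inv_cancel_right]))
    (fun γ δ a => Subtype.ext (by simp))
  open scoped IsMulCommutative in
  have hC : Fp F G (Additive (center τ.ker)) := ⟨fun v => (h.pg v.toMul).imp fun n hn =>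
    Additive.toMul.injective (Subtype.ext hn), fun v hv => by
      rw [← h.hu, ← ofMul_toMul v, hm] at hv
      exact Additive.toMul.injective (Subtype.ext (Subtype.ext (h.fpf _ v.toMul.1.2
        (congrArg (fun z => ((Additive.toMul z).1 : Γ)) hv))))⟩
  have l1 : ∀ x y z : τ.ker, ⁅x * y, z⁆ = ⁅x, z⁆ * ⁅y, z⁆ := fun x y z => by
    rw [← mem_center_iff.1 (hc x z), show ⁅x * y, z⁆ = x * ⁅y, z⁆ * x⁻¹ * ⁅x, z⁆ by
      simp only [commutatorElement_def]; group, mem_center_iff.1 (hc y z) x, mul_inv_cancel_right]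
  have l2 : ∀ x y z : τ.ker, ⁅x, y * z⁆ = ⁅x, y⁆ * ⁅x, z⁆ := fun x y z => by
    rw [show ⁅x, y * z⁆ = ⁅x, y⁆ * (y * ⁅x, z⁆ * y⁻¹) by
      simp only [commutatorElement_def]; group, mem_center_iff.1 (hc x z) y, mul_inv_cancel_right]
  open scoped IsMulCommutative in
  let b : Abelianization τ.ker →* Abelianization τ.ker →* center τ.ker := Abelianization.lift
    (MonoidHom.mk' (fun x => Abelianization.lift (MonoidHom.mk' (fun y => ⟨⁅x, y⁆, hc x y⟩)
      fun y z => Subtype.ext (l2 x y z))) fun x y => Abelianization.hom_ext _ _ (MonoidHom.ext fun z =>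
        Subtype.ext (l1 x y z)))
  have hb : ∀ x y, (b (Abelianization.of x) (Abelianization.of y)).1 = ⁅x, y⁆ := fun x y => rfl
  have sur : Function.Surjective (Abelianization.of (G := τ.ker)) := QuotientGroup.mk_surjective
  have : Finite (Abelianization τ.ker) := Finite.of_surjective _ sur
  open scoped IsMulCommutative in
  let β : Additive (Abelianization τ.ker) →+ Additive (Abelianization τ.ker) →+ Additive (center τ.ker) :=
    AddMonoidHom.mk' (fun x => MonoidHom.toAdditive (b x.toMul)) fun x y => by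
      ext z
      simp
  open scoped IsMulCommutative in
  have := bi hA hA hC β (fun g x y => by
    obtain ⟨γ, rfl⟩ := h.sur g
    obtain ⟨x', hx⟩ := sur x.toMul
    obtain ⟨y', hy⟩ := sur y.toMul
    rw [← ofMul_toMul x, ← ofMul_toMul y, ← hx, ← hy, eA, eA]
    refine Eq.trans ?_ (hm γ (b (Abelianization.of x') (Abelianization.of y'))).symm
    refine congrArg Additive.ofMul (Subtype.ext ?_)
    exact (hb _ _).trans (map_commutatorElement (MulAut.conjNormal (H := τ.ker) γ) x' y').symm)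
    (Additive.ofMul (Abelianization.of x)) (Additive.ofMul (Abelianization.of y))
  exact commutatorElement_eq_one_iff_mul_comm.1 (congrArg (fun z => (Additive.toMul z).1) this)

theorem Hy.comm (h : Hy F τ u) (x y : τ.ker) : x * y = y * x := by
  induction hn : Nat.card Γ using Nat.strong_induction_on generalizing Γ with
  | _ n ih =>
  rcases subsingleton_or_nontrivial τ.ker with _ | _
  · exact Subsingleton.elim _ _
  have := h.pg.center_nontrivial
  let Z : Subgroup Γ := (center τ.ker).map τ.ker.subtype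
  have ZK : Z ≤ τ.ker := map_subtype_le _
  let τ' : Γ ⧸ Z →* G := QuotientGroup.lift Z τ ZK
  have h' : Hy F τ' (u : Γ ⧸ Z) :=
    { sur := fun g => (h.sur g).elim fun γ e => ⟨γ, e⟩
      pg := by
        rintro ⟨x, hx⟩
        obtain ⟨x, rfl⟩ := QuotientGroup.mk_surjective x
        obtain ⟨n, hn⟩ := h.pg ⟨x, hx⟩
        exact ⟨n, Subtype.ext (congrArg (fun z : τ.ker => (z.1 : Γ ⧸ Z)) hn)⟩
      hu := h.hu
      fpf := fun x hx e => by
        obtain ⟨x, rfl⟩ := QuotientGroup.mk_surjective x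
        have e' : x * (u * x * u⁻¹)⁻¹ ∈ Z := by
          rw [← QuotientGroup.eq_one_iff]
          simp only [QuotientGroup.mk_mul, QuotientGroup.mk_inv]
          rw [e, mul_inv_cancel]
        obtain ⟨z, hz, e2⟩ := conj_surj (fun x hx => h.fpf x (ZK hx)) e'
        have := h.fpf (z * x) (mul_mem (ZK hz) hx) (by
          calc u * (z * x) * u⁻¹ = z * (z⁻¹ * (u * z * u⁻¹)) * (u * x * u⁻¹) := by group
            _ = _ := by rw [e2]; group)
        rw [QuotientGroup.eq_one_iff, eq_inv_of_mul_eq_one_right this]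
        exact inv_mem hz }
  have lt : Nat.card (Γ ⧸ Z) < n := by
    rw [← hn, card_eq_card_quotient_mul_card_subgroup Z]
    have h1 : 1 < Nat.card Z := by
      rw [card_map_of_injective τ.ker.subtype_injective]; exact Finite.one_lt_card
    have h2 : 0 < Nat.card (Γ ⧸ Z) := Nat.card_pos
    nlinarith
  refine h.class_two (fun x y => ?_) x y
  rw [← mem_map_iff_mem τ.ker.subtype_injective, ← QuotientGroup.eq_one_iff (N := Z)]
  have := congrArg Subtype.val (ih _ lt h' ⟨(x.1 : Γ ⧸ Z), x.2⟩ ⟨(y.1 : Γ ⧸ Z), y.2⟩ rfl)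
  exact commutatorElement_eq_one_iff_mul_comm.2 this

theorem Hy.sq (h : Hy F τ u) (x : τ.ker) : x * x = 1 := by
  obtain ⟨_, hA, -⟩ := h.ab
  have sur : Function.Surjective (Abelianization.of (G := τ.ker)) := QuotientGroup.mk_surjective
  have : Finite (Abelianization τ.ker) := Finite.of_surjective _ sur
  have e : x * x ∈ (Abelianization.of (G := τ.ker)).ker :=
    (map_mul _ x x).trans (hA.elem (Additive.ofMul (Abelianization.of x)))
  rw [Abelianization.ker_of, commutator_def, commutator_eq_bot_iff_le_centralizer.2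
    (fun x _ => mem_centralizer_iff.2 fun y _ => h.comm y x)] at e
  exact e

omit [Finite F] [Big F] in
theorem exists_u (sur : Function.Surjective τ) (pg : IsPGroup 2 τ.ker) : ∃ u, τ u = u5 F G ∧ u ^ 5 = 1 := by
  obtain ⟨γ, hγ⟩ := sur (u5 F G)
  obtain ⟨n, hn⟩ := pg ⟨γ ^ 5, by rw [MonoidHom.mem_ker, map_pow, hγ, u5_pow]⟩
  have hn' : (γ ^ 5) ^ 2 ^ n = 1 := congrArg Subtype.val hn
  refine ⟨γ ^ 16 ^ n, ?_, ?_⟩
  · rw [map_pow, hγ, pow_eq_pow_mod _ u5_pow, Nat.pow_mod]
    simp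
  · rw [← pow_mul, mul_comm, pow_mul, show 16 = 2 * 8 from rfl, mul_pow, pow_mul, hn', one_pow]

omit [Finite F] [Big F] in
theorem u5_ne_one : u5 F G ≠ 1 := fun e =>
  W_notMem_B (F := F) (G := G) (by rw [eq_inv_of_mul_eq_one_right e]; exact inv_mem (T_mem_B _ _))

end H5.MZ
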