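import Cfsg.Agent.H14.ND1
import Cfsg.Agent.H2.ND2

/-! S4780: fixed-point-free action on `N / W`, and the Camina property. -/

set_option autoImplicit false
set_option linter.unusedVariables false
set_option linter.unusedSectionVars false

open Subgroup MulAction H19 H20 H6 Cfsg H3.PT H3.GR H3.ND H24.ND
open scoped commutatorElement

namespace H5.ND

universe u
variable {G : Type u} [Group G] [Finite G] {N K : Subgroup G} {p : ℕ} {g x n : G}

theorem pw {W : Type u} [AddCommGroup W] [DistribMulAction G W] {l : W}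
    (e : g • (g • l - l) = g • l - l) (j : ℕ) : g ^ j • l = l + j • (g • l - l) := by
  induction j with
  | zero => simp
  | succ j ih => rw [pow_succ', mul_smul, ih, smul_add, smul_comm g j, e, succ_nsmul]; abel

theorem fn_ns (w : Du N) (hn : n ∈ N) (j : ℕ) : (j • w).fn n = w.fn (n ^ j) := by
  rw [w.lin.map_pow hn]
  induction j with
  | zero => rw [zero_smul, show (0 : Du N).fn = triv N from Ch.fn_one, triv_of_mem hn, pow_zero]
  | succ j ih => rw [succ_nsmul, Du.fn_add, Pi.mul_apply, ih, pow_succ]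

variable [hN : N.Normal]

theorem cm (y : G) (w : Du N) (hn : n ∈ N) : (y⁻¹ • w - w).fn n = w.fn (y * n * y⁻¹ * n⁻¹) := by
  have a : (y⁻¹ • w - w).fn n * w.fn n = w.fn (y * n * y⁻¹) := by
    rw [← Pi.mul_apply, ← Du.fn_add, sub_add_cancel, Du.fn_smul, inv_inv, cfj_apply]
  rw [w.lin.map_mul (hN.conj_mem n hn y) (inv_mem hn), ← a, mul_assoc, w.lin.mul_inv hn, mul_one]

variable (h : Nd N K p)
include h

theorem dich {w : Du N} (hx : x ∉ N) (e : x • w = w) (y : G) : y • w = w := by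
  obtain ⟨g, hg⟩ := h.cyc
  have a : N ≤ H20.inertia ⊤ w.fn := H20.le_inertia (L := ⊤) (irr_cinv w.lin.irr) le_top
  obtain ⟨k, hk⟩ := (Subgroup.le_zpowers_iff g (zpowers g ⊓ H20.inertia ⊤ w.fn)).1 inf_le_left
  have b : N ⊔ zpowers (g ^ k) = H20.inertia ⊤ w.fn := by
    rw [← hk, ← sup_inf_modl nr a, hg, top_inf_eq]
  obtain ⟨χ, c, d⟩ := exists_deg_of_ext normalIn_top w.lin.irr (exists_ext_of_cyc
    (normalIn_top.of_le a le_top) w.lin.irr (fun t ht z => congrFun ht.2 z) b) (triv_mem_Irr _)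
    (by rwa [cker_triv])
  rw [deg_triv, w.lin.deg, mul_one, mul_one] at d
  obtain ⟨c1, c2⟩ := mem_ovr.1 c
  rcases h.lf χ c1 (le_cker_of_above c1 le_top (irr_chr w.lin.irr) c2 nr (der_le N) w.lin.der_le)
    with e1 | e1
  · exact (Du.stab w).ge (relIndex_eq_one.1 (d.symm.trans e1) (mem_top y))
  · exact absurd (d.symm.trans e1) (relIndex_lt_left (lt_of_le_not_ge a fun e2 =>
      hx (e2 ((Du.stab w).le e))) le_top).ne

theorem cmm (a b : G) (w : Du N) : a • b • w = b • a • w := by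
  rw [← mul_smul, ← mul_smul, show a * b = ⁅a, b⁆ * (b * a) by
    simp only [commutatorElement_def]; group, mul_smul]
  exact le_st _ (h.dG (commutator_mem_commutator (mem_top _) (mem_top _)))

theorem sq (hg : N ⊔ zpowers g = ⊤) {l : Du N} (e : g • (g • l - l) = g • l - l) : g • l = l := by
  by_contra l0
  obtain ⟨f, hf0⟩ : ∃ f, f = orderOf (QuotientGroup.mk' N g) := ⟨_, rfl⟩
  have hf : ∀ j, g ^ j ∈ N ↔ f ∣ j := fun j => by
    rw [hf0, orderOf_dvd_iff_pow_eq_one, ← map_pow]; exact (QuotientGroup.eq_one_iff _).symm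
  have f0 : 0 < f := hf0 ▸ orderOf_pos _
  have hy : ∀ y : G, y ^ f ∈ N := fun y => by
    obtain ⟨n, hn, _, ⟨k, rfl⟩, rfl⟩ := (mem_sup_of_norm nr).1 (hg.ge (mem_top y))
    refine (QuotientGroup.eq_one_iff _).1 ?_
    change QuotientGroup.mk' N _ = 1
    rw [map_pow, map_mul, show QuotientGroup.mk' N n = 1 from (QuotientGroup.eq_one_iff _).2 hn,
      one_mul, map_zpow, ← zpow_natCast, ← zpow_mul, mul_comm, zpow_mul, zpow_natCast, hf0,
      pow_orderOf_eq_one, one_zpow]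
  have k : ∀ m j : ℕ, (m * j) • (g • l - l) = 0 → f ∣ j ∨ m • (g • l - l) = 0 := fun m j e1 => by
    refine or_iff_not_imp_left.2 fun e2 => ?_
    have := dich h (w := m • l) (mt (hf j).1 e2)
      (by rw [smul_comm, pw e, smul_add, ← mul_smul, e1, add_zero]) g
    rw [smul_sub, ← smul_comm g, this, sub_self]
  have k0 : f • (g • l - l) = 0 := by
    have := pw e f
    rw [show g ^ f • l = l from le_st l (hy g)] at this
    exact left_eq_add.1 this
  have k1 : ∀ j : ℕ, j • (g • l - l) = 0 → f ∣ j := fun j e1 =>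
    (k 1 j (by rwa [one_mul])).resolve_right (by rw [one_smul]; exact sub_ne_zero.2 l0)
  have f1 : f ≠ 1 := fun e => l0 (le_st l (by simpa [e] using hy g))
  have fp : f.Prime := by
    have hr := Nat.minFac_prime f1
    obtain ⟨j, hj⟩ := Nat.minFac_dvd f
    rcases k f.minFac j (by rw [← hj, k0]) with e1 | e1
    · have j0 : 0 < j := Nat.pos_of_ne_zero fun e => by rw [e, mul_zero] at hj; omega
      have := Nat.le_of_dvd j0 e1
      have := hr.two_le
      nlinarith
    · rw [Nat.dvd_antisymm (k1 _ e1) (Nat.minFac_dvd f)]; exact hr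
  have := Fact.mk fp
  obtain ⟨a, m, hm, hc⟩ := Nat.exists_eq_pow_mul_and_not_dvd (Nat.card_pos (α := Du N)).ne' f f1
  have hw : f ^ a • m • l = 0 := by rw [← mul_smul, ← hc]; exact card_nsmul_eq_zero'
  have hP : IsPGroup f (G ⧸ (cker (m • l).fn).normalCore) := fun q => by
    obtain ⟨y, rfl⟩ := QuotientGroup.mk'_surjective _ q
    refine ⟨a + 1, ?_⟩
    rw [← map_pow, pow_succ', pow_mul]
    refine (QuotientGroup.eq_one_iff _).2 fun b => ?_
    have c := hN.conj_mem _ (hy y) b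
    rw [← conj_pow, (m • l).lin.mem_cker (pow_mem c _), ← fn_ns _ c, hw,
      show (0 : Du N).fn = triv N from Ch.fn_one, triv_of_mem c]
  obtain ⟨i, hi⟩ := hP.exists_card_eq
  have d := (h.nq f _ fp inferInstance (by
    rw [relIndex_top_right, index_eq_card, hi]; exact PiN.prime_pow fp i)).trans (normalCore_le _)
  have d1 : g • m • l = m • l := (Du.mem_Fs (X := ⊤)).2 ((commutator_mono le_rfl le_top).trans d)
    (mem_top g)
  exact hm (k1 m (by rw [smul_sub, ← smul_comm g, d1, sub_self]))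

theorem sq' (hx : x ∉ N) {l : Du N} (e : x • (x • l - l) = x • l - l) : x • l = l := by
  obtain ⟨g, hg⟩ := h.cyc
  have g0 : g ∉ N := fun e => h.ne (by rw [← hg, sup_eq_left.2 (zpowers_le.2 e)])
  have a := dich h hx e g
  refine dich h g0 (sq h hg (dich h hx ?_ g)) x
  rw [smul_sub, cmm h] at a
  rw [smul_sub, sub_eq_sub_iff_sub_eq_sub, a]

theorem fw : ∀ x, x ∉ N → Fpf N (Wd N) x := fun x hx n hn e => by
  have hx' : x⁻¹ ∉ N := mt inv_mem_iff.1 hx
  refine mem_W.2 ⟨hn, fun y => ?_⟩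
  have c := mul_mem (hN.conj_mem n hn y) (inv_mem hn)
  refine Du.sep le_rfl (der_le _) c fun l _ => ?_
  let F : {w : Du N // ∃ r, w = x⁻¹ • r - r} → {w : Du N // ∃ r, w = x⁻¹ • r - r} :=
    fun w => ⟨_, w.1, rfl⟩
  have hF : Function.Injective F := by
    rintro ⟨_, s, rfl⟩ ⟨_, t, rfl⟩ e1
    have e2 : x⁻¹ • (x⁻¹ • s - s) - (x⁻¹ • s - s) = x⁻¹ • (x⁻¹ • t - t) - (x⁻¹ • t - t) :=
      congrArg Subtype.val e1
    have e3 := sq' h hx' (l := s - t) (by
      rw [smul_sub x⁻¹ s, sub_sub_sub_comm, smul_sub x⁻¹ (x⁻¹ • s - s),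
        sub_eq_sub_iff_sub_eq_sub, e2])
    exact Subtype.ext (by rwa [smul_sub, sub_eq_sub_iff_sub_eq_sub] at e3)
  obtain ⟨⟨_, r, rfl⟩, hr⟩ := Finite.surjective_of_injective hF ⟨_, l, rfl⟩
  have e2 : x⁻¹ • (x⁻¹ • r - r) - (x⁻¹ • r - r) = x⁻¹ • l - l := congrArg Subtype.val hr
  have e3 := dich h hx' (w := l - (x⁻¹ • r - r))
    (by rw [smul_sub, sub_eq_sub_iff_sub_eq_sub, e2]) y⁻¹
  have e4 : y⁻¹ • l - l = x⁻¹ • (y⁻¹ • r - r) - (y⁻¹ • r - r) := by
    rw [smul_sub, sub_eq_sub_iff_sub_eq_sub] at e3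
    rw [e3, smul_sub, smul_sub, cmm h]; abel
  rw [l.lin.mem_cker c, ← cm y l hn, e4, cm x _ hn, cm y r (mem_W.1 e).1,
    cker_apply (r.lin.der_le ((mem_W.1 e).2 y)), r.lin.one]

omit h hN in
theorem cam : CAM.{u} := fun _ h => H2.ND.ca h (fw h)

end H5.ND
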