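/-
Groups all of whose nonlinear character degrees are primes.
-/
import Cfsg.Agent.H5.RD2
import Cfsg.Agent.H6.CD3
import Cfsg.Agent.H1.Basic
import Cfsg.Agent.H7.CharAlg
import Cfsg.Agent.H5.Integral

set_option autoImplicit false
set_option linter.unusedSectionVars false

open Cfsg Subgroup
namespace H5.PD
open H20 H19
open scoped Classical

universe u
variable {G : Type u} [Group G] [Finite G] {χ ψ φ : G → ℂ} {p : ℕ} {P H : Subgroup G} {g : G}

theorem card_dvd_deg (hχ : χ ∈ Irr ⊤) (h : ∀ x ∈ H, x ≠ 1 → χ x = 0) : #H ∣ deg χ := by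
  obtain ⟨n, hn⟩ := chr_dot_nat (chr_Res (irr_chr hχ) (le_top (a := H))) (triv_mem_Chr H)
  rw [dot_Res_left, dot_triv_right, sum_sub_eq_one_add,
    Finset.sum_eq_zero fun x hx => h x (H20.mem_nt.1 (mem_fin.1 hx)).1
      (H20.mem_nt.1 (mem_fin.1 hx)).2,
    add_zero, irr_deg hχ, inv_mul_eq_iff_eq_mul₀ (cardC_ne H)] at hn
  exact ⟨n, by exact_mod_cast hn⟩

theorem two_part {ι α β : Type*} {f : ι → α} {f' : ι → β} (h : ∃ i j, f i ≠ f j)
    (h' : ∃ i j, f' i ≠ f' j) : ∃ i j, f i ≠ f j ∧ f' i ≠ f' j := by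
  by_contra! hc
  obtain ⟨i, j, h⟩ := h
  obtain ⟨k, l, h'⟩ := h'
  have k1 : ∀ m, f' m = f' i := fun m => by
    by_cases e : f m = f i
    · exact (hc m j (e ▸ h)).trans (hc i j h).symm
    · exact hc m i e
  exact h' ((k1 k).trans (k1 l).symm)

variable [IsSimpleGroup G]

theorem cker_bot (hχ : χ ∈ Irr ⊤) (h1 : deg χ ≠ 1) : cker χ = ⊥ :=
  (H6.cker_normal hχ).normal.eq_bot_or_eq_top.resolve_right fun e =>
    h1 (by rw [(irr_le_cker_iff hχ).1 e.ge, deg_triv])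

theorem van (hχ : χ ∈ Irr ⊤) (hd : deg χ = p) (hp : p.Prime) (hg : g ≠ 1)
    (h : ¬ p ∣ C[g].index) : χ g = 0 := by
  have i : IsIrrCharacter G χ := mem_Irr_top.1 hχ
  have e : χ 1 = p := hd ▸ irr_deg hχ
  refine (H5.Cfsg.IsIrrCharacter.eq_zero_or_mem_charCenter i e g (hp.coprime_iff_not_dvd.2 h)).resolve_right fun hc => ?_
  rcases (H5.Cfsg.IsClassFunction.charCenter_normal (H6.irr_cf i)).eq_bot_or_eq_top with k | k
  · exact hg (by simpa [k] using hc)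
  · have := H6.dvd_index_of_le_charCenter i k.ge e
    rw [index_top] at this
    exact hp.ne_one (Nat.dvd_one.1 this)

theorem syl (hχ : χ ∈ Irr ⊤) (hd : deg χ = p) (hp : p.Prime) :
    ∃ P : Subgroup G, #P = p ∧ C(P) ≤ P := by
  obtain ⟨P, hP⟩ := exists_syl p (⊤ : Subgroup G)
  have h1 : P ≠ ⊥ := hP.sne_bot hp (hd ▸ irr_deg_dvd hχ)
  have hv : ∀ x ∈ C(P), x ≠ 1 → χ x = 0 := fun x hx e => van hχ hd hp e (by
    rw [← relIndex_top_right]
    exact hP.not_dvd_relIndex hp fun y hy => mem_centralizer_singleton_iff.2 (hx y hy))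
  have hp' := ((syl_iff hp).1 hP).2.1
  obtain ⟨⟨z, z1, z2⟩, hz⟩ := ne_bot_iff_exists_ne_one.1 (hp'.center_ne_bot h1)
  replace hz : z ≠ 1 := fun e => hz (Subtype.ext e)
  have hc : #C(P) = p := ((Nat.dvd_prime hp).1 (hd ▸ card_dvd_deg hχ hv)).resolve_left fun e =>
    hz (by rw [card_eq_one.1 e] at z2; exact z2)
  have hab : ⁅P, P⁆ ≤ cker χ := by
    rw [← le_cker_of_Res (irr_chr hχ) le_top (der_normal P).le]
    refine H6.le_cker_of_constituents (chr_Res (irr_chr hχ) le_top) fun θ hθ e => ?_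
    rw [H6.der_le_cker hθ]
    by_contra hne
    obtain ⟨q, hq, q1⟩ := Nat.exists_prime_and_dvd hne
    have : q = p := hp' q hq (q1.trans (irr_deg_dvd hθ))
    subst this
    have e2 := eq_irr_of_deg_le (chr_Res (irr_chr hχ) le_top) hθ e
      (by rw [deg_Res, hd]; exact Nat.le_of_dvd (irr_deg_pos hθ) q1)
    have e3 := irr_norm_central hθ z1 fun c hc => by
      rw [z2 c hc]; simp
    rw [← e2, Res_of_mem _ z1, hv z z2 hz, deg_Res, hd, norm_zero] at e3
    exact hq.ne_zero (by exact_mod_cast e3.symm)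
  rw [cker_bot hχ (hd ▸ hp.ne_one), le_bot_iff, commutator_eq_bot_iff_le_centralizer] at hab
  have e := (eq_bot_or_eq_of_prime (hc ▸ hp) hab).resolve_left h1
  exact ⟨P, by rw [e, hc], e.ge⟩

theorem nonconst (hP : (#P).Prime) (hχ : χ ∈ Irr ⊤) (h1 : deg χ ≠ 1) (h2 : deg χ + 1 < #P) :
    ∃ i j : {l // l ∈ (Irr P).erase (triv P)}, dot P i.1 χ ≠ dot P j.1 χ := by
  by_contra! hc
  have ha : Ab P := by have := cyclic_of_prime hP; infer_instance
  have hr := chr_Res (irr_chr hχ) (le_top (a := P))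
  have hcard : ((Irr P).erase (triv P)).card = #P - 1 := by
    rw [Finset.card_erase_of_mem (triv_mem_Irr P), Irr_eq_image_ch ha,
      Finset.card_image_of_injective _ Ch.fn_injective, Finset.card_univ, card_Ch ha]
  obtain ⟨l, hl⟩ := Finset.card_pos.1 (by have := hP.two_le; omega :
    0 < ((Irr P).erase (triv P)).card)
  have hm : ∀ θ ∈ (Irr P).erase (triv P), H6.mu P (Res P χ) θ = H6.mu P (Res P χ) l := by
    intro θ hθ
    have := congrArg (starRingEnd ℂ) (hc ⟨θ, hθ⟩ ⟨l, hl⟩)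
    rw [conj_dot, conj_dot, ← dot_Res_left, ← dot_Res_left P χ l,
      H6.mu_cast hr (irr_chr (Finset.mem_of_mem_erase hθ)),
      H6.mu_cast hr (irr_chr (Finset.mem_of_mem_erase hl))] at this
    exact_mod_cast this
  have hs := H6.deg_eq_sum hr
  rw [← Finset.add_sum_erase _ _ (triv_mem_Irr P), Finset.sum_congr rfl fun θ hθ => by
    rw [hm θ hθ, (irr_lin_of_ab (Finset.mem_of_mem_erase hθ) ha).deg], Finset.sum_const, hcard,
    deg_Res, deg_triv] at hs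
  simp only [mul_one, smul_eq_mul] at hs
  have h0 : H6.mu P (Res P χ) l = 0 := by
    by_contra h
    have := Nat.mul_le_mul_left (#P - 1) (Nat.pos_of_ne_zero h)
    omega
  rw [h0, mul_zero, add_zero] at hs
  have := le_cker_of_dot (irr_chr hχ) (le_top (a := P)) (by
    rw [← dot_Res_left, H6.mu_cast hr (triv_mem_Chr P), ← hs, irr_deg hχ])
  rw [cker_bot hχ h1, le_bot_iff] at this
  exact ne_bot_of_prime hP this

theorem same (hP : (#P).Prime) (hC : C(P) ≤ P) (hχ : χ ∈ Irr ⊤) (hψ : ψ ∈ Irr ⊤) (h1 : deg χ ≠ 1)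
    (h2 : deg χ + 1 < #P) (h3 : deg ψ ≠ 1) (h4 : deg ψ + 1 < #P) : deg χ = deg ψ := by
  obtain ⟨⟨l, hl⟩, ⟨m, hm⟩, a1, a2⟩ := two_part (nonconst hP hχ h1 h2) (nonconst hP hψ h3 h4)
  simp only at a1 a2
  rw [Finset.mem_erase] at hl hm
  have ha : Ab P := by have := cyclic_of_prime hP; infer_instance
  have hn := normalIn_norm P
  have hi : ∀ θ ∈ Irr P, θ ≠ triv P → Ind N(P) P θ ∈ Irr N(P) := fun θ hθ e =>
    (Ind_irr_iff' hn hθ).2 (inertia_eq_of_cent hn (fun k hk e =>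
      inf_le_right.trans ((cent_eq_cent1_of_prime hP hk e).ge.trans hC)) hθ e)
  have d1 : ∀ ξ ∈ Irr ⊤, dot ⊤ (Ind ⊤ P (l - m)) ξ = dot P l ξ - dot P m ξ := fun ξ hξ => by
    rw [dot_Ind_left le_top _ (irr_cinv hξ), dot_sub_left]
  have hne : Ind N(P) P l ≠ Ind N(P) P m := fun e => a1 (by
    rw [← dot_Ind_left hn.le l ((irr_cinv hχ).mono le_top), e,
      dot_Ind_left hn.le m ((irr_cinv hχ).mono le_top)])
  have h0 : (l - m) 1 = 0 := by
    simp [(irr_lin_of_ab hl.2 ha).one, (irr_lin_of_ab hm.2 ha).one]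
  have hcf : Ind N(P) P (l - m) ∈ CFon N(P) (nt P) :=
    CFon.of_sub (Ind_mem_CFon_sub le_rfl le_rfl _) (by rw [Ind_one hn.le, h0, mul_zero])
  have n2 : dot ⊤ (Ind ⊤ P (l - m)) (Ind ⊤ P (l - m)) = 2 := by
    rw [← Ind_Ind hn.le le_top, dot_Ind_ti le_top (fun x _ hx => CFon.zero hcf hx) hcf, map_sub,
      dot_sub_left, dot_sub_right, dot_sub_right, irr_dot_self (hi l hl.2 hl.1),
      irr_dot_self (hi m hm.2 hm.1), irr_dot_ne (hi l hl.2 hl.1) (hi m hm.2 hm.1) hne,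
      irr_dot_ne (hi m hm.2 hm.1) (hi l hl.2 hl.1) hne.symm]
    · norm_num
    · intro g _ x hx hy
      rw [H20.mem_nt] at hx hy
      rw [mem_norm_iff_cj, ← eq_zpowers_of_prime hP hx.1 hx.2, cj_zpowers,
        eq_zpowers_of_prime hP hx.1 hx.2, eq_zpowers_of_prime hP hy.1 hy.2]
  obtain ⟨a, b1, b, b2, -, e⟩ := zirr_norm_two' (zirr_Ind ((ZIrr P).sub_mem (irr_zirr hl.2)
    (irr_zirr hm.2)) le_top) n2 (by rw [Ind_one le_top, h0, mul_zero])
  have e1 : deg a = deg b := deg_congr (by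
    have := congrFun e 1
    rw [Ind_one le_top, h0, mul_zero] at this
    exact (sub_eq_zero.1 this.symm))
  have k : ∀ ξ ∈ Irr ⊤, dot P l ξ ≠ dot P m ξ → deg ξ = deg a := fun ξ hξ hh => by
    by_contra hc
    refine hh (sub_eq_zero.1 ?_)
    rw [← d1 ξ hξ, e, dot_sub_left, irr_dot_ne b1 hξ (fun e => hc (e ▸ rfl)),
      irr_dot_ne b2 hξ (fun e => hc (e ▸ e1.symm)), sub_zero]
  rw [k χ hχ a1, k ψ hψ a2]

theorem simple_sol (h : H6.Dg (⊤ : Subgroup G) ⊥ fun d => d = 1 ∨ d.Prime) :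
    Sol (⊤ : Subgroup G) := by
  obtain ⟨χ, hχ, hm⟩ := (Irr (⊤ : Subgroup G)).exists_max_image deg ⟨_, triv_mem_Irr ⊤⟩
  by_cases h3 : deg χ ≤ 3
  · refine H6.sol_of_dser (H6.three_deg (m := 2) (n := 3) two_ne_zero three_ne_zero fun ψ hψ _ => ?_)
    have := hm ψ hψ
    have := irr_deg_pos hψ
    omega
  have hp := (h.bot hχ).resolve_left (by omega)
  obtain ⟨P, h1, h2⟩ := syl hχ rfl hp
  have lt : ∀ ψ ∈ Irr (⊤ : Subgroup G), deg ψ ≠ 1 → deg ψ ≠ deg χ → deg ψ + 1 < #P :=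
    fun ψ hψ a b => by
      have c := (h.bot hψ).resolve_left a
      have := hm ψ hψ
      have := hp.eq_two_or_odd
      have := c.eq_two_or_odd
      omega
  by_cases hq : ∃ ψ ∈ Irr (⊤ : Subgroup G), deg ψ ≠ 1 ∧ deg ψ ≠ deg χ
  · obtain ⟨ψ, a, b, c⟩ := hq
    refine H6.sol_of_dser (H6.three_deg (irr_deg_pos a).ne' hp.ne_zero fun φ hφ _ => ?_)
    by_contra! e
    exact e.2.1 (same (h1 ▸ hp) h2 hφ a e.1 (lt φ hφ e.1 e.2.2) b (lt ψ a b c))
  · push Not at hq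
    refine H6.sol_of_dser (H6.three_deg hp.ne_zero hp.ne_zero fun φ hφ _ => ?_)
    by_contra! e
    exact e.2.1 (hq φ hφ e.1)

omit [IsSimpleGroup G] in
theorem der_lt (h : H6.Dg (⊤ : Subgroup G) ⊥ fun d => d = 1 ∨ d.Prime) {N : Subgroup G} [N.Normal]
    (h1 : N ≠ ⊥) : ⁅N, N⁆ < N := by
  have h2 : H6.Dg N ⊥ fun d => d = 1 ∨ d.Prime := h.normal normalIn_top fun a b e hb => by
    rcases hb with rfl | hb
    · exact .inl (Nat.dvd_one.1 e)
    · exact ((Nat.dvd_prime hb).1 e).imp_right fun (e : a = b) => e ▸ hb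
  have : Nontrivial N := (nontrivial_iff_ne_bot N).2 h1
  obtain ⟨M, -, m1, m2, m3⟩ := H1.exists_maximal_normal_ge (⊥ : Subgroup N) bot_ne_top
  have := H1.isSimpleGroup_quotient_iff.2 ⟨m2, m3⟩
  have h3 : Sol (⊤ : Subgroup (N ⧸ M)) := simple_sol (H6.dg_top.2 fun θ => by
    have := h2.bot (ext_mem_Irr.2 (H6.irr_comp_surjective θ.2 _ (QuotientGroup.mk'_surjective M)))
    rwa [deg_eq_of_cast (n := charDegree θ.1)] at this
    rw [← H7.irr_apply_one θ]
    exact H5.extendByZero_coe N _ 1)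
  refine lt_of_le_of_ne (commutator_le_left _ _) fun e => ?_
  have h4 : (⊤ : Subgroup N) = ⁅⊤, ⊤⁆ := map_injective N.subtype_injective (by
    rw [map_commutator, ← MonoidHom.range_eq_map, range_subtype, e])
  have h5 := congrArg (map (QuotientGroup.mk' M)) h4
  rw [map_commutator, map_top_of_surjective _ (QuotientGroup.mk'_surjective M)] at h5
  exact top_ne_bot (sol_eq_bot_of_le_der h3 h5.le)

end H5.PD
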