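/-
Rank 3 actions of `PSL_n(q)`: there is no generalized pentagon.
-/
import Cfsg.Agent.H13.R3_0

set_option autoImplicit false
set_option linter.unusedSectionVars false

open Module H13.R3
namespace H5.R3
universe u
variable {F V : Type u} [Field F] [Fintype F] [AddCommGroup V] [Module F V] [Finite V]

theorem cardS (U : Submodule F V) : Nat.card U = Fintype.card F ^ finrank F U := by
  rw [Module.natCard_eq_pow_finrank (K := F), Nat.card_eq_fintype_card]
theorem rk_inf {v : V} (hv : v ≠ 0) (U : Submodule F V) [Decidable (v ∈ U)] :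
    finrank F ((F ∙ v) ⊓ U : Submodule F V) = if v ∈ U then 1 else 0 := by
  split_ifs with h
  · rw [inf_eq_left.2 ((Submodule.span_singleton_le_iff_mem v U).2 h), finrank_span_singleton hv]
  · rw [(Submodule.disjoint_span_singleton_of_notMem h).symm.eq_bot, finrank_bot]

open Classical in
/-- incidence matrix of a family of subspaces -/
noncomputable def Mx (S : V → Submodule F V) : Matrix {v : V // v ≠ 0} {v : V // v ≠ 0} ℝ :=
  fun v w => if w.1 ∈ S v.1 then 1 else 0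

open Classical in
theorem cnt [Fintype V] (U : Submodule F V) :
    ∑ u : {v : V // v ≠ 0}, (if u.1 ∈ U then 1 else 0 : ℝ) = (Fintype.card F : ℝ) ^ finrank F U - 1 := by
  have := Fintype.sum_eq_add_sum_subtype_ne (fun u : V => (if u ∈ U then 1 else 0 : ℝ)) 0
  rw [if_pos U.zero_mem, Finset.sum_boole, ← Fintype.card_subtype, ← Nat.card_eq_fintype_card] at this
  rw [eq_sub_iff_add_eq', ← this]
  exact_mod_cast cardS U

open Classical in
theorem pr [Fintype V] (S T : V → Submodule F V) (hT : ∀ v w, v ≠ 0 → w ≠ 0 → w ∈ T v → v ∈ T w) (v w) :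
    (Mx S * Mx T) v w = (Fintype.card F : ℝ) ^ finrank F (S v.1 ⊓ T w.1 : Submodule F V) - 1 := by
  rw [← cnt, Matrix.mul_apply]
  refine Finset.sum_congr rfl fun u _ => ?_
  have : w.1 ∈ T u.1 ↔ u.1 ∈ T w.1 := ⟨hT _ _ u.2 w.2, hT _ _ w.2 u.2⟩
  simp only [Mx, this, Submodule.mem_inf]
  by_cases h1 : u.1 ∈ S v.1 <;> by_cases h2 : u.1 ∈ T w.1 <;> simp [h1, h2]

theorem pent : PENT.{u} := by
  intro F V _ _ _ _ _ R n5 h3 sy h2 h1
  classical
  have := Fintype.ofFinite V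
  have sE : ∀ v w : V, v ≠ 0 → w ≠ 0 → w ∈ F ∙ v → v ∈ F ∙ w := fun v w _ hw e => by
    obtain ⟨c, rfl⟩ := Submodule.mem_span_singleton.1 e
    exact Submodule.mem_span_singleton.2 ⟨c⁻¹, inv_smul_smul₀ (left_ne_zero_of_smul hw) v⟩
  have sJ : ∀ v w : V, v ≠ 0 → w ≠ 0 → w ∈ (⊤ : Submodule F V) → v ∈ (⊤ : Submodule F V) := fun _ _ _ _ _ => trivial
  have eR : ∀ v w : V, v ≠ 0 → w ≠ 0 → w ∈ F ∙ v → R v ≤ R w := fun v w hv hw e u hu => by
    by_cases h : u = 0
    · exact h ▸ zero_mem _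
    exact sy _ _ h hw ((Submodule.span_singleton_le_iff_mem _ _).2 (sy _ _ hv h hu) e)
  obtain ⟨q, hq⟩ : ∃ q : ℝ, q = Fintype.card F := ⟨_, rfl⟩
  have q2 : 2 ≤ q := by rw [hq]; exact_mod_cast Fintype.one_lt_card
  set B := Mx R
  set E := Mx fun v : V => F ∙ v
  set J := Mx fun _ : V => (⊤ : Submodule F V)
  have BB : B * B = (q ^ 3 - q ^ 2) • E + (q ^ 2 - q) • B + (q - 1) • J := by
    ext v w
    rw [pr _ _ sy, ← hq]
    simp only [B, E, J, Mx, Matrix.add_apply, Matrix.smul_apply, Submodule.mem_top, smul_eq_mul]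
    by_cases e : w.1 ∈ F ∙ v.1
    · rw [inf_eq_left.2 (eR _ _ v.2 w.2 e), (h3 _ v.2).1, if_pos e,
        if_pos ((Submodule.span_singleton_le_iff_mem _ _).2 (h3 _ v.2).2 e)]; simp
    by_cases e' : w.1 ∈ R v.1
    · rw [h2 _ _ ⟨v.2, e⟩ e']; simp [e, e']
    · rw [h1 _ _ v.2 e']; simp [e, e']
  have EB : E * B = (q - 1) • B := by
    ext v w
    have : v.1 ∈ R w.1 ↔ w.1 ∈ R v.1 := ⟨sy _ _ w.2 v.2, sy _ _ v.2 w.2⟩
    rw [pr _ _ sy, ← hq, rk_inf v.2]
    simp only [B, Mx, Matrix.smul_apply, smul_eq_mul, this]; split_ifs <;> simp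
  have BE : B * E = (q - 1) • B := by
    ext v w
    rw [pr _ _ sE, ← hq, inf_comm, rk_inf w.2]
    simp only [B, Mx, Matrix.smul_apply, smul_eq_mul]; split_ifs <;> simp
  have EE : E * E = (q - 1) • E := by
    ext v w
    rw [pr _ _ sE, ← hq, inf_comm, rk_inf w.2]
    simp only [E, Mx, Matrix.smul_apply, smul_eq_mul]; split_ifs <;> simp
  have BJ : B * J = (q ^ 3 - 1) • J := by
    ext v w; rw [pr _ _ sJ, ← hq, inf_top_eq, (h3 _ v.2).1]; simp [J, Mx]
  have JB : J * B = (q ^ 3 - 1) • J := by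
    ext v w; rw [pr _ _ sy, ← hq, top_inf_eq, (h3 _ w.2).1]; simp [J, Mx]
  have EJ : E * J = (q - 1) • J := by
    ext v w; rw [pr _ _ sJ, ← hq, inf_top_eq, finrank_span_singleton v.2]; simp [J, Mx]
  have JE : J * E = (q - 1) • J := by
    ext v w; rw [pr _ _ sE, ← hq, top_inf_eq, finrank_span_singleton w.2]; simp [J, Mx]
  have JJ : J * J = (q ^ 5 - 1) • J := by
    ext v w; rw [pr _ _ sJ, ← hq, top_inf_eq, finrank_top, n5]; simp [J, Mx]
  have tr : ∀ S : V → Submodule F V, (∀ v, v ≠ 0 → v ∈ S v) → (Mx S).trace = q ^ 5 - 1 := fun S hS => by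
    rw [hq, ← n5, ← finrank_top, ← cnt]
    exact Finset.sum_congr rfl fun v _ => by simp [Mx, hS _ v.2]
  obtain ⟨r, hr⟩ : ∃ r : ℝ, r = √5 := ⟨_, rfl⟩
  have r2 : r ^ 2 = 5 := by rw [hr]; exact Real.sq_sqrt (by norm_num)
  have q0 : q ≠ 0 := by positivity
  have q1 : q - 1 ≠ 0 := by linarith [q2] |> ne_of_gt
  have q5 : q ^ 5 - 1 ≠ 0 := sub_ne_zero.2 (one_lt_pow₀ (by linarith) (by norm_num)).ne'
  obtain ⟨e, he⟩ : ∃ e, e = (r / (5 * q * (q - 1))) • B + ((5 - r) / (10 * (q - 1))) • E +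
    (-(5 * q * (q - 1) + r * (2 * q ^ 3 - q ^ 2 + q - 2)) / (10 * q * (q - 1) * (q ^ 5 - 1))) • J := ⟨_, rfl⟩
  have ee : e * e = e := by
    simp only [he, add_mul, mul_add, smul_mul_smul_comm, BB, EB, BE, EE, BJ, JB, EJ, JE, JJ]
    match_scalars <;> field_simp <;> grind
  have id : IsIdempotentElem (Matrix.toLin' e) := by
    rw [IsIdempotentElem, Module.End.mul_eq_comp, ← Matrix.toLin'_mul, ee]
  obtain ⟨n, t⟩ : ∃ n : ℕ, e.trace = n :=
    ⟨_, (Matrix.trace_toLin'_eq e).symm.trans (LinearMap.IsIdempotentElem.isProj_range _ id).trace⟩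
  rw [he] at t
  simp only [Matrix.trace_add, Matrix.trace_smul, B, E, J, tr R fun v hv => (h3 v hv).2,
    tr _ fun v _ => Submodule.mem_span_singleton_self v, tr (fun _ => ⊤) fun _ _ => trivial, smul_eq_mul] at t
  have k : (q - 2) * (q ^ 5 - 1) + (2 * q ^ 3 - q ^ 2 + q - 2) ≠ 0 := by
    have : 0 ≤ (q - 2) * (q ^ 5 - 1) := mul_nonneg (by linarith) (sub_nonneg.2 (one_le_pow₀ (by linarith)))
    nlinarith [sq_nonneg q]
  refine (Nat.Prime.irrational_sqrt (p := 5) (by norm_num)) ⟨(5 * (Fintype.card F : ℚ) * ((Fintype.card F : ℚ) ^ 5 - 1) -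
    5 * Fintype.card F * (Fintype.card F - 1) - 10 * Fintype.card F * (Fintype.card F - 1) * n) /
    ((Fintype.card F - 2) * ((Fintype.card F : ℚ) ^ 5 - 1) + (2 * (Fintype.card F : ℚ) ^ 3 - (Fintype.card F : ℚ) ^ 2 +
      Fintype.card F - 2)), ?_⟩
  push_cast
  rw [← hq, ← hr, ← t, div_eq_iff k]
  field_simp
  ring

end H5.R3
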