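/-
Rank 3 actions of `PSL_n(q)`: Perin's lemma.
-/
import Cfsg.Agent.H5.R31
import Cfsg.Agent.H19.Amb3

set_option autoImplicit false
set_option linter.unusedSectionVars false

open Module H13.R3 Subgroup H19 Finset
namespace H5.R3
universe u
variable {F V G : Type u} [Field F] [Fintype F] [AddCommGroup V] [Module F V] [Finite V]
  [Group G] [DistribMulAction G V] [SMulCommClass G F V] {z : G} {r e k : ℕ}

variable (F V) in
/-- the fixed space -/
def fx (z : G) : Submodule F V where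
  carrier := {v | z • v = v}
  zero_mem' := smul_zero z
  add_mem' {a b} ha hb := by rw [Set.mem_setOf, smul_add, ha, hb]
  smul_mem' c a ha := by rw [Set.mem_setOf, smul_comm, ha]
variable (G) in
/-- the pointwise stabilizer -/
def Kf (W : Submodule F V) : Subgroup G where
  carrier := {g | ∀ u ∈ W, g • u = u}
  one_mem' u _ := one_smul G u
  mul_mem' {a b} ha hb u hu := by rw [mul_smul, hb u hu, ha u hu]
  inv_mem' {a} ha u hu := by rw [inv_smul_eq_iff, ha u hu]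

theorem cmod (hr : r.Prime) (hz : z ^ r ^ k = 1) (U : Submodule F V) (hU : ∀ u ∈ U, z • u ∈ U) :
    Fintype.card F ^ finrank F U ≡ Fintype.card F ^ finrank F (U ⊓ fx F V z : Submodule F V) [MOD r] := by
  classical
  have := Fact.mk hr
  have := Fintype.ofFinite U
  let f : Function.End U := fun u => ⟨z • u.1, hU _ u.2⟩
  have e : ∀ n u, ((f ^ n) u).1 = z ^ n • u.1 := fun n u => by
    induction n with
    | zero => rw [pow_zero, pow_zero, one_smul]; rfl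
    | succ n ih => rw [pow_succ', pow_succ', mul_smul, ← ih]; rfl
  have := Equiv.Perm.card_fixedPoints_modEq (f := f) (p := r) (n := k)
    (funext fun u => Subtype.ext (by rw [e, hz, one_smul]; rfl))
  rw [← cardS, ← cardS, Nat.card_eq_fintype_card]
  refine this.trans (Nat.ModEq.refl _ |>.trans (Eq.subst (motive := fun n => _ ≡ n [MOD r]) ?_ (Nat.ModEq.refl _)))
  rw [← Nat.card_eq_fintype_card]
  exact Nat.card_congr ⟨fun u => ⟨u.1.1, u.1.2, congrArg Subtype.val u.2⟩, fun u => ⟨⟨u.1, u.2.1⟩, Subtype.ext u.2.2⟩,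
    fun _ => rfl, fun _ => rfl⟩
theorem dv {q : ℕ} (hq : 0 < q) : r ∣ q ^ k - 1 ↔ (q : ZMod r) ^ k = 1 := by
  rw [← ZMod.natCast_eq_zero_iff, Nat.cast_sub (Nat.one_le_pow _ _ hq), sub_eq_zero]; simp
theorem dimB (hr : r.Prime) (h1 : r ∣ Fintype.card F ^ e - 1) (h2 : ∀ k, 0 < k → k < e → ¬ r ∣ Fintype.card F ^ k - 1)
    (he : 0 < e) (hn : finrank F V < 2 * e) (hz : z ^ r = 1) (U : Submodule F V) (hU : ∀ u ∈ U, z • u ∈ U) :
    finrank F (U ⊓ fx F V z : Submodule F V) = finrank F U ∨ finrank F (U ⊓ fx F V z : Submodule F V) + e = finrank F U := by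
  have := Fact.mk hr
  have c := (ZMod.natCast_eq_natCast_iff _ _ _).2 (cmod (k := 1) hr (by rwa [pow_one]) U hU)
  obtain ⟨k, hk⟩ := Nat.exists_eq_add_of_le (Submodule.finrank_mono (inf_le_left : U ⊓ fx F V z ≤ U))
  have := U.finrank_le
  simp only [dv Fintype.card_pos] at h1 h2
  have q0 : (Fintype.card F : ZMod r) ≠ 0 := fun c => by rw [c, zero_pow he.ne'] at h1; exact zero_ne_one h1
  rw [hk, Nat.cast_pow, Nat.cast_pow, pow_add, mul_eq_left₀ (pow_ne_zero _ q0)] at c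
  by_contra! d
  rcases lt_or_ge k e with l | l
  · exact h2 k (by omega) l c
  · obtain ⟨k, rfl⟩ := Nat.exists_eq_add_of_le l
    exact h2 k (by omega) (by omega) (by rwa [pow_add, h1, one_mul] at c)
theorem sfix (hz : z ^ r = 1) (v : V) : ∑ i ∈ range r, z ^ i • v ∈ fx F V z := by
  have := (sum_range_succ (fun i => z ^ i • v) r).symm.trans (sum_range_succ' (fun i => z ^ i • v) r)
  rw [hz, pow_zero, add_left_inj] at this
  change z • _ = _
  rw [smul_sum]; simp only [← mul_smul, ← pow_succ', this]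

theorem pl' : PL.{u} := by
  intro F V G _ _ _ _ _ _ _ _ _ H r e fa hr h1 h2 he hn hH hW nt
  have B := fun z (hz : z ^ r = 1) => dimB (G := G) hr h1 h2 he hn hz
  have o1 : ∀ {z : G}, z ≠ 1 → z ^ r = 1 → finrank F (fx F V z) + e = finrank F V := fun {z} z1 hz => by
    have := B z hz ⊤ fun _ _ => trivial
    rw [top_inf_eq, finrank_top] at this
    exact this.resolve_left fun c => z1 (fa z fun v => (Submodule.eq_top_of_finrank_eq c).ge trivial)
  have n1 : ∀ {z : G}, orderOf z = r → z ≠ 1 := fun c d => hr.ne_one (by rw [← c, d, orderOf_one])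
  obtain ⟨y, yH, hy⟩ := exists_orderOf_eq_prime hr hH
  have dW := o1 (n1 hy) (hy ▸ pow_orderOf_eq_one y)
  have yK : y ∈ H ⊓ Kf G (fx F V y) := ⟨yH, fun _ => id⟩
  generalize fx F V y = W at dW yK
  obtain ⟨a, aH, b, bH, aW, bW, v, vW, f, v0, fv, ⟨w, wW, fw⟩, hab⟩ := hW W dW
  have nK : H ⊓ Kf G W ⊴ H ⊓ St G W := ⟨fun g hg => ⟨hg.1, fun u => ⟨fun hu => by
      rw [← inv_smul_smul g u, (Kf G W).inv_mem hg.2 _ hu]; exact hu, fun hu => by rwa [hg.2 u hu]⟩⟩,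
    fun g hg => mem_norm_of_cj_le fun k hk' => by
      obtain ⟨k, hk, rfl⟩ := mem_cj'.1 hk'
      exact ⟨H.mul_mem (H.mul_mem hg.1 hk.1) (H.inv_mem hg.1), fun u hu => by
        rw [mul_smul, mul_smul, hk.2 _ (((St G W).inv_mem hg.2 u).2 hu), smul_inv_smul]⟩⟩
  obtain ⟨R, hR⟩ := exists_syl r (H ⊓ Kf G W)
  have fr : ∀ a ∈ H ⊓ St G W, ∃ a' ∈ H ⊓ St G W ⊓ N(R), (∀ u ∈ W, a • u = a' • u) ∧ ∀ u ∈ W, a⁻¹ • u = a'⁻¹ • u :=
    fun a ha => by
      obtain ⟨k, hk, a', ha', rfl⟩ := (mem_sup_of_norm (inf_le_left.trans nK.2)).1 ((hR.frattini nK).ge ha)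
      exact ⟨a', ha', fun u hu => by rw [mul_smul, hk.2 _ ((ha'.1.2 u).2 hu)], fun u hu => by
        rw [mul_inv_rev, mul_smul, (Kf G W).inv_mem hk.2 u hu]⟩
  obtain ⟨a', ha, a1, a2⟩ := fr a ⟨aH, aW⟩
  obtain ⟨b', hb, b1, b2⟩ := fr b ⟨bH, bW⟩
  have Z := hR.pi.center_ne_bot (hR.ne_bot hr rfl (hy ▸ orderOf_dvd_card' yK))
  obtain ⟨y0, hy0, o0⟩ := exists_orderOf_eq_prime hr ((hR.pi.of_le inf_le_left).dvd_of_ne_bot Z)
  have p0 : y0 ^ r = 1 := o0 ▸ pow_orderOf_eq_one y0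
  have fW : ∀ z ∈ H ⊓ Kf G W, z ≠ 1 → z ^ r = 1 → fx F V z = W := fun z hz z1 zr =>
    (Submodule.eq_of_le_of_finrank_eq hz.2 (by have := o1 z1 zr; omega)).symm
  have K0 := hR.le hy0.1
  have W0 := fW y0 K0 (n1 o0) p0
  have r0 : (r : F) ≠ 0 := fun c => by
    have := Fact.mk hr
    have : r ∣ Fintype.card F := (prime_dvd_char_iff_dvd_card r).1
      ((hr.eq_one_or_self_of_dvd _ ((ringChar.spec F r).1 c)).resolve_left CharP.ringChar_ne_one).symm.dvd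
    exact hr.one_lt.ne' (Nat.dvd_one.1 ((Nat.dvd_add_right h1).1
      (by rw [Nat.sub_add_cancel (Nat.one_le_pow _ _ Fintype.card_pos)]; exact dvd_pow this he.ne')))
  obtain ⟨π, hπ⟩ : ∃ π : V →ₗ[F] V, ∀ v, π v = (r : F)⁻¹ • ∑ i ∈ range r, y0 ^ i • v :=
    ⟨(r : F)⁻¹ • ∑ i ∈ range r, (lin F V (y0 ^ i)).toLinearMap, fun v => by simp⟩
  have π1 : ∀ v, π v ∈ W := fun v => hπ v ▸ W.smul_mem _ (W0 ▸ sfix p0 v)
  have π2 : ∀ v ∈ W, π v = v := fun v hv => by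
    rw [hπ, sum_congr rfl fun i _ => (Kf G W).pow_mem K0.2 i v hv, sum_const, card_range, ← Nat.cast_smul_eq_nsmul F,
      inv_smul_smul₀ r0]
  have π3 : ∀ x, Commute x y0 → ∀ u ∈ LinearMap.ker π, x • u ∈ LinearMap.ker π := fun x c u hu => by
    rw [LinearMap.mem_ker, hπ] at hu ⊢
    simp only [← mul_smul, ← (c.pow_right _).eq]
    simp only [mul_smul]
    rw [← smul_sum, ← smul_comm, hu, smul_zero]
  have π4 : ∀ u ∈ LinearMap.ker π, u ∈ W → u = 0 := fun u h1 h2 => (π2 u h2).symm.trans h1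
  have π5 : ∀ u, u - π u ∈ LinearMap.ker π := fun u => by rw [LinearMap.mem_ker, map_sub, π2 _ (π1 u), sub_self]
  obtain ⟨u0, hu0, u1⟩ : ∃ u ∈ LinearMap.ker π, u ≠ 0 := by
    by_contra! c
    exact n1 o0 (fa y0 fun v => K0.2 v (sub_eq_zero.1 (c _ (π5 v)) ▸ π1 v))
  have S0 : ∀ x ∈ H ⊓ Kf G W, x ≠ 1 → x ^ r = 1 → Commute x y0 → ∀ u ∈ LinearMap.ker π, ∑ i ∈ range r, x ^ i • u = 0 :=
    fun x hx x1 xr c u hu => π4 _ (Submodule.sum_mem _ fun i _ => π3 _ (c.pow_left i) u hu) (fW x hx x1 xr ▸ sfix xr u)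
  have cy : ∀ c ∈ N(R), ∃ i : ℤ, y0 ^ i = c * y0 * c⁻¹ := fun c hc => by
    have zR : c * y0 * c⁻¹ ∈ R := (hc y0).1 hy0.1
    have zr : (c * y0 * c⁻¹) ^ r = 1 := by rw [conj_pow, p0]; group
    have cz : Commute (c * y0 * c⁻¹) y0 := mem_cent.1 hy0.2 _ zR
    generalize c * y0 * c⁻¹ = z at zR zr cz
    by_contra d
    have s := sum_eq_zero (s := range r) fun j _ => S0 (y0 ^ j * z) (mul_mem (pow_mem K0 j) (hR.le zR))
      (fun c => d (eq_inv_of_mul_eq_one_right c ▸ inv_mem (pow_mem (mem_zpowers y0) j)))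
      (by rw [(cz.symm.pow_left j).mul_pow, ← pow_mul, mul_comm, pow_mul, p0, zr, one_pow, one_mul])
      ((Commute.refl _).pow_left j |>.mul_left cz) u0 hu0
    rw [sum_comm, sum_eq_single 0 (fun i hi i0 => ?_) fun c => absurd (mem_range.2 hr.pos) c] at s
    · simp only [pow_zero, one_smul, sum_const, card_range, ← Nat.cast_smul_eq_nsmul F] at s
      exact u1 ((smul_eq_zero.1 s).resolve_left r0)
    · rw [← S0 (y0 ^ i) (pow_mem K0 i) (pow_ne_one_of_lt_orderOf i0 (o0 ▸ mem_range.1 hi))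
        (by rw [← pow_mul, mul_comm, pow_mul, p0, one_pow]) ((Commute.refl _).pow_left i) _ (π3 _ (cz.pow_left i) u0 hu0)]
      exact sum_congr rfl fun j _ => by rw [(cz.symm.pow_left j).mul_pow, mul_smul, ← pow_mul, ← pow_mul, mul_comm]
  have cg : Commute (a' * b' * a'⁻¹ * b'⁻¹) y0 := by
    obtain ⟨i, hi⟩ := cy _ (inv_mem ha.2)
    obtain ⟨j, hj⟩ := cy _ (inv_mem hb.2)
    have : a'⁻¹ * (b'⁻¹ * y0 * b'⁻¹⁻¹) * a'⁻¹⁻¹ = b'⁻¹ * (a'⁻¹ * y0 * a'⁻¹⁻¹) * b'⁻¹⁻¹ := by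
      rw [← hi, ← hj, ← conj_zpow, ← conj_zpow, ← hi, ← hj, ← zpow_mul, ← zpow_mul, mul_comm]
    calc _ = a' * b' * (a'⁻¹ * (b'⁻¹ * y0 * b'⁻¹⁻¹) * a'⁻¹⁻¹) * a'⁻¹ * b'⁻¹ * (b' * a' * (a' * b')⁻¹ * (a' * b' * a'⁻¹ * b'⁻¹)) := by
          group
      _ = _ := by rw [this]; group
  have gW : ∀ u ∈ W, (a' * b' * a'⁻¹ * b'⁻¹) • u = u + f u • v := fun u hu => by
    have k1 := ((St G W).inv_mem bW u).2 hu
    have k2 := ((St G W).inv_mem aW _).2 k1
    rw [← hab u hu]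
    simp only [mul_smul]
    rw [← b2 u hu, ← a2 _ k1, ← b1 _ k2, ← a1 _ ((bW _).2 k2)]
  have gH : a' * b' * a'⁻¹ * b'⁻¹ ∈ H := mul_mem (mul_mem (mul_mem ha.1.1 hb.1.1) (inv_mem ha.1.1)) (inv_mem hb.1.1)
  generalize a' * b' * a'⁻¹ * b'⁻¹ = g at cg gW gH
  obtain ⟨p, _⟩ := CharP.exists F
  obtain ⟨n, hp, hq⟩ := FiniteField.card F p
  obtain ⟨s, m, pm, hm⟩ := Nat.exists_eq_pow_mul_and_not_dvd (orderOf_pos g).ne' p hp.ne_one
  have m0 : (m : F) ≠ 0 := mt (CharP.cast_eq_zero_iff F p m).1 pm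
  have ir : ∀ U ≤ LinearMap.ker π, (∀ u ∈ U, y0 • u ∈ U) → finrank F U ≠ 0 → finrank F U = e := fun U h1 h2 h3 => by
    have := B y0 p0 U h2
    rw [W0, (Submodule.eq_bot_iff (U ⊓ W)).2 fun u hu => π4 u (h1 hu.1) hu.2, finrank_bot] at this
    omega
  have e1 := ir _ le_rfl (π3 _ (Commute.refl _)) fun c => u1 ((Submodule.finrank_eq_zero.1 c).le hu0)
  have e2 := ir (LinearMap.ker π ⊓ fx F V (g ^ m)) inf_le_left (fun u hu => ⟨π3 _ (Commute.refl _) u hu.1, by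
    change _ • _ = _
    rw [← mul_smul, (cg.pow_left m).eq, mul_smul, hu.2]⟩) fun c => by
      have := cmod (k := s) hp (by rw [← pow_mul, mul_comm, ← hm, pow_orderOf_eq_one]) _ (π3 _ (cg.pow_left m))
      rw [c, e1, pow_zero, hq, ← pow_mul] at this
      exact hp.one_lt.ne' (Nat.dvd_one.1 ((this.dvd_iff dvd_rfl).1 (dvd_pow_self p (Nat.mul_pos n.pos he).ne')))
  have e3 := Submodule.eq_of_le_of_finrank_eq inf_le_left (e2.trans e1.symm)
  have pw : ∀ j : ℕ, ∀ u ∈ W, g ^ j • u = u + ((j : F) * f u) • v := fun j u hu => by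
    induction j with
    | zero => simp
    | succ j ih =>
      rw [pow_succ', mul_smul, ih, gW _ (add_mem hu (W.smul_mem _ vW))]
      simp only [map_add, map_smul, fv, smul_zero, add_zero, Nat.cast_succ, add_mul, one_mul, add_smul, add_assoc]
  refine nt (g ^ m) (pow_mem gH m) ⟨v, (m : F) • f ∘ₗ π, v0, fun c => ?_, by simp [π2 v vW, fv], fun u => ?_⟩
  · have := LinearMap.congr_fun c w
    simp [π2 w wW, m0, fw] at this
  · have : g ^ m • (u - π u) = u - π u := (e3.ge (π5 u)).2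
    rw [smul_sub, pw m _ (π1 u), sub_eq_iff_eq_add] at this
    rw [this, ← add_assoc, sub_add_cancel]; simp

end H5.R3
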