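/-
Rank 3 actions of `PSL_n(q)`: two orbits on points and on lines.
-/
import Cfsg.Agent.H13.R3_1

set_option autoImplicit false
set_option linter.unusedSectionVars false

open Module H13.R3
namespace H5.R3
universe u
variable {F V G : Type u} [Field F] [Fintype F] [AddCommGroup V] [Module F V] [Finite V]
  [Group G] [DistribMulAction G V] [SMulCommClass G F V] {H : Subgroup G}

theorem arc (n4 : 4 ≤ finrank F V) (ir : Irr F V H) (O : Set V) (h0 : 0 ∉ O) (sc : ∀ c : F, c ≠ 0 → ∀ v ∈ O, c • v ∈ O)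
    (inv : ∀ h ∈ H, ∀ v ∈ O, h • v ∈ O) {y : V} (hy : y ∈ O) {κ : ℕ}
    (hκ : ∀ a b, Ind F a b → (∃ z ∈ O, z ∈ ln F a b) → {z | z ∈ ln F a b ∧ z ∈ O}.ncard = κ)
    {a b : V} (hab : Ind F a b) (hW : ∀ z ∈ ln F a b, z ∉ O) : False := by
  have q2 := q2 F
  have n0 : ∀ v ∈ O, v ≠ 0 := fun v hv e => h0 (e ▸ hv)
  have sp : ∀ v ∈ O, ∀ z ∈ F ∙ v, z ≠ 0 → z ∈ O := fun v hv z hz z0 => by
    obtain ⟨c, rfl⟩ := Submodule.mem_span_singleton.1 hz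
    exact sc c (left_ne_zero_of_smul z0) v hv
  have sl : ∀ (U : Submodule F V), ∀ v ∈ O, v ∈ U → {z | z ∈ U ∧ z ∈ O}.ncard =
      {z | z ∈ U ∧ z ∈ O ∧ z ∉ F ∙ v}.ncard + (Fintype.card F - 1) := fun U v hv hU => by
    have := ncard_ne0 (F ∙ v)
    rw [finrank_span_singleton (n0 v hv), pow_one] at this
    rw [← this, ← Set.ncard_union_eq (Set.disjoint_left.2 fun z h1 h2 => h1.2.2 h2.1)]
    congr 1; ext z
    refine ⟨fun h => (em (z ∈ F ∙ v)).elim (fun c => .inr ⟨c, n0 z h.2⟩) fun c => .inl ⟨h.1, h.2, c⟩, ?_⟩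
    rintro (h | h)
    exacts [⟨h.1, h.2.1⟩, ⟨(Submodule.span_singleton_le_iff_mem _ _).2 hU h.1, sp v hv z h.1 h.2⟩]
  have ay : Ind F y a := ⟨n0 y hy, fun c => hW a l_ln (sp y hy a c hab.1)⟩
  obtain ⟨δ, hδ⟩ : ∃ δ, δ = {z | z ∈ ln F y a ∧ z ∈ O ∧ z ∉ F ∙ y}.ncard := ⟨_, rfl⟩
  have k1 : κ = δ + (Fintype.card F - 1) := by rw [← hκ y a ay ⟨y, hy, l_ln⟩, sl _ y hy l_ln, hδ]
  have ct : ∀ (U : Submodule F V), ∀ v ∈ O, v ∈ U → {z | z ∈ U ∧ z ∈ O ∧ z ∉ F ∙ v}.ncard *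
      (Fintype.card F ^ 2 - Fintype.card F) = (Fintype.card F ^ finrank F U - Fintype.card F) * δ := fun U v hv hU => by
    have e := ncard_diff ((Submodule.span_singleton_le_iff_mem _ _).2 hU)
    rw [finrank_span_singleton (n0 v hv), pow_one] at e
    rw [← e]
    refine dcount _ _ (fun z u => u ∈ ln F v z) (fun z hz => ?_) fun u hu => ?_
    · have i : Ind F v z := ⟨n0 v hv, hz.2.2⟩
      have := ncard_diff (sp_le_ln (F := F) (x := v) (y := z))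
      rw [i.finrank, finrank_span_singleton i.1, pow_one] at this
      rw [← this]; congr 1; ext u
      exact ⟨fun h => ⟨h.2, h.1.2⟩, fun h => ⟨⟨ln_le.2 ⟨hU, hz.1⟩ h.1, h.2⟩, h.1⟩⟩
    · have i : Ind F v u := ⟨n0 v hv, hu.2⟩
      have := (hκ v u i ⟨v, hv, l_ln⟩).symm.trans (sl _ v hv l_ln)
      rw [Nat.add_right_cancel (k1.symm.trans this)]; congr 1; ext z
      exact ⟨fun h => ⟨(ln_eq i l_ln h.2).ge r_ln, h.1.2⟩, fun h =>
        ⟨⟨ln_le.2 ⟨hU, hu.1⟩ h.1, h.2⟩, (ln_eq ⟨i.1, h.2.2⟩ l_ln h.1).ge r_ln⟩⟩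
  obtain ⟨q, hq⟩ : ∃ q, Fintype.card F = q + 1 := ⟨_, (Nat.sub_add_cancel Fintype.card_pos).symm⟩
  have q0 : 0 < (q + 1) ^ 2 - (q + 1) := Nat.sub_pos_of_lt (by nlinarith)
  have q1 : (q + 1) ^ 2 - (q + 1) = q * (q + 1) := Nat.sub_eq_of_eq_add (by ring)
  rw [hq] at q2
  simp only [hq, Nat.add_sub_cancel] at sl ct k1
  have d3 : ∀ (U : Submodule F V), finrank F U = 3 → ∀ v ∈ O, v ∈ U → {z | z ∈ U ∧ z ∈ O}.ncard = (q + 2) * δ + q :=
    fun U hU v hv h => by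
      have := ct U v hv h
      rw [hU, show (q + 1) ^ 3 - (q + 1) = (q + 2) * (q * (q + 1)) from Nat.sub_eq_of_eq_add (by ring), ← q1,
        mul_right_comm] at this
      rw [sl U v hv h, Nat.eq_of_mul_eq_mul_right q0 this]
  have yW : ∀ z ∈ O, z ∉ ln F a b := fun z hz c => hW z c hz
  obtain ⟨w, hw⟩ := ex_notMem' (A := ln F a b ⊔ F ∙ y) (by rw [finrank_sup_sp (yW y hy), hab.finrank]; omega)
  obtain ⟨S, hS⟩ : ∃ S, S = ln F a b ⊔ (F ∙ y) ⊔ F ∙ w := ⟨_, rfl⟩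
  have yS : y ∈ S := hS ▸ Submodule.mem_sup_left (Submodule.mem_sup_right (Submodule.mem_span_singleton_self y))
  have d4 : {z | z ∈ S ∧ z ∈ O}.ncard = (q ^ 2 + 3 * q + 3) * δ + q := by
    have := ct S y hy yS
    rw [hS, finrank_sup_sp hw, finrank_sup_sp (yW y hy), hab.finrank, ← hS,
      show (q + 1) ^ (2 + 1 + 1) - (q + 1) = (q ^ 2 + 3 * q + 3) * (q * (q + 1)) from Nat.sub_eq_of_eq_add (by ring), ← q1,
      mul_right_comm] at this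
    rw [sl S y hy yS, Nat.eq_of_mul_eq_mul_right q0 this]
  have r3 : ∀ z ∈ O, finrank F (ln F a b ⊔ F ∙ z : Submodule F V) = 3 := fun z hz => by
    rw [finrank_sup_sp (yW z hz), hab.finrank]
  have mz : ∀ z : V, z ∈ ln F a b ⊔ F ∙ z := fun z => Submodule.mem_sup_right (Submodule.mem_span_singleton_self z)
  have dv := dcount {z | z ∈ S ∧ z ∈ O} {P | ∃ z ∈ S, z ∈ O ∧ P = ln F a b ⊔ F ∙ z} (fun z P => z ∈ P) (m := 1)
    (n := (q + 2) * δ + q) (fun z hz => by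
      rw [← Set.ncard_singleton (ln F a b ⊔ F ∙ z)]; congr 1; ext P
      refine ⟨?_, by rintro rfl; exact ⟨⟨z, hz.1, hz.2, rfl⟩, mz z⟩⟩
      rintro ⟨⟨z', -, h2, rfl⟩, h3⟩
      exact (Submodule.eq_of_le_of_finrank_eq (sup_le le_sup_left ((Submodule.span_singleton_le_iff_mem _ _).2 h3))
        ((r3 z hz.2).trans (r3 z' h2).symm)).symm) (by
      rintro _ ⟨z, h1, h2, rfl⟩
      rw [← d3 _ (r3 z h2) z h2 (mz z)]; congr 1; ext u
      exact ⟨fun h => ⟨h.2, h.1.2⟩, fun h => ⟨⟨sup_le (hS ▸ le_sup_left.trans le_sup_left)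
        ((Submodule.span_singleton_le_iff_mem _ _).2 h1) h.1, h.2⟩, h.1⟩⟩)
  rw [d4, mul_one] at dv
  generalize Set.ncard _ = m at dv
  by_cases c0 : δ = 0
  · have := ct ⊤ y hy trivial
    rw [c0, mul_zero, mul_eq_zero, or_iff_left q0.ne', Set.ncard_eq_zero] at this
    rcases ir (F ∙ y) fun j hj u hu => (Submodule.span_singleton_le_iff_mem _ _).2 (not_not.1 fun c =>
      (this.le ⟨trivial, inv j hj y hy, c⟩ :)) (smul_mem_sp j hu) with e | e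
    · exact n0 y hy (e.le (Submodule.mem_span_singleton_self y))
    · have := finrank_span_singleton (K := F) (n0 y hy)
      rw [e, finrank_top] at this; omega
  by_cases c1 : δ = q ^ 2
  · have sc' : ∀ (c : F) v, v ∉ O → c • v ∉ O := fun c v hv h => hv (by
      have c0 := left_ne_zero_of_smul (n0 _ h)
      simpa only [inv_smul_smul₀ c0] using sc _ (inv_ne_zero c0) _ h)
    let A : Submodule F V := ⟨⟨⟨Oᶜ, fun {u v} hu hv h => ?_⟩, h0⟩, sc'⟩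
    · rcases ir A fun j hj u hu h => hu (by simpa using inv _ (H.inv_mem hj) _ h) with e | e
      exacts [hab.1 (e.le (hW a l_ln)), (e.ge trivial : y ∈ A) hy]
    have i : Ind F u v := ⟨fun e => hv (by simpa [e] using h), fun e => by
      obtain ⟨c, rfl⟩ := Submodule.mem_span_singleton.1 e
      exact sc' (1 + c) u hu (by rwa [add_smul, one_smul])⟩
    have e := ncard_diff (sp_le_ln (F := F) (x := u) (y := v))
    rw [i.finrank, finrank_span_singleton i.1, pow_one, hq, q1] at e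
    refine hv ((Set.eq_of_subset_of_ncard_le (s := {z | z ∈ ln F u v ∧ z ∈ O}) (t := {z | z ∈ ln F u v ∧ z ∉ F ∙ u})
      (fun z hz => ⟨hz.1, fun c => ?_⟩) (by rw [e, hκ u v i ⟨_, h, add_mem l_ln r_ln⟩, k1, c1]; nlinarith)).ge ⟨r_ln, i.2⟩).2
    obtain ⟨d, rfl⟩ := Submodule.mem_span_singleton.1 c
    exact sc' d u hu hz.2
  have c2 : q ≤ δ := by
    obtain ⟨z, hz⟩ := Set.nonempty_of_ncard_ne_zero (hδ ▸ c0)
    have := ncard_ne0 (F ∙ z)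
    rw [finrank_span_singleton (n0 z hz.2.1), pow_one, hq, Nat.add_sub_cancel] at this
    rw [← this, hδ]
    exact Set.ncard_le_ncard fun u hu => ⟨(Submodule.span_singleton_le_iff_mem _ _).2 hz.1 hu.1, sp z hz.2.1 u hu.1 hu.2,
      fun c => hz.2.2 ((Submodule.span_singleton_le_iff_mem _ _).2 c
        ((sp_eq hu.2 hu.1).ge (Submodule.mem_span_singleton_self z)))⟩
  have e : ((q : ℤ) + 2) * δ + q ∣ δ - q ^ 2 := ⟨m - (q + 1), by zify at dv; linear_combination dv⟩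
  have := Int.le_abs_of_dvd (by zify at c1; exact sub_ne_zero.2 c1) e
  zify at c2 q2
  rcases abs_cases ((δ : ℤ) - q ^ 2) with h | h <;> nlinarith [h.1]

theorem l1 : L1.{u} := by
  intro F V G _ _ _ _ _ _ _ _ H n4 sc ir pt o2 l2 ⟨a0, b0, ha0, hb0, hab0⟩ f3
  have core : ∀ x y : V, x ≠ 0 → y ≠ 0 → Ind F x y → ∀ b : V × V, Ind F b.1 b.2 → ¬ LE F H (x, y) b →
      (∀ z ∈ ln F b.1 b.2, ¬ ∃ h ∈ H, h • y = z) → False := fun x y x0 y0 i b hb nb hW => by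
    refine arc n4 ir {z | ∃ h ∈ H, h • y = z} (fun ⟨h, _, e⟩ => y0 (gsz.1 e)) (fun c hc v hv => ?_)
      (fun h hh v hv => otrans hv ⟨h, hh, rfl⟩) ⟨1, H.one_mem, one_smul _ _⟩
      (κ := {z | z ∈ ln F x y ∧ ∃ h ∈ H, h • y = z}.ncard) (fun a c i' ⟨z, hz, hz'⟩ => ?_) hb hW
    · obtain ⟨z, hz, e⟩ := sc c hc
      exact otrans hv ⟨z, hz, e v⟩
    obtain ⟨j, hj, e⟩ := (LE.iff (b := (x, y)) (a := (a, c)) i').1 (((l2 (a, c) (x, y) b i' i hb).resolve_right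
      (not_or.2 ⟨fun ⟨j, hj, h1, h2⟩ => hW _ (ln_le.2 ⟨h1, h2⟩ (smul_mem_ln j hz')) (otrans hz ⟨j, hj, rfl⟩), nb⟩)))
    rw [← Set.ncard_image_of_injective _ (MulAction.injective j)]
    congr 1; ext u
    refine ⟨?_, fun h => ⟨j⁻¹ • u, ⟨?_, otrans h.2 ⟨_, H.inv_mem hj, rfl⟩⟩, smul_inv_smul j u⟩⟩
    · rintro ⟨u, h, rfl⟩
      exact ⟨e ▸ smul_mem_ln j h.1, otrans h.2 ⟨j, hj, rfl⟩⟩
    · rw [← smul_mem_ln_iff (g := j), smul_inv_smul, e]; exact h.1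
  have id : ∀ x y : V, x ≠ 0 → y ≠ 0 → (¬ ∃ h ∈ H, h • x = y) → Ind F x y := fun x y x0 y0 n => ⟨x0, fun e => by
    obtain ⟨c, rfl⟩ := Submodule.mem_span_singleton.1 e
    obtain ⟨z, hz, e⟩ := sc c (left_ne_zero_of_smul y0)
    exact n ⟨z, hz, e x⟩⟩
  obtain ⟨x, y, x0, y0, n⟩ : ∃ x y : V, x ≠ 0 ∧ y ≠ 0 ∧ ¬ ∃ h ∈ H, h • x = y := by
    by_contra! c
    exact pt c
  have i := id x y x0 y0 n
  obtain ⟨b, hb, nb⟩ : ∃ b : V × V, Ind F b.1 b.2 ∧ ¬ LE F H (x, y) b := by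
    by_contra! c
    exact hab0 (((c a0 ha0).symm i).trans (c b0 hb0))
  have nb' : ¬ LE F H (y, x) b := fun ⟨j, hj, h1, h2⟩ => nb ⟨j, hj, h2, h1⟩
  refine core x y x0 y0 i b hb nb fun y' hy oy => core y x y0 x0 i.symm b hb nb' fun x' hx ox => ?_
  have n' : ∀ {u v}, (∃ h ∈ H, h • x = u) → (∃ h ∈ H, h • y = v) → ¬ ∃ h ∈ H, h • u = v := fun h1 h2 c =>
    n (otrans (otrans h1 c) (osymm h2))
  have x1 : ∃ h ∈ H, h • x = x := ⟨1, H.one_mem, one_smul _ _⟩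
  have y1 : ∃ h ∈ H, h • y = y := ⟨1, H.one_mem, one_smul _ _⟩
  have i' := id x' y' (fun e => by obtain ⟨h, -, rfl⟩ := ox; exact x0 (gsz.1 e))
    (fun e => by obtain ⟨h, -, rfl⟩ := oy; exact y0 (gsz.1 e)) (n' ox oy)
  rcases f3 (x, y) (y, x) (x', y') (y', x') i i.symm i' i'.symm with h | h | h | h | h | h
  exacts [n (h.imp fun _ h => ⟨h.1, h.2.1⟩), nb (h.le.trans (LE.of_mem hx hy)), n' x1 oy (h.imp fun _ h => ⟨h.1, h.2.1⟩),
    n' ox y1 (osymm (h.imp fun _ h => ⟨h.1, h.2.1⟩)), nb' (h.le.trans (LE.of_mem hy hx)),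
    n' ox oy (h.imp fun _ h => ⟨h.1, h.2.1⟩)]

end H5.R3
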