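/-
Rank 3 actions of `PSL_n(q)`: the variance argument, and lines with a distinguished point.
-/
import Cfsg.Agent.H13.R3_1

set_option autoImplicit false
set_option linter.unusedSectionVars false

open Module H13.R3 Finset
namespace H5.R3
universe u
variable {F V G : Type u} [Field F] [Fintype F] [AddCommGroup V] [Module F V] [Finite V]
  [Group G] [DistribMulAction G V] [SMulCommClass G F V] {H J : Subgroup G} {x y : V} {k κ : ℕ}

theorem fc {α : Type*} (s : Finset α) (p : α → Prop) [DecidablePred p] : (s.filter p).card = {a | a ∈ s ∧ p a}.ncard := by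
  rw [← Set.ncard_coe_finset, coe_filter]

theorem var (hx : x ≠ 0) (n3 : finrank F V = k + 3) (Δ : Set V) (h1 : ∀ y ∈ Δ, y ∉ F ∙ x)
    (h2 : ∀ c : F, c ≠ 0 → ∀ y ∈ Δ, c • y ∈ Δ) (hκ : ∀ y ∈ Δ, {z | z ∈ Δ ∧ z ∈ ln F x y}.ncard = κ) {d1 d2 : ℕ}
    (hd : ∀ f : Dual F V, f x = 1 → {z | z ∈ Δ ∧ f z = 0}.ncard = d1 ∨ {z | z ∈ Δ ∧ f z = 0}.ncard = d2) :
    ∃ m1 m2 : ℕ, m1 + m2 = Fintype.card F ^ 2 * Fintype.card F ^ k ∧
      m1 * d1 + m2 * d2 = Δ.ncard * (Fintype.card F * Fintype.card F ^ k) ∧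
      (m1 * d1 ^ 2 + m2 * d2 ^ 2 : ℤ) = Δ.ncard * ((Fintype.card F - 1) * (Fintype.card F * Fintype.card F ^ k) +
        (Δ.ncard - κ) * Fintype.card F ^ k) := by
  classical
  have := Fintype.ofFinite V
  have := Fintype.ofFinite (Dual F V)
  have q0 : 0 < Fintype.card F := Fintype.card_pos
  obtain ⟨D, rfl⟩ : ∃ D : Finset V, Δ = D := ⟨Δ.toFinset, by simp⟩
  obtain ⟨S, hS⟩ : ∃ S : Finset (Dual F V), ∀ f, f ∈ S ↔ f x = 1 := ⟨univ.filter (· x = 1), by simp⟩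
  simp only [mem_coe, ← fc, Set.ncard_coe_finset] at h1 h2 hκ hd ⊢
  have e : ∀ g : ℕ → ℕ, ∑ f ∈ S, g (D.filter (f · = 0)).card = (S.filter fun f => (D.filter (f · = 0)).card = d1).card * g d1 +
      (S.filter fun f => ¬ (D.filter (f · = 0)).card = d1).card * g d2 := fun g => by
    rw [← sum_filter_add_sum_filter_not S fun f => (D.filter (f · = 0)).card = d1, ← smul_eq_mul, ← smul_eq_mul,
      ← sum_const, ← sum_const]
    congr 1 <;> refine sum_congr rfl fun f hf => ?_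
    · rw [(mem_filter.1 hf).2]
    · rw [(hd f ((hS f).1 (mem_filter.1 hf).1)).resolve_left (mem_filter.1 hf).2]
  have c1 : ∀ y ∈ D, (S.filter (· y = 0)).card = Fintype.card F * Fintype.card F ^ k := fun y hy => by
    have := card_dual2 ⟨hx, h1 y hy⟩ (1 : F) 0
    simp only [fc, hS]
    exact Nat.eq_of_mul_eq_mul_right (pow_pos q0 2) (by rw [this, n3]; ring)
  have c2 : ∀ y ∈ D, ∀ z ∈ D, (S.filter fun f => f y = 0 ∧ f z = 0).card =
      if z ∈ ln F x y then (if z ∈ F ∙ y then Fintype.card F * Fintype.card F ^ k else 0) else Fintype.card F ^ k :=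
    fun y hy z hz => by
      split_ifs with a b
      · obtain ⟨c, rfl⟩ := Submodule.mem_span_singleton.1 b
        rw [← c1 y hy]; congr 1
        exact filter_congr fun f _ => ⟨fun h => h.1, fun h => ⟨h, by simp [h]⟩⟩
      · obtain ⟨s, t, rfl⟩ := mem_ln.1 a
        refine card_eq_zero.2 (filter_eq_empty_iff.2 fun f hf h => b (Submodule.mem_span_singleton.2 ⟨t, ?_⟩))
        have : s = 0 := by simpa [h.1, (hS f).1 hf] using h.2
        simp [this]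
      · have := card_dual3 ⟨⟨hx, h1 y hy⟩, a⟩ (1 : F) 0 0
        simp only [fc, hS]
        exact Nat.eq_of_mul_eq_mul_right (pow_pos q0 3) (by rw [this, n3]; ring)
  have c3 : ∀ y ∈ D, (∑ z ∈ D, (S.filter fun f => f y = 0 ∧ f z = 0).card : ℤ) =
      (Fintype.card F - 1) * (Fintype.card F * Fintype.card F ^ k) + (D.card - κ) * Fintype.card F ^ k := fun y hy => by
    have y0 : y ≠ 0 := Ind.ne0 ⟨hx, h1 y hy⟩
    have e1 := ncard_ne0 (F ∙ y)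
    rw [finrank_span_singleton y0, pow_one] at e1
    have e2 : ((D.filter (· ∈ ln F x y)).filter (· ∈ F ∙ y)).card = Fintype.card F - 1 := by
      rw [fc, ← e1]; congr 1; ext z
      refine ⟨fun h => ⟨h.2, Ind.ne0 ⟨hx, h1 z (mem_filter.1 h.1).1⟩⟩, fun h => ⟨?_, h.1⟩⟩
      obtain ⟨c, rfl⟩ := Submodule.mem_span_singleton.1 h.1
      exact mem_filter.2 ⟨h2 c (left_ne_zero_of_smul h.2) y hy, Submodule.smul_mem _ _ r_ln⟩
    have e3 := card_filter_add_card_filter_not (s := D) (· ∈ ln F x y)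
    rw [← Nat.cast_sum, sum_congr rfl (c2 y hy), sum_ite, sum_ite, sum_const, sum_const, sum_const, e2, ← e3, hκ y hy]
    simp [Nat.cast_sub q0]
  refine ⟨_, _, ?_, (e id).symm.trans ?_, ?_⟩
  · have := card_dual1 (F := F) hx 1
    rw [card_filter_add_card_filter_not, ← Set.ncard_coe_finset, show (S : Set (Dual F V)) = {f | f x = 1} from Set.ext hS]
    exact Nat.eq_of_mul_eq_mul_right q0 (by rw [this, n3]; ring)
  · simp only [id, card_filter]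
    rw [sum_comm, ← smul_eq_mul, ← sum_const]
    exact sum_congr rfl fun y hy => by rw [← c1 y hy, card_filter]
  · have := congrArg (Nat.cast : ℕ → ℤ) (e (· ^ 2))
    simp only [Nat.cast_add, Nat.cast_mul, Nat.cast_pow, Nat.cast_sum] at this
    rw [← this, ← nsmul_eq_mul, ← sum_const, ← sum_congr rfl c3]
    simp only [card_filter, sq, sum_mul_sum, Nat.cast_sum]
    rw [sum_comm]
    refine sum_congr rfl fun y _ => sum_comm.trans (sum_congr rfl fun z _ => sum_congr rfl fun f _ => ?_)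
    by_cases a : f y = 0 <;> by_cases b : f z = 0 <;> simp [a, b]

theorem two_val [Finite G] (hx : x ≠ 0) (hJ : J ≤ St G (F ∙ x)) (Δ : Set V) (hΔ : ∀ j ∈ J, ∀ y ∈ Δ, j • y ∈ Δ)
    (h : nos J (Set.univ : Set V) ≤ nos (J.subgroupOf (St G (F ∙ x))) (Set.univ : Set (V ⧸ F ∙ x)) + 2) :
    ∃ d1 d2, ∀ f : Dual F V, f x = 1 → {z | z ∈ Δ ∧ f z = 0}.ncard = d1 ∨ {z | z ∈ Δ ∧ f z = 0}.ncard = d2 := by
  have e := nos_off hJ
  obtain ⟨f0, h0⟩ := ex_dual1 (F := F) hx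
  obtain ⟨a, b, -, -, hab⟩ := (le2_of_nos (J := J) (S := {f : Dual F V | f ∉ (F ∙ x).dualAnnihilator}) (by omega)).two
    ⟨f0, notMem_ann_sp.2 (by simp [h0])⟩
  have k : ∀ a f : Dual F V, (∃ j ∈ J, j • a = f) → {z | z ∈ Δ ∧ f z = 0}.ncard = {z | z ∈ Δ ∧ a z = 0}.ncard := by
    rintro a _ ⟨j, hj, rfl⟩
    rw [← Set.ncard_image_of_injective _ (MulAction.injective j⁻¹)]
    congr 1; ext z
    refine ⟨?_, fun h => ⟨j • z, ⟨hΔ j hj z h.1, by simpa using h.2⟩, inv_smul_smul j z⟩⟩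
    rintro ⟨z, h, rfl⟩
    exact ⟨hΔ _ (J.inv_mem hj) z h.1, h.2⟩
  exact ⟨_, _, fun f hf => (hab f (notMem_ann_sp.2 (by simp [hf]))).imp (k a f) (k b f)⟩

theorem qcj {W : Submodule F V} {a b : V} {j : St G W}
    (e : j • (Submodule.Quotient.mk a : V ⧸ W) = Submodule.Quotient.mk b) : (j : G) • a - b ∈ W := by
  rwa [qsmul_mk, Submodule.Quotient.eq] at e

theorem c2 : C2.{u} := by
  intro F V G _ _ _ _ _ _ _ _ _ H x y n3 sc pt le i un af
  obtain ⟨Γ, hΓ⟩ : ∃ Γ : V → V → Prop, ∀ u w, Γ u w ↔ ∃ h ∈ H, h • x = u ∧ h • y = w := ⟨_, fun _ _ => Iff.rfl⟩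
  have Gi : ∀ {u w}, Γ u w → Ind F u w := fun h => by obtain ⟨l, -, rfl, rfl⟩ := (hΓ _ _).1 h; exact i.smul l
  have Gs : ∀ {u w}, Γ u w → ∀ g ∈ H, Γ (g • u) (g • w) := fun h g hg => by
    obtain ⟨l, hh, rfl, rfl⟩ := (hΓ _ _).1 h
    exact (hΓ _ _).2 ⟨g * l, H.mul_mem hg hh, mul_smul _ _ _, mul_smul _ _ _⟩
  have Gt : ∀ {u w u' w'}, Γ u w → Γ u' w' → ∃ g ∈ H, g • u = u' ∧ g • w = w' := fun h h' => by
    obtain ⟨l, hh, rfl, rfl⟩ := (hΓ _ _).1 h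
    obtain ⟨l', hh', rfl, rfl⟩ := (hΓ _ _).1 h'
    exact ⟨l' * l⁻¹, H.mul_mem hh' (H.inv_mem hh), by simp [mul_smul], by simp [mul_smul]⟩
  have K : ∀ {u w}, Γ u w → ∀ a b c : F, a ≠ 0 → b ≠ 0 → Γ (a • u) (c • u + b • w) := fun h a b c ha hb => by
    obtain ⟨l, hh, rfl, rfl⟩ := (hΓ _ _).1 h
    obtain ⟨z, hz, e⟩ := sc b hb
    obtain ⟨j, hj, e1, e2⟩ := af (a / b) (c / b) (div_ne_zero ha hb)
    refine (hΓ _ _).2 ⟨l * z * j, H.mul_mem (H.mul_mem hh hz) hj, ?_, ?_⟩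
    · rw [mul_smul, mul_smul, e1, e, smul_smul b, mul_div_cancel₀ _ hb, gsc]
    · rw [mul_smul, mul_smul, e2, e, smul_add, smul_smul b, mul_div_cancel₀ _ hb, smul_add, gsc, gsc, add_comm]
  have K' : ∀ {u w u' w'}, Γ u w → Ind F u' w' → u' ∈ F ∙ u → w' ∈ ln F u w → Γ u' w' := fun h i' h1 h2 => by
    obtain ⟨a, rfl⟩ := Submodule.mem_span_singleton.1 h1
    obtain ⟨c, b, rfl⟩ := mem_ln.1 h2
    refine K h a b c (left_ne_zero_of_smul i'.1) fun e => i'.2 ((sp_eq i'.1 h1).ge ?_)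
    rw [e, zero_smul, add_zero]; exact Submodule.smul_mem _ _ (Submodule.mem_span_singleton_self _)
  have U : ∀ {u w u' w'}, Γ u w → Γ u' w' → u' ∈ ln F u w → w' ∈ ln F u w → u' ∈ F ∙ u := fun h h' h1 h2 => by
    obtain ⟨l, hh, rfl, rfl⟩ := (hΓ _ _).1 h
    obtain ⟨l', hh', rfl, rfl⟩ := (hΓ _ _).1 h'
    rw [← smul_inv_smul l (l' • x), ← mul_smul l⁻¹] at h1 ⊢
    rw [← smul_inv_smul l (l' • y), ← mul_smul l⁻¹] at h2
    exact smul_mem_sp l (un _ (H.mul_mem (H.inv_mem hh) hh') (smul_mem_ln_iff.1 h1) (smul_mem_ln_iff.1 h2))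
  have G0 : Γ x y := (hΓ _ _).2 ⟨1, H.one_mem, one_smul _ _, one_smul _ _⟩
  have xs := Submodule.mem_span_singleton_self (R := F) (M := V)
  have cl : ∀ w, w ∉ F ∙ x → Γ x w ∨ ∃ u, ∃ s : F, Γ u x ∧ w = u + s • x := fun w hw => by
    obtain ⟨j, hj, e⟩ := (LE.iff (a := (x, y)) (b := (x, w)) i).1 (le _ _ i ⟨i.1, hw⟩)
    have g := Gs G0 j hj
    by_cases c : x ∈ F ∙ j • x
    · exact .inl (K' g ⟨i.1, hw⟩ c (e.ge r_ln))
    have g' := K' g ⟨(Gi g).1, c⟩ (xs _) (e.ge l_ln)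
    obtain ⟨a, b, rfl⟩ := mem_ln.1 ((ln_eq (Gi g') l_ln (e.ge l_ln)).ge (e.ge r_ln))
    have a0 : a ≠ 0 := fun c => hw (by rw [c, zero_smul, zero_add]; exact Submodule.smul_mem _ _ (xs x))
    exact .inr ⟨_, b, by simpa using K g' a 1 0 a0 one_ne_zero, rfl⟩
  obtain ⟨g0, hg0, e0⟩ := pt y x i.ne0 i.1
  have g1 := Gs G0 g0 hg0
  rw [e0] at g1
  generalize g0 • x = u0 at g1
  have nb : ∀ {u w}, Γ u x → Γ x w → u ∉ ln F x w := fun h h' c => (Gi h).symm.2 (U h' h c l_ln)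
  have hΔ : ∀ j ∈ H ⊓ St G (F ∙ x), ∀ u, Γ u x → Γ (j • u) x := fun j hj u h =>
    K' (Gs h j hj.1) ⟨(Gi (Gs h j hj.1)).1, fun c => (Gi h).symm.2 ((hj.2 u).1 ((sp_eq i.1 c).ge (xs _)))⟩ (xs _)
      ((Submodule.span_singleton_le_iff_mem _ _).2 r_ln ((sp_eq (fun c => i.1 (gsz.1 c)) ((hj.2 x).2 (xs x))).ge (xs x)))
  obtain ⟨d1, d2, hd⟩ := two_val i.1 (J := H ⊓ St G (F ∙ x)) inf_le_right {u | Γ u x} hΔ (by
    refine (nos_le {0, x, y, u0, u0 + x} fun w _ => ?_).trans (le_trans (b := 5) ?_ (Nat.add_le_add_right (n := 3) ?_ 2))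
    · have st : ∀ {g : G} (c : F), g • x = c • x → g ∈ St G (F ∙ x) := fun c e =>
        mem_St_sp (e ▸ Submodule.smul_mem _ _ (xs x))
      by_cases c' : w ∈ F ∙ x
      · obtain ⟨c, rfl⟩ := Submodule.mem_span_singleton.1 c'
        by_cases c0 : c = 0
        · exact ⟨0, by simp, 1, one_mem _, by simp [c0]⟩
        · exact let ⟨z, hz, e⟩ := sc.mem_St (F ∙ x) c0; ⟨x, by simp, z, hz, e x⟩
      rcases cl w c' with h | ⟨u, s, h, rfl⟩
      · exact let ⟨g, hg, e1, e2⟩ := Gt G0 h; ⟨y, by simp, g, ⟨hg, st 1 (by rwa [one_smul])⟩, e2⟩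
      by_cases s0 : s = 0
      · exact let ⟨g, hg, e1, e2⟩ := Gt g1 h; ⟨u0, by simp, g, ⟨hg, st 1 (by rwa [one_smul])⟩, by simp [s0, e1]⟩
      · obtain ⟨g, hg, e1, e2⟩ := Gt g1 (K h 1 s 0 one_ne_zero s0)
        simp only [one_smul, zero_smul, zero_add] at e1 e2
        exact ⟨u0 + x, by simp, g, ⟨hg, st s e2⟩, by rw [smul_add, e1, e2]⟩
    · iterate 4 refine (Set.ncard_insert_le _ _).trans (Nat.succ_le_succ ?_)
      exact (Set.ncard_singleton _).le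
    have n1 : ∀ {w}, w ∉ F ∙ x → (Submodule.Quotient.mk w : V ⧸ F ∙ x) ≠ 0 := fun h c =>
      h ((Submodule.Quotient.mk_eq_zero _).1 c)
    have n2 : ∀ j ∈ (H ⊓ St G (F ∙ x)).subgroupOf (St G (F ∙ x)),
        j • (Submodule.Quotient.mk u0 : V ⧸ F ∙ x) ≠ Submodule.Quotient.mk y := fun j hj c =>
      nb (hΔ j hj u0 g1) G0 (by simpa using add_mem (sp_le_ln (y := y) (qcj c)) r_ln)
    refine (Set.ncard_eq_three.2 ⟨_, _, _, (n1 i.2).symm, (n1 (Gi g1).symm.2).symm,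
      fun c => n2 1 (one_mem _) (by rw [one_smul, c]), rfl⟩).ge.trans (le_nos _ (Set.subset_univ _) ?_)
    rintro _ (rfl | rfl | rfl) _ (rfl | rfl | rfl) j hj e
    exacts [rfl, (smul_zero j).symm.trans e, (smul_zero j).symm.trans e, gsz.1 e, rfl,
      (n2 _ (inv_mem hj) (inv_smul_eq_iff.2 e.symm)).elim, gsz.1 e, (n2 j hj e).elim, rfl])
  obtain ⟨k, hk⟩ := Nat.exists_eq_add_of_le' n3
  obtain ⟨m1, m2, e1, e2, e3⟩ := var (κ := Fintype.card F - 1) i.1 hk {u | Γ u x} (fun u h => (Gi h).symm.2)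
    (fun c hc u h => by simpa using K h c 1 0 hc one_ne_zero) (fun u h => by
      have := ncard_ne0 (F ∙ u)
      rw [finrank_span_singleton (Gi h).1, pow_one] at this
      rw [← this]; congr 1; ext z
      exact ⟨fun hz => ⟨U h hz.1 ((ln_comm x u).le hz.2) r_ln, (Gi hz.1).1⟩, fun hz => ⟨K' h ⟨hz.2, fun c => (Gi h).2
        ((sp_eq hz.2 hz.1).le c)⟩ hz.1 r_ln, (ln_comm u x).le (sp_le_ln hz.1)⟩⟩) hd
  have cj : ∀ (R : V → V → Prop), (∀ g ∈ H, ∀ u w, R u w → R (g • u) (g • w)) → (∀ u w, R u w → w ≠ 0) →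
      ∀ v, v ≠ 0 → {w | w ∈ {w | w ≠ 0} ∧ R v w}.ncard = {w | R x w}.ncard := fun R hR h0 v hv => by
    obtain ⟨g, hg, rfl⟩ := pt x v i.1 hv
    rw [← Set.ncard_image_of_injective {w | R x w} (MulAction.injective g)]
    congr 1; ext w
    refine ⟨fun h => ⟨g⁻¹ • w, by simpa using hR _ (H.inv_mem hg) _ _ h.2, smul_inv_smul g w⟩, ?_⟩
    rintro ⟨w, h, rfl⟩
    exact ⟨h0 _ _ (hR g hg _ _ h), hR g hg _ _ h⟩
  have e4 := Nat.eq_of_mul_eq_mul_left ((Set.ncard_pos (Set.toFinite _)).2 ⟨x, i.1⟩)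
    (dcount {w | w ≠ 0} {w | w ≠ 0} Γ (cj Γ (fun g hg _ _ h => Gs h g hg) fun _ _ h => (Gi h).ne0)
      (cj (fun u w => Γ w u) (fun g hg _ _ h => Gs h g hg) fun _ _ h => (Gi h).1))
  have e5 := ncard_compl (F ∙ x)
  rw [finrank_span_singleton i.1, pow_one, hk, show {u | u ∉ F ∙ x} = {w | Γ x w} ∪
      (fun a : V × F => a.1 + a.2 • x) '' ({u | Γ u x} ×ˢ Set.univ) from Set.ext fun w => ⟨fun h => (cl w h).imp_right
        fun ⟨u, s, h, e⟩ => ⟨(u, s), ⟨h, trivial⟩, e.symm⟩, ?_⟩, Set.ncard_union_eq (Set.disjoint_left.2 ?_),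
    Set.InjOn.ncard_image ?_, Set.ncard_prod, Set.ncard_univ, Nat.card_eq_fintype_card, e4] at e5
  · have q2 := q2 F
    generalize Set.ncard _ = D at e2 e3 e5
    generalize Fintype.card F = q at *
    zify [show q ≤ q ^ (k + 3) from Nat.le_self_pow (by omega) q, show 1 ≤ q by omega] at e1 e2 e3 e5 q2
    have q0 : (q : ℤ) ≠ 0 := by omega
    obtain ⟨D', e6⟩ : (q : ℤ) ∣ D := ⟨q ^ (k + 2) - 1 - D, by linear_combination e5⟩
    rw [e6] at e2 e3 e5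
    have e7 : (q : ℤ) * q ^ k * (q * (D' * (q - 1) + D' * D' - D' - (d1 + d2) * D' + d1 * d2) + D') = 0 := by
      linear_combination -e3 + (d1 + d2) * e2 - d1 * d2 * e1
    obtain ⟨c, rfl⟩ : (q : ℤ) ∣ D' := ⟨-(D' * (q - 1) + D' * D' - D' - (d1 + d2) * D' + d1 * d2), by
      linear_combination (mul_eq_zero.1 e7).resolve_left (mul_ne_zero q0 (pow_ne_zero _ q0))⟩
    have := Int.le_of_dvd one_pos (⟨q ^ (k + 1) - c - q * c, mul_left_cancel₀ q0 (by linear_combination e5)⟩ : (q : ℤ) ∣ 1)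
    omega
  · rintro ⟨u, s⟩ h ⟨u', s'⟩ h' (e : u + s • x = u' + s' • x)
    obtain ⟨c, rfl⟩ := Submodule.mem_span_singleton.1 (U h.1 h'.1 (mem_ln.2 ⟨1, s - s', by
      rw [one_smul, sub_smul, ← add_sub_assoc, e, add_sub_cancel_right]⟩) r_ln)
    obtain ⟨h1, h2⟩ := ind_iff.1 (Gi h.1) (1 - c) (s - s') (by
      rw [sub_smul, sub_smul, one_smul, sub_add_sub_comm, e, sub_self])
    rw [← sub_eq_zero.1 h1, sub_eq_zero.1 h2, one_smul]
  · rintro _ h ⟨⟨u, s⟩, h', rfl⟩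
    exact nb h'.1 h (mem_ln.2 ⟨-s, 1, by simp⟩)
  · rintro (h | ⟨⟨u, s⟩, h, rfl⟩)
    exacts [(Gi h).2, fun c => (Gi h.1).symm.2 ((add_mem_cancel_right (Submodule.smul_mem _ _ (xs x))).1 c)]

end H5.R3
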