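/-
Rank 3 actions of `PSL_n(q)`: the flag-transitive case.
-/
import Cfsg.Agent.H5.R34
import Cfsg.Agent.H5.R32

set_option autoImplicit false
set_option linter.unusedSectionVars false

open Module H13.R3 Finset
namespace H5.R3
universe u
variable {F V G : Type u} [Field F] [Fintype F] [AddCommGroup V] [Module F V] [Finite V]
  [Group G] [DistribMulAction G V] [SMulCommClass G F V] {H : Subgroup G} {x y : V} {l m l' m' : F}

theorem ar {a q τ u : ℕ} (hτ : 0 < τ) (h1 : τ * u + 1 = a * q) (h2 : τ ∣ a - 1) (h3 : q * u - 1 ∣ (a * q + 1) * τ)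
    (hq : 1 < q) : (a = 1 ∧ (τ = 1 → q = 2)) ∨ (a = 2 ∧ q = 2 ∧ τ = 1) := by
  have ha : 1 ≤ a := Nat.pos_of_ne_zero fun e => by simp [e] at h1
  have hu : 1 ≤ u := Nat.pos_of_ne_zero fun e => by rw [e] at h1; nlinarith
  obtain ⟨w, hw⟩ := h3
  obtain ⟨k, hk⟩ := h2
  zify [show 1 ≤ q * u by nlinarith, ha] at hw hk h1 hq hu hτ ha ⊢
  obtain ⟨c, hc⟩ : ∃ c : ℤ, c = u * w - a * τ := ⟨_, rfl⟩
  have e1 : τ + w = q * c := by rw [hc]; linear_combination hw
  have c0 : 0 < c := by nlinarith [Int.natCast_nonneg w]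
  have e2 : c * (q * u - 1) = a * (τ + q) - 1 := by linear_combination (-u) * e1 - hc + h1
  by_cases k0 : k = 0
  · have : (a : ℤ) = 1 := by rw [k0] at hk; simpa [sub_eq_zero] using hk
    refine .inl ⟨this, fun t => ?_⟩
    rw [this, t] at e2 h1
    have : (u : ℤ) = q - 1 := by linarith
    rw [this] at e2
    have : (q : ℤ) * (q - 1) - 1 ≤ q := by nlinarith [mul_nonneg (sub_nonneg.2 c0) (show 0 ≤ (q : ℤ) * (q - 1) - 1 by nlinarith)]
    nlinarith
  have k1 : (1 : ℤ) ≤ k := by omega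
  obtain ⟨l, hl⟩ : ∃ l : ℤ, l = u - q * k := ⟨_, rfl⟩
  have e3 : (q : ℤ) = τ * l + 1 := by rw [hl]; linear_combination -h1 - q * hk
  have l1 : 1 ≤ l := by nlinarith
  have e4 : (τ : ℤ) + 1 ≤ q := by nlinarith
  have e5 : (a : ℤ) + 1 ≤ u := by nlinarith
  obtain rfl : c = 1 := by
    by_contra c1
    have : 2 * ((q : ℤ) * u - 1) ≤ c * (q * u - 1) := mul_le_mul_of_nonneg_right (by omega) (by nlinarith)
    nlinarith [mul_le_mul_of_nonneg_left e5 (show (0 : ℤ) ≤ q by omega), mul_le_mul_of_nonneg_left e4 (show (0 : ℤ) ≤ a by omega)]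
  have e6 : k * ((q : ℤ) ^ 2 - q * τ - τ ^ 2) = τ + q * (1 - l) := by
    linear_combination e2 + (τ + q) * hk + q * hl
  obtain rfl : l = 1 := by
    by_contra c1
    have : (2 : ℤ) * τ + 1 ≤ q := by nlinarith [show 2 ≤ l by omega]
    have : 0 < (q : ℤ) ^ 2 - q * τ - τ ^ 2 := by nlinarith
    nlinarith [show 2 ≤ l by omega]
  rw [e3] at e6
  have t1 : (τ : ℤ) = 1 := by
    by_contra c1
    have : (τ : ℤ) + 1 - τ ^ 2 < 0 := by nlinarith [show (2 : ℤ) ≤ τ by omega]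
    nlinarith
  rw [t1] at e6 e3 hk
  exact .inr ⟨by linarith, by linarith, t1⟩

theorem sdv {A : Type*} [CommGroup A] (T : Subgroup A) (W : Set A) (h : ∀ t ∈ T, ∀ w ∈ W, w * t ∈ W) :
    Nat.card T ∣ W.ncard := by
  rw [show W = QuotientGroup.mk ⁻¹' (QuotientGroup.mk '' W : Set (A ⧸ T)) from Set.ext fun w => ⟨fun hw => ⟨w, hw, rfl⟩,
    fun ⟨v, hv, e⟩ => by simpa using h _ (QuotientGroup.eq.1 e) v hv⟩, ← Nat.card_coe_set_eq, QuotientGroup.card_preimage_mk]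
  exact dvd_mul_right _ _

theorem am (h : (l, m) ∈ Aff F H x y) (h' : (l', m') ∈ Aff F H x y) : (l * l', m + m' * l) ∈ Aff F H x y := by
  obtain ⟨j, hj, e1, e2⟩ := h
  obtain ⟨j', hj', e1', e2'⟩ := h'
  exact ⟨j * j', H.mul_mem hj hj', by rw [mul_smul, e1', gsc, e1, smul_smul l', mul_comm],
    by rw [mul_smul, e2', smul_add, gsc, e1, e2, smul_smul m', add_smul, add_assoc]⟩
theorem a0 (hx : x ≠ 0) (h : (l, m) ∈ Aff F H x y) : l ≠ 0 := by
  obtain ⟨j, -, e1, -⟩ := h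
  exact left_ne_zero_of_smul (e1 ▸ fun c => hx (gsz.1 c))
theorem ai (hx : x ≠ 0) (h : (l, m) ∈ Aff F H x y) : (l⁻¹, -(m * l⁻¹)) ∈ Aff F H x y := by
  have l0 := a0 hx h
  obtain ⟨j, hj, e1, e2⟩ := h
  exact ⟨j⁻¹, H.inv_mem hj, by rw [inv_smul_eq_iff, gsc, e1, inv_smul_smul₀ l0],
    by rw [inv_smul_eq_iff, smul_add, gsc, e1, e2, smul_smul (-_), neg_mul, inv_mul_cancel_right₀ l0]; simp⟩
theorem a1 : ((1 : F), (0 : F)) ∈ Aff F H x y := ⟨1, H.one_mem, by simp, by simp⟩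

theorem nop [Finite G] {p : ℕ} [Fact p.Prime] [CharP F p] (fa : ∀ g : G, (∀ v : V, g • v = v) → g = 1)
    (fe : ∀ a b : V × V, Ind F a.1 a.2 → Ind F b.1 b.2 → FE F H a b) (i : Ind F x y)
    (h : ∀ m, ((1 : F), m) ∈ Aff F H x y → m = 0) : ¬ p ∣ Nat.card H := fun c => by
  obtain ⟨g, hg, og⟩ := H19.exists_orderOf_eq_prime Fact.out c
  have st : g ∈ St G (fx F V g) := mem_St_of fun u hu => (show g • u = u from hu).symm ▸ hu
  obtain ⟨v, v0, hv⟩ := pfix (F := F) (V := V ⧸ fx F V g) (P := Subgroup.zpowers (⟨g, st⟩ : St G (fx F V g)))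
    (IsPGroup.of_card (n := 1) (by rw [Nat.card_zpowers, pow_one, ← og, Subgroup.orderOf_mk])) (by
      have := (fx F V g).finrank_quotient_add_finrank
      have := (fx F V g).finrank_lt fun e => (Fact.out : p.Prime).ne_one (by
        rw [← og, fa g fun v => (e.ge trivial : v ∈ fx F V g), orderOf_one])
      omega)
  obtain ⟨v, rfl⟩ := Submodule.Quotient.mk_surjective _ v
  have e : g • v - v ∈ fx F V g := qcj (hv _ (Subgroup.mem_zpowers _))
  have n : v ∉ fx F V g := fun c => v0 ((Submodule.Quotient.mk_eq_zero _).2 c)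
  obtain ⟨j, hj, e1, e2⟩ := fe (g • v - v, v) (x, y) ⟨fun c => n (sub_eq_zero.1 c), fun c =>
    n ((Submodule.span_singleton_le_iff_mem _ _).2 e c)⟩ i
  obtain ⟨a, b, e2⟩ := mem_ln.1 e2
  dsimp only at e1 e2
  have e3 : (j * g * j⁻¹) • x = x := by rw [← e1, mul_smul, inv_smul_smul, mul_smul, show g • _ = _ from e]
  have e4 : (j * g * j⁻¹) • (a • x + b • y) = a • x + b • y + x := by
    rw [e2, mul_smul, inv_smul_smul, mul_smul, ← e1, ← smul_add, add_sub_cancel]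
  rw [smul_add, gsc, gsc, e3, add_assoc, add_right_inj] at e4
  have b0 : b ≠ 0 := fun c => i.1 (by simpa [c] using e4.symm)
  exact inv_ne_zero b0 (h _ ⟨_, H.mul_mem (H.mul_mem hj hg) (H.inv_mem hj), by rwa [one_smul], by
    rw [← inv_smul_smul₀ b0 (_ • y), e4, smul_add, inv_smul_smul₀ b0]⟩)

theorem pol [Finite G] (n3 : 3 ≤ finrank F V) (sc : Sc F V H)
    (fe : ∀ a b : V × V, Ind F a.1 a.2 → Ind F b.1 b.2 → FE F H a b) (i : Ind F x y) {p : ℕ} [CharP F p]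
    (hp : ¬ p ∣ Nat.card H) (h : (l, m) ∈ Aff F H x y) (l1 : l ≠ 1) : False := by
  classical
  have := Fintype.ofFinite V
  have := Fintype.ofFinite H
  obtain ⟨f, hf⟩ := ex_dual1 (F := F) i.1
  obtain ⟨φ, hφ⟩ : ∃ φ : V → Dual F V, ∀ v, φ v = ∑ h : H, if (h : G) • x = v then (h : G) • f else 0 := ⟨_, fun _ => rfl⟩
  have eq : ∀ k ∈ H, ∀ v, φ (k • v) = k • φ v := fun k hk v => by
    rw [hφ, hφ, smul_sum]
    refine (Fintype.sum_equiv (Equiv.mulLeft (⟨k, hk⟩ : H)) _ _ fun h => ?_).symm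
    simp only [Equiv.coe_mulLeft, Subgroup.coe_mul, mul_smul, smul_left_cancel_iff, smul_ite, smul_zero]
  have eq' : ∀ k ∈ H, ∀ v w, φ (k • v) (k • w) = φ v w := fun k hk v w => by rw [eq k hk, dsmul_smul]
  have p0 : φ 0 = 0 := by rw [hφ]; exact sum_eq_zero fun h _ => if_neg fun c => i.1 (gsz.1 c)
  have p1 : φ x x ≠ 0 := by
    rw [hφ, LinearMap.sum_apply, sum_congr rfl (g := fun h : H => if h ∈ MulAction.stabilizer H x then 1 else 0) fun h _ => ?_,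
      sum_boole, ← Fintype.card_subtype, ← Nat.card_eq_fintype_card]
    · exact fun c => hp (((CharP.cast_eq_zero_iff F p _).1 c).trans (Subgroup.card_subgroup_dvd_card _))
    by_cases c : (h : G) • x = x
    · rw [if_pos c, if_pos (show h ∈ _ from c), ← hf, ← dsmul_smul (h : G) f x, c]
    · rw [if_neg c, if_neg (show h ∉ _ from c), LinearMap.zero_apply]
  have p2 : ∀ v, v ≠ 0 → φ v v ≠ 0 := fun v hv => by
    obtain ⟨w, hw⟩ := ex_notMem' (A := F ∙ v) (by rw [finrank_span_singleton hv]; omega)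
    obtain ⟨j, hj, e, -⟩ := fe (x, y) (v, w) i ⟨hv, hw⟩
    rwa [← show j • x = v from e, eq' j hj]
  have sy : ∀ v w, φ v w = 0 → φ w v = 0 := fun v w e => by
    by_cases hv : v = 0
    · rw [hv, map_zero]
    by_cases hw : w ∈ F ∙ v
    · obtain ⟨c, rfl⟩ := Submodule.mem_span_singleton.1 hw
      rw [map_smul, smul_eq_zero, or_iff_left (p2 v hv)] at e
      rw [e, zero_smul, p0, LinearMap.zero_apply]
    obtain ⟨j, hj, e1, e2⟩ := fe (v, w) (x, y) ⟨hv, hw⟩ i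
    obtain ⟨a, b, e2⟩ := mem_ln.1 e2
    dsimp only at e1 e2
    rw [← eq' j hj, e1, ← e2] at e ⊢
    have l0 := a0 i.1 h
    obtain ⟨g, hg, g1, g2⟩ := h
    obtain ⟨z, hz, z1⟩ := sc l l0
    dsimp only at g1 g2
    have k1 : g • (a • x + b • y) = a • x + b • y + (a * (l - 1) + b * m) • x := by
      rw [smul_add, gsc, gsc, g1, g2]; module
    have k2 := (eq' g hg x _).trans e
    rw [g1, ← z1, eq z hz, dsmul_sc l0 z1, k1, LinearMap.smul_apply, map_add, e, zero_add, map_smul, smul_eq_zero,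
      smul_eq_zero, or_iff_right (inv_ne_zero l0), or_iff_left p1] at k2
    rw [k2, zero_smul, add_zero] at k1
    have k3 := eq' g hg (a • x + b • y) x
    rw [k1, g1, map_smul, smul_eq_mul] at k3
    exact (mul_eq_zero.1 (show (l - 1) * _ = 0 by linear_combination k3)).resolve_left (sub_ne_zero.2 l1)
  have z : ∀ U : Submodule F V, 0 < finrank F U → ∑ u : V, (if u ∈ U then 1 else 0 : F) = 0 := fun U hU => by
    rw [sum_boole, ← Fintype.card_subtype, ← Nat.card_eq_fintype_card, cardS, Nat.cast_pow, FiniteField.cast_card_eq_zero,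
      zero_pow hU.ne']
  have kr : ∀ v, finrank F V ≤ finrank F (LinearMap.ker (φ v)) + 1 := fun v => by
    by_cases c : φ v = 0
    · rw [c, LinearMap.ker_zero, finrank_top]; omega
    · exact (finrank_ker c).ge
  let M : Matrix V V F := fun v w => 1 - if w ∈ LinearMap.ker (φ v) then 1 else 0
  have t := Matrix.isNilpotent_trace_of_isNilpotent (M := M) ⟨2, by
    ext v w
    have := kr v
    have := kr w
    have := Submodule.finrank_sup_add_finrank_inf_eq (LinearMap.ker (φ v)) (LinearMap.ker (φ w))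
    have := Submodule.finrank_le (LinearMap.ker (φ v) ⊔ LinearMap.ker (φ w))
    have e : ∑ u, M v u * M u w = ∑ u : V, (if u ∈ (⊤ : Submodule F V) then 1 else 0 : F) -
        ∑ u : V, (if u ∈ LinearMap.ker (φ v) then 1 else 0 : F) - ∑ u : V, (if u ∈ LinearMap.ker (φ w) then 1 else 0 : F) +
        ∑ u : V, (if u ∈ LinearMap.ker (φ v) ⊓ LinearMap.ker (φ w) then 1 else 0 : F) := by
      rw [← sum_sub_distrib, ← sum_sub_distrib, ← sum_add_distrib]
      refine sum_congr rfl fun u _ => ?_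
      have : φ u w = 0 ↔ φ w u = 0 := ⟨sy _ _, sy _ _⟩
      by_cases a : φ v u = 0 <;> by_cases b : φ w u = 0 <;> simp [M, this, a, b]
    rw [sq, Matrix.mul_apply, Matrix.zero_apply, e]
    convert (show (0 : F) - 0 - 0 + 0 = 0 by ring) using 3
    · congr 1
      exacts [z ⊤ (by rw [finrank_top]; omega), z _ (by omega)]
    exacts [z _ (by omega), z _ (by omega)]⟩
  rw [isNilpotent_iff_eq_zero, Matrix.trace, Fintype.sum_eq_add_sum_subtype_ne _ 0] at t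
  have t' := z ⊤ (by rw [finrank_top]; omega)
  rw [Fintype.sum_eq_add_sum_subtype_ne _ 0] at t'
  rw [sum_congr rfl (g := fun _ => 1) fun v _ => by simp [M, Matrix.diag, p2 v.1 v.2]] at t
  simp only [Submodule.mem_top, if_true, t, Matrix.diag, M, Submodule.zero_mem, sub_self, zero_add] at t t'
  simp [t] at t'

theorem f4 [Finite G] (n3 : 3 ≤ finrank F V) (sc : Sc F V H)
    (fe : ∀ a b : V × V, Ind F a.1 a.2 → Ind F b.1 b.2 → FE F H a b) (i : Ind F x y) (q4 : Fintype.card F = 4)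
    (U : AddSubgroup F) (hU : ∀ m, m ∈ U ↔ ((1 : F), m) ∈ Aff F H x y) (c2 : Nat.card U = 2)
    (h1 : ∀ l m, (l, m) ∈ Aff F H x y → l = 1) : False := by
  have xs := Submodule.mem_span_singleton_self (R := F) (M := V)
  have st : ∀ {g : G} (c : F), g • x = c • x → g ∈ St G (F ∙ x) := fun c e => mem_St_sp (e ▸ Submodule.smul_mem _ _ (xs x))
  obtain ⟨J, hJ⟩ : ∃ J, J = H ⊓ St G (F ∙ x) := ⟨_, rfl⟩
  have scJ : ∀ c : F, c ≠ 0 → ∃ z ∈ J, ∀ u : V, z • u = c • u := fun c hc => hJ ▸ sc.mem_St _ hc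
  have A : ∀ w, w ∉ F ∙ x → ∃ j ∈ J, ∃ s : F, j • w = y + s • x := fun w hw => by
    obtain ⟨j, hj, e1, e2⟩ := fe (x, w) (x, y) ⟨i.1, hw⟩ i
    obtain ⟨a, b, e2⟩ := mem_ln.1 e2
    dsimp only at e1 e2
    have j1 := st 1 (e1.trans (one_smul _ _).symm)
    have b0 : b ≠ 0 := fun c => hw ((j1 w).1 (by rw [← e2, c, zero_smul, add_zero]; exact Submodule.smul_mem _ _ (xs x)))
    obtain ⟨z, hz, e⟩ := scJ _ (inv_ne_zero b0)
    exact ⟨z * j, mul_mem hz (hJ ▸ ⟨hj, j1⟩), b⁻¹ * a, by rw [mul_smul, ← e2, e, smul_add, inv_smul_smul₀ b0, smul_smul, add_comm]⟩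
  have B : ∀ m ∈ U, ∀ s : F, ∃ j ∈ J, j • (y + s • x) = y + (s + m) • x := fun m hm s => by
    obtain ⟨j, hj, e1, e2⟩ := (hU m).1 hm
    exact ⟨j, hJ ▸ ⟨hj, st _ e1⟩, by rw [smul_add, gsc, e1, e2]; module⟩
  have ix : U.index = 2 := by
    have := U.card_mul_index
    rw [c2, Nat.card_eq_fintype_card, q4] at this; omega
  obtain ⟨s0, hs0⟩ := AddSubgroup.index_eq_two_iff'.1 ix
  have inv : ∀ j ∈ J, ∀ w ∈ {w | ∃ j ∈ J, j • y = w}, j • w ∈ {w | ∃ j ∈ J, j • y = w} := fun j hj w hw =>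
    otrans hw ⟨j, hj, rfl⟩
  have JS : J ≤ St G (F ∙ x) := hJ ▸ inf_le_right
  have nx : ∀ w ∈ {w | ∃ j ∈ J, j • y = w}, w ∉ F ∙ x := by
    rintro _ ⟨j, hj, rfl⟩ c
    exact i.2 ((JS hj y).1 c)
  obtain ⟨d1, d2, hd⟩ := two_val i.1 JS _ inv (by
    refine (nos_le {0, x, y, y + s0 • x} fun w _ => ?_).trans (le_trans (b := 4) ?_ (Nat.add_le_add_right (n := 2) ?_ 2))
    · by_cases c' : w ∈ F ∙ x
      · obtain ⟨c, rfl⟩ := Submodule.mem_span_singleton.1 c'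
        by_cases c0 : c = 0
        · exact ⟨0, by simp, 1, one_mem _, by simp [c0]⟩
        · exact let ⟨z, hz, e⟩ := scJ c c0; ⟨x, by simp, z, hz, e x⟩
      obtain ⟨j, hj, s, e⟩ := A w c'
      rcases (hs0 (-s)).or with c | c
      · exact ⟨y + s0 • x, by simp, otrans (B _ (neg_mem c) s0) (osymm ⟨j, hj, by rw [e]; congr 2; ring⟩)⟩
      · exact ⟨y, by simp, osymm (otrans ⟨j, hj, e⟩ (by simpa using B _ c s))⟩
    · iterate 3 refine (Set.ncard_insert_le _ _).trans (Nat.succ_le_succ ?_)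
      exact (Set.ncard_singleton _).le
    have n1 : (Submodule.Quotient.mk y : V ⧸ F ∙ x) ≠ 0 := fun c => i.2 ((Submodule.Quotient.mk_eq_zero _).1 c)
    refine (Set.ncard_pair n1).ge.trans (le_nos _ (Set.subset_univ _) ?_)
    rintro _ (rfl | rfl) _ (rfl | rfl) j hj e
    exacts [rfl, gsz.1 e, (smul_zero j).symm.trans e, rfl])
  have k0 : {z | z ∈ {w | ∃ j ∈ J, j • y = w} ∧ z ∈ ln F x y}.ncard = 6 := by
    have e : ({c : F | c ∈ (⊤ : Submodule F F) ∧ c ≠ 0} ×ˢ (U : Set F)).ncard = 6 := by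
      rw [Set.ncard_prod, ncard_ne0, finrank_top, finrank_self, q4, ← Nat.card_coe_set_eq]; exact congrArg _ c2
    rw [← e, ← Set.InjOn.ncard_image (f := fun a : F × F => a.1 • (y + a.2 • x))]
    · congr 1; ext z
      refine ⟨?_, ?_⟩
      · rintro ⟨⟨j, hj, rfl⟩, h⟩
        obtain ⟨a, b, e2⟩ := mem_ln.1 h
        obtain ⟨c, e1⟩ := Submodule.mem_span_singleton.1 ((JS hj x).2 (xs x))
        have b0 : b ≠ 0 := fun c => nx _ ⟨j, hj, rfl⟩ (by
          rw [← e2, c, zero_smul, add_zero]; exact Submodule.smul_mem _ _ (xs x))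
        obtain ⟨z, hz, e⟩ := sc _ (inv_ne_zero b0)
        have : (b⁻¹ * c, b⁻¹ * a) ∈ Aff F H x y := ⟨z * j, mul_mem hz (hJ ▸ hj).1, by rw [mul_smul, ← e1, e, smul_smul],
          by rw [mul_smul, ← e2, e, smul_add, inv_smul_smul₀ b0, smul_smul, add_comm]⟩
        exact ⟨(b, b⁻¹ * a), ⟨⟨trivial, b0⟩, (hU _).2 (h1 _ _ this ▸ this)⟩, by
          rw [← e2]; dsimp only; rw [smul_add, smul_smul, mul_inv_cancel_left₀ b0, add_comm]⟩
      · rintro ⟨⟨c, m⟩, ⟨hc, hm⟩, rfl⟩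
        obtain ⟨z, hz, e⟩ := scJ c hc.2
        exact ⟨otrans (by simpa using B m hm 0) ⟨z, hz, e _⟩,
          Submodule.smul_mem _ _ (add_mem r_ln (Submodule.smul_mem _ _ l_ln))⟩
    · rintro ⟨c, m⟩ h ⟨c', m'⟩ - (e : c • (y + m • x) = c' • (y + m' • x))
      obtain ⟨e1, e2⟩ := ind_iff.1 i (c * m - c' * m') (c - c') (by linear_combination (norm := module) e)
      obtain rfl := sub_eq_zero.1 e2
      rw [mul_left_cancel₀ h.1.2 (sub_eq_zero.1 e1)]
  have k1 : ∀ w, w ∉ F ∙ x → {z | z ∈ {w | ∃ j ∈ J, j • y = w} ∧ z ∈ ln F x w}.ncard = 6 := fun w hw => by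
    obtain ⟨j, hj, s, e⟩ := A w hw
    have e' : ln F (j • x) (j • w) = ln F x y := ln_eq (Ind.smul ⟨i.1, hw⟩ j) (sp_le_ln ((JS hj x).2 (xs x)))
      (e ▸ add_mem r_ln (Submodule.smul_mem _ _ l_ln))
    rw [← k0, ← Set.ncard_image_of_injective _ (MulAction.injective j)]
    congr 1; ext z
    refine ⟨?_, fun h => ⟨j⁻¹ • z, ⟨inv _ (inv_mem hj) _ h.1, ?_⟩, smul_inv_smul j z⟩⟩
    · rintro ⟨z, h, rfl⟩
      exact ⟨inv j hj z h.1, e' ▸ smul_mem_ln j h.2⟩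
    · rw [← smul_mem_ln_iff (g := j), smul_inv_smul, e']; exact h.2
  obtain ⟨k, hk⟩ := Nat.exists_eq_add_of_le' n3
  obtain ⟨m1, m2, e1, e2, e3⟩ := var i.1 hk _ nx (fun c hc w hw => let ⟨z, hz, e⟩ := scJ c hc; e w ▸ inv z hz w hw)
    (fun w hw => k1 w (nx w hw)) hd
  have e4 := dcount {w | ∃ j ∈ J, j • y = w} {u | u ∉ F ∙ x} (fun z u => u ∈ ln F x z) (m := 12) (n := 6) (fun z hz => by
      have i : Ind F x z := ⟨i.1, nx z hz⟩
      have := ncard_diff (sp_le_ln (F := F) (x := x) (y := z))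
      rw [i.finrank, finrank_span_singleton i.1, q4] at this
      rw [← show _ = 12 from this]; congr 1; ext u; exact and_comm) fun u hu => by
    rw [← k1 u hu]; congr 1; ext z
    exact and_congr_right fun h => ⟨fun c => (ln_eq ⟨i.1, hu⟩ l_ln c).ge r_ln, fun c => (ln_eq ⟨i.1, nx z h⟩ l_ln c).ge r_ln⟩
  rw [ncard_compl, finrank_span_singleton i.1, hk] at e4
  generalize Set.ncard _ = D at e2 e3 e4
  rw [q4] at e1 e2 e3 e4
  zify [show 4 ^ 1 ≤ 4 ^ (k + 3) from Nat.pow_le_pow_right (by omega) (by omega)] at e1 e2 e3 e4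
  obtain ⟨Q, hQ⟩ : ∃ Q : ℤ, Q = 4 ^ k := ⟨_, rfl⟩
  have Q0 : 0 < Q := by rw [hQ]; positivity
  rw [pow_add, ← hQ] at e4
  rw [← hQ] at e1 e2 e3
  have e5 : (D : ℤ) = 32 * Q - 2 := by linarith
  rw [e5] at e2 e3
  obtain ⟨a, ha⟩ : ∃ a : ℤ, a = d1 - 8 * Q := ⟨_, rfl⟩
  obtain ⟨b, hb⟩ : ∃ b : ℤ, b = d2 - 8 * Q := ⟨_, rfl⟩
  have f1 : m1 * (2 * a + 1) + m2 * (2 * b + 1) = 0 := by rw [ha, hb]; linear_combination 2 * e2 - (16 * Q - 1) * e1
  have f2 : (2 * a + 1) * (2 * b + 1) = 3 - 48 * Q := mul_left_cancel₀ (show 16 * Q ≠ 0 by omega) (by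
    rw [ha, hb] at f1 ⊢
    linear_combination -4 * e3 + 4 * (16 * Q - 1) * e2 - (16 * Q - 1) ^ 2 * e1 +
      (2 * (d1 - 8 * Q) + 1 + (2 * (d2 - 8 * Q) + 1)) * f1 - (2 * (d1 - 8 * Q) + 1) * (2 * (d2 - 8 * Q) + 1) * e1)
  have f3 : Odd (a - b) := ⟨-12 * Q - a * b - b, by linarith⟩
  obtain ⟨c, hc⟩ : 8 * Q ∣ m1 := (show IsCoprime (8 * Q) (a - b) by
    rw [hQ, show (8 : ℤ) * 4 ^ k = 2 ^ (2 * k + 3) by rw [pow_add, pow_mul]; ring]
    exact (Int.isCoprime_two_left.2 f3).pow_left).dvd_of_dvd_mul_right ⟨-(2 * b + 1), by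
      linarith [show (2 * b + 1) * (m1 + m2) = (2 * b + 1) * (4 ^ 2 * Q) by rw [e1]]⟩
  have c0 : 0 ≤ c := by nlinarith [Int.natCast_nonneg m1]
  have c3 : c ≤ 2 := by nlinarith [Int.natCast_nonneg m2]
  rw [show (m2 : ℤ) = 8 * Q * (2 - c) by linarith, hc] at f1
  have f4 : c * (2 * a + 1) + (2 - c) * (2 * b + 1) = 0 := mul_left_cancel₀ (show 8 * Q ≠ 0 by omega) (by linarith)
  interval_cases c
  · omega
  · obtain rfl : b = -a - 1 := by omega
    obtain ⟨e, he⟩ := Int.even_mul_succ_self a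
    have : 8 * e = 48 * Q - 4 := by linarith
    omega
  · omega

theorem c3 : C3.{u} := by
  intro F V G _ _ _ _ _ _ _ _ _ H x y m n3 fa sc fe nt i h1 h2
  obtain ⟨p, _⟩ := CharP.exists F
  obtain ⟨n, hp, hq⟩ := FiniteField.card F p
  have := Fact.mk hp
  let U : AddSubgroup F := ⟨⟨⟨{m | ((1 : F), m) ∈ Aff F H x y}, fun ha hb => by simpa using am ha hb⟩, a1⟩,
    fun ha => by simpa using ai i.1 ha⟩
  let T : Subgroup Fˣ := ⟨⟨⟨{l | ∃ m, ((l : F), m) ∈ Aff F H x y}, fun ⟨_, ha⟩ ⟨_, hb⟩ => ⟨_, am ha hb⟩⟩, _, a1⟩,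
    fun ⟨_, ha⟩ => ⟨_, by simpa using ai i.1 ha⟩⟩
  have e1 : (Aff F H x y).ncard = Nat.card T * Nat.card U := by
    rw [ncard_pairs _ (Units.val '' (T : Set Fˣ)) (m := Nat.card U)
      (fun a ha => ⟨Units.mk0 _ (a0 i.1 ha), ⟨_, ha⟩, rfl⟩) ?_, Set.ncard_image_of_injective _ Units.val_injective]
    · rfl
    rintro _ ⟨l, ⟨m0, h0⟩, rfl⟩
    rw [show Nat.card U = (U : Set F).ncard from rfl, ← Set.ncard_image_of_injective (U : Set F) (add_left_injective m0)]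
    congr 1; ext m
    refine ⟨fun h => ⟨m - m0, ?_, sub_add_cancel _ _⟩, ?_⟩
    · exact show ((1 : F), m - m0) ∈ Aff F H x y by simpa [sub_eq_add_neg] using am h (ai i.1 h0)
    · rintro ⟨m, h, rfl⟩
      simpa using am (show ((1 : F), m) ∈ Aff F H x y from h) h0
  have e2 : Nat.card T ∣ Nat.card U - 1 := by
    have := sdv T {w | (w : F) ∈ U} fun t ⟨m, ht⟩ w hw =>
      show ((1 : F), ((w * t : Fˣ) : F)) ∈ Aff F H x y by simpa using am (am ht hw) (ai i.1 ht)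
    rwa [← Set.ncard_image_of_injective _ Units.val_injective, show Units.val '' {w : Fˣ | (w : F) ∈ U} = (U : Set F) \ {0} from
      Set.ext fun w => ⟨by rintro ⟨w, h, rfl⟩; exact ⟨h, w.ne_zero⟩, fun h => ⟨Units.mk0 w h.2, h.1, rfl⟩⟩,
      Set.ncard_diff_singleton_of_mem U.zero_mem] at this
  obtain ⟨u, e3⟩ := T.card_subgroup_dvd_card
  obtain ⟨q, e4⟩ := U.card_addSubgroup_dvd_card
  rw [Nat.card_units, Nat.card_eq_fintype_card] at e3
  rw [Nat.card_eq_fintype_card] at e4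
  have q1 : q ≠ 1 := fun c => nt (by
    have hU : U = ⊤ := AddSubgroup.eq_top_of_card_eq U (by rw [Nat.card_eq_fintype_card (α := F), e4, c, mul_one])
    have k : ∀ x' y', Ind F x' y' → ∃ j ∈ H, j • x = x' ∧ ∃ c : F, c ≠ 0 ∧ j • y = c • y' := fun x' y' i' => by
      obtain ⟨j, hj, e1, e2⟩ := fe (x, y) (x', y') i i'
      obtain ⟨a, b, e2⟩ := mem_ln.1 e2
      obtain ⟨g, hg, g1, g2⟩ : (1, -a) ∈ Aff F H x y := (hU.ge trivial : -a ∈ U)
      dsimp only at e1 e2 g1 g2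
      have e : (j * g) • y = b • y' := by rw [mul_smul, g2, smul_add, gsc, e1, ← e2]; module
      exact ⟨j * g, mul_mem hj hg, by rw [mul_smul, g1, one_smul, e1], b,
        left_ne_zero_of_smul (e ▸ fun c => i.ne0 (gsz.1 c)), e⟩
    intro a b a' b' i1 i2
    obtain ⟨j, hj, rfl, c, c0, e⟩ := k a b i1
    obtain ⟨j', hj', rfl, c', -, e'⟩ := k a' b' i2
    exact ⟨j' * j⁻¹, mul_mem hj' (inv_mem hj), by rw [mul_smul, inv_smul_smul], c⁻¹ * c', by
      rw [← inv_smul_smul₀ c0 b, ← e, gsc, mul_smul, inv_smul_smul, e', smul_smul]⟩)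
  have q2 := q2 F
  have t0 : 0 < Nat.card T := Nat.card_pos
  have u0 : 0 < Nat.card U := Nat.card_pos
  have q0 : 1 < q := by rcases q with _ | _ | q <;> omega
  obtain ⟨s, -, hs⟩ := (Nat.dvd_prime_pow hp).1 (hq ▸ Dvd.intro _ e4.symm)
  obtain ⟨r, -, hr⟩ := (Nat.dvd_prime_pow hp).1 (hq ▸ Dvd.intro_left _ e4.symm)
  obtain rfl : m = q * u := Nat.eq_of_mul_eq_mul_right (Nat.mul_pos t0 u0) (by rw [← e1, h1, e3, e4, e1]; ring)
  have u1 : 0 < u := Nat.pos_of_ne_zero fun c => by rw [c] at e3; omega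
  have cp : (q * u - 1).Coprime (Nat.card U) := hs ▸ ((hp.coprime_iff_not_dvd.2 fun c => hp.one_lt.ne' (Nat.dvd_one.1
    ((Nat.dvd_add_right c).1 (by
      rw [Nat.sub_add_cancel (Nat.mul_pos (by omega) u1)]
      exact (hr ▸ dvd_pow_self p (by rintro rfl; simp at hr; omega)).mul_right u)))).symm.pow_right s)
  rw [e1, ← mul_assoc, e4] at h2
  rcases ar t0 (by omega) e2 (cp.dvd_of_dvd_mul_right h2) q0 with ⟨a, b⟩ | ⟨a, b, c⟩
  · have np := nop fa fe i fun m hm => (AddSubgroup.eq_bot_of_card_eq U a).le (hm : m ∈ U)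
    by_cases c : Nat.card T = 1
    · rw [a, b c, one_mul] at e4
      obtain rfl : p = 2 := (Nat.prime_dvd_prime_iff_eq hp Nat.prime_two).1 (e4 ▸ hq ▸ dvd_pow_self p n.ne_zero)
      exact ⟨e4, Nat.odd_iff.2 (Nat.two_dvd_ne_zero.1 np)⟩
    · obtain ⟨l, ⟨m, hl⟩, l1⟩ := H19.exists_ne_one (H := T) fun e => c (by rw [e, Subgroup.card_bot])
      exact (pol n3 sc fe i np hl fun e => l1 (Units.ext e)).elim
  · exact (f4 n3 sc fe i (by rw [e4, a, b]) U (fun _ => Iff.rfl) a fun l m h => congrArg Units.val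
      ((Subgroup.eq_bot_of_card_eq T c).le (⟨m, h⟩ : Units.mk0 l (a0 i.1 h) ∈ T))).elim

end H5.R3
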