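import Cfsg.Agent.H9.RL0

/-! S3860: the case `a = 1`, dihedral Sylow subgroups. -/

set_option autoImplicit false
set_option linter.unusedVariables false
set_option linter.unusedSectionVars false

namespace H5.RL
open Cfsg Subgroup H19 H17.GS H9.RL

universe u
variable {G : Type u} [Group G] [Finite G] {b : ℕ} {L Q : Subgroup G} {x u v q r : G}

theorem conj_mem_cent1 {y : G} : y ∈ C[x] ↔ y * x * y⁻¹ = x := mem_cent1.trans mul_inv_eq_iff_eq_mul.symm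
section
variable (h : On b L Q x u v)
include h
theorem cz (g : G) : g * (u * u) * g⁻¹ = u * u := by rw [mem_center_iff.1 h.cz g, mul_inv_cancel_right]
theorem cL : u * u ∈ Z(L) := ⟨mul_mem h.uL h.uL, center_le_centralizer _ h.cz⟩
theorem nv : u * v * u⁻¹ ≠ v := fun e => h.c1 (by rw [← h.vv]; exact mul_eq_one_iff_eq_inv.2 (e.symm.trans h.uv))
theorem c2 : u * u * (u * u) = 1 := by
  have := cz h u
  rw [← h.vv, ← conj_mul, h.uv] at this
  rw [← h.vv]; nth_rw 1 [← this]; group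
theorem memS (hr : r ∈ Q ⊔ zpowers u) : r ∈ Q ∨ r * u⁻¹ ∈ Q := by
  obtain ⟨q, hq, _, ⟨n, rfl⟩, rfl⟩ := (mem_sup_of_norm (zpowers_le.2 h.nq)).1 hr
  rcases Int.even_or_odd' n with ⟨k, rfl | rfl⟩
  · exact .inl (mul_mem hq (by simpa only [zpow_mul, zpow_two] using Q.zpow_mem h.uq k))
  · exact .inr (by simpa only [zpow_add, zpow_one, zpow_mul, zpow_two, mul_assoc q, mul_inv_cancel_right]
      using Q.mul_mem hq (Q.zpow_mem h.uq k))
variable (o : Ob Q x u)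
include o
/-- `q⁻¹ q^u` is central in `Q` and inverted by `u` -/
theorem dl (hq : q ∈ Q) : ∃ j ∈ Q, u * q * u⁻¹ = q * j ∧ u * j * u⁻¹ = j⁻¹ ∧ ∀ r ∈ Q, r * j = j * r := by
  have m := mul_mem (inv_mem hq) (conj_mem_of_norm h.nq hq)
  have e : u * (q⁻¹ * (u * q * u⁻¹)) * u⁻¹ = (q⁻¹ * (u * q * u⁻¹))⁻¹ := by
    have := cz h q⁻¹
    calc _ = u * q⁻¹ * u⁻¹ * q * (q⁻¹ * (u * u) * q⁻¹⁻¹) * (u * u)⁻¹ := by group
      _ = _ := by rw [this]; group
  exact ⟨_, m, by group, e, o.iz _ m e⟩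
theorem om (hq : q ∈ Q) (e : q * q ∈ C(L)) : u * q * u⁻¹ = q ∨ u * q * u⁻¹ = q * (u * u) := by
  obtain ⟨j, hj, e1, -, e2⟩ := dl h o hq
  refine o.om q hq ?_
  have : u * (q * q) * u⁻¹ = q * q := by rw [mem_cent.1 e u h.uL, mul_inv_cancel_right]
  rw [← conj_mul, e1, mul_assoc, ← mul_assoc j, ← e2 q hq, mul_assoc q j, ← mul_assoc q q, mul_eq_left] at this
  rwa [e1, inv_mul_cancel_left]
end

theorem a3 (lz : LZ.{u}) : A3.{u} := fun {G} _ _ {b L Q x u v} h o d0 h0 l0 u0 => by_contra fun n0 => by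
  have := h.nm
  let π := QuotientGroup.mk' C(L)
  have hπ : ∀ g, π g = 1 ↔ g ∈ C(L) := fun g => QuotientGroup.eq_one_iff g
  have sT := h.ss.inf_normal (K := L) ⟨le_top, (normalizer_eq_top L).ge⟩
  have nE : Q ⊔ zpowers u ≤ N(Q ⊓ C[u]) := sup_le (fun q hq => mem_norm_of_cj_le fun _ hd => by
    obtain ⟨d, hd', rfl⟩ := mem_cj'.1 hd
    replace hd := hd'
    obtain ⟨j, hj, e1, -, e2⟩ := dl h o hq
    refine ⟨conj_mem_of_norm (le_normalizer hq) hd.1, mem_cent1_symm.1 (conj_mem_cent1.2 ?_)⟩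
    rw [← conj_mul, ← conj_mul, conj_mem_cent1.1 (mem_cent1_symm.1 hd.2), ← conj_inv, e1, mul_assoc q j, ← e2 d hd.1]; group)
    (zpowers_le.2 (norms_inf (zpowers_le.2 h.nq) (norms_of_le (zpowers_le.2 (mem_cent1_self u))) (mem_zpowers u)))
  have pT := (sT.map π).pi
  have lE := map_mono (f := π) (inf_le_inf_right L (inf_le_left.trans le_sup_left : Q ⊓ C[u] ≤ Q ⊔ zpowers u))
  obtain ⟨_, ⟨⟨d, ⟨⟨hd, du⟩, dL⟩, rfl⟩, dT⟩, d2⟩ := exists_inv_pg (H := (Q ⊓ C[u] ⊓ L).map π ⊓ C(((Q ⊔ zpowers u) ⊓ L).map π))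
    (pT.of_le (inf_le_left.trans lE)) (nil_meet_center pT.nil ⟨lE, (map_mono (norms_inf (inf_le_left.trans nE)
      (norms_of_le inf_le_right))).trans (le_normalizer_map π)⟩
      (ne_bot_of_mem (mem_map_of_mem π ⟨⟨h0, mem_cent1.2 u0⟩, l0⟩) (mt (hπ _).1 n0)))
  have d1 : d ∉ C(L) := fun k => by simp [(hπ d).2 k] at d2
  have dd : d * d ∈ C(L) := (hπ _).1 (by rw [map_mul, ← pow_two, ← d2, pow_orderOf_eq_one])
  obtain ⟨l, hl, eT, w⟩ := lz h.qs h.pz sT ⟨mem_sup_left hd, dL⟩ d1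
  have ee : l * d * l⁻¹ * (l * d * l⁻¹) = d * d := by rw [conj_mul, mem_cent.1 dd l hl, mul_inv_cancel_right]
  obtain ⟨y, yL, yy, ey⟩ : ∃ y ∈ L, y * y = u * u ∧ l * d * l⁻¹ * y * (l * d * l⁻¹)⁻¹ = y⁻¹ := by
    generalize l * d * l⁻¹ = e at eT w ee
    rcases memS h eT.1 with k | k
    · rcases om h o k (ee ▸ dd) with e1 | e1
      · refine (w (center_le_centralizer _ (o.nd _ (mul_mem (inv_mem hd) k) (mem_cent1.1 (mul_mem (inv_mem du)
          (mem_cent1_symm.1 (conj_mem_cent1.2 e1)))) d (h.sq.le hd) ?_))).elim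
        calc _ = e⁻¹ * (e * e) * d⁻¹ := by group
          _ = _ := by rw [ee]; group
      · refine ⟨u, h.uL, rfl, ?_⟩
        refine inv_injective ?_
        calc _ = u⁻¹ * (u * e * u⁻¹) * e⁻¹ := by group
          _ = u⁻¹ * (e * (u * u) * e⁻¹) := by rw [e1]; group
          _ = _ := by rw [cz h]; group
    · refine ⟨v, h.vL, h.vv, ?_⟩
      calc _ = e * u⁻¹ * (u * v * u⁻¹) * (e * u⁻¹)⁻¹ := by group
        _ = _ := by rw [h.uv, ← conj_inv, h.vz _ k, mul_inv_cancel_right]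
  have yL' : l⁻¹ * y * l ∈ L := mul_mem (mul_mem (inv_mem hl) yL) hl
  have ey' : d * (l⁻¹ * y * l) * d⁻¹ = (l⁻¹ * y * l)⁻¹ := by
    calc _ = l⁻¹ * (l * d * l⁻¹ * y * (l * d * l⁻¹)⁻¹) * l := by group
      _ = _ := by rw [ey]; group
  have yy' : l⁻¹ * y * l * (l⁻¹ * y * l) = u * u := by rw [← cz h l⁻¹, ← yy]; group
  generalize l⁻¹ * y * l = y at yL' ey' yy'
  have mH : ∀ g, g ∈ C[π d].comap π ↔ g * d * g⁻¹ * d⁻¹ ∈ C(L) := fun g => by
    rw [mem_comap, conj_mem_cent1, ← hπ, ← mul_inv_eq_one]; rfl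
  obtain ⟨g, hg, k⟩ := (sT.of_le (K := L ⊓ C[π d].comap π) (le_inf inf_le_right fun t ht =>
    mem_cent1_symm.1 (cent_le_cent1 (mem_map_of_mem π ht) dT)) inf_le_left).scj_le (K := zpowers y) (zpowers_le.2 ⟨yL', (mH y).2 (by
      rw [show y * d * y⁻¹ * d⁻¹ = y * (d * y * d⁻¹)⁻¹ by group, ey', inv_inv, yy']; exact (cL h).2)⟩)
    (piG_zpowers.2 ((PiN.prime_pow Nat.prime_two 2).dvd (orderOf_dvd_of_pow_eq_one (by
      rw [← c2 h, ← yy', show 2 ^ 2 = 4 from rfl]; simp only [pow_succ, pow_zero, one_mul, mul_assoc]))))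
  have m := k (conj_mem_cj.2 (mem_zpowers y))
  refine o.kk d hd (mem_cent1.1 du) _ m.1 (by rw [conj_mul, yy', cz h]) ?_
  have z := mem_cent.1 ((mH g).1 hg.2) _ (inv_mem m.2)
  calc _ = (g * d * g⁻¹ * d⁻¹)⁻¹ * (g * (d * y * d⁻¹) * g⁻¹) * (g * d * g⁻¹ * d⁻¹) := by group
    _ = _ := by rw [ey', ← conj_inv, mul_assoc, z, inv_mul_cancel_left]

theorem a4 : A4.{u} := fun {G B} _ _ _ _ {b L Q φ x u v} h k o a => by
  have := h.nm
  have := Fact.mk Nat.prime_two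
  have one : ∀ q ∈ Q, q ∈ L → u * q * u⁻¹ = q → φ q = 1 := fun q h1 h2 e => (k.ker q).2 ⟨h2, a q h1 h2 (mul_inv_eq_iff_eq_mul.1 e).symm⟩
  have c1 := (k.ker _).2 (cL h)
  have iv : ∀ y ∈ (Q ⊓ L).map φ, φ u * y * (φ u)⁻¹ = y⁻¹ := by
    rintro _ ⟨q, hq, rfl⟩
    obtain ⟨j, hj, e1, e3, e2⟩ := dl h o hq.1
    refine eq_inv_of_mul_eq_one_left ?_
    rw [← map_inv, ← map_mul, ← map_mul, ← map_mul]
    refine one _ (mul_mem (conj_mem_of_norm h.nq hq.1) hq.1) (mul_mem (mul_mem (mul_mem h.uL hq.2) (inv_mem h.uL)) hq.2) ?_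
    rw [e1, ← conj_mul, ← conj_mul, e1, e3, mul_inv_cancel_right, mul_assoc q j q, ← e2 q hq.1]
  have ab : Ab ((Q ⊓ L).map φ) := comm_iff_le_cent.2 fun y hy => mem_cent.2 fun z hz => inv_injective (by
    rw [← iv _ (mul_mem hz hy), ← conj_mul, iv y hy, iv z hz, mul_inv_rev])
  have v2 : φ v * φ v = 1 := by rw [← map_mul, h.vv, c1]
  have om2 : H4.omegaComm _ ab 2 ≤ zpowers (φ v) := by
    rintro _ ⟨⟨q, hq, rfl⟩, e⟩
    rcases om h o hq.1 ((k.ker _).1 (by rw [map_mul, ← pow_two, e])).2 with e1 | e1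
    · rw [one q hq.1 hq.2 e1]; exact one_mem _
    · have := one _ (mul_mem hq.1 h.vq) (mul_mem hq.2 h.vL) (by rw [← conj_mul, e1, h.uv, ← h.vv]; group)
      rw [eq_inv_of_mul_eq_one_left ((map_mul φ q v).symm.trans this)]
      exact inv_mem (mem_zpowers _)
  have sT := (h.ss.inf_normal (K := L) normalIn_top).map φ
  obtain ⟨t, ht⟩ := cyc_iff.1 (H4.isCyclic_of_card_omega_le (p := 2) (sT.pi.of_le (map_mono (inf_le_inf_right _ le_sup_left))).isPGroup ab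
    ((card_le om2).trans (by rw [Nat.card_zpowers]; exact orderOf_le_of_pow_eq_one two_pos ((pow_two _).trans v2))))
  · obtain ⟨T, hT⟩ := sT.exists_sylow
    have nu : ∀ z ∈ Z(L), ∀ q ∈ Q, u ≠ q * z := fun z hz q hq e => nv h (by
      rw [e, mul_assoc q, ← mem_cent.1 hz.2 v h.vL, ← mul_assoc, h.vz q hq]; group)
    obtain ⟨e⟩ := H10.closure_equiv_dihedral (a := t) (t := φ u) rfl (by rw [← map_mul, c1]) (iv t (ht ▸ mem_zpowers t)) fun m => by
      obtain ⟨q, hq, e⟩ := ht.le m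
      exact nu _ ((k.ker (q⁻¹ * u)).1 (by simp [e])) q hq.1 (by simp)
    refine ⟨T, _, ?_, ⟨(T.1.equivMapOfInjective _ (L.map φ).subtype_injective).trans ((MulEquiv.subgroupCongr ?_).trans e)⟩⟩
    · by_contra! n
      obtain rfl : t = 1 := orderOf_eq_one_iff.1 (by have := orderOf_pos t; omega)
      have := ht.ge (mem_map_of_mem φ (⟨h.vq, h.vL⟩ : v ∈ Q ⊓ L))
      rw [zpowers_one_eq_bot, mem_bot, k.ker] at this
      exact nv h (by rw [mem_cent.1 this.2 u h.uL, mul_inv_cancel_right])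
    · rw [hT, ← Set.singleton_union, Subgroup.closure_union, ← zpowers_eq_closure, ← zpowers_eq_closure, ht, ← MonoidHom.map_zpowers,
        ← Subgroup.map_sup]
      refine congrArg _ (le_antisymm (fun r hr => (memS h hr.1).elim (fun m => mem_sup_left (mem_inf.2 ⟨m, hr.2⟩)) fun m => ?_)
        (sup_le (inf_le_inf_right _ le_sup_left) (zpowers_le.2 ⟨mem_sup_right (mem_zpowers u), h.uL⟩)))
      simpa using mul_mem (mem_sup_left (S := Q ⊓ L) ⟨m, L.mul_mem hr.2 (L.inv_mem h.uL)⟩) (mem_sup_right (mem_zpowers u))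

end H5.RL
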