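import Cfsg.Agent.H5.SC3
import Cfsg.Agent.H11.SUBasic

/-! Self-centralizing subgroups with automizer of order four do not occur in dimension `≤ 3`. -/

set_option autoImplicit false
set_option linter.unusedSectionVars false

open Cfsg
namespace H5.SC

open H19 Subgroup H5 Module

section Lin
variable {K V : Type*} [Field K] [IsAlgClosed K] [AddCommGroup V] [Module K V] [FiniteDimensional K V]

theorem ex_eig {W : Submodule K V} (hW : W ≠ ⊥) (f : End K V) (hf : ∀ x ∈ W, f x ∈ W) :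
    ∃ c : K, ∃ v ∈ W, v ≠ 0 ∧ f v = c • v := by
  haveI := Submodule.nontrivial_iff_ne_bot.2 hW
  obtain ⟨c, hc⟩ := End.exists_eigenvalue (f.restrict hf)
  obtain ⟨v, hv⟩ := hc.exists_hasEigenvector
  exact ⟨c, v, v.2, fun e => hv.2 (Subtype.ext e), congrArg Subtype.val hv.apply_eq_smul⟩

theorem joint {ι : Type*} [Fintype ι] (f g : End K V) (v : ι → V) (l m : ι → K)
    (h : ∀ i, v i ≠ 0 ∧ f (v i) = l i • v i ∧ g (v i) = m i • v i)
    (inj : ∀ i j, l i = l j → m i = m j → i = j) : LinearIndependent K v := by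
  classical
  obtain ⟨k, hk⟩ := Infinite.exists_notMem_finset
    (Finset.univ.image fun p : ι × ι => (l p.2 - l p.1) / (m p.1 - m p.2))
  refine (f + k • g).eigenvectors_linearIndependent' (fun i => l i + k * m i) (fun i j e => ?_) v
    fun i => ⟨End.mem_eigenspace_iff.2 (by simp [h i, add_smul, mul_smul]), (h i).1⟩
  by_cases a : m i = m j
  · exact inj i j (by simpa [a] using e) a
  · refine (hk (Finset.mem_image.2 ⟨(i, j), Finset.mem_univ _, ?_⟩)).elim
    rw [div_eq_iff (sub_ne_zero.2 a)]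
    linear_combination -e

theorem four_le {H : Type*} [Group H] (σ : H →* End K V) {a u : H} {m : ℕ} (hm : a ^ m = 1)
    (o : Odd m) (m0 : (m : K) ≠ 0) (a1 : σ a ≠ 1) (c : a * (u * a * u⁻¹) = u * a * u⁻¹ * a)
    (i : u * (u * a * u⁻¹) * u⁻¹ = a⁻¹) : 4 ≤ finrank K V := by
  set b := u * a * u⁻¹ with hb
  have mul : ∀ x y v, σ (x * y) v = σ x (σ y v) := fun x y v => by rw [map_mul]; rfl
  have inj : ∀ x v, σ x v = 0 → v = 0 := fun x v e => by
    simpa [← mul] using congrArg (σ x⁻¹) e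
  obtain ⟨l, v, ⟨w, hw⟩, v0, hv⟩ := ex_eig (W := LinearMap.range (σ a - 1))
    (fun e => a1 (sub_eq_zero.1 (LinearMap.range_eq_bot.1 e))) (σ a)
    (by rintro _ ⟨y, rfl⟩; exact ⟨σ a y, by simp⟩)
  have pw : ∀ k, (σ a ^ k) v = l ^ k • v := fun k =>
    (End.HasEigenvector.pow_apply ⟨End.mem_eigenspace_iff.2 hv, v0⟩ k)
  have lm : l ^ m = 1 := by
    have := pw m
    rw [← map_pow, hm, map_one, End.one_apply] at this
    exact smul_left_injective K v0 (this.symm.trans (one_smul _ _).symm)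
  have l1 : l ≠ 1 := by
    rintro rfl
    have : (∑ i ∈ Finset.range m, σ a ^ i) v = 0 := by
      rw [← hw, ← End.mul_apply, geom_sum_mul, ← map_pow, hm, map_one, sub_self]; rfl
    simp [LinearMap.sum_apply, pw, ← Nat.cast_smul_eq_nsmul K, m0, v0] at this
  have l0 : l ≠ 0 := by rintro rfl; simp [o.pos.ne'] at lm
  have l2 : l * l ≠ 1 := fun e => l1 (by
    obtain ⟨k, rfl⟩ := o
    simpa [pow_succ, pow_mul, sq, e] using lm)
  obtain ⟨n, x, hx, x0, gx⟩ := ex_eig (W := End.eigenspace (σ a) l) (fun e => v0 (by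
    simpa [e] using End.mem_eigenspace_iff.2 hv)) (σ b) fun y hy => by
      rw [End.mem_eigenspace_iff] at hy ⊢
      rw [← mul, c, mul, hy, map_smul]
  rw [End.mem_eigenspace_iff] at hx
  have st : ∀ (y : V) (p q : K), y ≠ 0 ∧ σ a y = p • y ∧ σ b y = q • y →
      q ≠ 0 ∧ σ u y ≠ 0 ∧ σ a (σ u y) = q⁻¹ • σ u y ∧ σ b (σ u y) = p • σ u y := by
    rintro y p q ⟨y0, h1, h2⟩
    have q0 : q ≠ 0 := by rintro rfl; exact y0 (inj b y (by simpa using h2))
    refine ⟨q0, fun e => y0 (inj u y e), ?_, by rw [← mul, hb, inv_mul_cancel_right, mul, h1, map_smul]⟩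
    have : σ u y = q • σ a (σ u y) := by
      rw [← map_smul, ← map_smul, ← h2, ← mul, ← mul, mul_assoc, eq_mul_inv_of_mul_eq rfl (a := u * b),
        inv_inv, i, mul_inv_cancel_left]
    rw [eq_inv_smul_iff₀ q0, ← this]
  obtain ⟨n0, s1⟩ := st x l n ⟨x0, hx, gx⟩
  obtain ⟨-, s2⟩ := st _ _ _ s1
  obtain ⟨-, s3⟩ := st _ _ _ s2
  have := (joint (σ a) (σ b) ![x, σ u x, σ u (σ u x), σ u (σ u (σ u x))] ![l, n⁻¹, l⁻¹, n⁻¹⁻¹]
    ![n, l, n⁻¹, l⁻¹] (fun i => by fin_cases i; exacts [⟨x0, hx, gx⟩, s1, s2, s3]) fun i j e e' => by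
      have := mul_inv_cancel₀ l0
      have := mul_inv_cancel₀ n0
      fin_cases i <;> fin_cases j <;>
        first | rfl | (simp at e e'; grind)).fintype_card_le_finrank
  simpa using this

end Lin

variable {G : Type*} [Group G] [Finite G] {A A₁ A₂ A₃ : Subgroup G} {a s t u : G}

theorem pl {H F : Type*} [Group H] [Field F] {n k m : ℕ} (hn : n ≤ 3)
    (ρ : H →* Matrix (Fin n) (Fin n) F) (hρ : Function.Injective ρ) (hk : ∀ z ∈ center H, z ^ k = 1)
    (e : G ≃* H ⧸ center H) (hm : a ^ m = 1) (o : Odd m) (q : m.Coprime k) (m0 : (m : F) ≠ 0)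
    (a1 : a ≠ 1) (c : a * (u * a * u⁻¹) = u * a * u⁻¹ * a) (i : u * (u * a * u⁻¹) * u⁻¹ = a⁻¹) :
    False := by
  let π : H →* G := e.symm.toMonoidHom.comp (QuotientGroup.mk' _)
  have hπ : ∀ z, π z = 1 → z ∈ center H := fun z h => (QuotientGroup.eq_one_iff z).1
    (e.symm.injective (h.trans (map_one _).symm))
  have su : Function.Surjective π := e.symm.surjective.comp (QuotientGroup.mk'_surjective _)
  have un : ∀ x y, π x = π y → x ^ m = 1 → y ^ m = 1 → x = y := fun x y h hx hy => by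
    have z := hπ (x⁻¹ * y) (by simp [h])
    have : (x⁻¹ * y) ^ m = 1 := by
      have := (show Commute x (x⁻¹ * y) from mem_center_iff.1 z x).mul_pow m
      rwa [mul_inv_cancel_left, hx, hy, one_mul, eq_comm] at this
    have := pow_gcd_eq_one.2 ⟨this, hk _ z⟩
    rwa [q, pow_one, inv_mul_eq_one] at this
  obtain ⟨x₀, rfl⟩ := su a
  obtain ⟨v, rfl⟩ := su u
  have m1 : 1 < m := by
    by_contra! h
    obtain rfl : m = 1 := le_antisymm h o.pos
    exact a1 (by simpa using hm)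
  obtain ⟨j, -, hj⟩ := Nat.exists_mul_mod_eq_one_of_coprime q.symm m1
  have px : π (x₀ ^ (k * j)) = π x₀ := by
    rw [map_pow, ← pow_mod_orderOf, ← Nat.mod_mod_of_dvd _ (orderOf_dvd_of_pow_eq_one hm), hj,
      pow_mod_orderOf, pow_one]
  have xm : (x₀ ^ (k * j)) ^ m = 1 := by
    rw [← pow_mul, mul_comm, pow_mul, pow_mul, hk _ (hπ _ (by rw [map_pow, hm])), one_pow]
  generalize x₀ ^ (k * j) = x at px xm
  rw [← px] at a1 c i
  let K := AlgebraicClosure F
  let σ : H →* End K (Fin n → K) := ((Matrix.toLinAlgEquiv' (R := K)).toMonoidHom.comp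
    (algebraMap F K).mapMatrix.toMonoidHom).comp ρ
  have := four_le σ (a := x) (u := v) xm o (by simpa using (map_ne_zero (algebraMap F K)).2 m0)
    (fun h => a1 (by
      rw [hρ (Matrix.map_injective (algebraMap F K).injective (Matrix.toLinAlgEquiv'.injective
        (h.trans (map_one σ).symm))), map_one]))
    (mul_inv_eq_iff_eq_mul.1 (un _ _ (by simp only [map_mul, map_inv, c, mul_inv_cancel_right])
      (by simp [conj_pow, xm]) (by simp [conj_pow, xm])))
    (un _ _ (by simp only [map_mul, map_inv, i]) (by simp only [conj_pow, xm, mul_one, mul_inv_cancel])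
      (by simp [xm]))
  simp at this
  omega

theorem SSC.inv (h : SSC A) (o : Odd #A) (hs : s ∈ N(A)) (s2 : orderOf s = 2) (ha : a ∈ A) :
    s * a * s⁻¹ = a⁻¹ := by
  have e : s * s = 1 := by rw [← pow_two, ← s2, pow_orderOf_eq_one]
  have m := conj_mem_of_norm hs ha
  by_contra n
  have := (h _ (mul_mem ha m) fun e => n (eq_inv_of_mul_eq_one_right e)).le (mem_cent1.2 (show
    s * _ = _ * s by
      conv_rhs => rw [h.comm _ ha _ m]
      simp [mul_assoc, ← mul_assoc s s, e, inv_eq_of_mul_eq_one_right e]))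
  exact (Nat.not_even_iff_odd.2 o) (even_iff_two_dvd.2 (s2 ▸ orderOf_dvd_card' this))

theorem SSC.mul (h : SSC A) (o : Odd #A) (n : 1 < #A) (hs : s ∈ N(A)) (s2 : orderOf s = 2)
    (ht : t ∈ N(A)) (t2 : orderOf t = 2) : s * t ∈ A := by
  obtain ⟨a, ha, a1⟩ := exists_ne_one (ne_bot_iff_one_lt_card.2 n)
  refine (h a ha a1).le (mem_cent1.2 ?_)
  have := h.inv o hs s2 (inv_mem ha)
  rw [inv_inv, ← h.inv o ht t2 ha] at this
  conv_rhs => rw [← this]
  group

theorem SSC.odd (h : SSC A) {e : ℕ} (he : A.relIndex N(A) = e) (e2 : 2 ∣ e) (hn : e + 1 < #A) :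
    Odd #A := by
  haveI := Fintype.ofFinite G
  obtain ⟨F, P, x⟩ := h.ex he hn
  obtain ⟨k, rfl⟩ := e2
  exact ⟨k * F.card, by rw [← x.card]; ring⟩

theorem SSC.four (h : SSC A) (he : A.relIndex N(A) = 4) (hn : 5 < #A) :
    ∃ u ∈ N(A), orderOf (u * u) = 2 := by
  have o := h.odd he (by norm_num) hn
  obtain ⟨S, hS⟩ := exists_syl 2 N(A)
  obtain ⟨T, l, c⟩ := hS.pi.exists_card_pow (k := 2) Nat.prime_two (Nat.le_of_dvd (card_pos _)
    (hS.dvd (PiN.prime_pow Nat.prime_two 2) (by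
      rw [← card_mul_relIndex le_normalizer, he]; exact dvd_mul_left _ _)))
  have l := l.trans hS.le
  by_contra! hn'
  have k : ∀ g ∈ T, g ≠ 1 → orderOf g = 2 := fun g hg g1 => orderOf_eq_prime (by
    by_contra e
    refine hn' g (l hg) (orderOf_eq_prime ?_ (by rwa [← pow_two]))
    rw [← pow_two, ← pow_mul]
    exact orderOf_dvd_iff_pow_eq_one.1 ((orderOf_dvd_card' hg).trans c.dvd)) g1
  obtain ⟨s, hs, s1⟩ := exists_ne_one (H := T) (ne_bot_iff_one_lt_card.2 (by omega))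
  have : T ≤ zpowers s := fun g hg => by
    by_cases g1 : g = 1
    · simp [g1]
    have := h.mul o (by omega) (l hs) (k s hs s1) (l hg) (k g hg g1)
    by_cases e : s * g = 1
    · rw [eq_inv_of_mul_eq_one_right e]; exact inv_mem (mem_zpowers s)
    · exact absurd (even_iff_two_dvd.2 (k _ (mul_mem hs hg) e ▸ orderOf_dvd_card' this))
        (Nat.not_even_iff_odd.2 o)
  have := card_le this
  rw [Nat.card_zpowers, k s hs s1] at this
  omega

theorem SSC.pl (h : SSC A) (he : A.relIndex N(A) = 4) (hn : 5 < #A) {H F : Type*} [Group H] [Field F]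
    {n k : ℕ} (hn' : n ≤ 3) (ρ : H →* Matrix (Fin n) (Fin n) F) (hρ : Function.Injective ρ)
    (hk : ∀ z ∈ center H, z ^ k = 1) (e : G ≃* H ⧸ center H) (q : (#A).Coprime k)
    (m0 : (#A : F) ≠ 0) : False := by
  have o := h.odd he (by norm_num) hn
  obtain ⟨u, hu, u2⟩ := h.four he hn
  obtain ⟨a, ha, a1⟩ := exists_ne_one (H := A) (ne_bot_iff_one_lt_card.2 (by omega))
  exact SC.pl hn' ρ hρ hk e (orderOf_dvd_iff_pow_eq_one.1 (orderOf_dvd_card' ha)) o q m0 a1
    (h.comm _ ha _ (conj_mem_of_norm hu ha))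
    (by rw [← h.inv o (mul_mem hu hu) u2 ha]; group)

theorem Sys.sel (h : Sys A₁ A₂ A₃) {p : ℕ} (hp : p.Prime) :
    ∃ A : Subgroup G, SSC A ∧ A.relIndex N(A) = 4 ∧ 5 < #A ∧ Odd #A ∧ ¬ p ∣ #A := by
  by_cases d : p ∣ #A₂
  · exact ⟨A₃, h.s3, h.e3, h.c3, h.s3.odd h.e3 (by norm_num) h.c3, fun d' =>
      hp.one_lt.ne' (Nat.eq_one_of_dvd_coprimes (h.s2.cop h.s3 h.n23) d d')⟩
  · exact ⟨A₂, h.s2, h.e2, h.c2, h.s2.odd h.e2 (by norm_num) h.c2, d⟩

theorem sl_pow {F : Type*} [Field F] {n : ℕ} (z : Matrix.SpecialLinearGroup (Fin n) F)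
    (hz : z ∈ center _) : z ^ n = 1 := by
  obtain ⟨r, h1, h2⟩ := Matrix.SpecialLinearGroup.mem_center_iff.1 hz
  ext1
  rw [Matrix.SpecialLinearGroup.coe_pow, ← h2, ← map_pow, Fintype.card_fin] at *
  simp [h1]

theorem Sys.l2 (h : Sys A₁ A₂ A₃) {F : Type*} [Field F] [Fintype F]
    (e : G ≃* Matrix.ProjectiveSpecialLinearGroup (Fin 2) F) : False := by
  obtain ⟨p, hp⟩ := CharP.exists F
  obtain ⟨A, a, b, c, o, d⟩ := h.sel (CharP.char_is_prime F p)
  exact a.pl b c (by norm_num) Matrix.SpecialLinearGroup.coeMonoidHom Subtype.val_injective sl_pow e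
    o.coprime_two_right (mt (CharP.cast_eq_zero_iff F p _).1 d)

theorem odd_ne {F : Type*} [Field F] [Fintype F] {k m : ℕ} (h : Fintype.card F = 2 ^ k) (o : Odd m) :
    (m : F) ≠ 0 := by
  obtain ⟨j, rfl⟩ := o
  have : (2 : F) = 0 := by
    have := FiniteField.cast_card_eq_zero F
    rw [h] at this
    exact eq_zero_of_pow_eq_zero (n := k) (by exact_mod_cast this)
  simp [this]

theorem Sys.l3 (h : Sys A₁ A₂ A₃) {F : Type*} [Field F] [Fintype F] {n : ℕ}
    (hF : Fintype.card F = 2 ^ n) (e : G ≃* Matrix.ProjectiveSpecialLinearGroup (Fin 3) F) : False := by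
  obtain ⟨A, a, b, c, o, d⟩ := h.sel Nat.prime_three
  exact a.pl b c le_rfl Matrix.SpecialLinearGroup.coeMonoidHom Subtype.val_injective sl_pow e
    ((Nat.Prime.coprime_iff_not_dvd Nat.prime_three).2 d).symm (odd_ne hF o)

theorem Sys.u3 (h : Sys A₁ A₂ A₃) {F : Type*} [Field F] [Fintype F] {n : ℕ}
    (hF : Fintype.card F = (2 ^ n) ^ 2) (e : G ≃* PSU 3 F (2 ^ n)) : False := by
  obtain ⟨A, a, b, c, o, d⟩ := h.sel Nat.prime_three
  refine a.pl b c le_rfl (Matrix.SpecialLinearGroup.coeMonoidHom.comp (SU 3 F (2 ^ n)).subtype)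
    (Subtype.val_injective.comp Subtype.val_injective) (fun z hz => ?_) e
    ((Nat.Prime.coprime_iff_not_dvd Nat.prime_three).2 d).symm (odd_ne (by rw [hF, ← pow_mul]) o)
  refine orderOf_dvd_iff_pow_eq_one.1 ((orderOf_dvd_card' hz).trans ?_)
  rw [H11.card_center_SU hF (by norm_num)]
  exact Nat.gcd_dvd_left _ _

theorem Sys.no_six {Q : Prop} (h : Sys A₁ A₂ A₃) (l : (∃ (F : Type) (_ : Field F)
    (_ : Fintype F), Fintype.card F % 12 ≠ 1 ∧ Fintype.card F % 12 ≠ 11 ∧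
      Nonempty (G ≃* Matrix.ProjectiveSpecialLinearGroup (Fin 2) F)) ∨
    (∃ (F : Type) (_ : Field F) (_ : Fintype F) (n : ℕ), 2 ≤ n ∧ n % 6 ≠ 0 ∧ Fintype.card F = 2 ^ n ∧
      Nonempty (G ≃* Matrix.ProjectiveSpecialLinearGroup (Fin 3) F)) ∨
    (∃ (F : Type) (_ : Field F) (_ : Fintype F) (n : ℕ), 2 ≤ n ∧ n % 6 ≠ 3 ∧
      Fintype.card F = (2 ^ n) ^ 2 ∧ Nonempty (G ≃* PSU 3 F (2 ^ n))) ∨ Q) : Q := by
  rcases l with ⟨F, _, _, -, -, ⟨e⟩⟩ | ⟨F, _, _, n, -, -, c, ⟨e⟩⟩ | ⟨F, _, _, n, -, -, c, ⟨e⟩⟩ | l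
  exacts [(h.l2 e).elim, (h.l3 c e).elim, (h.u3 c e).elim, l]

end H5.SC
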