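import Cfsg.Agent.H5.Burnside
import Cfsg.Agent.H19.Amb5

/-! A group with few classes around a commuting pair of elements of orders two and three. -/

set_option autoImplicit false
set_option linter.unusedSectionVars false

open Cfsg
namespace H5.SC

open H19 Subgroup H5

variable {G : Type*} [Group G] [Finite G] {P : G → Prop} {a b g k s t u w x z : G} {m n p : ℕ}
  {H K L M N Q R S T V : Subgroup G}

theorem orb (K : Subgroup G) (x : G) : {y | ∃ k ∈ K, k * x * k⁻¹ = y}.ncard = C[x].relIndex K := by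
  let i : MulAction K G := MulAction.compHom G ((MulAut.conj (G := G)).comp K.subtype)
  have := @MulAction.index_stabilizer K G _ i x
  rw [relIndex, show C[x].subgroupOf K = @MulAction.stabilizer K G _ i x from Subgroup.ext fun k =>
    mem_cent1.trans mul_inv_eq_iff_eq_mul.symm, this]
  congr 1
  ext y
  exact ⟨fun ⟨k, hk, e⟩ => ⟨⟨k, hk⟩, e⟩, fun ⟨k, e⟩ => ⟨k, k.2, e⟩⟩

theorem par {X : Set G} (h : ∀ g ∈ X, g⁻¹ ∈ X) (h2 : ∀ g ∈ X, g⁻¹ ≠ g) : Even X.ncard := by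
  rw [Set.ncard_eq_toFinset_card X, ← ZMod.natCast_eq_zero_iff_even, Finset.card_eq_sum_ones,
    Nat.cast_sum]
  exact Finset.sum_involution (fun g _ => g⁻¹) (fun _ _ => by decide)
    (fun g hg _ => h2 g (by simpa using hg)) (fun g hg => by simpa using h g (by simpa using hg))
    (by simp)

theorem even_idx (hk : k ∈ K) (e : k * z * k⁻¹ = z⁻¹) (n : z * z ≠ 1) : Even (C[z].relIndex K) := by
  rw [← orb]
  refine par (fun g ⟨c, hc, e'⟩ => ⟨c * k, mul_mem hc hk, ?_⟩) fun g ⟨c, _, e'⟩ i => n ?_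
  · rw [← e', conj_inv, ← e]; group
  · rw [← e', conj_inv] at i
    exact mul_eq_one_iff_inv_eq.2 (mul_left_cancel (mul_right_cancel i))

theorem comm_of_sq (h : ∀ g ∈ S, g * g = 1) (ha : a ∈ S) (hb : b ∈ S) : a * b = b * a := by
  rw [← inv_eq_of_mul_eq_one_right (h _ (mul_mem ha hb)), mul_inv_rev,
    inv_eq_of_mul_eq_one_right (h a ha), inv_eq_of_mul_eq_one_right (h b hb)]

theorem om (ha : orderOf a = m) (hb : orderOf b = n) (e : a * b = b * a) (c : m.Coprime n) :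
    orderOf (a * b) = m * n := by
  subst ha hb
  exact Commute.orderOf_mul_eq_mul_orderOf_of_coprime e c

theorem oc (h : IsConj a b) : orderOf a = orderOf b := by
  obtain ⟨c, rfl⟩ := isConj_iff.1 h
  exact (orderOf_conj' c a).symm

theorem ex_ord (hg : g ∈ K) (h : n ∣ orderOf g) : ∃ a ∈ K, orderOf a = n :=
  ⟨_, pow_mem hg _, orderOf_pow_orderOf_div (orderOf_pos g).ne' h⟩

theorem sq1 (h : orderOf s = 2) : s * s = 1 := by rw [← pow_two, ← h, pow_orderOf_eq_one]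

theorem o2 (h : s * s = 1) (h1 : s ≠ 1) : orderOf s = 2 := orderOf_eq_prime (by rwa [pow_two]) h1

theorem o4 (h : s ^ 4 = 1) (h1 : s * s ≠ 1) : orderOf s = 4 :=
  orderOf_eq_prime_pow (p := 2) (n := 1) (by rwa [pow_one, pow_two]) h

theorem ne1 (h : orderOf s = n) (h1 : n ≠ 1 := by norm_num) : s ≠ 1 := fun e => h1 (by simp [← h, e])

theorem zp2 (h : s * s = 1) (ha : a ∈ zpowers s) : a = 1 ∨ a = s := by
  obtain ⟨k, rfl⟩ := ha
  rcases Int.even_or_odd' k with ⟨j, rfl | rfl⟩ <;> simp [zpow_add, zpow_mul, pow_two, h]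

theorem pow_of (hp : p.Prime) (h : PiE {p} g) (hn : ¬ p ^ (n + 1) ∣ orderOf g) : g ^ p ^ n = 1 := by
  obtain ⟨k, e⟩ := h.exists_pow (orderOf_pos g).ne'
  rw [← orderOf_dvd_iff_pow_eq_one]
  rw [e, Nat.pow_dvd_pow_iff_le_right hp.one_lt] at hn ⊢
  omega

theorem sec (e : ∀ a, a * w = w * a → a ^ m = 1 → (w * a) ^ n = w) (ha : a ∈ C[w]) (hb : b ∈ C[w])
    (am : a ^ m = 1) (bm : b ^ m = 1) (c : IsConj (w * a) (w * b)) : ∃ k ∈ C[w], k * a * k⁻¹ = b := by
  obtain ⟨k, hk⟩ := isConj_iff.1 c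
  have : k * w * k⁻¹ = w := by
    conv_lhs => rw [← e a (mem_cent1.1 ha) am, ← conj_pow, hk, e b (mem_cent1.1 hb) bm]
  refine ⟨k, mem_cent1.2 (mul_inv_eq_iff_eq_mul.1 this), mul_left_cancel (a := w) ?_⟩
  rw [← hk]
  conv_lhs => rw [← this]
  group

structure LA (P : G → Prop) (t u x : G) : Prop where
  t2 : orderOf t = 2
  u2 : u * u = t
  x3 : orderOf x = 3
  xt : x * t = t * x
  pt : P t
  cl : ∀ g k, P g → g ≠ 1 → k * g = g * k → P k
  inv : ∀ s, orderOf s = 2 → IsConj t s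
  six : ∀ f : Fin 7 → G, (∀ i, P (f i)) → ∃ i j, i ≠ j ∧ IsConj (f i) (f j)
  ab : ∀ R : Subgroup G, PG 3 R → Ab R
  four : ∃ s, orderOf s = 2 ∧ s ≠ t ∧ s * t = t * s

/-- an element outside the five visible classes -/
def New (P : G → Prop) (t u x w : G) : Prop :=
  P w ∧ orderOf w ≠ 1 ∧ orderOf w ≠ 2 ∧ ¬ IsConj u w ∧ ¬ IsConj x w ∧ ¬ IsConj (x * t) w

namespace LA
variable (h : LA P t u x)
include h

theorem tt : t * t = 1 := sq1 h.t2
theorem t1 : t ≠ 1 := ne1 h.t2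
theorem x1 : x ≠ 1 := ne1 h.x3
theorem xx : x ^ 3 = 1 := h.x3 ▸ pow_orderOf_eq_one x
theorem xH : x ∈ C[t] := mem_cent1.2 h.xt
theorem tK : t ∈ C[x] := mem_cent1.2 h.xt.symm
theorem uH : u ∈ C[t] := mem_cent1.2 (by rw [← h.u2, mul_assoc])
theorem u4 : orderOf u = 4 :=
  o4 (by rw [show 4 = 2 * 2 from rfl, pow_mul, pow_two u, h.u2, pow_two, h.tt]) (h.u2 ▸ h.t1)
theorem pH (hg : g ∈ C[t]) : P g := h.cl t g h.pt h.t1 (mem_cent1.1 hg)
theorem pK (hg : g ∈ C[x]) : P g := h.cl x g (h.pH h.xH) h.x1 (mem_cent1.1 hg)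
theorem ox (hg : g ∈ C[x]) (e : orderOf g = n) (c : Nat.Coprime 3 n := by norm_num) :
    orderOf (x * g) = 3 * n := om h.x3 e (mem_cent1.1 hg).symm c
theorem ot (hg : g ∈ C[t]) (e : orderOf g = n) (c : Nat.Coprime 2 n := by norm_num) :
    orderOf (t * g) = 2 * n := om h.t2 e (mem_cent1.1 hg).symm c
theorem y6 : orderOf (x * t) = 6 := h.ox h.tK h.t2
theorem mx (hg : g ∈ C[x]) : P (x * g) := h.pK (mul_mem (mem_cent1_self x) hg)
theorem mt' (hg : g ∈ C[t]) : P (t * g) := h.pH (mul_mem (mem_cent1_self t) hg)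

theorem new {w' : G} (a : New P t u x w) (b : New P t u x w') : IsConj w w' := by
  obtain ⟨a0, a1, a2, a3, a4, a5⟩ := a
  obtain ⟨b0, b1, b2, b3, b4, b5⟩ := b
  obtain ⟨i, j, n, c⟩ := h.six ![1, t, u, x, x * t, w, w'] fun i => by
    fin_cases i
    exacts [h.pH (one_mem _), h.pt, h.pH h.uH, h.pH h.xH, h.mx h.tK, a0, b0]
  have o := oc c
  have c' := c.symm
  have := h.t2
  have := h.u4
  have := h.x3
  have := h.y6
  fin_cases i <;> fin_cases j <;> simp only [Fin.zero_eta, Fin.mk_one, Fin.reduceFinMk,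
    Matrix.cons_val, ne_eq, not_true_eq_false, orderOf_one] at n o c c' <;>
    first | assumption | omega | contradiction

theorem newo {w' : G} (a : New P t u x w) (b : New P t u x w') : orderOf w = orderOf w' :=
  oc (h.new a b)

theorem nw (p : P w) (e : orderOf w = n) (c : n ≠ 1 ∧ n ≠ 2 ∧ n ≠ 3 ∧ n ≠ 4 ∧ n ≠ 6 := by omega) :
    New P t u x w :=
  ⟨p, by omega, by omega, fun c => by have := oc c; have := h.u4; omega,
    fun c => by have := oc c; have := h.x3; omega, fun c => by have := oc c; have := h.y6; omega⟩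

theorem n3 (p : P w) (e : orderOf w = 3) (c : ¬ IsConj x w) : New P t u x w :=
  ⟨p, by omega, by omega, fun c => by have := oc c; have := h.u4; omega, c,
    fun c => by have := oc c; have := h.y6; omega⟩

theorem n6 (p : P w) (e : orderOf w = 6) (c : ¬ IsConj (x * t) w) : New P t u x w :=
  ⟨p, by omega, by omega, fun c => by have := oc c; have := h.u4; omega,
    fun c => by have := oc c; have := h.x3; omega, c⟩

theorem piH : PiG {2, 3} C[t] := fun p hp d => by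
  by_contra n
  simp only [Set.mem_insert_iff, Set.mem_singleton_iff, not_or] at n
  obtain ⟨g, hg, e⟩ := exists_orderOf_eq_prime hp d
  have := hp.five_le_of_ne_two_of_ne_three n.1 n.2
  have : p ≠ 6 := by rintro rfl; norm_num at hp
  have f := h.ot hg e ((Nat.coprime_primes Nat.prime_two hp).2 (Ne.symm n.1))
  have := h.newo (h.nw (h.pH hg) e) (h.nw (h.mt' hg) f)
  omega

theorem piK : PiG {2, 3} C[x] := fun p hp d => by
  by_contra n
  simp only [Set.mem_insert_iff, Set.mem_singleton_iff, not_or] at n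
  obtain ⟨g, hg, e⟩ := exists_orderOf_eq_prime hp d
  have := hp.five_le_of_ne_two_of_ne_three n.1 n.2
  have : p ≠ 6 := by rintro rfl; norm_num at hp
  have f := h.ox hg e ((Nat.coprime_primes Nat.prime_three hp).2 (Ne.symm n.2))
  have := h.newo (h.nw (h.pK hg) e) (h.nw (h.mx hg) f)
  omega

theorem solH : Sol C[t] := isSolvable_of_primes_subset_pair Nat.prime_two Nat.prime_three h.piH
theorem solK : Sol C[x] := isSolvable_of_primes_subset_pair Nat.prime_two Nat.prime_three h.piK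

theorem cube (hg : g ∈ C[t]) (p : PiE {3} g) : g ^ 3 = 1 := pow_of (n := 1) Nat.prime_three p fun d => by
  obtain ⟨a, ha, e⟩ := ex_ord hg d
  have f := h.ot ha e
  have := h.newo (h.nw (h.pH ha) e) (h.nw (h.mt' ha) f)
  omega

theorem quad (hg : g ∈ C[x]) (p : PiE {2} g) : g ^ 4 = 1 := pow_of (n := 2) Nat.prime_two p fun d => by
  obtain ⟨a, ha, e⟩ := ex_ord hg d
  have f := h.ox ha e
  have := h.newo (h.nw (h.pK ha) e) (h.nw (h.mx ha) f)
  omega

theorem px (a : G) (e : a * x = x * a) (a4 : a ^ 4 = 1) : (x * a) ^ 4 = x := by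
  rw [(show Commute x a from e.symm).mul_pow, a4, mul_one, pow_succ, h.xx, one_mul]

theorem pt' (a : G) (e : a * t = t * a) (a3 : a ^ 3 = 1) : (t * a) ^ 3 = t := by
  rw [(show Commute t a from e.symm).mul_pow, a3, mul_one, pow_three, h.tt, mul_one]

theorem t4 : t ^ 4 = 1 := by rw [show 4 = 2 * 2 from rfl, pow_mul, pow_two t, h.tt, one_pow]

theorem c3 (ha : a ∈ C[t]) (a3 : orderOf a = 3) : IsConj x a := by
  by_contra n
  have f := h.ot ha a3
  have := h.newo (h.n3 (h.pH ha) a3 n) (h.n6 (h.mt' ha) f fun c => n (by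
    have := c.pow 4
    rwa [h.px t h.xt.symm h.t4, (show Commute t a from (mem_cent1.1 ha).symm).mul_pow, h.t4, one_mul,
      pow_succ, ← a3, pow_orderOf_eq_one, one_mul] at this))
  omega

theorem c4 (ha : a ∈ C[x]) (hb : b ∈ C[x]) (a4 : orderOf a = 4) (b4 : orderOf b = 4) :
    IsConj (x * a) (x * b) :=
  h.new (h.nw (h.mx ha) (h.ox ha a4)) (h.nw (h.mx hb) (h.ox hb b4))

theorem k4 (ha : a ∈ C[x]) (hb : b ∈ C[x]) (a4 : orderOf a = 4) (b4 : orderOf b = 4) :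
    ∃ k ∈ C[x], k * a * k⁻¹ = b :=
  sec h.px ha hb (a4 ▸ pow_orderOf_eq_one a) (b4 ▸ pow_orderOf_eq_one b) (h.c4 ha hb a4 b4)

theorem c2 (hs : s ∈ C[x]) (s2 : orderOf s = 2) : IsConj (x * t) (x * s) := by
  by_contra n
  have ns := h.n6 (h.mx hs) (h.ox hs s2) n
  have p4 : ∀ g : G, orderOf g = 2 → g ^ 4 = 1 := fun g e => orderOf_dvd_iff_pow_eq_one.1 (by simp [e])
  have od : ∀ a ∈ C[x], orderOf a = 2 → Odd (C[a].relIndex C[x]) := fun a ha a2 => by
    obtain ⟨S, hS, l⟩ := (PiN.of_card Nat.prime_two ((Nat.card_zpowers a).trans a2)).exists_syl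
      (zpowers_le.2 ha)
    refine Nat.not_even_iff_odd.1 (mt even_iff_two_dvd.1 (hS.not_dvd_relIndex Nat.prime_two
      fun g hg => mem_cent1.2 (comm_of_sq (fun g hg => ?_) hg (l (mem_zpowers a)))))
    by_contra e
    have := h.ox (hS.le hg) (o4 (h.quad (hS.le hg) (hS.pi.elt hg)) e)
    have := h.newo ns (h.nw (h.mx (hS.le hg)) this)
    have := h.ox hs s2
    omega
  have e1 := od t h.tK h.t2
  have e2 := od s hs s2
  rw [← orb] at e1 e2
  set X := {y | ∃ k ∈ C[x], k * t * k⁻¹ = y}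
  set Y := {y | ∃ k ∈ C[x], k * s * k⁻¹ = y}
  set Z := {g | g ∈ C[x] ∧ g * g ≠ 1}
  have e3 : Even Z.ncard := par (fun g hg => ⟨inv_mem hg.1, by simpa [← mul_inv_rev] using hg.2⟩)
    fun g hg e => hg.2 (mul_eq_one_iff_inv_eq.2 e)
  have m : ∀ {a y}, a ∈ C[x] → orderOf a = 2 → (∃ k ∈ C[x], k * a * k⁻¹ = y) →
      y ∈ C[x] ∧ y * y = 1 ∧ y ≠ 1 ∧ IsConj (x * a) (x * y) := by
    rintro a _ ha a2 ⟨k, hk, rfl⟩
    refine ⟨mul_mem (mul_mem hk ha) (inv_mem hk), by simp [sq1 a2], by simpa using ne1 a2,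
      isConj_iff.2 ⟨k, ?_⟩⟩
    rw [← mul_assoc, mem_cent1.1 hk]; group
  have e : (C[x] : Set G) = insert 1 (X ∪ Y ∪ Z) := Set.ext fun g => ⟨fun hg => by
    by_cases g1 : g = 1
    · exact Or.inl g1
    by_cases g2 : g * g = 1
    · have g3 := o2 g2 g1
      by_cases c : IsConj (x * t) (x * g)
      · exact Or.inr (Or.inl (Or.inl (sec h.px h.tK hg h.t4 (p4 g g3) c)))
      · exact Or.inr (Or.inl (Or.inr (sec h.px hs hg (p4 s s2) (p4 g g3)
          (h.new ns (h.n6 (h.mx hg) (h.ox hg g3) c)))))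
    · exact Or.inr (Or.inr ⟨hg, g2⟩), by
    rintro (rfl | (a | a) | a)
    exacts [one_mem _, (m h.tK h.t2 a).1, (m hs s2 a).1, a.1]⟩
  have e4 : Even (C[x] : Set G).ncard := even_iff_two_dvd.2 (h.t2 ▸ orderOf_dvd_card' h.tK)
  rw [e, Set.ncard_insert_of_notMem (by
      rintro ((a | a) | a)
      exacts [(m h.tK h.t2 a).2.2.1 rfl, (m hs s2 a).2.2.1 rfl, a.2 (mul_one 1)]),
    Set.ncard_union_eq (Set.disjoint_left.2 (by
      rintro g (a | a) b
      exacts [b.2 (m h.tK h.t2 a).2.1, b.2 (m hs s2 a).2.1])),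
    Set.ncard_union_eq (s := X) (t := Y) (Set.disjoint_left.2 fun g a b =>
      n ((m h.tK h.t2 a).2.2.2.trans (m hs s2 b).2.2.2.symm))] at e4
  exact (Nat.not_even_iff_odd.2 ((e1.add_odd e2).add e3).add_one) e4

theorem k2 (hs : s ∈ C[x]) (s2 : orderOf s = 2) : ∃ k ∈ C[x], k * t * k⁻¹ = s :=
  sec h.px h.tK hs h.t4 (orderOf_dvd_iff_pow_eq_one.1 (by simp [s2])) (h.c2 hs s2)

theorem c6 (ha : orderOf a = 3) (s2 : orderOf s = 2) (e : a * s = s * a) (c : IsConj x a) :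
    IsConj (x * t) (a * s) := by
  obtain ⟨g, rfl⟩ := isConj_iff.1 c
  refine (h.c2 (s := g⁻¹ * s * g⁻¹⁻¹) (mem_cent1.2 ?_) ((orderOf_conj' _ _).trans s2)).trans
    (isConj_iff.2 ⟨g, by group⟩)
  calc _ = g⁻¹ * (s * (g * x * g⁻¹)) * g := by group
    _ = _ := by rw [← e]; group

theorem h3 (ha : a ∈ C[t]) (a3 : orderOf a = 3) : ∃ k ∈ C[t], k * x * k⁻¹ = a :=
  sec h.pt' h.xH ha h.xx (a3 ▸ pow_orderOf_eq_one a) (by
    rw [← h.xt, ← mem_cent1.1 ha]; exact h.c6 a3 h.t2 (mem_cent1.1 ha) (h.c3 ha a3))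

theorem real (hs : s ∈ C[x]) (s4 : s ^ 4 = 1) : IsConj (x * s) (x * s)⁻¹ := by
  have r := h.c3 (inv_mem h.xH) ((orderOf_inv x).trans h.x3)
  by_cases s1 : s = 1
  · simpa only [s1, mul_one] using r
  by_cases s2 : s * s = 1
  · have e : x⁻¹ * s = s * x⁻¹ := (show Commute s x from mem_cent1.1 hs).inv_right.symm
    rw [mul_inv_rev, inv_eq_of_mul_eq_one_right s2, ← e]
    exact (h.c2 hs (o2 s2 s1)).symm.trans (h.c6 ((orderOf_inv x).trans h.x3) (o2 s2 s1) e r)
  · have := h.ox hs (o4 s4 s2)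
    exact h.new (h.nw (h.mx hs) this)
      (h.nw (h.pK (inv_mem (mul_mem (mem_cent1_self x) hs))) ((orderOf_inv _).trans this))

end LA

end H5.SC
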