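import Cfsg.Agent.H5.SC5

/-! The centralizer of the element of order three. -/

set_option autoImplicit false
set_option linter.unusedSectionVars false

open Cfsg
namespace H5.SC

open H19 Subgroup H5

theorem two_three {a b : ℕ} (h : 2 ^ a + 1 = 3 ^ b) : a = 1 ∨ a = 3 := by
  have e : 3 ^ b % 80 = 3 ^ (b % 4) % 80 := by
    conv_lhs => rw [← Nat.div_add_mod b 4, pow_add, pow_mul, Nat.mul_mod, Nat.pow_mod]
    norm_num
  have h4 := Nat.mod_lt b four_pos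
  by_cases c : 4 ≤ a
  · exfalso
    obtain ⟨k, rfl⟩ := Nat.exists_eq_add_of_le c
    have h5 : ¬ 5 ∣ 2 ^ (4 + k) := fun h => by
      have := Nat.prime_five.dvd_of_dvd_pow h; omega
    rw [pow_add] at h h5
    generalize b % 4 = r at *
    interval_cases r <;> omega
  · have : a ≤ 3 := by omega
    generalize b % 4 = r at *
    interval_cases a <;> interval_cases r <;> omega

theorem three_two {a b : ℕ} (h : 3 ^ b + 1 = 2 ^ a) : a ≤ 2 := by
  by_contra c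
  obtain ⟨k, rfl⟩ := Nat.exists_eq_add_of_le (show 3 ≤ a by omega)
  have e : 3 ^ b % 8 = 3 ^ (b % 2) % 8 := by
    conv_lhs => rw [← Nat.div_add_mod b 2, pow_add, pow_mul, Nat.mul_mod, Nat.pow_mod]
    norm_num
  rw [pow_add] at h
  rcases Nat.mod_two_eq_zero_or_one b with h2 | h2 <;> rw [h2] at e <;> omega

theorem num2 {v n m i c : ℕ} (hv : 0 < v) (i0 : 0 < i) (e : i + 2 ^ v = 2 ^ n)
    (f : c * i = 2 ^ n * 3 ^ m) (d : 2 ^ (v + 1) ∣ c) : v = 1 ∧ n = 3 ∧ i = 6 := by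
  obtain ⟨j, rfl⟩ := Nat.exists_eq_add_of_lt
    ((Nat.pow_lt_pow_iff_right one_lt_two).1 (show 2 ^ v < 2 ^ n by omega))
  obtain ⟨o, ho⟩ : ∃ o, 2 ^ (j + 1) = o + 1 := ⟨_, (Nat.sub_add_cancel Nat.one_le_two_pow).symm⟩
  obtain rfl : i = 2 ^ v * o := by rw [add_assoc, pow_add, ho] at e; linarith
  have c2 : o.Coprime 2 := (Nat.coprime_two_right).2 (by rw [pow_succ] at ho; exact ⟨2 ^ j - 1, by omega⟩)
  obtain ⟨l, -, rfl⟩ := (Nat.dvd_prime_pow Nat.prime_three).1 ((c2.pow_right _).dvd_of_dvd_mul_left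
    (f ▸ Dvd.intro_left (c * 2 ^ v) (mul_assoc _ _ _)))
  have := three_two ho.symm
  have : 2 ^ (v + 1 + v) ∣ 2 ^ (v + j + 1) := (Nat.Coprime.pow _ m (by norm_num)).dvd_of_dvd_mul_right
    (f ▸ pow_add 2 _ v ▸ mul_dvd_mul d (dvd_mul_right _ _))
  have := (Nat.pow_dvd_pow_iff_le_right one_lt_two).1 this
  obtain rfl : v = 1 := by omega
  obtain rfl : j = 1 := by omega
  omega

variable {G : Type*} [Group G] [Finite G] {P : G → Prop} {a b g k r s t u w x z : G} {m n p : ℕ}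
  {H K L M N Q R S T V : Subgroup G}

theorem h23 (h : PiG {2, 3} M) (hS : Syl 2 S M) : Hall {3}ᶜ S M :=
  hS.congr fun p hp d => by
    rcases h p hp d with rfl | rfl <;> simp

theorem card23 (h : PiG {2, 3} M) (hS : Syl 2 S M) (hR : Syl 3 R M) : #R * #S = #M :=
  hR.card_mul_compl (h23 h hS)

theorem pow23 (h : PiN {2, 3} n) (h0 : n ≠ 0) : (¬ 2 ∣ n → ∃ i, n = 3 ^ i) ∧ (¬ 3 ∣ n → ∃ i, n = 2 ^ i) :=
  ⟨fun d => PiN.exists_pow (fun p hp e => (h p hp e).resolve_left fun k => d (k ▸ e)) h0,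
    fun d => PiN.exists_pow (fun p hp e => (h p hp e).resolve_right fun k => d (k ▸ e)) h0⟩

theorem plen (hs : Sol K) (hR : Syl p R K) (ha : Ab R) : K ≤ N(Oc {p}ᶜ K ⊔ R) := by
  have n := Oc_norm {p}ᶜ K
  have s := hR.quo n
  refine norms_of_quo n (hR.le.trans n) ?_
  have e := Fit_eq_Oc (Oc_quo_Oc {p}ᶜ K)
  have l := cent_Fit_le (sol_quo hs (Oc {p}ᶜ K))
  rw [e] at l
  rw [le_antisymm ((le_inf s.le (cents_of_comm (ab_quo ha _) le_rfl (Oc_le_hall s))).trans l)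
    (Oc_le_hall s)]
  exact Oc_norm _ _

theorem cm (h : ∀ g ∈ S, g * g ∈ V) (hs : s ∈ S) (ha : a ∈ S) : s * a * s⁻¹ * a⁻¹ ∈ V := by
  convert mul_mem (mul_mem (h s hs) (h _ (mul_mem (inv_mem hs) ha))) (inv_mem (h a ha)) using 1
  group

theorem idx2 (ha : a ∈ V) (a2 : orderOf a = 2) (c : #V ∣ 4) (hg : g ∈ N(V)) (e : g * a = a * g)
    (hw : w ∈ V) : g * w * g⁻¹ * w⁻¹ ∈ zpowers a := by
  have n : g ∈ N(zpowers a) := cent1_le_norm_zpowers a (mem_cent1.2 e)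
  by_cases k : w ∈ zpowers a
  · exact mul_mem (conj_mem_of_norm n k) (inv_mem k)
  have c1 := card_mul_relIndex (zpowers_le.2 ha)
  have c2 := card_lt (lt_of_le_of_ne (zpowers_le.2 ha) fun e => k (e ▸ hw))
  rw [Nat.card_zpowers, a2] at c1 c2
  have := Nat.le_of_dvd four_pos c
  have i : ((zpowers a).subgroupOf V).index = 2 := by
    show (zpowers a).relIndex V = 2
    omega
  exact (mul_mem_iff_of_index_two i (a := ⟨_, conj_mem_of_norm hg hw⟩) (b := ⟨_, inv_mem hw⟩)).2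
    (iff_of_false (fun m => k (by simpa [mul_assoc] using conj_mem_of_norm' n m))
      fun m => k (inv_mem_iff.1 m))

theorem sq_cent (ha : a ∈ V) (a2 : orderOf a = 2) (c : #V ∣ 4) (hg : g ∈ N(V)) (e : g * a = a * g) :
    g * g ∈ C(V) := mem_cent.2 fun w hw => by
  rcases zp2 (sq1 a2) (idx2 ha a2 c hg e hw) with k | k
  · have k : g * w = w * g := by rw [mul_inv_eq_one, mul_inv_eq_iff_eq_mul] at k; exact k
    rw [← mul_assoc, ← k, mul_assoc, ← k, mul_assoc]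
  · have k : g * w = a * w * g := by rw [← k]; group
    calc _ = a * a * w * (g * g) := by rw [sq1 a2, one_mul]
      _ = a * (a * w * g) * g := by simp only [mul_assoc]
      _ = g * (a * w * g) := by rw [← k, ← mul_assoc, ← e, k]; simp only [mul_assoc]
      _ = _ := by rw [← k, mul_assoc]

theorem ncard_sub (h : V ≤ S) : ((S : Set G) \ V).ncard + #V = #S := Set.ncard_diff_add_ncard_of_subset h

namespace LA
variable (h : LA P t u x)
include h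

theorem exS : ∃ S, Syl 2 S C[x] ∧ t ∈ S ∧ S ≤ C[t] := by
  obtain ⟨S, hS⟩ := exists_syl 2 C[x]
  obtain ⟨s, hs, s2⟩ := exists_orderOf_eq_prime Nat.prime_two ((hS.pi.infl _).dvd_of_ne_bot
    (hS.pi.center_ne_bot (hS.sne_bot Nat.prime_two (h.t2 ▸ orderOf_dvd_card' h.tK))))
  obtain ⟨k, hk, rfl⟩ := h.k2 (hS.le hs.1) s2
  refine ⟨cj k⁻¹ S, hS.Jmem (inv_mem hk), mem_cj_inv.2 hs.1, ?_⟩
  rw [cj_le_iff, inv_inv, cj_cent1]
  exact le_cent1_iff.2 hs.2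

theorem exR : ∃ R₀ R, Syl 3 R₀ C[t] ∧ x ∈ R₀ ∧ R₀ ≤ R ∧ Syl 3 R C[x] := by
  obtain ⟨R₀, a, b⟩ := (PiN.of_card Nat.prime_three ((Nat.card_zpowers x).trans h.x3)).exists_syl
    (zpowers_le.2 h.xH)
  have c := b (mem_zpowers x)
  obtain ⟨R, d, e⟩ := a.pi.exists_syl (M := C[x]) fun g hg =>
    mem_cent1.2 (mul_comm_of_comm (h.ab _ a.pi) hg c)
  exact ⟨R₀, R, a, c, e, d⟩

theorem st (hS : Syl 2 S C[x]) (ha : a ∈ S) (hb : b ∈ S) (c : ∃ k ∈ C[x], k * a * k⁻¹ = b) :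
    ∃ s ∈ S, s * a * s⁻¹ * b⁻¹ ∈ Oc {3}ᶜ C[x] := by
  obtain ⟨k, hk, rfl⟩ := c
  obtain ⟨R, hR⟩ := exists_syl 3 C[x]
  have n := plen h.solK hR (h.ab _ hR.pi)
  have l := Oc_le_hall (h23 h.piK hS)
  rw [← hR.sup_compl (h23 h.piK hS)] at hk
  obtain ⟨m, hm, s, hs, rfl⟩ := (mem_sup_of_norm (hS.le.trans n)).1
    (sup_le_sup_right le_sup_right S hk)
  have c := mul_mem (mul_mem hs ha) (inv_mem hs)
  refine ⟨s, hs, ?_⟩
  have : s * a * s⁻¹ * (m * s * a * (m * s)⁻¹)⁻¹ ∈ (Oc {3}ᶜ C[x] ⊔ R) ⊓ S := by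
    refine mem_inf.2 ⟨?_, mul_mem c (inv_mem hb)⟩
    convert mul_mem (conj_mem_of_norm (n (hS.le c)) hm) (inv_mem hm) using 1
    group
  rwa [sup_inf_modl (hR.le.trans (Oc_norm _ _)) l, hR.pi.inf_eq_bot (h23 h.piK hS).pi,
    sup_bot_eq] at this

theorem kbot (hS : Syl 2 S C[x]) (tS : t ∈ S) (St : S ≤ C[t]) (hQ : Oc {3}ᶜ C[x] = ⊥) : #S = 2 := by
  have st : ∀ {a b}, a ∈ S → b ∈ S → (∃ k ∈ C[x], k * a * k⁻¹ = b) → ∃ s ∈ S, s * a * s⁻¹ = b :=
    fun ha hb c => by simpa only [hQ, mem_bot, mul_inv_eq_one] using h.st hS ha hb c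
  have i : ∀ s ∈ S, s * s = 1 → s ∈ zpowers t := fun s hs e => by
    by_cases s1 : s = 1
    · simp [s1]
    obtain ⟨c, hc, rfl⟩ := st tS hs (h.k2 (hS.le hs) (o2 e s1))
    simp [mem_cent1.1 (St hc)]
  have q : ∀ s ∈ S, s ^ 4 = 1 := fun s hs => h.quad (hS.le hs) (hS.pi.elt hs)
  rw [← h.t2, ← Nat.card_zpowers, le_antisymm (fun z hz => i z hz ?_) (zpowers_le.2 tS)]
  by_contra e
  have z4 := o4 (q z hz) e
  have l : zpowers t ≤ C[z] := zpowers_le.2 (mem_cent1_symm.1 (St hz))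
  obtain ⟨s, hs, k⟩ := st hz (inv_mem hz) (h.k4 (hS.le hz) (hS.le (inv_mem hz)) z4
    ((orderOf_inv z).trans z4))
  have : s ∈ C[z] := by
    by_cases f : s * s = 1
    · exact l (i s hs f)
    obtain ⟨c, hc, rfl⟩ := st hz hs (h.k4 (hS.le hz) (hS.le hs) z4 (o4 (q s hs) f))
    simpa using mul_mem (l (cm (fun g hg => i _ (mul_mem hg hg) (by
      rw [← q g hg]; simp only [pow_succ, pow_zero, one_mul, mul_assoc])) hc hz)) (mem_cent1_self z)
  rw [mem_cent1.1 this, mul_inv_cancel_right] at k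
  exact e (mul_eq_one_iff_eq_inv.2 k)

theorem kst (hS : Syl 2 S C[x]) (tS : t ∈ S) (St : S ≤ C[t]) : #S = 2 ∨
    (#S = 4 ∧ (∀ s ∈ S, s * s = 1) ∧ C[x] ≤ N(S) ∧ C[t].relIndex C[x] = 3) ∨
    (#S = 8 ∧ C[x] ≤ C[t] ∧ (∀ s ∈ S, s * s = 1 → s = 1 ∨ s = t) ∧
      ∃ z ∈ S, orderOf z = 4 ∧ C[z].relIndex C[x] = 6) := by
  by_cases hQ : Oc {3}ᶜ C[x] = ⊥
  · exact Or.inl (h.kbot hS tS St hQ)
  set Q := Oc {3}ᶜ C[x] with eQ
  have QS : Q ≤ S := Oc_le_hall (h23 h.piK hS)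
  have nQ : C[x] ≤ N(Q) := Oc_norm _ _
  set V := Ohm1 2 Z(Q)
  have nV : C[x] ≤ N(V) := nQ.trans (norm_le_norm_Ohm1_center 2 Q)
  have VQ : V ≤ Q := (Ohm1_le _ _).trans inf_le_left
  have VS := VQ.trans QS
  have v2 : ∀ v ∈ V, v * v = 1 := fun v hv => by
    rw [← pow_two]; exact pow_of_mem_Ohm1 (comm_center Q) hv
  have tV : t ∈ V := by
    obtain ⟨v, hv, v1⟩ := exists_ne_one ((hS.pi.of_le QS).Ohm1_center_ne_bot hQ)
    obtain ⟨k, hk, rfl⟩ := h.k2 (hS.le (VS hv)) (o2 (v2 v hv) v1)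
    simpa [mul_assoc] using conj_mem_of_norm' (nV hk) hv
  have iV : ∀ s ∈ C[x], s * s = 1 → s ∈ V := fun s hs e => by
    by_cases s1 : s = 1
    · simp [s1]
    obtain ⟨k, hk, rfl⟩ := h.k2 hs (o2 e s1)
    exact conj_mem_of_norm (nV hk) tV
  have q : ∀ s ∈ S, s ^ 4 = 1 := fun s hs => h.quad (hS.le hs) (hS.pi.elt hs)
  have sq : ∀ g ∈ S, g * g ∈ V := fun g hg => iV _ (hS.le (mul_mem hg hg)) (by
    rw [← q g hg]; simp only [pow_succ, pow_zero, one_mul, mul_assoc])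
  have c1 : C[t].relIndex C[x] + 1 = #V := by
    rw [← orb, ← ncard_sub (bot_le (a := V)), card_bot]
    congr 2
    ext s
    refine ⟨?_, fun ⟨a, b⟩ => h.k2 (hS.le (VS a)) (o2 (v2 s a) b)⟩
    rintro ⟨k, hk, rfl⟩
    exact ⟨conj_mem_of_norm (nV hk) tV, by simpa using h.t1⟩
  obtain ⟨i, hi⟩ := (pow23 (h.piK.relIndex C[t]) (relIndex_ne_zero' _ _)).1
    (hS.not_dvd_relIndex Nat.prime_two St)
  obtain ⟨v, hv⟩ := (hS.pi.of_le VS).exists_card
  have v0 : 0 < v := Nat.pos_of_ne_zero fun e => by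
    have := relIndex_pos C[t] C[x]
    rw [e] at hv; omega
  have v3 := three_two (hi ▸ c1.trans hv)
  by_cases el : ∀ s ∈ S, s * s = 1
  · obtain rfl : S = V := le_antisymm (fun s hs => iV s (hS.le hs) (el s hs)) VS
    interval_cases v
    · exact Or.inl hv
    · exact Or.inr (Or.inl ⟨hv, el, nV, by omega⟩)
  have cen : ∀ z ∈ S, z * z ≠ 1 → V ≤ C[z] := fun z hz e w hw => by
    have z2 : orderOf (z * z) = 2 := o2 (v2 _ (sq z hz)) e
    rcases zp2 (sq1 z2) (idx2 (sq z hz) z2 (hv ▸ pow_dvd_pow 2 v3) (nV (hS.le hz))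
      (mul_assoc _ _ _).symm hw) with k | k
    · rw [mul_inv_eq_one, mul_inv_eq_iff_eq_mul] at k; exact mem_cent1.2 k.symm
    · refine (e (v2 z ?_)).elim
      have := iV _ (hS.le (mul_mem hz (VS hw))) (by
        rw [show z * w * (z * w) = z * w * z⁻¹ * w⁻¹ * (w * (z * z) * w) by group, k,
          comm_of_sq v2 hw (sq z hz), mul_assoc _ w, v2 w hw, mul_one, sq1 z2])
      simpa using mul_mem this (inv_mem hw)
  obtain rfl : S = Q := by
    refine le_antisymm (fun z hz => ?_) QS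
    by_contra n
    have e : z * z ≠ 1 := fun e => n (VQ (iV z (hS.le hz) e))
    have z4 := o4 (q z hz) e
    have QV : Q ≤ V := fun s hs => iV s (hS.le (QS hs)) (by
      by_contra f
      obtain ⟨k, hk, rfl⟩ := h.k4 (hS.le (QS hs)) (hS.le hz) (o4 (q s (QS hs)) f) z4
      exact n (conj_mem_of_norm (nQ hk) hs))
    obtain ⟨k, hk, f⟩ := h.k4 (hS.le hz) (hS.le (inv_mem hz)) z4 ((orderOf_inv z).trans z4)
    refine hS.not_dvd_relIndex Nat.prime_two (K := C[z]) (fun s hs => ?_)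
      (even_iff_two_dvd.1 (even_idx hk f e))
    by_cases f : s * s = 1
    · exact cen z hz e (iV s (hS.le hs) f)
    obtain ⟨c, hc, m⟩ := h.st hS hz hs (h.k4 (hS.le hz) (hS.le hs) z4 (o4 (q s hs) f))
    convert mul_mem (cen z hz e (mul_mem (inv_mem (QV m)) (cm sq hc hz))) (mem_cent1_self z) using 1
    group
  push Not at el
  obtain ⟨z, hz, e⟩ := el
  have z4 := o4 (q z hz) e
  have c2 : C[z].relIndex C[x] + #V = #Q := by
    rw [← orb, ← ncard_sub VQ]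
    congr 2
    ext s
    refine ⟨?_, fun ⟨a, b⟩ => h.k4 (hS.le hz) (hS.le a) z4
      (o4 (q s a) fun f => b (iV s (hS.le a) f))⟩
    rintro ⟨k, hk, rfl⟩
    exact ⟨conj_mem_of_norm (nQ hk) hz, fun m => e (by simpa using v2 _ m)⟩
  obtain ⟨R, hR⟩ := exists_syl 3 C[x]
  obtain ⟨n, hn⟩ := hS.pi.exists_card
  obtain ⟨m, hm⟩ := hR.pi.exists_card
  have pL : PG 2 (V ⊔ zpowers z) := hS.pi.of_le (sup_le VQ (zpowers_le.2 hz))
  obtain ⟨l, hl⟩ := pL.exists_card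
  have lt := card_lt (left_lt_sup.2 fun m : zpowers z ≤ V => e (v2 _ (m (mem_zpowers z))))
  rw [hl, hv, Nat.pow_lt_pow_iff_right one_lt_two] at lt
  obtain ⟨rfl, rfl, i6⟩ := num2 (c := #(C[z] ⊓ C[x])) (m := m) (n := n) v0 (relIndex_pos _ _)
    (by rw [← hv, c2, hn]) (by
      rw [card_inf_mul_relIndex, ← card23 h.piK hS hR, hn, hm, mul_comm])
    ((pow_dvd_pow 2 lt).trans (hl ▸ card_dvd (le_inf (sup_le (cen z hz e)
      (zpowers_le.2 (mem_cent1_self z))) ((sup_le VQ (zpowers_le.2 hz)).trans hS.le))))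
  refine Or.inr (Or.inr ⟨hn, relIndex_eq_one.1 (by omega), fun s hs f => zp2 h.tt ?_, z, hz, z4, i6⟩)
  rw [eq_of_le_of_card_eq (zpowers_le.2 tV) (by rw [Nat.card_zpowers, h.t2, hv, pow_one])]
  exact iV s (hS.le hs) f

end LA

end H5.SC
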