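import Cfsg.Agent.H5.SC6

/-! The centralizer of the involution; the three remaining configurations. -/

set_option autoImplicit false
set_option linter.unusedSectionVars false

open Cfsg
namespace H5.SC

open H19 Subgroup H5

variable {G : Type*} [Group G] [Finite G] {P : G → Prop} {a b g k r s t u w x z : G} {m n p : ℕ}
  {H K L M N Q R R₀ S T V : Subgroup G}

namespace LA
variable (h : LA P t u x)
include h

section
variable (hR : Syl 3 R₀ C[t]) (xR : x ∈ R₀)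
include hR xR

theorem rK : R₀ ≤ C[x] := fun _ hg => mem_cent1.2 (mul_comm_of_comm (h.ab _ hR.pi) hg xR)

theorem r3 (ha : a ∈ R₀) (a1 : a ≠ 1) : orderOf a = 3 :=
  orderOf_eq_prime (h.cube (hR.le ha) (hR.pi.elt ha)) a1

theorem fus (ha : a ∈ R₀) (a1 : a ≠ 1) : ∃ n ∈ C[t] ⊓ N(R₀), n * x * n⁻¹ = a := by
  obtain ⟨k, hk, rfl⟩ := h.h3 (hR.le ha) (h.r3 hR xR ha a1)
  obtain ⟨c, hc, e⟩ := ((hR.Jmem hk).of_le (K := C[t] ⊓ C[k * x * k⁻¹]) (le_inf (hR.Jmem hk).le (by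
    rw [← cj_cent1]; exact cj_mono k (h.rK hR xR))) inf_le_left).sconj (hR.of_le (le_inf hR.le
      fun g hg => mem_cent1.2 (mul_comm_of_comm (h.ab _ hR.pi) hg ha)) inf_le_left)
  refine ⟨c * k, ⟨mul_mem hc.1 hk, mem_norm_iff_cj.2 (by rw [cj_mul, e])⟩, ?_⟩
  rw [show c * k * x * (c * k)⁻¹ = c * (k * x * k⁻¹) * c⁻¹ by group, mem_cent1.1 hc.2,
    mul_inv_cancel_right]

theorem cR' : C[x].relIndex (C[t] ⊓ N(R₀)) + 1 = #R₀ := by
  rw [← orb, ← ncard_sub (bot_le (a := R₀)), card_bot]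
  congr 2
  ext s
  refine ⟨?_, fun ⟨a, b⟩ => h.fus hR xR a b⟩
  rintro ⟨k, hk, rfl⟩
  exact ⟨conj_mem_of_norm hk.2 xR, by simpa using h.x1⟩

theorem cR : #R₀ = 3 ∨ #R₀ = 9 := by
  obtain ⟨i, hi⟩ := (pow23 ((h.piH.infl N(R₀)).relIndex C[x]) (relIndex_ne_zero' _ _)).2
    ((hR.of_le (le_inf hR.le le_normalizer) inf_le_left).not_dvd_relIndex Nat.prime_three
      (h.rK hR xR))
  obtain ⟨d, hd⟩ := hR.pi.exists_card
  have e := h.cR' hR xR
  rw [hi] at e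
  rcases two_three (e.trans hd) with rfl | rfl <;> omega

variable (hS : Syl 2 S C[x]) (St : S ≤ C[t])
include hS St

theorem cT : #R₀ * #S = #(C[t] ⊓ C[x]) :=
  card23 (h.piH.infl _) (hS.of_le (le_inf St hS.le) inf_le_right)
    (hR.of_le (le_inf hR.le (h.rK hR xR)) inf_le_left)

theorem eT : R₀ ⊔ S = C[t] ⊓ C[x] :=
  (hR.of_le (le_inf hR.le (h.rK hR xR)) inf_le_left).sup_compl
    (h23 (h.piH.infl _) (hS.of_le (le_inf St hS.le) inf_le_right))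

variable (c : S ≤ C(R₀))
include c

theorem eT' : C[t] ⊓ C[x] = C[t] ⊓ C(R₀) := le_antisymm (le_inf inf_le_left (by
    rw [← h.eT hR xR hS St]; exact sup_le (comm_iff_le_cent.1 (h.ab _ hR.pi)) c))
  (inf_le_inf_left _ (cent_le_cent1 xR))

theorem ca (ha : a ∈ R₀) (a1 : a ≠ 1) (hg : g ∈ C[t]) (e : g ∈ C[a]) : g ∈ C(R₀) := by
  obtain ⟨n, hn, rfl⟩ := h.fus hR xR ha a1
  rw [← cj_cent1, mem_cj] at e
  have := ((h.eT' hR xR hS St c).le (mem_inf.2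
    ⟨mul_mem (mul_mem (inv_mem (mem_inf.1 hn).1) hg) hn.1, e⟩)).2
  simpa [mul_assoc] using conj_mem_of_norm (norm_le_norm_cent _ hn.2) this

theorem nR (h9 : #R₀ = 9) : C[t] ≤ N(R₀) := by
  have ab := h.ab _ hR.pi
  have n := Oc_norm {3}ᶜ C[t]
  have l : Oc {3}ᶜ C[t] ≤ C(R₀) := le_of_cent1_le ab (fun cy => by
    obtain ⟨g, rfl⟩ := cyc_iff.1 cy
    have := Nat.le_of_dvd three_pos (orderOf_dvd_of_pow_eq_one (h.cube (hR.le (mem_zpowers g))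
      (hR.pi.elt (mem_zpowers g))))
    rw [Nat.card_zpowers] at h9
    omega) (hR.le.trans n) ((Oc_pi _ _).coprime' hR.pi) fun a ha a1 g hg =>
      h.ca hR xR hS St c ha a1 (Oc_le _ _ hg.1) hg.2
  rw [(hR.of_le le_sup_right (sup_le (Oc_le _ _) hR.le)).eq_Oc
    (sup_le (l.trans (cent_le_norm _)) le_normalizer)]
  exact norms_Oc _ (plen h.solH hR ab)

theorem iv (h9 : #R₀ = 9) (hg : g ∈ C[t]) (n : g ∉ C(R₀)) (e : g * g ∈ C(R₀)) (hr : r ∈ R₀) :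
    g * r * g⁻¹ = r⁻¹ := by
  have m := conj_mem_of_norm (h.nR hR xR hS St c h9 hg) hr
  by_contra k
  refine n (h.ca hR xR hS St c (mul_mem hr m) (fun e => k (eq_inv_of_mul_eq_one_right e)) hg
    (mem_cent1.2 ?_))
  conv_lhs => rw [mul_comm_of_comm (h.ab _ hR.pi) hr m]
  calc _ = g * g * r * g⁻¹ * r := by group
    _ = r * (g * g) * g⁻¹ * r := by rw [mem_cent.1 e r hr]
    _ = _ := by group

theorem ivm (ha : a ∈ C[t]) (hb : b ∈ C[t]) (ia : ∀ r ∈ R₀, a * r * a⁻¹ = r⁻¹)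
    (ib : ∀ r ∈ R₀, b * r * b⁻¹ = r⁻¹) : a * b ∈ C[t] ⊓ C(R₀) :=
  ⟨mul_mem ha hb, mem_cent.2 fun r hr => by
    calc _ = a * (b * r * b⁻¹) * a⁻¹ * (a * b) := by rw [ib r hr, ia _ (inv_mem hr), inv_inv]
      _ = _ := by group⟩

theorem sq (el : ∀ s ∈ S, s * s = 1) (ha : a ∈ C[t]) (hb : b ∈ C[t]) (aS : a ∈ C(S))
    (ia : ∀ r ∈ R₀, a * r * a⁻¹ = r⁻¹) (ib : ∀ r ∈ R₀, b * r * b⁻¹ = r⁻¹) : a * a * (b * b) = 1 := by
  have m := h.ivm hR xR hS St c ha hb ia ib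
  rw [← h.eT' hR xR hS St c, ← h.eT hR xR hS St] at m
  obtain ⟨r, hr, s, hs, e⟩ := (mem_sup_of_norm (c.trans (cent_le_norm _))).1 m
  have e1 := mem_cent.1 aS s hs
  have e2 := mem_cent.1 (c hs) r hr
  obtain rfl : b = a⁻¹ * (r * s) := by rw [← e, inv_mul_cancel_left]
  calc _ = a * r * (s * a⁻¹) * (r * s) := by group
    _ = a * r * a⁻¹ * (s * r) * s := by
      rw [show s * a⁻¹ = a⁻¹ * s from (show Commute s a from e1).inv_right]; group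
    _ = 1 := by rw [ia r hr, ← e2, mul_assoc, mul_assoc, el s hs]; group

theorem nu (el : ∀ s ∈ S, s * s = 1) : u ∉ C(R₀) := fun m => by
  have k : u ∈ R₀ ⊔ S := by rw [h.eT hR xR hS St, h.eT' hR xR hS St c]; exact ⟨h.uH, m⟩
  have := ((h23 (h.piH.infl _) (hS.of_le (le_inf St hS.le) inf_le_right)).mem_of_normal (by
    rw [← h.eT hR xR hS St]; exact sup_le ((cents_symm c).trans (cent_le_norm _)) le_normalizer)
    (h.eT hR xR hS St ▸ k) (by rw [PiE, h.u4]; exact PiN.of_not_dvd (by norm_num)))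
  exact h.t1 (h.u2 ▸ el u this)

theorem iu (h9 : #R₀ = 9) (el : ∀ s ∈ S, s * s = 1) (hr : r ∈ R₀) : u * r * u⁻¹ = r⁻¹ :=
  h.iv hR xR hS St c h9 h.uH (h.nu hR xR hS St c el) (h.u2 ▸ le_cent1_iff.1 hR.le) hr

end

theorem alpha (hR : Syl 3 R₀ C[t]) (xR : x ∈ R₀) (hS : Syl 2 S C[x]) (tS : t ∈ S) (St : S ≤ C[t])
    (h2 : #S = 2) : #R₀ ≠ 9 := fun h9 => by
  obtain rfl : zpowers t = S := eq_of_le_of_card_eq (zpowers_le.2 tS)
    (by rw [Nat.card_zpowers, h.t2, h2])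
  have c : zpowers t ≤ C(R₀) := zpowers_le.2 (le_cent1_iff.1 hR.le)
  have el : ∀ s ∈ zpowers t, s * s = 1 := fun s hs => by
    rcases zp2 h.tt hs with rfl | rfl
    exacts [mul_one 1, h.tt]
  obtain ⟨s, s2, st, e⟩ := h.four
  have sH := mem_cent1.2 e
  have := h.sq hR xR hS St c el h.uH sH (cent_zpowers t ▸ h.uH) (fun r => h.iu hR xR hS St c h9 el)
    fun r => h.iv hR xR hS St c h9 sH (fun m => by
      rcases zp2 h.tt (hS.mem_of_norm (cent_le_cent1 xR m) (by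
        rw [PiE, s2]; exact fun p hp d => (Nat.prime_dvd_prime_iff_eq hp Nat.prime_two).1 d)
        (cent1_le_norm_zpowers t sH)) with k | k
      exacts [ne1 s2 (by norm_num) k, st k]) (sq1 s2 ▸ one_mem _)
  rw [h.u2, sq1 s2, mul_one] at this
  exact h.t1 this

theorem beta (hR : Syl 3 R₀ C[t]) (xR : x ∈ R₀) (l : R₀ ≤ R) (hR' : Syl 3 R C[x]) (hS : Syl 2 S C[x])
    (tS : t ∈ S) (St : S ≤ C[t]) (h4 : #S = 4) (el : ∀ s ∈ S, s * s = 1) (nS : C[x] ≤ N(S))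
    (i : C[t].relIndex C[x] = 3) : #R₀ ≠ 9 := fun h9 => by
  have rK := h.rK hR xR
  have c : S ≤ C(R₀) := cents_symm fun r hr => by
    have := sq_cent tS h.t2 h4.dvd (nS (rK (mul_mem hr hr))) (mem_cent1.1 (hR.le (mul_mem hr hr)))
    rwa [show r * r * (r * r) = r ^ 3 * r by simp only [pow_succ, pow_zero, one_mul, mul_assoc],
      h.cube (hR.le hr) (hR.pi.elt hr), one_mul] at this
  have nR := h.nR hR xR hS St c h9
  have eT := h.eT' hR xR hS St c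
  have nT : C[t] ⊓ C(R₀) ⊴ C[t] := inf_cent_normal nR
  have TS : C[t] ⊓ C(R₀) ≤ C(S) := by
    rw [← eT, ← h.eT hR xR hS St]
    exact sup_le (cents_symm c) fun a ha => mem_cent.2 fun b hb => comm_of_sq el hb ha
  have HS : C[t] ≤ N(S) := by
    rw [(hS.of_le (le_inf St hS.le) inf_le_right).eq_Oc (inf_le_right.trans nS), eT]
    exact norms_Oc _ nT.norm
  have i8 : (C[t] ⊓ C(R₀)).relIndex C[t] = 8 := by
    have := h.cR' hR xR
    rw [inf_eq_left.2 nR] at this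
    rw [← eT, inf_comm, inf_relIndex_right]
    omega
  have iv := fun g hg n e r => h.iv (g := g) (r := r) hR xR hS St c h9 hg n e
  have iu := fun r => h.iu (r := r) hR xR hS St c h9 el
  obtain ⟨a, ha, na⟩ : ∃ a ∈ R₀, a ∉ zpowers x := SetLike.not_le_iff_exists.1 fun m => by
    have := card_le m
    rw [Nat.card_zpowers, h.x3] at this
    omega
  obtain ⟨g, hg, rfl⟩ := h.h3 (hR.le ha) (h.r3 hR xR ha fun e => na (e ▸ one_mem _))
  have g1 : g ∉ C(R₀) := fun m => na (by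
    rw [← mem_cent.1 m x xR, mul_inv_cancel_right]; exact mem_zpowers x)
  have g2 : g * g ∉ C(R₀) := fun m => na (by rw [iv g hg g1 m x xR]; exact inv_mem (mem_zpowers x))
  have g8 : g ^ 8 ∈ C[t] ⊓ C(R₀) := by
    haveI := nT.subgroupOf
    exact i8 ▸ pow_index_mem (H := (C[t] ⊓ C(R₀)).subgroupOf C[t]) ⟨g, hg⟩
  have gS := sq_cent tS h.t2 h4.dvd (HS hg) (mem_cent1.1 hg)
  obtain ⟨j, j1, j2, j3, j4⟩ : ∃ j ∈ C[t], j ∈ C(S) ∧ j ∉ C(R₀) ∧ j * j ∈ C(R₀) := by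
    by_cases g4 : g * g * (g * g) ∈ C(R₀)
    · exact ⟨_, mul_mem hg hg, gS, g2, g4⟩
    · exact ⟨_, mul_mem (mul_mem hg hg) (mul_mem hg hg), mul_mem gS gS, g4, by
        simpa only [pow_succ, pow_zero, one_mul, mul_assoc] using (mem_inf.1 g8).2⟩
  have uS : u ∈ C(S) := by
    simpa using mul_mem (TS (h.ivm hR xR hS St c h.uH j1 iu (iv j j1 j3 j4))) (inv_mem j2)
  obtain ⟨ρ, hρ, nρ⟩ : ∃ ρ ∈ R, ρ ∉ C[t] := SetLike.not_le_iff_exists.1 fun m =>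
    hR'.not_dvd_relIndex Nat.prime_three m i.symm.dvd
  have := h.sq hR xR hS St c el h.uH (cent_le_cent1 tS (conj_mem_of_norm
    (norm_le_norm_cent _ (nS (hR'.le hρ))) uS)) uS iu fun r hr => by
      have e := mul_comm_of_comm (h.ab _ hR'.pi) hρ (l hr)
      calc _ = ρ * (u * (ρ⁻¹ * (r * ρ)) * u⁻¹) * ρ⁻¹ := by group
        _ = (ρ * r * ρ⁻¹)⁻¹ := by rw [← e, inv_mul_cancel_left, iu r hr]; group
        _ = _ := by rw [e, mul_inv_cancel_right]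
  rw [conj_mul, h.u2] at this
  exact nρ (mem_cent1.2 (mul_inv_eq_iff_eq_mul.1
    ((eq_inv_of_mul_eq_one_right this).trans (inv_eq_of_mul_eq_one_right h.tt))))

theorem cx (hs : s ∈ C[x]) (s4 : s ^ 4 = 1) : C[x * s] = C[s] ⊓ C[x] := by
  have l : C[x * s] ≤ C[x] := (cent1_le_cent1_pow _ 4).trans (by rw [h.px s (mem_cent1.1 hs) s4])
  refine le_antisymm (le_inf (fun g hg => mem_cent1.2 (mul_left_cancel (a := x) ?_)) l)
    fun g hg => mem_cent1.2 ?_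
  · rw [← mul_assoc, ← mem_cent1.1 (l hg), mul_assoc, mem_cent1.1 hg, mul_assoc]
  · rw [← mul_assoc, mem_cent1.1 hg.2, mul_assoc, mem_cent1.1 hg.1, mul_assoc]

theorem cfg : #C[x * t] = 6 ∨
    (#C[x] = 36 ∧ #C[x * t] = 12 ∧ ∃ S ≤ C[x], #S = 4 ∧ ∀ s ∈ S, s * s = 1) ∨
    (#C[x] = 72 ∧ #C[x * t] = 72 ∧ ∃ S ≤ C[x], #S = 8 ∧ t ∈ S ∧
      (∀ s ∈ S, s ^ 4 = 1 ∧ (s * s = 1 → s = 1 ∨ s = t)) ∧ ∃ z ∈ S, orderOf z = 4 ∧ #C[x * z] = 12) := by
  obtain ⟨S, hS, tS, St⟩ := h.exS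
  obtain ⟨R₀, R, hR, xR, l, hR'⟩ := h.exR
  have cR := h.cR hR xR
  have cT := h.cT hR xR hS St
  have cK := card_inf_mul_relIndex C[t] C[x]
  have q : ∀ s ∈ S, s ^ 4 = 1 := fun s hs => h.quad (hS.le hs) (hS.pi.elt hs)
  rw [h.cx h.tK h.t4]
  rcases h.kst hS tS St with a | ⟨a, b, c, d⟩ | ⟨a, b, c, z, hz, z4, d⟩
  · have := h.alpha hR xR hS tS St a
    rw [a] at cT
    omega
  · have := h.beta hR xR l hR' hS tS St a b c d
    rw [a] at cT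
    rw [d] at cK
    exact Or.inr (Or.inl ⟨by omega, by omega, S, hS.le, a, b⟩)
  · have e := card_inf_mul_relIndex C[z] C[x]
    have : 3 ∣ #(C[z] ⊓ C[x]) := h.x3 ▸ orderOf_dvd_card'
      (mem_inf.2 ⟨mem_cent1_symm.1 (hS.le hz), mem_cent1_self x⟩)
    rw [a] at cT
    rw [relIndex_eq_one.2 b] at cK
    rw [d] at e
    exact Or.inr (Or.inr ⟨by omega, by omega, S, hS.le, a, tS, fun s hs => ⟨q s hs, c s hs⟩, z, hz, z4,
      by rw [h.cx (hS.le hz) (q z hz)]; omega⟩)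

end LA

end H5.SC
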