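import Cfsg.Agent.H5.SC4
import Cfsg.Agent.H5.SC7
import Cfsg.Agent.H10.ZStar3

/-! Three self-centralizing subgroups with automizers `2, 4, 4`: no element of order six. -/

set_option autoImplicit false
set_option linter.unusedSectionVars false

open Cfsg
namespace H5.SC

open H19 Subgroup H5 Classical

variable {G : Type*} [Group G] [Fintype G] {A₁ A₂ A₃ S T : Subgroup G} {s t u x y z : G} {χ : G → ℂ}

/-- the homomorphism from the cyclic group of order three given by an element -/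
def z3 {M : Type*} [Monoid M] (m : M) (h : m ^ 3 = 1) : Multiplicative (ZMod 3) →* M where
  toFun k := m ^ k.toAdd.val
  map_one' := by simp
  map_mul' a b := by
    rw [toAdd_mul, ZMod.val_add, ← pow_add]
    conv_rhs => rw [← Nat.div_add_mod (_ + _) 3, pow_add, pow_mul, h, one_pow, one_mul]

theorem avg (hχ : IsCharacter G χ) (x3 : x ^ 3 = 1) (hT : T ≤ C[x])
    (r : ∀ s ∈ T, IsConj (x * s) (x * s)⁻¹) : ∃ n : ℤ, ∑ s : T, χ (x * s) = #T * n := by
  obtain ⟨ω, hω⟩ : ∃ ω : ℂ, IsPrimitiveRoot ω 3 := ⟨_, Complex.isPrimitiveRoot_exp 3 (by norm_num)⟩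
  have w := hω.geom_sum_eq_zero (by norm_num)
  simp only [Finset.sum_range_succ, Finset.sum_range_zero] at w
  let f : Multiplicative (ZMod 3) × T →* G := (z3 x x3).noncommCoprod T.subtype fun a b =>
    (show Commute x b from (mem_cent1.1 (hT b.2)).symm).pow_left _
  let l := (z3 ω hω.pow_eq_one).comp (MonoidHom.fst _ T)
  obtain ⟨a, ha⟩ := (hχ.comp f).exists_classInner_nat isCharacter_one
  obtain ⟨b, hb⟩ := ((hχ.comp f).mul (isIrrCharacter_monoidHom l).isCharacter).exists_classInner_nat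
    isCharacter_one
  have e : ∑ s : T, χ (x ^ 2 * s) = ∑ s : T, χ (x * s) := Fintype.sum_equiv (Equiv.inv T) _ _ fun s => by
    rw [hχ.isClassFunction.eq_of_isConj (r _ (Equiv.inv T s).2), hχ.isClassFunction.mul_comm_apply]
    congr 1
    simp [eq_inv_of_mul_eq_one_left ((pow_succ x 2).symm.trans x3)]
  have k : ∀ F : Multiplicative (ZMod 3) → ℂ, ∑ k, F k = F (.ofAdd 0) + F (.ofAdd 1) + F (.ofAdd 2) :=
    fun F => Fin.sum_univ_three F
  have n0 : ((3 * #T : ℕ) : ℂ) ≠ 0 := Nat.cast_ne_zero.2 (by have := card_pos T; omega)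
  rw [classInner_one_right, Fintype.sum_prod_type, k, Nat.card_prod,
    show Nat.card (Multiplicative (ZMod 3)) = 3 from Nat.card_zmod 3, inv_mul_eq_iff_eq_mul₀ n0] at ha hb
  have v : (0 : ZMod 3).val = 0 ∧ (1 : ZMod 3).val = 1 ∧ (2 : ZMod 3).val = 2 := by decide
  simp only [f, l, z3, Pi.mul_apply, MonoidHom.noncommCoprod_apply, MonoidHom.coe_mk, OneHom.coe_mk,
    toAdd_ofAdd, v, MonoidHom.comp_apply, MonoidHom.coe_fst, coe_subtype, ← Finset.sum_mul, e,
    pow_zero, pow_one] at ha hb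
  refine ⟨a - b, ?_⟩
  push_cast at ha hb ⊢
  linear_combination (ha - hb) / 3 + (∑ s : T, χ (x * s)) / 3 * w

theorem sum1 (F : G → ℂ) {c : ℂ} (h : ∀ s ∈ T, s ≠ 1 → F s = c) :
    ∑ s : T, F s = F 1 + (#T - 1) * c := by
  rw [← Finset.add_sum_erase _ _ (Finset.mem_univ 1), Finset.sum_congr rfl (g := fun _ => c)
    fun (s : T) hs => h s s.2 fun e => Finset.ne_of_mem_erase hs (Subtype.ext e), Finset.sum_const,
    Finset.card_erase_of_mem (Finset.mem_univ _), Finset.card_univ, ← Nat.card_eq_fintype_card,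
    nsmul_eq_mul, Nat.cast_sub (card_pos T), Nat.cast_one, OneMemClass.coe_one]

theorem sum2 (F : G → ℂ) {c : ℂ} (ht : t ∈ T) (t1 : t ≠ 1) (h : ∀ s ∈ T, s ≠ 1 → s ≠ t → F s = c) :
    ∑ s : T, F s = F 1 + F t + (#T - 2) * c := by
  have := sum1 (T := T) (Function.update F t c) (c := c) fun s hs s1 => by
    by_cases e : s = t
    · simp [e]
    · rw [Function.update_of_ne e, h s hs s1 e]
  rw [Function.update_of_ne t1.symm, ← Finset.add_sum_erase _ _ (Finset.mem_univ ⟨t, ht⟩),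
    Finset.sum_congr rfl (g := fun s : T => F s) fun s hs => Function.update_of_ne
      (fun e => Finset.ne_of_mem_erase hs (Subtype.ext e)) _ _, Function.update_self] at this
  rw [← Finset.add_sum_erase _ _ (Finset.mem_univ ⟨t, ht⟩)]
  linear_combination this

theorem Dt.false {χ θ Y Z : IrrCharacter G} {F₁ F₂ F₃ : Finset (IrrCharacter G)}
    {P₁ P₂ P₃ : IrrCharacter G → ℤ} {δ : ℤ} (d : Dt A₁ A₂ A₃ χ θ Y Z F₁ F₂ F₃ P₁ P₂ P₃ δ)
    (h : LA (Pp A₁ A₂ A₃) t u x) : False := by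
  have := h.t2
  have := h.x3
  have := h.y6
  have px := h.pH h.xH
  have py := h.mx h.tK
  have xy : ¬ IsConj x (x * t) := fun c => by have := oc c; omega
  have xt : ¬ IsConj x t := fun c => by have := oc c; omega
  have yt : ¬ IsConj (x * t) t := fun c => by have := oc c; omega
  have av := fun (φ : IrrCharacter G) (T : Subgroup G) (l : T ≤ C[x]) (q : ∀ s ∈ T, s ^ 4 = 1) =>
    avg φ.2.isCharacter h.xx l fun s hs => h.real (l hs) (q s hs)
  have cf := fun φ : IrrCharacter G => φ.2.isClassFunction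
  have a1 : ∀ (T : Subgroup G), T ≤ C[x] → (∀ s ∈ T, s * s = 1) → ∀ φ : IrrCharacter G,
      ∃ n : ℤ, φ.1 x + (#T - 1) * φ.1 (x * t) = #T * n := fun T l q φ => by
    obtain ⟨n, hn⟩ := av φ T l fun s hs => by
      rw [show 4 = 2 * 2 from rfl, pow_mul, pow_two s, q s hs, one_pow]
    rw [sum1 (fun s => φ.1 (x * s)) fun s hs s1 =>
      ((cf φ).eq_of_isConj (h.c2 (l hs) (o2 (q s hs) s1))).symm, mul_one] at hn
    exact ⟨n, hn⟩
  have b0 := a1 ⊥ bot_le (by simp)
  have b1 := a1 _ (zpowers_le.2 h.tK) fun s hs => by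
    rcases zp2 h.tt hs with rfl | rfl
    exacts [mul_one 1, h.tt]
  simp only [card_bot, Nat.card_zpowers, h.t2] at b0 b1
  rcases h.cfg with c | ⟨c, c', S, l, e, q⟩ | ⟨c, c', S, l, e, tS, q, z, hz, z4, c''⟩
  · obtain ⟨L, w, o, n⟩ := d.fn px py h.pt xy xt yt (a := 0) (b := 1) (c := 0) fun φ => by
      obtain ⟨m, hm⟩ := b0 φ
      obtain ⟨n, hn⟩ := b1 φ
      exact ⟨2 * n - m, by push_cast at *; linear_combination hn - hm⟩
    have := d.nf.seven w (by exact_mod_cast o.trans (by norm_num : _ = (1 : ℚ)))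
    rw [c] at n
    have : ∑ φ, L φ ^ 2 = 6 := by exact_mod_cast n.trans (by norm_num : _ = (6 : ℚ))
    omega
  · have b2 := a1 S l q
    rw [e] at b2
    obtain ⟨L, w, o, n⟩ := d.fn px py h.pt xy xt yt (a := 1 / 4) (b := 3 / 4) (c := 0) fun φ => by
      obtain ⟨m, hm⟩ := b2 φ
      exact ⟨m, by push_cast at *; linear_combination hm / 4⟩
    obtain ⟨M, w', o', n'⟩ := d.fn px py h.pt xy xt yt (a := 1 / 4) (b := -1 / 4) (c := 0) fun φ => by
      obtain ⟨m, hm⟩ := b2 φ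
      obtain ⟨n, hn⟩ := b1 φ
      exact ⟨n - m, by push_cast at *; linear_combination hn / 2 - hm / 4⟩
    rw [c, c'] at n n'
    exact d.nf.AB d.b w (by exact_mod_cast o.trans (by norm_num : _ = (1 : ℚ)))
      (by exact_mod_cast n.trans (by norm_num : _ = (9 : ℚ))) w'
      (by exact_mod_cast o'.trans (by norm_num : _ = (0 : ℚ)))
      (by exact_mod_cast n'.trans (by norm_num : _ = (3 : ℚ)))
  · have := h.ox (l hz) z4
    have xz : ¬ IsConj x (x * z) := fun c => by have := oc c; omega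
    have yz : ¬ IsConj (x * t) (x * z) := fun c => by have := oc c; omega
    have a2 : ∀ T ≤ S, t ∈ T → ∀ φ : IrrCharacter G,
        ∃ n : ℤ, φ.1 x + φ.1 (x * t) + (#T - 2) * φ.1 (x * z) = #T * n := fun T l' tT φ => by
      obtain ⟨n, hn⟩ := av φ T (l'.trans l) fun s hs => (q s (l' hs)).1
      rw [sum2 (fun s => φ.1 (x * s)) tT h.t1 fun s hs s1 st => ((cf φ).eq_of_isConj (h.c4 (l hz)
        (l (l' hs)) z4 (o4 (q s (l' hs)).1 fun k => ((q s (l' hs)).2 k).elim s1 st))).symm,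
        mul_one] at hn
      exact ⟨n, hn⟩
    have b2 := a2 S le_rfl tS
    have b3 := a2 _ (zpowers_le.2 hz) (by
      rcases (q _ (mul_mem hz hz)).2 (by
        rw [← (q z hz).1]; simp only [pow_succ, pow_zero, one_mul, mul_assoc]) with k | k
      · exact absurd (z4 ▸ orderOf_dvd_of_pow_eq_one ((pow_two z).trans k)) (by norm_num)
      · exact k ▸ mul_mem (mem_zpowers z) (mem_zpowers z))
    rw [e] at b2
    rw [Nat.card_zpowers, z4] at b3
    obtain ⟨L, w, o, n⟩ := d.fn px py (h.mx (l hz)) xy xz yz (a := 1 / 8) (b := 1 / 8) (c := 6 / 8)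
      fun φ => by
        obtain ⟨m, hm⟩ := b2 φ
        exact ⟨m, by push_cast at *; linear_combination hm / 8⟩
    obtain ⟨M, w', o', n'⟩ := d.fn px py (h.mx (l hz)) xy xz yz (a := 1 / 8) (b := 1 / 8)
      (c := -2 / 8) fun φ => by
        obtain ⟨m, hm⟩ := b2 φ
        obtain ⟨n, hn⟩ := b3 φ
        exact ⟨n - m, by push_cast at *; linear_combination hn / 4 - hm / 8⟩
    rw [c, c', c''] at n n'
    exact d.nf.AB d.b w (by exact_mod_cast o.trans (by norm_num : _ = (1 : ℚ)))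
      (by exact_mod_cast n.trans (by norm_num : _ = (9 : ℚ))) w'
      (by exact_mod_cast o'.trans (by norm_num : _ = (0 : ℚ)))
      (by exact_mod_cast n'.trans (by norm_num : _ = (3 : ℚ)))

theorem Sys.six [IsSimpleGroup G] (h : Sys A₁ A₂ A₃) (hG : ¬ IsMulCommutative G)
    (hab : ¬ 3 ∣ #A₁ * #A₂ * #A₃ → ∀ P : Sylow 3 G, IsMulCommutative (P : Subgroup G)) (y : G) :
    orderOf y ≠ 6 := fun y6 => by
  have t2 : orderOf (y ^ 3) = 2 := by rw [orderOf_pow' _ (by norm_num), y6]; rfl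
  have x3 : orderOf (y ^ 2) = 3 := by rw [orderOf_pow' _ (by norm_num), y6]; rfl
  have e : y ^ 2 * y ^ 3 = y ^ 3 * y ^ 2 := pow_mul_comm _ _ _
  generalize y ^ 2 = x at *
  generalize y ^ 3 = t at *
  have := h.c1
  have o1 := h.s1.odd h.e1 dvd_rfl (by omega)
  have k : ∀ {A : Subgroup G}, Odd #A → Off A t := fun o g hg => absurd (even_iff_two_dvd.2
    (((orderOf_conj' g t).trans t2) ▸ orderOf_dvd_card' hg)) (Nat.not_even_iff_odd.2 o)
  have pt : Pp A₁ A₂ A₃ t := ⟨k o1, k (h.s2.odd h.e2 (by norm_num) h.c2),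
    k (h.s3.odd h.e3 (by norm_num) h.c3)⟩
  have cl : ∀ g k, Pp A₁ A₂ A₃ g → g ≠ 1 → k * g = g * k → Pp A₁ A₂ A₃ k := fun g k p a b =>
    ⟨h.s1.off p.1 a b, h.s2.off p.2.1 a b, h.s3.off p.2.2 a b⟩
  have px := cl t x pt (ne1 t2) e
  have n1 := h.s1.not_dvd px.1 Nat.prime_three x3
  have n2 := h.s2.not_dvd px.2.1 Nat.prime_three x3
  have n3 := h.s3.not_dvd px.2.2 Nat.prime_three x3
  obtain ⟨χ, θ, Y, Z, F₁, F₂, F₃, P₁, P₂, P₃, δ, d⟩ := h.dt n2 n3
  have inv : ∀ s, orderOf s = 2 → IsConj t s := fun s s2 => by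
    obtain ⟨a, ha⟩ := d.inv h.s1 t2
    obtain ⟨b, hb⟩ := d.inv h.s1 s2
    have a2 := (orderOf_conj' a t).trans t2
    have b2 := (orderOf_conj' b s).trans s2
    exact (isConj_iff.2 ⟨a, rfl⟩).trans ((H10.isConj_of_odd (sq1 a2) (sq1 b2) (o1.of_dvd_nat
      (orderOf_dvd_card' (h.s1.mul o1 (by omega) ha a2 hb b2)))).trans (isConj_iff.2 ⟨b, rfl⟩).symm)
  obtain ⟨u, -, hu⟩ := h.s2.four h.e2 h.c2
  obtain ⟨c, hc⟩ := isConj_iff.1 (inv _ hu).symm
  refine d.false (u := c * u * c⁻¹) ⟨t2, by rw [conj_mul, hc], x3, e, pt, cl, inv, fun f hf => ?_,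
    fun R hR => ?_, ?_⟩
  · by_contra! n
    have i : ∀ i j, IsConj (f i) (f j) → i = j := fun i j c => by_contra fun e => n i j e c
    have := d.six (Finset.univ.image f) (by simpa using hf) (by
      simp only [Finset.mem_image, Finset.mem_univ, true_and]
      rintro _ ⟨a, rfl⟩ _ ⟨b, rfl⟩ c
      rw [i a b c])
    rw [Finset.card_image_of_injective _ fun a b (e : f a = f b) => i a b (e ▸ IsConj.refl _)] at this
    simp at this
  · obtain ⟨P, hP⟩ := hR.isPGroup.exists_le_sylow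
    exact comm_mono (hab (by simp only [Nat.prime_three.dvd_mul]; tauto) P) hP
  · obtain ⟨g, a, b⟩ := H7.exists_commute_conj_ne (H10.pPrimeCore_eq_bot_of_simple t2) t2
      (by rw [H10.center_eq_bot_of_simple hG]; exact ne1 t2 (by norm_num))
    exact ⟨_, (orderOf_conj' g t).trans t2, b, a.symm⟩

end H5.SC
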