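import Cfsg.Agent.H24.BinIco

/-! Centralizers in `SL(2,5)`. -/

set_option autoImplicit false

namespace H5.TP

set_option maxRecDepth 100000 in
theorem sl_cent : (∀ x : H24.SL25, x = 1 ∨ x = -1 ∨ x ^ 2 ≠ 1 ∧
    (Finset.univ.filter fun y => y * x = x * y).card ∈ ({4, 6, 10} : Finset ℕ)) ∧
    ∃ x : H24.SL25, x ^ 2 = -1 ∧ (Finset.univ.filter fun y => y * x = x * y).card = 4 := by
  decide +kernel

end H5.TP
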