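import Mathlib

/-! Integer matrix combinatorics for principal 3-blocks with defect group `3^{1+2}_+`. -/

set_option autoImplicit false

namespace H5.X3
open Finset Matrix

variable {I J : Type*} [Fintype I] [DecidableEq I] [Fintype J] [DecidableEq J]

theorem cs {a : Matrix I I ℤ} (hs : aᵀ = a) (h : a * a = (27 : ℤ) • a) {l : ℕ}
    (ht : ∑ i, a i i = 27 * l) (E : I → Prop) [DecidablePred E] :
    (∑ i with E i, a i i) ^ 2 ≤ l * ∑ i with E i, ∑ j with E j, a i j ^ 2 := by
  let D : Matrix I I ℤ := diagonal fun i => if E i then 1 else 0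
  have F : ∀ A B : Matrix I I ℤ, ∑ x : I × I, A x.1 x.2 * B x.1 x.2 = trace (A * Bᵀ) := fun A B => by
    simp [Fintype.sum_prod_type, trace, mul_apply]
  have hD : Dᵀ = D := diagonal_transpose _
  have h1 : trace (D * a) = ∑ i with E i, a i i := by
    simp [D, trace, diagonal_mul, sum_filter]
  have h2 : trace (D * a * (D * a)) = ∑ i with E i, ∑ j with E j, a i j ^ 2 := by
    simp only [trace, diag_apply, mul_apply (M := D * a), D, diagonal_mul, sum_filter]
    refine sum_congr rfl fun i _ => ?_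
    split_ifs
    · refine sum_congr rfl fun j _ => ?_
      have : a j i = a i j := by rw [← hs, transpose_apply, hs]
      split_ifs <;> simp [this, sq]
    · simp
  have c := sum_mul_sq_le_sq_mul_sq univ (fun x : I × I => (a * D * a) x.1 x.2) fun x => a x.1 x.2
  simp only [sq (a _ _), sq ((a * D * a) _ _), F, transpose_mul, hs, hD] at c
  have e1 : trace (a * D * a * a) = 27 ^ 2 * trace (D * a) := by
    rw [mul_assoc _ a a, h, Matrix.mul_smul, trace_smul, mul_assoc, trace_mul_comm, mul_assoc, h,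
      Matrix.mul_smul, trace_smul]; simp; ring
  have e2 : trace (a * D * a * (a * (D * a))) = 27 ^ 2 * trace (D * a * (D * a)) := by
    rw [← mul_assoc, mul_assoc _ a a, h, Matrix.mul_smul, Matrix.smul_mul, trace_smul,
      mul_assoc a, mul_assoc a, trace_mul_comm, mul_assoc _ _ a, mul_assoc D a a, h,
      Matrix.mul_smul, Matrix.mul_smul, trace_smul]; simp; ring
  have e3 : trace (a * a) = 27 ^ 2 * l := by
    rw [h, trace_smul]; simp only [trace, diag_apply, ht]; simp; ring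
  rw [e1, e2, e3, h1, h2] at c
  nlinarith

/-- contribution data -/
structure MD (d : J → I → ℤ) (T a : Matrix I I ℤ) (H : I → Prop) (l : ℕ) : Prop where
  orth : ∀ i j, ∑ x, d i x * d j x = if i = j then 9 else 0
  h0 : ∀ x i, H x ↔ ¬ 3 ∣ d i x
  cong : ∀ x i j, 3 ∣ d i x - d j x
  par : ∃ (o : I) (g : I → ℤ), g o = 1 ∧ ∀ i, d i o = 1 ∧ ∑ x, d i x * g x = 0
  row : ∀ x, ∑ y, T x y ^ 2 = 9 - ∑ i, d i x ^ 2
  col : ∀ x, ∑ y, T y x ^ 2 = 9 - ∑ i, d i x ^ 2
  aT : ∀ x y, a x y = 3 * (T x y + T y x) + (if x = y then 9 else 0) - ∑ i, d i x * d i y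
  aa : a * a = (27 : ℤ) • a
  ad : ∀ x i, ∑ y, a x y * d i y = 0
  tr : ∑ x, a x x = 27 * l
  nz : ∀ x y, ¬ H x → H y → a x y ≠ 0
  nine : ∀ x y, ¬ H x → ¬ H y → 9 ∣ a x y

variable {d : J → I → ℤ} {T a : Matrix I I ℤ} {H : I → Prop} [DecidablePred H] {l : ℕ}

theorem MD.symm (h : MD d T a H l) : aᵀ = a := by
  ext x y
  simp only [transpose_apply, h.aT, eq_comm (a := y), mul_comm (d _ y), add_comm (T y x)]

theorem MD.sq9 (h : MD d T a H l) (i : J) : ∑ x, d i x ^ 2 = 9 := by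
  simpa [sq] using h.orth i i

theorem MD.zero (h : MD d T a H l) {x : I} (hx : ¬ H x) (i : J) : d i x = 0 := by
  obtain ⟨o, g, -, ho⟩ := h.par
  have h1 := (ho i).1
  have h2 : H o := (h.h0 o i).2 (by rw [h1]; decide)
  have h3 : x ≠ o := fun e => hx (e ▸ h2)
  have h4 := h.sq9 i
  rw [← add_sum_erase _ _ (mem_univ o), ← add_sum_erase _ _ (mem_erase.2 ⟨h3, mem_univ x⟩), h1] at h4
  have h5 : 0 ≤ ∑ y ∈ (univ.erase o).erase x, d i y ^ 2 := sum_nonneg fun _ _ => sq_nonneg _
  obtain ⟨c, hc⟩ := not_not.1 (mt (h.h0 x i).2 hx)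
  rw [hc] at h4 ⊢
  have : c ^ 2 < 1 := by nlinarith
  have : c = 0 := by nlinarith
  simp [this]

theorem MD.val (h : MD d T a H l) {x : I} (hx : H x) (i : J) : d i x ^ 2 = 1 ∨ d i x ^ 2 = 4 := by
  have h1 := (h.h0 x i).1 hx
  have h2 : d i x ^ 2 ≤ 9 := h.sq9 i ▸ single_le_sum (f := fun y => d i y ^ 2)
    (fun _ _ => sq_nonneg _) (mem_univ x)
  have h3 : d i x ≤ 3 := by nlinarith
  have h4 : -3 ≤ d i x := by nlinarith
  generalize d i x = t at *
  interval_cases t <;> simp_all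

theorem MD.sum0 (h : MD d T a H l) (i : J) (f : I → ℤ) :
    ∑ x, d i x * f x = ∑ x with H x, d i x * f x := by
  rw [sum_filter]
  exact sum_congr rfl fun x _ => by split_ifs with hx; rfl; simp [h.zero hx]

/-- `k₀ = 9` with all entries `±1`, or `k₀ = 6` with some entry `±2` -/
theorem MD.k0 (h : MD d T a H l) (i : J) :
    (#{x | H x} = 9 ∧ ∀ x, H x → d i x ^ 2 = 1) ∨ (#{x | H x} = 6 ∧ ∃ x, H x ∧ d i x ^ 2 = 4) := by
  have h1 := h.sq9 i
  simp only [sq, h.sum0 i] at h1
  have h2 : ∑ x with H x, d i x * d i x =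
      ∑ x with H x, (1 + if d i x ^ 2 = 4 then 3 else 0 : ℤ) := sum_congr rfl fun x hx => by
    rcases h.val (mem_filter.1 hx).2 i with e | e <;> simp [← sq, e]
  rw [h2, sum_add_distrib, ← sum_filter, filter_filter] at h1
  simp only [sum_const, smul_eq_mul, mul_one, nsmul_eq_mul] at h1
  obtain ⟨o, g, h3, h4⟩ := h.par
  have h5 : H o := (h.h0 o i).2 (by rw [(h4 i).1]; decide)
  set n := #{x | H x ∧ d i x ^ 2 = 4} with hn
  have h6 : n + 1 ≤ #{x | H x} := by
    rw [hn, ← card_insert_of_notMem (a := o) (by simp [(h4 i).1])]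
    exact card_le_card fun x hx => by
      rcases mem_insert.1 hx with rfl | hx
      · simpa
      · simp_all
  have h7 : n = 0 ∨ n = 1 ∨ n = 2 := by omega
  rcases h7 with h7 | h7 | h7
  · refine .inl ⟨by omega, fun x hx => (h.val hx i).resolve_right fun e => ?_⟩
    have := card_pos.2 ⟨x, (by simpa using ⟨hx, e⟩ : x ∈ ({x | H x ∧ d i x ^ 2 = 4} : Finset I))⟩
    omega
  · obtain ⟨x, hx⟩ := card_pos.1 (show 0 < n by omega)
    exact .inr ⟨by omega, x, by simpa using hx⟩
  · exfalso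
    have h8 : insert o (univ.filter fun x => H x ∧ d i x ^ 2 = 4) = univ.filter H :=
      eq_of_subset_of_card_le (fun x hx => by
        rcases mem_insert.1 hx with rfl | hx
        · simpa
        · exact mem_filter.2 ⟨mem_univ _, (mem_filter.1 hx).2.1⟩) (by
          rw [card_insert_of_notMem (by simp [(h4 i).1]), ← hn]
          change #{x | H x} ≤ _
          omega)
    have h9 := (h4 i).2
    rw [h.sum0, ← h8, sum_insert (by simp [(h4 i).1]), (h4 i).1, h3] at h9
    have : (2 : ℤ) ∣ ∑ x with H x ∧ d i x ^ 2 = 4, d i x * g x := dvd_sum fun x hx =>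
      (Int.prime_two.dvd_of_dvd_pow (n := 2) (by rw [(mem_filter.1 hx).2.2]; decide)).mul_right _
    omega

theorem MD.c1 (h : MD d T a H l) (h9 : #{x | H x} = 9) (i j : J) : i = j := by
  by_contra e
  have h1 := ((h.k0 i).resolve_right (by omega)).2
  have h2 := ((h.k0 j).resolve_right (by omega)).2
  have h3 := h.orth i j
  rw [if_neg e, h.sum0, sum_congr rfl (g := fun _ => 1) fun x hx => by
    have := h.cong x i j
    rcases sq_eq_one_iff.1 (h1 x (mem_filter.1 hx).2) with e1 | e1 <;>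
    rcases sq_eq_one_iff.1 (h2 x (mem_filter.1 hx).2) with e2 | e2 <;>
    simp_all] at h3
  simp [h9] at h3

theorem MD.a1 (h : MD d T a H l) {x : I} (hx : ¬ H x) (y : I) :
    a x y = 3 * (T x y + T y x) + if x = y then 9 else 0 := by
  simp [h.aT, h.zero hx]

theorem MD.le6 (h : MD d T a H l) (i : J) (h6 : #{x | H x} = 6) :
    #{x | ¬ H x} + 2 * Fintype.card J ≤ 12 := by
  obtain ⟨y, hy, e⟩ := ((h.k0 i).resolve_left (by omega)).2
  have h1 : (Fintype.card J + 3 : ℤ) ≤ ∑ j, d j y ^ 2 := by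
    rw [← add_sum_erase _ _ (mem_univ i), e]
    have : ∑ j ∈ univ.erase i, (1 : ℤ) ≤ ∑ j ∈ univ.erase i, d j y ^ 2 :=
      sum_le_sum fun j _ => by rcases h.val hy j with e | e <;> omega
    have h2 := card_erase_add_one (mem_univ i)
    simp only [sum_const, nsmul_eq_mul, mul_one, card_univ] at this h2
    omega
  have h2 : ∑ x with ¬ H x, (1 : ℤ) ≤ ∑ x with ¬ H x, (T x y ^ 2 + T y x ^ 2) :=
    sum_le_sum fun x hx => by
      have h3 := (mem_filter.1 hx).2
      have h4 := h.nz x y h3 hy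
      rw [h.a1 h3, if_neg fun e : x = y => h3 (e ▸ hy)] at h4
      by_cases h5 : T x y = 0
      · have : T y x ≠ 0 := fun e => h4 (by simp [h5, e])
        have := sq_pos_of_ne_zero this
        rw [h5]; omega
      · have := sq_pos_of_ne_zero h5
        nlinarith [sq_nonneg (T y x)]
  have h3 : ∑ x with ¬ H x, (T x y ^ 2 + T y x ^ 2) ≤ ∑ x, (T x y ^ 2 + T y x ^ 2) :=
    sum_le_sum_of_subset_of_nonneg (filter_subset _ _) fun _ _ _ => by positivity
  rw [sum_add_distrib (s := univ), h.row, h.col] at h3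
  simp only [sum_const, nsmul_eq_mul, mul_one] at h2
  omega

theorem MD.diag (h : MD d T a H l) (i : J) {x : I} (hx : ¬ H x) : a x x = 9 := by
  obtain ⟨o, g, -, ho⟩ := h.par
  have h2 : H o := (h.h0 o i).2 (by rw [(ho i).1]; decide)
  have h3 : x ≠ o := fun e => hx (e ▸ h2)
  have h4 := h.nz x o hx h2
  have h5 := h.nine x x hx hx
  have h6 := h.row x
  have h7 := h.col x
  rw [h.a1 hx, if_neg h3] at h4
  rw [h.a1 hx, if_pos rfl] at h5 ⊢
  simp only [h.zero hx] at h6 h7
  rw [← add_sum_erase _ _ (mem_univ x), ← add_sum_erase _ _ (mem_erase.2 ⟨h3.symm, mem_univ o⟩)]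
    at h6 h7
  have h8 : 0 ≤ ∑ y ∈ (univ.erase x).erase o, T x y ^ 2 := sum_nonneg fun _ _ => sq_nonneg _
  have h9 : 0 ≤ ∑ y ∈ (univ.erase x).erase o, T y x ^ 2 := sum_nonneg fun _ _ => sq_nonneg _
  obtain ⟨c, hc⟩ : 3 ∣ T x x := by omega
  by_contra e
  have : c ≠ 0 := fun e' => e (by simp [hc, e'])
  have := sq_pos_of_ne_zero this
  rw [hc] at h6 h7
  simp at h6 h7
  have : T x o = 0 := by nlinarith [sq_nonneg (T x o)]
  have : T o x = 0 := by nlinarith [sq_nonneg (T o x)]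
  simp_all

theorem MD.rowa (h : MD d T a H l) (x : I) :
    ∑ y with H y, a x y ^ 2 + ∑ y with ¬ H y, a x y ^ 2 = 27 * a x x := by
  rw [sum_filter_add_sum_filter_not]
  have := congrFun (congrFun h.aa x) x
  rw [mul_apply] at this
  rw [Matrix.smul_apply, smul_eq_mul] at this
  rw [← this]
  exact sum_congr rfl fun y _ => by rw [sq]; congr 1; rw [← h.symm, transpose_apply, h.symm]

theorem MD.Q (h : MD d T a H l) (i : J) {x : I} (hx : ¬ H x) :
    ∑ y with ¬ H y, a x y ^ 2 ≤ 162 ∧ (#{x | H x} = 9 → ∑ y with ¬ H y, a x y ^ 2 ≤ 81) := by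
  have h1 := h.rowa x
  rw [h.diag i hx] at h1
  have h2 : (81 : ℤ) ∣ ∑ y with ¬ H y, a x y ^ 2 := dvd_sum fun y hy => by
    simpa using pow_dvd_pow_of_dvd (h.nine x y hx (mem_filter.1 hy).2) 2
  have h3 : ∀ y, H y → ∃ c : ℤ, a x y = 3 * c ∧ 1 ≤ c ^ 2 := fun y hy => by
    have h4 := h.nz x y hx hy
    rw [h.a1 hx, if_neg fun e : x = y => hx (e ▸ hy), add_zero] at h4 ⊢
    exact ⟨_, rfl, sq_pos_of_ne_zero (a := T x y + T y x) fun e => h4 (by rw [e]; rfl)⟩
  have h4 : ∀ y ∈ ({y | H y} : Finset I), (9 : ℤ) ≤ a x y ^ 2 := fun y hy => by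
    obtain ⟨c, h5, h6⟩ := h3 y (mem_filter.1 hy).2
    rw [h5]; nlinarith
  have h5 := sum_le_sum h4
  simp only [sum_const, nsmul_eq_mul] at h5
  have h6 : 6 ≤ #{x | H x} := by rcases h.k0 i with e | e <;> omega
  refine ⟨by omega, fun h9 => ?_⟩
  by_contra h7
  have h8 := (sum_eq_sum_iff_of_le h4).1 (by simp [h9]; omega)
  have h10 := h.ad x i
  simp only [mul_comm (a x _), h.sum0] at h10
  have h11 : ∑ y with H y, d i y * a x y ≡ ∑ y with H y, 1 [ZMOD 2] := Int.ModEq.sum fun y hy => by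
    rcases sq_eq_one_iff.1 (((h.k0 i).resolve_right (by omega)).2 y (mem_filter.1 hy).2) with e | e <;>
    rcases sq_eq_sq_iff_eq_or_eq_neg.1 ((h8 y hy).symm.trans (show (9 : ℤ) = 3 ^ 2 by norm_num))
      with e' | e' <;> rw [e, e'] <;> decide
  rw [h10] at h11
  simp [h9] at h11
  exact absurd h11 (by decide)

theorem MD.k1 (h : MD d T a H l) (i : J) :
    #{x | ¬ H x} ≤ 2 * l ∧ (#{x | H x} = 9 → #{x | ¬ H x} ≤ l) := by
  have c := cs h.symm h.aa h.tr fun x => ¬ H x
  rw [sum_congr rfl fun x hx => h.diag i (mem_filter.1 hx).2] at c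
  have k : ∀ m : ℕ, (∀ x, ¬ H x → ∑ y with ¬ H y, a x y ^ 2 ≤ 81 * m) → #{x | ¬ H x} ≤ m * l :=
    fun m hm => by
      have := sum_le_sum fun x (hx : x ∈ ({x | ¬ H x} : Finset I)) => hm x (mem_filter.1 hx).2
      simp only [sum_const, nsmul_eq_mul] at this c
      have h1 := c.trans (mul_le_mul_of_nonneg_left this (Int.natCast_nonneg l))
      rcases Nat.eq_zero_or_pos #{x | ¬ H x} with e | e
      · omega
      · zify at e ⊢; nlinarith
  exact ⟨k 2 fun x hx => (h.Q i hx).1, fun h9 => by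
    simpa using k 1 fun x hx => by simpa using (h.Q i hx).2 h9⟩

theorem MD.cen (h : MD d T a H l) (i : J)
    (hc : ∀ x y, H x → H y → a x y = (if x = y then 9 else 0) - ∑ i, d i x * d i y) :
    #{x | H x} ≤ l + Fintype.card J := by
  have c := cs h.symm h.aa h.tr H
  have o : ∀ i j, ∑ x with H x, d i x * d j x = if i = j then 9 else 0 := fun i j => by
    rw [← h.sum0, h.orth]
  have e1 : ∑ x with H x, a x x = 9 * (#{x | H x} - Fintype.card J) := by
    rw [sum_congr rfl fun x hx => hc x x (mem_filter.1 hx).2 (mem_filter.1 hx).2, sum_sub_distrib,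
      sum_comm]
    simp [o]; ring
  have e2 : ∀ x, H x → ∑ y with H y, a x y ^ 2 = 9 * a x x := fun x hx => by
    have : ∀ y ∈ ({y | H y} : Finset I), a x y ^ 2 =
        (if x = y then 9 * a x y else 0) - ∑ i, d i x * (d i y * a x y) := fun y hy => by
      rw [sq]; nth_rw 1 [hc x y hx (mem_filter.1 hy).2]
      simp [sub_mul, sum_mul, mul_assoc]
    rw [sum_congr rfl this, sum_sub_distrib, sum_comm]
    simp only [← mul_sum, ← h.sum0]
    simp only [mul_comm (d _ _) (a x _), h.ad]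
    simp [hx]
  rw [sum_congr rfl fun x hx => e2 x (mem_filter.1 hx).2, ← mul_sum, e1] at c
  by_contra h1
  push Not at h1
  zify at h1
  nlinarith

end H5.X3
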