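import Cfsg.Agent.H8.Star4
import Cfsg.Agent.H5.X31
import Cfsg.Agent.H5.Galois
import Cfsg.Agent.S4646
import Cfsg.Agent.S4691
import Cfsg.Agent.H21.Contrib
import Cfsg.Agent.H7.Real
import Cfsg.Agent.H7.Prin

/-! Contributions for principal 3-blocks with defect group `3^{1+2}_+`. -/

set_option autoImplicit false
open Cfsg

namespace H5.X3
open H5 H7 H8 H28 Finset
open scoped ComplexConjugate Classical

local notation "C" u:max => Subgroup.centralizer ({u} : Set _)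
local notation "B₀" => principalBlock

variable {G : Type*} [Group G] [Finite G] {M : Ideal AlgInt} {x y : G} {φ ψ : G → ℂ}
  {χ : IrrCharacter G} {Y : Finset G}

variable (M) in
/-- the contribution of the section of `x` to the principal block -/
noncomputable def m (x : G) (φ ψ : G → ℂ) : ℂ := mm 3 x (C x) (B₀ M (C x)) φ ψ

variable (M) in
/-- the rank of the principal block of the centralizer -/
noncomputable def lx (x : G) : ℕ := blockRank 3 (B₀ M (C x))

theorem rank_one (hM : IsPModular 3 M) (h : HasNormalPComplement 3 G) :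
    blockRank 3 (B₀ M G) = 1 := by
  have := Fintype.ofFinite G
  have := Fact.mk Nat.prime_three
  exact (Agent.S4646.result 3 M hM).1 ((Agent.S4691.result 3 M hM).1 h)

theorem indB (hM : IsPModular 3 M) (hx : IsPElt 3 x) :
    indBlocks M (C x) (B₀ M G) = {B₀ M (C x)} := by
  ext b
  rw [mem_indBlocks, mem_singleton]
  exact ⟨fun h => (third_main_centralizer hM hx h.1).1 h,
    fun h => h ▸ isInducedBlock_principal_centralizer hM hx⟩

theorem sumI {A : Type*} [AddCommMonoid A] (F : IrrCharacter G → A) :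
    ∑ χ : B₀ M G, F χ = ∑ χ with χ ∈ B₀ M G, F χ :=
  (sum_subtype _ (by simp) F).symm

theorem sec_one (hM : IsPModular 3 M) (hx : IsPElt 3 x) (hχ : χ ∈ B₀ M G) {s : C x}
    (hs : ¬ 3 ∣ orderOf s) : sec 3 x (C x) (B₀ M _) χ.1 s = χ.1 (x * s) := by
  rw [(isSec_cent hx).apply_eq_sum_sec hM isPBlock_principalBlock hχ hs, indB hM hx, sum_singleton]

theorem m_mul (hM : IsPModular 3 M) (hx : IsPElt 3 x) (φ ψ : G → ℂ) :
    ∑ χ : B₀ M G, m M x φ χ.1.1 * m M x χ.1.1 ψ = m M x φ ψ := by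
  rw [sumI fun χ => m M x φ χ.1 * m M x χ.1 ψ]
  exact (isSec_cent hx).sum_mm_mul_block hM (isInducedBlock_principal_centralizer hM hx) φ ψ

theorem m_mul_ne (hM : IsPModular 3 M) (hx : IsPElt 3 x) (hy : IsPElt 3 y) (h : ¬ IsConj x y)
    (φ ψ : G → ℂ) : ∑ χ : B₀ M G, m M x φ χ.1.1 * m M y χ.1.1 ψ = 0 := by
  rw [sumI fun χ => m M x φ χ.1 * m M y χ.1 ψ, sum_filter_of_zero _ fun χ hχ => by
    rw [m, (isSec_cent hx).mm_eq_zero_of_notMem' hM
      (isInducedBlock_principal_centralizer hM hx) φ hχ, zero_mul]]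
  exact (isSec_cent hx).sum_mm_mul_of_not_conj hM (isSec_cent hy) h
    (fB_mem_VG hM isPBlock_principalBlock) (fB_mem_VG hM isPBlock_principalBlock) φ ψ

theorem m_self (hM : IsPModular 3 M) (hx : IsPElt 3 x) :
    ∑ χ : B₀ M G, m M x χ.1.1 χ.1.1 = lx M x := by
  rw [sumI fun χ => m M x χ.1 χ.1]
  exact (isSec_cent hx).sum_mm_self_block hM (isInducedBlock_principal_centralizer hM hx)

theorem val_orth (hM : IsPModular 3 M) (hx : IsPElt 3 x) (hy : IsPElt 3 y) (h : ¬ IsConj x y) :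
    ∑ χ : B₀ M G, χ.1.1 x * conj (χ.1.1 y) = 0 := by
  have := (isSec_cent hx).sum_sec_mul_conj_of_not_conj hM (isSec_cent hy) h
    (fB_mem_VG hM isPBlock_principalBlock) (fB_mem_VG hM isPBlock_principalBlock) 1 1
  rw [← sum_filter_of_zero (B₀ M G) fun χ hχ => by
    rw [(isSec_cent hx).sec_eq_zero_of_notMem hM
      (isInducedBlock_principal_centralizer hM hx) hχ]; simp] at this
  rw [sumI fun χ => χ.1 x * conj (χ.1 y), ← this]
  exact sum_congr rfl fun χ hχ => by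
    rw [sec_one hM hx (mem_filter.1 hχ).2 (by simp), sec_one hM hy (mem_filter.1 hχ).2 (by simp)]
    simp

theorem m_npc (hM : IsPModular 3 M) (hx : IsPElt 3 x) (h : HasNormalPComplement 3 (C x))
    (h9 : (Nat.card (C x)).factorization 3 = 2) {χ ψ : IrrCharacter G} (hχ : χ ∈ B₀ M G)
    (hψ : ψ ∈ B₀ M G) : m M x χ.1 ψ.1 = χ.1 x * conj (ψ.1 x) / 9 := by
  have k : ∀ χ ∈ B₀ M G, sec 3 x (C x) (B₀ M _) χ.1 =
      χ.1 x • sec 3 x (C x) (B₀ M _) (irrOne G).1 := fun χ hχ => funext fun s => by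
    by_cases hs : 3 ∣ orderOf s
    · simp [sec_of_sing _ hs]
    · rw [Pi.smul_apply, sec_one hM hx hχ hs, sec_one hM hx (irrOne_mem_principalBlock hM) hs,
        principal_apply_of_hasNPC hM hχ ((isSec_cent hx).isPPart hs) h]
      simp [irrOne]
  have k2 : ∀ χ ∈ B₀ M G, ∀ ψ ∈ B₀ M G, m M x χ.1 ψ.1 =
      χ.1 x * conj (ψ.1 x) * m M x (irrOne G).1 (irrOne G).1 := fun χ hχ ψ hψ =>
    mm_smul_smul _ _ (k χ hχ) (k ψ hψ)
  have h1 := m_self hM hx
  rw [lx, rank_one hM h, sum_congr rfl fun (χ : B₀ M G) _ => k2 χ χ.2 χ χ.2, ← sum_mul,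
    sumI fun χ => χ.1 x * conj (χ.1 x), sum_principal_of_hasNPC_centralizer hM hx h, h9] at h1
  rw [k2 χ hχ ψ hψ, div_eq_mul_inv]
  congr 1
  refine eq_inv_of_mul_eq_one_right ?_
  exact_mod_cast h1

/-- representatives of the classes of 3-elements -/
structure Rp (Y : Finset G) : Prop where
  el : ∀ x ∈ Y, IsPElt 3 x
  rep : ∀ g, IsPElt 3 g → ∃! x, x ∈ Y ∧ IsConj g x

omit [Finite G] in
theorem Rp.nc (h : Rp Y) (hx : x ∈ Y) (hy : y ∈ Y) (e : x ≠ y) : ¬ IsConj x y := fun c =>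
  e ((h.rep x (h.el x hx)).unique ⟨hx, .refl x⟩ ⟨hy, c⟩)

theorem Rp.mul (h : Rp Y) (hM : IsPModular 3 M) (a b : G → ℂ) (φ ψ : G → ℂ) :
    ∑ χ : B₀ M G, (∑ x ∈ Y, a x * m M x φ χ.1.1) * ∑ x ∈ Y, b x * m M x χ.1.1 ψ =
      ∑ x ∈ Y, a x * b x * m M x φ ψ := by
  simp only [sum_mul_sum]
  rw [sum_comm]
  refine sum_congr rfl fun x hx => ?_
  rw [sum_comm, sum_eq_single_of_mem x hx fun y hy e => ?_]
  · rw [← m_mul hM (h.el x hx) φ ψ, mul_sum]
    exact sum_congr rfl fun _ _ => by ring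
  · rw [← mul_zero (a x * b y), ← m_mul_ne hM (h.el x hx) (h.el y hy) (h.nc hx hy e.symm) φ ψ,
      mul_sum]
    exact sum_congr rfl fun _ _ => by ring

theorem Rp.inner (h : Rp Y) (hM : IsPModular 3 M) (χ ψ : B₀ M G) :
    ∑ x ∈ Y, m M x χ.1.1 ψ.1.1 = if χ = ψ then 1 else 0 := by
  have := Fintype.ofFinite G
  have h1 := inner_eq_sum_mm_block hM Y h.el h.rep isPBlock_principalBlock χ.2
    ψ.1.2.isClassFunction
  rw [classInner_irr, sum_congr rfl fun x hx => by rw [indB hM (h.el x hx), sum_singleton]] at h1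
  simp only [Subtype.ext_iff (a1 := χ)]
  exact h1.symm

theorem Rp.card (h : Rp Y) (hM : IsPModular 3 M) : Nat.card (B₀ M G) = ∑ x ∈ Y, lx M x := by
  rw [card_eq_sum_blockRank hM Y h.el h.rep isPBlock_principalBlock]
  exact sum_congr rfl fun x hx => by rw [indB hM (h.el x hx), sum_singleton, lx]

theorem Rp.int (h : Rp Y) (hM : IsPModular 3 M) {η : G → ℂ} (hc : IsClassFunction G η)
    (hg : ∀ Q : Subgroup G, IsPGroup 3 Q → IsGeneralizedCharacter Q fun u => η u)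
    (χ ψ : B₀ M G) : ∃ n : ℤ, ∑ x ∈ Y, η x * m M x χ.1.1 ψ.1.1 = n := by
  have := Fintype.ofFinite G
  have hη : ∀ u g (β : MonoidAlgebra (kk M) G), (fun u _ => η u) (g * u * g⁻¹) (ca g β) =
    (fun u _ => η u) u β := fun u g _ => hc u g
  have h1 := gen_star (η := fun u _ => η u) hM hη (fun Q f hf => ⟨_, hg Q hf.isP, fun _ _ _ => rfl⟩)
    χ.1.2.isGeneralizedCharacter
  obtain ⟨n, hn⟩ := h1.exists_classInner_int ψ.1.2.isGeneralizedCharacter
  refine ⟨n, ?_⟩
  rw [← hn, inner_eq_sum_mm hM Y h.el h.rep (isClass_star _ _) ψ.1.2.isClassFunction]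
  refine sum_congr rfl fun x hx => ?_
  have hs := isSec_cent (h.el x hx)
  have k : ∀ b, IsPBlock M b → mm 3 x (C x) b (star 3 (fun u _ => η u) χ.1.1) ψ.1.1 =
      η x * mm 3 x (C x) b χ.1.1 ψ.1.1 := fun b hb => by
    simpa using mm_smul_smul (η x) 1 (hs.sec_star hM hη hb χ.1.2.isClassFunction)
      (one_smul _ _).symm
  rw [sum_blocks_eq_indBlocks (B := B₀ M G) fun b hb hn => by
    rw [k b hb, mm_eq_zero_left (hs.sec_eq_zero hM hb isPBlock_principalBlock hn χ.2), mul_zero],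
    indB hM (h.el x hx), sum_singleton, k _ isPBlock_principalBlock, m]

theorem ind_one (hM : IsPModular 3 M) : IsInducedBlock M (C (1 : G)) (B₀ M _) (B₀ M G) :=
  isInducedBlock_principal_centralizer hM isSec_one.pelt

theorem lx_top (hM : IsPModular 3 M) (hx : IsPElt 3 x) (h : C x = ⊤) :
    lx M x = blockRank 3 (B₀ M G) :=
  blockRank_eq_of_induced_top hM h (isInducedBlock_principal_centralizer hM hx)

theorem m_nz (hM : IsPModular 3 M) {χ ψ : IrrCharacter G} (hχ : χ ∈ B₀ M G) (hψ : ψ ∈ B₀ M G)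
    (h0 : blockHeight 3 (B₀ M G) χ.1 = 0) : m M 1 χ.1 ψ.1 ≠ 0 := fun e => by
  have := isSec_one.val_mm_of_major hM (ind_one hM)
    (blockDefect_eq_of_induced_top hM cent_one_eq_top (ind_one hM)) hχ h0 hψ
  rw [m] at e
  rw [e, mul_zero, map_zero] at this
  exact pow_ne_zero _ (val_p_ne_zero hM) this.symm

theorem m_nine (hM : IsPModular 3 M) (h3 : (Nat.card G).factorization 3 = 3)
    {χ ψ : IrrCharacter G} (hχ : χ ∈ B₀ M G) (hψ : ψ ∈ B₀ M G)
    (h1 : blockHeight 3 (B₀ M G) χ.1 ≠ 0) (h2 : blockHeight 3 (B₀ M G) ψ.1 ≠ 0) {a b : ℤ}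
    (ha : 27 * m M 1 χ.1 ψ.1 = a) (hb : 27 * m M 1 χ.1 (irrOne G).1 = b) : 9 ∣ a := by
  have hd : ((3 : ℕ) : ℂ) ^ blockDefect 3 (B₀ M G) = 27 := by
    rw [blockDefect_principal hM, h3]; norm_num
  have h0 : (irrOne G) ∈ B₀ M G := irrOne_mem_principalBlock hM
  have hf := fB_mem_VG hM (isPBlock_principalBlock (G := C (1 : G)))
  obtain ⟨z, hz, hz', e⟩ := isSec_one.exists_mm_eq_omega hM hf χ.2.isClassFunction
    fun g => mem_V_of_isIntegral M (χ.2.isCharacter.isIntegral_apply g)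
  have k : ∀ ψ ∈ B₀ M G, val M (27 * m M 1 χ.1 ψ.1) =
      val M ((3 : ℕ) : ℂ) ^ blockHeight 3 (B₀ M G) ψ.1 * val M (omega ψ.1 z) := fun ψ hψ => by
    rw [← H21.val_pow_mul_one_div hM hψ, ← map_mul, m, e, hd]; congr 1; ring
  have h4 := isSec_one.val_mm_le hM hf (irrOne G).2.isClassFunction
    (fun g => mem_V_of_isIntegral M ((irrOne G).2.isCharacter.isIntegral_apply g)) hχ
  have h5 : 27 * m M 1 (irrOne G).1 χ.1 = b := by
    have := congrArg conj hb
    rwa [map_mul, m, conj_mm, map_intCast, map_ofNat] at this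
  rw [hd, ← m, h5, ← hb, k _ h0, (blockHeight_principal_eq_zero_iff hM _).2
    (by rw [charDegree_irrOne]; decide), pow_zero, one_mul] at h4
  have h6 := (red_eq_zero_iff (omega_mem_V ψ hz hz')).1
    ((red_omega_eq_of_sameBlock hM (sameBlock_of_mem hM isPBlock_principalBlock hψ h0) hz hz').trans
      (red_eq_zero_of_lt (h4.trans_lt (pow_lt_one₀ zero_le (val_p_lt_one hM) h1))))
  have h7 : val M (a : ℂ) < val M ((3 : ℕ) : ℂ) ^ 1 := by
    rw [← ha, k ψ hψ]
    exact (mul_lt_of_lt_one_right (pow_pos (val_p_pos hM) _) h6).trans_le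
      ((val_p_pow_le_iff hM).2 (Nat.one_le_iff_ne_zero.2 h2))
  obtain ⟨c, rfl⟩ := (val_intCast_le_iff hM a 1).1 h7.le
  have h8 : val M (c : ℂ) < 1 := by
    push_cast at h7
    rw [map_mul, pow_one] at h7
    exact (mul_lt_iff_lt_one_right (by simpa using val_p_pos hM)).1 h7
  obtain ⟨d, rfl⟩ := (val_intCast_lt_one_iff hM c).1 h8
  exact ⟨d, by push_cast; ring⟩

end H5.X3
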