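import Cfsg.Agent.H5.X32

/-! The invariants of principal 3-blocks with defect group `3^{1+2}_+` from the class data. -/

set_option autoImplicit false
open Cfsg

namespace H5.X3
open H5 H7 H8 H28 Finset
open scoped ComplexConjugate Classical

local notation "C" u:max => Subgroup.centralizer ({u} : Set _)
local notation "B₀" => principalBlock

variable {G : Type*} [Group G] [Finite G] {M : Ideal AlgInt} {z : G} {X : Finset G} {η : G → ℂ}
  {ω : ℂ}

/-- the classes of 3-elements -/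
structure CS (z : G) (X : Finset G) (η : G → ℂ) (ω : ℂ) : Prop where
  rp : Rp (insert 1 (insert z (insert z⁻¹ X)))
  n1 : (1 : G) ∉ insert z (insert z⁻¹ X)
  n2 : z ∉ insert z⁻¹ X
  n3 : z⁻¹ ∉ X
  card : (Nat.card G).factorization 3 = 3
  x3 : ∀ u ∈ X, orderOf u = 3
  npc : ∀ u ∈ X, HasNormalPComplement 3 (C u)
  c9 : ∀ u ∈ X, (Nat.card (C u)).factorization 3 = 2
  cl : IsClassFunction G η
  gen : ∀ Q : Subgroup G, IsPGroup 3 Q → IsGeneralizedCharacter Q fun u => η u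
  e1 : η 1 = 3
  ez : η z = 3 * ω
  ez' : η z⁻¹ = 3 * ω ^ 2
  eX : ∀ u ∈ X, η u = 0
  w : ω ^ 2 + ω + 1 = 0

omit [Finite G] in
theorem CS.sum (h : CS z X η ω) {A : Type*} [AddCommMonoid A] (F : G → A) :
    ∑ x ∈ insert 1 (insert z (insert z⁻¹ X)), F x = F 1 + F z + F z⁻¹ + ∑ u : X, F u := by
  rw [sum_insert h.n1, sum_insert h.n2, sum_insert h.n3, sum_coe_sort X F]
  simp only [add_assoc]

omit [Finite G] in
theorem CS.el (h : CS z X η ω) (u : X) : IsPElt 3 u.1 := ⟨1, h.x3 u u.2⟩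

omit [Finite G] in
theorem cent_inv (z : G) : C z⁻¹ = C z := by
  ext g
  simp only [Subgroup.mem_centralizer_singleton_iff]
  exact Commute.inv_right_iff

theorem CS.k (h : CS z X η ω) (hM : IsPModular 3 M) :
    Nat.card (B₀ M G) = blockRank 3 (B₀ M G) + 2 * lx M z + #X := by
  rw [h.rp.card hM, h.sum, lx_top hM isSec_one.pelt cent_one_eq_top,
    sum_congr rfl fun (u : X) _ => show lx M u.1 = 1 from rank_one hM (h.npc u u.2), lx, lx,
    cent_inv]
  simp [two_mul, add_assoc]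

theorem conj_w (h : ω ^ 2 + ω + 1 = 0) : conj ω = ω ^ 2 := by
  have h3 : ω ^ 3 = 1 := by linear_combination (ω - 1) * h
  rw [← Complex.inv_eq_conj (Complex.norm_eq_one_of_pow_eq_one h3 (by decide))]
  exact inv_eq_of_mul_eq_one_right (by linear_combination h3)

theorem CS.md (h : CS z X η ω) (hM : IsPModular 3 M) (hr : ∀ u ∈ X, IsConj u u⁻¹) :
    ∃ (d : X → B₀ M G → ℤ) (T a : Matrix (B₀ M G) (B₀ M G) ℤ),
      MD d T a (fun χ => blockHeight 3 (B₀ M G) χ.1.1 = 0) (blockRank 3 (B₀ M G)) ∧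
      (∀ u χ, χ.1.1 u = d u χ) ∧ ∀ χ ψ, 9 * (m M z χ.1.1 ψ.1.1 + m M z⁻¹ χ.1.1 ψ.1.1 -
        2 * m M 1 χ.1.1 ψ.1.1) = (((if χ = ψ then 9 else 0) - ∑ i, d i χ * d i ψ - a χ ψ : ℤ) : ℂ) := by
  have hd : ∀ (u : X) (χ : B₀ M G), ∃ n : ℤ, χ.1.1 u = n := fun u χ =>
    χ.1.2.isGeneralizedCharacter.exists_int_of_apply_pow _ fun k hk => by
      have h3 : u.1 ^ 3 = 1 := h.x3 u u.2 ▸ pow_orderOf_eq_one u.1
      rw [h.x3 u u.2] at hk
      rw [pow_eq_pow_mod k h3]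
      have : k % 3 ≠ 0 := fun e => by
        simpa using hk.symm.eq_one_of_dvd (Nat.dvd_of_mod_eq_zero e)
      obtain e | e : k % 3 = 1 ∨ k % 3 = 2 := by omega
      · rw [e, pow_one]
      · rw [e, χ.1.2.isClassFunction.eq_of_isConj (hr u u.2),
          inv_eq_of_mul_eq_one_right ((pow_succ' _ _).symm.trans h3)]
  choose d hd using hd
  choose T hT using h.rp.int hM h.cl h.gen
  have hT' : ∀ χ ψ : B₀ M G, ∑ x ∈ insert 1 (insert z (insert z⁻¹ X)),
      conj (η x) * m M x ψ.1.1 χ.1.1 = T χ ψ := fun χ ψ => by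
    simpa only [map_sum, map_mul, m, conj_mm, map_intCast] using congrArg conj (hT χ ψ)
  have hm : ∀ (u : X) (χ ψ : B₀ M G), m M u.1 χ.1.1 ψ.1.1 = d u χ * d u ψ / 9 := fun u χ ψ => by
    rw [m_npc hM (h.el u) (h.npc u u.2) (h.c9 u u.2) χ.2 ψ.2, hd, hd, map_intCast]
  have hI : ∀ χ ψ : B₀ M G, 9 * (m M 1 χ.1.1 ψ.1.1 + m M z χ.1.1 ψ.1.1 + m M z⁻¹ χ.1.1 ψ.1.1) =
      (((if χ = ψ then 9 else 0) - ∑ i, d i χ * d i ψ : ℤ) : ℂ) := fun χ ψ => by
    have := h.rp.inner hM χ ψ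
    simp only [h.sum, hm, ← sum_div] at this
    push_cast
    split_ifs at this ⊢ <;> linear_combination 9 * this
  have hw := conj_w h.w
  have w := h.w
  have eX : ∀ u : X, η u = 0 := fun u => h.eX u u.2
  have sq : ∀ χ : B₀ M G, ∑ x ∈ insert 1 (insert z (insert z⁻¹ X)),
      η x * conj (η x) * m M x χ.1.1 χ.1.1 = (9 - ∑ i, d i χ ^ 2 : ℤ) := fun χ => by
    have := hI χ χ
    simp only [h.sum, h.e1, h.ez, h.ez', eX, map_mul, map_pow, hw, map_ofNat, if_pos, ← pow_two]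
      at this ⊢
    rw [← this]
    simp only [zero_mul, sum_const_zero]
    linear_combination (9 * (ω - 1) * m M z χ.1.1 χ.1.1 +
      9 * (ω - 1) * (ω ^ 3 + 1) * m M z⁻¹ χ.1.1 χ.1.1) * w
  let a : Matrix (B₀ M G) (B₀ M G) ℤ := fun χ ψ =>
    3 * (T χ ψ + T ψ χ) + (if χ = ψ then 9 else 0) - ∑ i, d i χ * d i ψ
  have ha : ∀ χ ψ : B₀ M G, 27 * m M 1 χ.1.1 ψ.1.1 = a χ ψ := fun χ ψ => by
    have h1 := hT χ ψ
    have h2 := hT' ψ χ
    have h3 := hI χ ψ
    simp only [h.sum, h.e1, h.ez, h.ez', eX, map_mul, map_pow, hw, map_ofNat, map_zero,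
      zero_mul, sum_const_zero] at h1 h2
    simp only [a]
    push_cast at h3 ⊢
    linear_combination 3 * h1 + 3 * h2 + h3 - (9 * m M z χ.1.1 ψ.1.1 +
      9 * (ω ^ 2 - ω + 1) * m M z⁻¹ χ.1.1 ψ.1.1) * w
  let o : B₀ M G := ⟨irrOne G, irrOne_mem_principalBlock hM⟩
  have ho : ∀ u, d u o = 1 := fun u => by exact_mod_cast show (d u o : ℂ) = 1 from (hd u o).symm
  have nc : ∀ u : X, ¬ IsConj 1 u.1 := fun u =>
    h.rp.nc (by simp) (by simp) fun e => h.n1 (by simp [e])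
  have dg : ∀ (u : X) (χ : B₀ M G), (3 : ℤ) ∣ d u χ - charDegree χ.1.1 := fun u χ => by
    have := red_char_of_isPElt hM χ.1.2.isCharacter (h.el u)
    rw [hd, irr_apply_one, ← Int.cast_natCast, red_eq_iff (intCast_mem _ _) (intCast_mem _ _),
      ← Int.cast_sub] at this
    exact (val_intCast_lt_one_iff hM _).1 this
  refine ⟨d, T, a, ⟨fun u v => ?_, fun χ u => ?_, fun χ u v => ?_,
    ⟨o, fun χ => charDegree χ.1.1, by simp [o, charDegree_irrOne], fun u => ⟨ho u, ?_⟩⟩,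
    fun χ => ?_, fun χ => ?_, fun _ _ => rfl, ?_, fun χ u => ?_, ?_, fun χ ψ h1 h2 e => ?_,
    fun χ ψ h1 h2 => m_nine hM h.card χ.2 ψ.2 h1 h2 (ha χ ψ) (ha χ o)⟩, hd, fun χ ψ => ?_⟩
  · split_ifs with e
    · have := m_self hM (h.el u)
      rw [lx, rank_one hM (h.npc u u.2)] at this
      simp only [hm, ← sum_div] at this
      exact_mod_cast (show ∑ χ, (d u χ : ℂ) * d v χ = 9 by rw [← e]; linear_combination 9 * this)
    · have := val_orth hM (h.el u) (h.el v)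
        (h.rp.nc (by simp) (by simp) (Subtype.coe_ne_coe.2 e))
      simp only [hd, map_intCast] at this
      exact_mod_cast this
  · rw [blockHeight_principal_eq_zero_iff hM, ← Int.natCast_dvd_natCast]
    have := dg u χ
    push_cast
    omega
  · have := dg u χ
    have := dg v χ
    omega
  · have := val_orth hM (h.el u) isSec_one.pelt fun c => nc u c.symm
    simp only [hd, irr_apply_one, map_natCast] at this
    exact_mod_cast this
  · have := (h.rp.mul hM η (fun x => conj (η x)) χ.1.1 χ.1.1).trans (sq χ)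
    simp only [hT, hT', ← pow_two] at this
    exact_mod_cast this
  · have := (h.rp.mul hM (fun x => conj (η x)) η χ.1.1 χ.1.1).trans
      ((sum_congr rfl fun x _ => by rw [mul_comm (conj _)]).trans (sq χ))
    simp only [hT, hT', ← pow_two] at this
    exact_mod_cast this
  · ext χ ψ
    have := m_mul hM isSec_one.pelt χ.1.1 ψ.1.1
    rw [Matrix.mul_apply, Matrix.smul_apply, smul_eq_mul, ← Int.cast_inj (α := ℂ)]
    push_cast
    simp only [← ha]
    rw [← this, mul_sum, mul_sum]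
    exact sum_congr rfl fun _ _ => by ring
  · have := m_mul_ne hM isSec_one.pelt (h.el u) (nc u) χ.1.1 o.1.1
    rw [← Int.cast_inj (α := ℂ)]
    push_cast
    simp only [← ha, hm, ho] at this ⊢
    rw [← mul_zero 243, ← this, mul_sum]
    exact sum_congr rfl fun _ _ => by push_cast; ring
  · have := m_self hM (isSec_one (G := G)).pelt
    rw [lx_top hM isSec_one.pelt cent_one_eq_top] at this
    rw [← Int.cast_inj (α := ℂ)]
    push_cast
    simp only [← ha]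
    rw [← this, mul_sum]
  · have := ha χ ψ
    rw [e, Int.cast_zero, mul_eq_zero, or_iff_right (by norm_num), m, ← conj_mm,
      map_eq_zero] at this
    exact m_nz hM ψ.2 χ.2 h2 this
  · rw [Int.cast_sub, ← hI, ← ha]; ring

theorem m_central (hc : C z = ⊤) {φ ψ : G → ℂ} (h1 : ∀ g, φ (z * g) = φ g)
    (h2 : ∀ g, ψ (z * g) = ψ g) : m M z φ ψ = m M 1 φ ψ := by
  have k : ∀ K : Subgroup G, K = C z → mm 3 1 K (B₀ M K) φ ψ = m M z φ ψ := by
    rintro K rfl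
    have t : ∀ φ : G → ℂ, (∀ g, φ (z * g) = φ g) →
        sec 3 1 (C z) (B₀ M _) φ = (1 : ℂ) • sec 3 z (C z) (B₀ M _) φ := fun φ h => by
      rw [one_smul, sec_def, sec_def]
      congr 2
      funext c
      rw [tr_apply, tr_apply, h, one_mul]
    have := Fintype.ofFinite (C z)
    rw [m, mm_eq, mm_eq, t φ h1, t ψ h2, one_smul, one_smul]
  exact (k _ (cent_one_eq_top.trans hc.symm)).symm

theorem card_split (H : IrrCharacter G → Prop) [DecidablePred H] :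
    Nat.card (B₀ M G) = #{χ : B₀ M G | H χ} + #{χ : B₀ M G | ¬ H χ} ∧
      Nat.card {χ // χ ∈ B₀ M G ∧ H χ} = #{χ : B₀ M G | H χ} := by
  refine ⟨by rw [card_filter_add_card_filter_not, Nat.card_eq_fintype_card, card_univ], ?_⟩
  rw [← Nat.card_congr (Equiv.subtypeSubtypeEquivSubtypeInter _ H), Nat.card_eq_fintype_card,
    Fintype.card_subtype]

theorem CS.cen (h : CS z X η ω) (hM : IsPModular 3 M) (hr : ∀ u ∈ X, IsConj u u⁻¹)
    (hX : X.Nonempty) (hc : z ∈ Subgroup.center G) (hz : ∀ u ∈ X, IsConj u (z * u)) :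
    blockRank 3 (B₀ M G) + #X = 6 := by
  obtain ⟨d, T, a, md, hd, ha⟩ := h.md hM hr
  obtain ⟨u, hu⟩ := hX
  have hC : C z = ⊤ := Subgroup.centralizer_eq_top_iff_subset.2 (by simpa)
  have k : ∀ χ : B₀ M G, blockHeight 3 (B₀ M G) χ.1.1 = 0 → ∀ g, χ.1.1 (z * g) = χ.1.1 g :=
    fun χ h0 g => by
      have h1 := irr_central_mul_conj χ.1 hc g u
      rw [← χ.1.2.isClassFunction.eq_of_isConj (hz u hu), hd ⟨u, hu⟩, map_intCast] at h1
      exact mul_right_cancel₀ (Int.cast_ne_zero.2 fun e => (md.h0 χ ⟨u, hu⟩).1 h0 (by simp [e])) h1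
  have k' : ∀ χ : B₀ M G, blockHeight 3 (B₀ M G) χ.1.1 = 0 → ∀ g, χ.1.1 (z⁻¹ * g) = χ.1.1 g :=
    fun χ h0 g => by rw [← k χ h0, mul_inv_cancel_left]
  have h1 := md.cen ⟨u, hu⟩ fun χ ψ h1 h2 => by
    have := ha χ ψ
    rw [m_central hC (k χ h1) (k ψ h2), m_central ((cent_inv z).trans hC) (k' χ h1) (k' ψ h2),
      ← two_mul, sub_self, mul_zero, eq_comm, Int.cast_eq_zero, sub_eq_zero] at this
    exact this.symm
  have h2 := h.k hM
  rw [lx_top hM (h.rp.el z (by simp)) hC, (card_split fun χ => blockHeight 3 (B₀ M G) χ.1 = 0).1]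
    at h2
  have h3 := md.k1 ⟨u, hu⟩
  rw [Fintype.card_coe] at h1
  rcases md.k0 ⟨u, hu⟩ with ⟨h4, -⟩ | ⟨h4, -⟩
  · have : #X ≤ 1 := card_le_one.2 fun a ha b hb => congrArg Subtype.val (md.c1 h4 ⟨a, ha⟩ ⟨b, hb⟩)
    have := h3.2 h4
    omega
  · omega

theorem CS.fin (h : CS z X η ω) (hM : IsPModular 3 M) (hr : ∀ u ∈ X, IsConj u u⁻¹)
    (hX : X.Nonempty) (hz : lx M z + #X = 6) : Nat.card (B₀ M G) + 2 * #X = 18 ∧
    Nat.card {χ // χ ∈ B₀ M G ∧ blockHeight 3 (B₀ M G) χ.1 = 0} = 6 ∧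
    blockRank 3 (B₀ M G) + #X = 6 := by
  obtain ⟨d, T, a, md, -⟩ := h.md hM hr
  obtain ⟨u, hu⟩ := hX
  have h2 := h.k hM
  obtain ⟨h5, h6⟩ := card_split (M := M) fun χ => blockHeight 3 (B₀ M G) χ.1 = 0
  have h3 := md.k1 ⟨u, hu⟩
  rcases md.k0 ⟨u, hu⟩ with ⟨h4, -⟩ | ⟨h4, -⟩
  · have : #X ≤ 1 := card_le_one.2 fun a ha b hb => congrArg Subtype.val (md.c1 h4 ⟨a, ha⟩ ⟨b, hb⟩)
    have := h3.2 h4
    omega
  · have := md.le6 ⟨u, hu⟩ h4
    rw [Fintype.card_coe] at this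
    omega

theorem CS.nil (h : CS z X η ω) (hM : IsPModular 3 M) (hG : HasNormalPComplement 3 G)
    (hz : HasNormalPComplement 3 (C z)) (hX : #X = 8) : Nat.card (B₀ M G) = 11 ∧
    Nat.card {χ // χ ∈ B₀ M G ∧ blockHeight 3 (B₀ M G) χ.1 = 0} = 9 ∧
    blockRank 3 (B₀ M G) = 1 := by
  have h1 := h.k hM
  rw [lx, rank_one hM hG, rank_one hM hz, hX] at h1
  obtain ⟨h5, h6⟩ := card_split (M := M) fun χ => blockHeight 3 (B₀ M G) χ.1 = 0
  refine ⟨h1, ?_, rank_one hM hG⟩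
  have h2 := sum_principal_mul_conj_of_hasNPC hM hG (y := 1) (y' := 1) (by simp) (by simp)
  rw [h.card, ← sumI fun χ => χ.1 1 * conj (χ.1 1)] at h2
  simp only [irr_apply_one, map_natCast] at h2
  have h3 : ∑ χ : B₀ M G, charDegree χ.1.1 * charDegree χ.1.1 = 27 := by exact_mod_cast h2
  rw [← sum_filter_add_sum_filter_not _ fun χ : B₀ M G => blockHeight 3 (B₀ M G) χ.1.1 = 0] at h3
  have k1 := card_nsmul_le_sum _ (fun χ : B₀ M G => charDegree χ.1.1 * charDegree χ.1.1) 9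
    fun χ (hχ : χ ∈ ({χ : B₀ M G | ¬ blockHeight 3 (B₀ M G) χ.1.1 = 0} : Finset _)) => by
      have := Nat.le_of_dvd (Nat.pos_of_ne_zero (charDegree_ne_zero χ.1))
        (not_not.1 (mt (blockHeight_principal_eq_zero_iff hM _).2 (mem_filter.1 hχ).2))
      nlinarith
  have k2 : 3 ∣ ∑ χ : B₀ M G with ¬ blockHeight 3 (B₀ M G) χ.1.1 = 0,
      charDegree χ.1.1 * charDegree χ.1.1 := dvd_sum fun χ hχ =>
    (not_not.1 (mt (blockHeight_principal_eq_zero_iff hM _).2 (mem_filter.1 hχ).2)).mul_right _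
  have k3 := card_nsmul_le_sum _ (fun χ : B₀ M G => charDegree χ.1.1 * charDegree χ.1.1) 1
    fun χ (hχ : χ ∈ ({χ : B₀ M G | blockHeight 3 (B₀ M G) χ.1.1 = 0} : Finset _)) =>
      Nat.mul_pos (Nat.pos_of_ne_zero (charDegree_ne_zero χ.1))
        (Nat.pos_of_ne_zero (charDegree_ne_zero χ.1))
  have k4 : ∑ χ : B₀ M G with blockHeight 3 (B₀ M G) χ.1.1 = 0,
      charDegree χ.1.1 * charDegree χ.1.1 ≡
      ∑ χ : B₀ M G with blockHeight 3 (B₀ M G) χ.1.1 = 0, 1 [MOD 3] :=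
    Nat.ModEq.sum fun χ hχ => by
      have := (blockHeight_principal_eq_zero_iff hM _).1 (mem_filter.1 hχ).2
      rw [Nat.ModEq, Nat.mul_mod]
      obtain e | e : charDegree χ.1.1 % 3 = 1 ∨ charDegree χ.1.1 % 3 = 2 := by omega
      all_goals rw [e]
  rw [← card_eq_sum_ones, Nat.ModEq] at k4
  rw [smul_eq_mul] at k1 k3
  omega

end H5.X3
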