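import Cfsg.Agent.H19.Amb3
import Cfsg.Agent.H3.Focal
import Cfsg.Agent.H8.Ab

/-! Fusion in groups with Sylow 3-subgroup `3^{1+2}_+` and `N(P) ≤ C(Z(P))`. -/

set_option autoImplicit false
open Cfsg

namespace H5.X3
open H19 Subgroup

variable {G : Type*} [Group G] [Finite G] {P : Subgroup G} {g u v x y z : G}

/-- the hypothesis -/
structure Ex (P : Subgroup G) : Prop where
  syl : Syl 3 P ⊤
  card : #P = 27
  exp : ∀ x ∈ P, x ^ 3 = 1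
  cz : #Z(P) = 3
  der : ∀ x ∈ P, ∀ y ∈ P, x * y * x⁻¹ * y⁻¹ ∈ C(P)
  nc : N(P) ≤ C(Z(P))

namespace Ex
variable (h : Ex P)
include h

omit [Finite G] in
theorem pg (hx : x ∈ P) (g : G) : PG 3 (zpowers (g * x * g⁻¹)) :=
  piG_zpowers.2 ((h.syl.pi.elt hx).e_conj g)

omit [Finite G] in
theorem sq (hx : x ∈ P) : x * x = x⁻¹ :=
  eq_inv_of_mul_eq_one_left (by rw [← h.exp x hx, pow_succ, pow_two])

theorem zp (hz : z ∈ Z(P)) (h1 : z ≠ 1) : zpowers z = Z(P) :=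
  eq_zpowers_of_prime (h.cz ▸ Nat.prime_three) hz h1

theorem mem3 (hz : z ∈ Z(P)) (h1 : z ≠ 1) (hy : y ∈ Z(P)) : y = 1 ∨ y = z ∨ y = z⁻¹ := by
  rw [← h.zp hz h1, ← mem_powers_iff_mem_zpowers] at hy
  obtain ⟨k, rfl⟩ := hy
  simp only [pow_eq_pow_mod k (h.exp z hz.1)]
  obtain e | e | e : k % 3 = 0 ∨ k % 3 = 1 ∨ k % 3 = 2 := by omega
  all_goals simp [e, pow_two, h.sq hz.1]

omit [Finite G] in
theorem com (hx : x ∈ P) (hy : y ∈ P) : x * y * x⁻¹ * y⁻¹ ∈ Z(P) :=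
  ⟨P.mul_mem (P.mul_mem (P.mul_mem hx hy) (P.inv_mem hx)) (P.inv_mem hy), h.der x hx y hy⟩

theorem cjz (hx : x ∈ P) (hn : x ∉ Z(P)) (hy : y ∈ Z(P)) : ∃ p ∈ P, p * x * p⁻¹ = y * x := by
  obtain ⟨v, hv, e⟩ : ∃ v ∈ P, v * x ≠ x * v := by
    by_contra! e
    exact hn ⟨hx, mem_cent.2 e⟩
  have hc := h.com hv hx
  rcases h.mem3 hc (fun e' => e (by rwa [mul_inv_eq_one, mul_inv_eq_iff_eq_mul] at e')) hy
    with rfl | rfl | rfl
  · exact ⟨1, one_mem _, by simp⟩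
  · exact ⟨v, hv, by simp⟩
  · refine ⟨v⁻¹, inv_mem hv, ?_⟩
    have := mem_cent.1 (inv_mem hc.2) v hv
    rw [← mul_right_inj v, ← mul_assoc v _ x, this]
    group

theorem isc (hx : x ∈ P) (hn : x ∉ Z(P)) (hy : y ∈ Z(P)) : IsConj x (y * x) :=
  let ⟨p, _, e⟩ := h.cjz hx hn hy
  isConj_iff.2 ⟨p, e⟩

theorem burn (hy : y ∈ Z(P)) (hg : g * y * g⁻¹ ∈ Z(P)) : g * y * g⁻¹ = y := by
  have h1 : Syl 3 (cj g P) C[g * y * g⁻¹] := (h.syl.Jtop g).of_le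
    (by rw [← cj_cent1, cj_le_cj]; exact le_cent1_iff.2 hy.2) le_top
  obtain ⟨c, hc, e⟩ := h1.sconj (h.syl.of_le (le_cent1_iff.2 hg.2) le_top)
  have := mem_cent.1 (h.nc (mem_norm_iff_cj.2 ((cj_mul c g P).trans e))) y hy
  rw [mem_cent1] at hc
  rw [← mul_left_inj c, ← hc, ← mul_left_inj g, mul_assoc y, this]
  group

theorem weak (hu : u ∈ P) (hn : u ∉ Z(P)) (hg : g * u * g⁻¹ ∈ Z(P)) : False := by
  obtain ⟨z, hz, h1⟩ := exists_ne_one (H := Z(P)) (ne_bot_iff_one_lt_card.2 (by rw [h.cz]; decide))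
  obtain ⟨c, hc, e⟩ := (h.syl.of_le (le_cent1_iff.2 hg.2) le_top).scj_le
    (K := zpowers (g * z * g⁻¹)) (by
      rw [← cj_cent1, ← cj_zpowers, cj_le_cj, zpowers_le]
      exact cent_le_cent1 hu hz.2) (h.pg hz.1 g)
  rw [cj_zpowers, zpowers_le] at e
  have e1 : c * g * u * (c * g)⁻¹ = g * u * g⁻¹ := by
    rw [mul_inv_rev, ← mul_assoc, mul_inv_eq_iff_eq_mul, ← mem_cent1.1 hc]; group
  rw [show c * (g * z * g⁻¹) * c⁻¹ = c * g * z * (c * g)⁻¹ by group] at e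
  rw [← e1] at hg
  generalize c * g = k at *
  have hw : k * z * k⁻¹ ∉ Z(P) := fun hw => by
    have h2 : k⁻¹ ∈ C(Z(P)) := by
      rw [← h.zp hz h1, cent_zpowers]
      exact inv_mem (mem_cent1.2 (mul_inv_eq_iff_eq_mul.1 (h.burn hz hw)))
    have := mem_cent.1 h2 _ hg
    exact hn (by rwa [show u = k * u * k⁻¹ by rw [← mul_left_inj k⁻¹, this]; group])
  have c1 : ∀ x, IsConj x (k * x * k⁻¹) := fun x => isConj_iff.2 ⟨k, rfl⟩
  have c2 : IsConj (k * u * k⁻¹) (k * u * k⁻¹)⁻¹ := by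
    refine (c1 u).symm.trans <| (h.isc hu hn hz).trans <| (c1 _).trans ?_
    have e2 : k * (z * u) * k⁻¹ = k * z * k⁻¹ * (k * u * k⁻¹) := by group
    have h3 := h.isc (P.mul_mem e hg.1) (mt (mul_mem_cancel_right hg).1 hw) hg
    have h4 := (c1 u⁻¹).symm.trans <| (h.isc (inv_mem hu) (mt inv_mem_iff.1 hn) hz).trans (c1 _)
    rw [← mul_assoc (k * u * k⁻¹), ← mem_cent.1 hg.2 _ e, mul_assoc (k * z * k⁻¹), h.sq hg.1] at h3
    rw [e2]
    exact h3.trans (by convert h4.symm using 1 <;> group)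
  obtain ⟨t, ht⟩ := isConj_iff.1 c2
  have := (h.burn hg (ht ▸ inv_mem hg)).symm.trans ht
  rw [← h.sq hg.1, left_eq_mul, conj_eq_one_iff] at this
  exact hn (this ▸ one_mem _)

theorem fixz (hy : y ∈ Z(P)) (hg : g * y * g⁻¹ ∈ P) : g * y * g⁻¹ = y :=
  h.burn hy (by_contra fun e => h.weak (g := g⁻¹) hg e (by simpa [mul_assoc] using hy))

theorem c9 (hu : u ∈ P) (hn : u ∉ Z(P)) : #(P ⊓ C[u]) = 9 := by
  have h1 : Z(P) < P ⊓ C[u] := lt_of_le_of_ne (inf_le_inf_left _ (cent_le_cent1 hu))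
    fun e => hn (e ▸ ⟨hu, mem_cent1_self u⟩)
  have h2 : P ⊓ C[u] < P := lt_of_le_of_ne inf_le_left
    fun e => hn ⟨hu, le_cent1_iff.1 (inf_eq_left.1 e)⟩
  have h3 := card_lt h1
  have h4 := card_lt h2
  have h5 := card_dvd h2.le
  rw [h.cz] at h3
  rw [h.card] at h4 h5
  generalize #(P ⊓ C[u]) = n at *
  interval_cases n <;> simp_all

theorem gen (hu : u ∈ P) (hn : u ∉ Z(P)) : Z(P) ⊔ zpowers u = P ⊓ C[u] := by
  have h1 : Z(P) ⊔ zpowers u ≤ P ⊓ C[u] :=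
    sup_le (inf_le_inf_left _ (cent_le_cent1 hu)) (zpowers_le.2 ⟨hu, mem_cent1_self u⟩)
  have h3 := card_lt (lt_of_le_of_ne (le_sup_left (a := Z(P)) (b := zpowers u))
    fun e => hn (e ▸ mem_sup_right (mem_zpowers u)))
  have h5 := card_dvd h1
  rw [h.cz] at h3
  refine eq_of_le_of_card_eq h1 ?_
  rw [h.c9 hu hn] at h5 ⊢
  have := Nat.le_of_dvd (by decide) h5
  generalize #(Z(P) ⊔ zpowers u) = n at *
  interval_cases n <;> simp_all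

theorem cA (hu : u ∈ P) (hn : u ∉ Z(P)) : C(P ⊓ C[u]) = C(Z(P)) ⊓ C[u] := by
  rw [← h.gen hu hn, cent_sup, cent_zpowers]

theorem sylA (hu : u ∈ P) (hn : u ∉ Z(P)) : Syl 3 (P ⊓ C[u]) C[u] := by
  refine syl_of_max inf_le_right (h.syl.pi.infl _) fun Q h1 h2 h3 => ?_
  obtain ⟨g, -, e⟩ := h.syl.scj_le le_top h2
  have h4 := card_dvd e
  have h5 := card_dvd h3
  have h6 : #Q ≠ 27 := fun h6 => by
    have h7 := eq_of_le_of_card_eq e (by rw [card_cj, h6, h.card])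
    refine h.weak (g := g) hu hn ⟨e (conj_mem_cj.2 (h3 ⟨hu, mem_cent1_self u⟩)), ?_⟩
    rw [← h7]
    exact le_cent1_iff.1 (by rwa [← cj_cent1, cj_le_cj])
  refine (eq_of_le_of_card_eq h3 ?_).symm
  rw [card_cj, h.card] at h4
  rw [h.c9 hu hn] at h5 ⊢
  have := Nat.le_of_dvd (by decide) h4
  generalize #Q = n at *
  interval_cases n <;> simp_all

theorem npc (hu : u ∈ P) (hn : u ∉ Z(P)) : HasNormalPComplement 3 C[u] := by
  have := Fact.mk Nat.prime_three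
  obtain ⟨S, hS⟩ := (h.sylA hu hn).exists_sylow
  refine H3.hasNPC_of_control S fun x hx g hg => ⟨1, one_mem _, Subtype.ext ?_⟩
  have h1 : x.1 ∈ Z(P) ⊔ zpowers u := h.gen hu hn ▸ hS ▸ mem_map_of_mem _ hx
  have h2 : g.1 * x * g.1⁻¹ ∈ P ⊓ C[u] := hS ▸ mem_map_of_mem C[u].subtype hg
  obtain ⟨a, ha, b, hb, e⟩ := (mem_sup_of_norm (norms_of_cents
    (zpowers_le.2 (cents_symm inf_le_right hu)))).1 h1
  have h3 : g.1 * b * g.1⁻¹ = b :=
    mul_inv_eq_iff_eq_mul.2 (mem_cent1.1 (cent1_le_cent1_of_mem_zpowers hb g.2))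
  rw [e, ← conj_mul, h3] at h2
  simp only [one_mul, inv_one, mul_one, coe_mul, coe_inv]
  rw [e, ← conj_mul, h3, h.fixz ha ((mul_mem_cancel_right (zpowers_le.2 hu hb)).1 h2.1)]

theorem fus (hu : u ∈ P) (hn : u ∉ Z(P)) (hg : g * u * g⁻¹ ∈ P) :
    ∃ n ∈ N(P), n * u * n⁻¹ = g * u * g⁻¹ := by
  have hn' : g * u * g⁻¹ ∉ Z(P) := h.weak hu hn
  obtain ⟨z, hz, h1⟩ := exists_ne_one (H := Z(P)) (ne_bot_iff_one_lt_card.2 (by rw [h.cz]; decide))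
  obtain ⟨c, hc, e⟩ := (h.sylA hg hn').scj_le (K := zpowers (g * z * g⁻¹)) (by
      rw [← cj_cent1, ← cj_zpowers, cj_le_cj, zpowers_le]
      exact cent_le_cent1 hu hz.2) (h.pg hz.1 g)
  rw [cj_zpowers, zpowers_le] at e
  have e1 : c * g * u * (c * g)⁻¹ = g * u * g⁻¹ := by
    rw [mul_inv_rev, ← mul_assoc, mul_inv_eq_iff_eq_mul, ← mem_cent1.1 hc]; group
  rw [show c * (g * z * g⁻¹) * c⁻¹ = c * g * z * (c * g)⁻¹ by group] at e
  rw [← e1] at hg hn' ⊢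
  generalize c * g = k at *
  have h2 : k ∈ C(Z(P)) := by
    rw [← h.zp hz h1, cent_zpowers]
    exact mem_cent1.2 (mul_inv_eq_iff_eq_mul.1 (h.fixz hz e.1))
  have h3 : P ≤ N(C(P ⊓ C[k * u * k⁻¹])) := norms_cent (norms_of_der_le
    (commutator_le.2 fun x hx y hy => ⟨(h.com hx hy).1, cent_le_cent1 hg (h.com hx hy).2⟩)
    inf_le_left)
  have h4 : cj k P ≤ P ⊔ C(P ⊓ C[k * u * k⁻¹]) := fun y hy => by
    obtain ⟨x, hx, rfl⟩ := mem_cj'.1 hy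
    obtain ⟨p, hp, e2⟩ := h.cjz hg hn' (h.com hx hu)
    rw [← mul_mem_cancel_left (mem_sup_left (inv_mem hp))]
    refine mem_sup_right (h.cA hg hn' ▸ ⟨mul_mem (cents_symm inf_le_right (inv_mem hp))
      (conj_mem_of_norm (le_normalizer h2) (cents_symm inf_le_right hx)), mem_cent1.2 ?_⟩)
    have : k * u * k⁻¹ * p⁻¹ = p⁻¹ * (k * (x * u * x⁻¹ * u⁻¹) * u * k⁻¹) := by
      rw [← mem_cent.1 h2 _ (h.com hx hu), eq_inv_mul_iff_mul_eq, ← mul_assoc p, e2]; group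
    rw [← mul_assoc (k * u * k⁻¹), this]
    group
  obtain ⟨d, hd, e2⟩ := ((h.syl.Jtop k).of_le h4 le_top).sconj (h.syl.of_le le_sup_left le_top)
  obtain ⟨p, hp, c, hc, rfl⟩ := (mem_sup_of_norm' h3).1 hd
  refine ⟨c * k, mem_norm_iff_cj.2 ?_, ?_⟩
  · rw [cj_mul p, cj_eq_iff, cj_of_mem (inv_mem hp)] at e2
    rw [cj_mul, e2]
  · rw [h.cA hg hn'] at hc
    rw [mul_inv_rev, ← mul_assoc, mul_inv_eq_iff_eq_mul, ← mem_cent1.1 hc.2]; group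

theorem stab (hu : u ∈ P) (hn : u ∉ Z(P)) (hg : g ∈ N(P)) (e : g * u * g⁻¹ * u⁻¹ ∈ Z(P)) :
    g ∈ P ⊔ C(P) := by
  obtain ⟨p, hp, e⟩ := h.cjz hu hn e
  rw [← mul_mem_cancel_left (mem_sup_left (inv_mem hp))]
  have h1 : p⁻¹ * g ∈ N(P) := mul_mem (le_normalizer (inv_mem hp)) hg
  have h2 : p⁻¹ * g ∈ C[u] := by
    rw [mem_cent1, mul_assoc, inv_mul_eq_iff_eq_mul, ← mul_assoc, ← mul_assoc, e]; group
  generalize p⁻¹ * g = k at *
  have h3 : k ∈ C(P ⊓ C[u]) := h.cA hu hn ▸ ⟨h.nc h1, h2⟩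
  refine H8.mem_of_pow_mem_of_relIndex (n := 3) (norms_sup le_rfl (norm_le_norm_cent P)) h1
    (mem_sup_right (mem_cent.2 fun v hv => ?_)) ((Nat.Prime.coprime_iff_not_dvd Nat.prime_three).2
      ((h.syl.of_le le_normalizer le_top).not_dvd_relIndex Nat.prime_three le_sup_left))
  have h4 : v⁻¹ * (k * v * k⁻¹) ∈ P ⊓ C[u] := by
    refine ⟨P.mul_mem (P.inv_mem hv) (conj_mem_of_norm h1 hv), mem_cent1.2 ?_⟩
    have a1 := mem_cent.1 (h.nc h1) _ (h.com hv hu)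
    have a2 := mem_cent1.1 (inv_mem h2)
    rw [mul_assoc _ _ u, mul_assoc _ _ u, a2, inv_mul_eq_iff_eq_mul,
      show k * v * (u * k⁻¹) = k * (v * u * v⁻¹ * u⁻¹) * u * v * k⁻¹ by group, ← a1,
      mul_assoc _ k u, mem_cent1.1 h2]
    group
  have h5 := mem_cent.1 h3 _ h4
  have h6 := h.exp _ h4.1
  generalize hb : v⁻¹ * (k * v * k⁻¹) = b at *
  have h7 : k * v = v * b * k := by rw [← hb]; group
  calc v * k ^ 3 = v * b ^ 3 * k ^ 3 := by rw [h6, mul_one]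
    _ = k ^ 3 * v := by
      simp only [pow_succ, pow_zero, one_mul, mul_assoc]
      rw [h7]
      simp only [← mul_assoc]
      rw [mul_assoc k k v, h7]
      simp only [← mul_assoc]
      rw [h7]
      simp only [mul_assoc, ← h5]
      simp only [← mul_assoc k b, ← h5]
      simp only [mul_assoc]

theorem real (h2 : 2 ∣ (P ⊔ C(P)).relIndex N(P)) (hu : u ∈ P) (hn : u ∉ Z(P)) : IsConj u u⁻¹ := by
  have hN : (P ⊔ C(P)) ⊴ N(P) :=
    ⟨sup_le le_normalizer (cent_le_norm P), norms_sup le_rfl (norm_le_norm_cent P)⟩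
  have := hN.subgroupOf
  have := Fact.mk Nat.prime_two
  obtain ⟨t, ht⟩ := exists_prime_orderOf_dvd_card' (G := N(P) ⧸ (P ⊔ C(P)).subgroupOf N(P)) 2 h2
  obtain ⟨t, rfl⟩ := QuotientGroup.mk_surjective t
  obtain ⟨h3, h4⟩ := orderOf_eq_prime_iff.1 ht
  rw [← QuotientGroup.mk_pow, QuotientGroup.eq_one_iff, mem_subgroupOf, coe_pow] at h3
  rw [Ne, QuotientGroup.eq_one_iff, mem_subgroupOf] at h4
  obtain ⟨t, ht'⟩ := t
  obtain ⟨p, hp, c, hc, e⟩ := (mem_sup_of_norm (cent_le_norm P)).1 h3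
  have h5 := conj_mem_of_norm ht' hu
  have h6 : u * (t * u * t⁻¹) ∈ Z(P) := by_contra fun h6 => h4 (h.stab (mul_mem hu h5) h6 ht' (by
    have a1 := mem_cent.1 hc u hu
    have a2 := mem_cent.1 (h.der p hp u hu) _ h5
    have : t * (u * (t * u * t⁻¹)) * t⁻¹ * (u * (t * u * t⁻¹))⁻¹ =
        p * u * p⁻¹ * u⁻¹ * (t * u * t⁻¹ * u * (t * u * t⁻¹)⁻¹ * u⁻¹) := by
      have b : t * (u * (t * u * t⁻¹)) * t⁻¹ = t * u * t⁻¹ * (p * u * p⁻¹ * u⁻¹) * u := by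
        rw [show t * (u * (t * u * t⁻¹)) * t⁻¹ = t * u * t⁻¹ * (t ^ 2 * u * (t ^ 2)⁻¹) by
          rw [pow_two]; group, e, mul_assoc p c, ← a1]
        group
      rw [b, a2]
      group
    exact this ▸ mul_mem (h.com hp hu) (h.com h5 hu)))
  refine (isConj_iff.2 ⟨t, rfl⟩).trans ?_
  convert (h.isc (inv_mem hu) (mt inv_mem_iff.1 hn) h6).symm using 1
  rw [← mem_cent.1 h6.2 _ (inv_mem hu)]; group

theorem nil (h1 : (P ⊔ C(P)).relIndex N(P) = 1) : HasNormalPComplement 3 G := by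
  have := Fact.mk Nat.prime_three
  obtain ⟨S, rfl⟩ := h.syl.exists_sylow_top
  refine H3.hasNPC_of_control S fun x hx g hg => ?_
  by_cases hn : x ∈ Z((S : Subgroup G))
  · exact ⟨1, one_mem _, by simp [h.fixz hn hg]⟩
  obtain ⟨n, h2, e⟩ := h.fus hx hn hg
  obtain ⟨p, hp, c, hc, rfl⟩ := (mem_sup_of_norm (cent_le_norm _)).1 (relIndex_eq_one.1 h1 h2)
  exact ⟨p, hp, by rw [← e, mul_assoc p c, ← mem_cent.1 hc x hx]; group⟩

end Ex

end H5.X3
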