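import Cfsg.Agent.H5.X33
import Cfsg.Agent.H5.X34

/-! The principal 3-block for Sylow 3-subgroup `3^{1+2}_+` and `N(P) ≤ C(Z(P))`. -/

set_option autoImplicit false
open Cfsg

namespace H5.X3
open H5 H19 Subgroup
open scoped ComplexConjugate Classical

variable {G : Type*} [Group G] [Finite G] {P : Subgroup G} {g u v x y z : G} {M : Ideal AlgInt}

omit [Finite G] in
theorem card_orb (T : Subgroup G) (u : G) :
    Nat.card {v // ∃ t ∈ T, t * u * t⁻¹ = v} = C[u].relIndex T := by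
  letI := MulAction.compHom G ((MulAut.conj (G := G)).comp T.subtype)
  have h : C[u].subgroupOf T = MulAction.stabilizer T u := by
    ext t
    exact mem_cent1.trans mul_inv_eq_iff_eq_mul.symm
  rw [relIndex, h, MulAction.index_stabilizer, ← Nat.card_coe_set_eq]
  exact Nat.card_congr (Equiv.subtypeEquivRight fun v =>
    ⟨fun ⟨t, ht, e⟩ => ⟨⟨t, ht⟩, e⟩, fun ⟨t, e⟩ => ⟨t, t.2, e⟩⟩)

namespace Ex
variable (h : Ex P)
include h

theorem orb (hu : u ∈ P) (hn : u ∉ Z(P)) :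
    Nat.card {a // a ∈ P ∧ IsConj u a} = 3 * (P ⊔ C(P)).relIndex N(P) := by
  have h1 : C[u].relIndex (P ⊔ C(P)) = 3 := by
    have h2 := card_inf_mul_relIndex C[u] P
    rw [inf_comm, h.c9 hu hn, h.card] at h2
    rw [← card_orb, ← show C[u].relIndex P = 3 by omega, ← card_orb]
    refine Nat.card_congr (Equiv.subtypeEquivRight fun v =>
      ⟨fun ⟨t, ht, e⟩ => ?_, fun ⟨t, ht, e⟩ => ⟨t, mem_sup_left ht, e⟩⟩)
    obtain ⟨p, hp, c, hc, rfl⟩ := (mem_sup_of_norm (cent_le_norm _)).1 ht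
    exact ⟨p, hp, by rw [← e, mul_assoc p c, ← mem_cent.1 hc u hu]; group⟩
  have h2 : (P ⊔ C(P)) ≤ N(P) := sup_le le_normalizer (cent_le_norm P)
  have h3 : C[u] ⊓ N(P) = C[u] ⊓ (P ⊔ C(P)) := le_antisymm (fun g hg => ⟨hg.1, h.stab hu hn hg.2
    (by simp [mem_cent1.1 hg.1])⟩) (inf_le_inf_left _ h2)
  rw [← h1, ← inf_relIndex_right C[u], relIndex_mul_relIndex _ _ _ inf_le_right h2, ← h3,
    inf_relIndex_right, ← card_orb]
  refine Nat.card_congr (Equiv.subtypeEquivRight fun v => ⟨fun ⟨h4, h5⟩ => ?_,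
    fun ⟨t, ht, e⟩ => ⟨e ▸ conj_mem_of_norm ht hu, isConj_iff.2 ⟨t, e⟩⟩⟩)
  obtain ⟨g, rfl⟩ := isConj_iff.1 h5
  exact h.fus hu hn h4

omit [Finite G] in
theorem ne_inv (hz : z ∈ P) (h1 : z ≠ 1) : z ≠ z⁻¹ := fun e =>
  h1 (left_eq_mul.1 (e.trans (h.sq hz).symm))

theorem theta (hz : z ∈ Z(P)) (h1 : z ≠ 1) : ∃ (θ : P → ℂ) (ω : ℂ), IsCharacter P θ ∧
    ω ^ 2 + ω + 1 = 0 ∧ ∀ x : P, θ x =
      if x.1 = 1 then 3 else if x.1 = z then 3 * ω else if x.1 = z⁻¹ then 3 * ω ^ 2 else 0 := by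
  have := Fintype.ofFinite P
  let c : P := ⟨z, hz.1⟩
  have hc : c ≠ 1 := fun e => h1 (congrArg Subtype.val e)
  have hc' : c ≠ c⁻¹ := fun e => h.ne_inv hz.1 h1 (congrArg Subtype.val e)
  have hs : c * c = c⁻¹ := Subtype.ext (h.sq hz.1)
  obtain ⟨θ, hθ, hk⟩ := exists_irr_not_mem_charKer hc
  have hm := hθ.apply_mul_of_mem_charCenter (hθ.center_le_charCenter (x := c)
    (mem_center_iff.2 fun x => Subtype.ext (mem_cent.1 hz.2 x x.2)))
  generalize θ c / θ 1 = ω at hm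
  have w1 : ω ≠ 1 := fun e => hk fun x => by rw [hm, e, one_mul]
  have e1 : θ c = ω * θ 1 := by rw [← hm, mul_one]
  have e2 : θ c⁻¹ = ω ^ 2 * θ 1 := by rw [← hs, hm, e1]; ring
  have w : ω ^ 2 + ω + 1 = 0 := by
    have := hm c⁻¹
    rw [mul_inv_cancel, e2] at this
    refine mul_left_cancel₀ (mul_ne_zero (sub_ne_zero.2 w1) hθ.apply_one_ne_zero) ?_
    linear_combination -this
  have h0 : ∀ x : P, x ∉ ({1, c, c⁻¹} : Finset P) → θ x = 0 := fun x hx => by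
    obtain ⟨p, hp, e⟩ := h.cjz x.2 (fun e => hx (by
      simp only [Finset.mem_insert, Finset.mem_singleton, Subtype.ext_iff]
      exact h.mem3 hz h1 e)) hz
    have := hθ.isClassFunction x ⟨p, hp⟩
    rw [show (⟨p, hp⟩ : P) * x * (⟨p, hp⟩ : P)⁻¹ = c * x from Subtype.ext e, hm] at this
    exact mul_left_cancel₀ (sub_ne_zero.2 w1) (by linear_combination this)
  obtain ⟨n, -, hn⟩ := hθ.exists_apply_one
  have h3 := hθ.classInner_self
  rw [classInner, ← Finset.sum_subset (Finset.subset_univ {1, c, c⁻¹}) fun x _ hx => by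
    rw [h0 x hx, zero_mul], Finset.sum_insert (by simp [hc.symm, hc]), Finset.sum_pair hc', h.card,
    e1, e2, hn] at h3
  simp only [map_mul, map_pow, conj_w w, map_natCast] at h3
  have h4 : n * n = 3 * 3 := by
    have : (n : ℂ) * n = 9 := by
      push_cast at h3
      linear_combination 9 * h3 - n * n * (ω - 1) * (ω ^ 3 + 2) / 3 * w
    exact_mod_cast this
  rw [Nat.mul_self_inj.1 h4] at hn
  refine ⟨θ, ω, hθ.isCharacter, w, fun x => ?_⟩
  split_ifs with a1 a2 a3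
  · rw [show x = 1 from Subtype.ext a1, hn]; simp
  · rw [show x = c from Subtype.ext a2, e1, hn]; simp [mul_comm]
  · rw [show x = c⁻¹ from Subtype.ext a3, e2, hn]; simp [mul_comm]
  · exact h0 x (by
      simp only [Finset.mem_insert, Finset.mem_singleton, Subtype.ext_iff]; rintro (e | e | e)
      exacts [a1 e, a2 e, a3 e])

theorem iz (hy : y ∈ Z(P)) (hx : x ∈ P) : IsConj x y ↔ x = y := by
  refine ⟨fun e => ?_, fun e => e ▸ .refl x⟩
  obtain ⟨g, rfl⟩ := isConj_iff.1 e.symm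
  exact h.fixz hy hx

theorem cs (hz : z ∈ Z(P)) (h1 : z ≠ 1) : ∃ (X : Finset G) (η : G → ℂ) (ω : ℂ), CS z X η ω ∧
    (∀ u ∈ X, u ∈ P ∧ u ∉ Z(P)) ∧ X.card * (P ⊔ C(P)).relIndex N(P) = 8 := by
  have := Fact.mk Nat.prime_three
  obtain ⟨θ, ω, hθ, w, hv⟩ := h.theta hz h1
  obtain ⟨X, hX, hr⟩ := H8.exists_reps {u | u ∈ P ∧ u ∉ Z(P)}
    (fun a b => IsConj a b ∧ (a ∈ P ∧ a ∉ Z(P)) ∧ b ∈ P ∧ b ∉ Z(P))
    (fun a ha => ⟨.refl a, ha, ha⟩) (fun _ _ e => ⟨e.1.symm, e.2.2, e.2.1⟩)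
    (fun _ _ _ e e' => ⟨e.1.trans e'.1, e.2.1, e'.2.2⟩) fun _ _ e => e.2.2
  let η : G → ℂ := fun g =>
    if IsConj g 1 then 3 else if IsConj g z then 3 * ω else if IsConj g z⁻¹ then 3 * ω ^ 2 else 0
  have cl : IsClassFunction G η := fun g k => by
    have : ∀ y, IsConj (k * g * k⁻¹) y ↔ IsConj g y := fun y =>
      have e : IsConj g (k * g * k⁻¹) := isConj_iff.2 ⟨k, rfl⟩
      ⟨e.trans, e.symm.trans⟩
    simp only [η, this]
  have hη : ∀ x (hx : x ∈ P), η x = θ ⟨x, hx⟩ := fun x hx => by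
    simp only [η, hv, h.iz (one_mem _) hx, h.iz hz hx, h.iz (inv_mem hz) hx]
  have hY : ∀ y ∈ insert 1 (insert z (insert z⁻¹ X)), y ∈ Z(P) ∨ y ∈ X := by
    simp only [Finset.forall_mem_insert]
    exact ⟨.inl (one_mem _), .inl hz, .inl (inv_mem hz), fun _ => .inr⟩
  have hP : ∀ y ∈ insert 1 (insert z (insert z⁻¹ X)), y ∈ P := fun y hy =>
    (hY y hy).elim (·.1) fun e => (hX y e).1
  have nZ : ∀ y ∈ Z(P), y ∉ X := fun y hy e => (hX y e).2 hy
  have f3 : ∀ {Q H : Subgroup G}, Syl 3 Q H → ∀ k, #Q = 3 ^ k → (#H).factorization 3 = k :=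
    fun hQ k e => by
      rw [← hQ.card_mul, e, Nat.factorization_mul (by positivity) (relIndex_ne_zero' _ _),
        Finsupp.add_apply, Nat.factorization_eq_zero_of_not_dvd (hQ.not_dvd Nat.prime_three),
        Nat.Prime.factorization_pow Nat.prime_three]
      simp
  refine ⟨X, η, ω, ⟨⟨fun y hy => H7.isPElt_iff.2 ⟨1, h.exp y (hP y hy)⟩, fun g ⟨k, hg⟩ => ?_⟩,
    by simp [h1.symm, h1, nZ 1 (one_mem _)], by simp [h.ne_inv hz.1 h1, nZ z hz],
    nZ _ (inv_mem hz), by simpa using f3 h.syl 3 h.card,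
    fun u hu => orderOf_eq_prime (h.exp u (hX u hu).1) fun e => nZ 1 (one_mem _) (e ▸ hu),
    fun u hu => h.npc (hX u hu).1 (hX u hu).2,
    fun u hu => f3 (h.sylA (hX u hu).1 (hX u hu).2) 2 (h.c9 (hX u hu).1 (hX u hu).2), cl,
    fun Q hQ => ?_, by simp [η], by simp [hη z hz.1, hv, h1], ?_, fun u hu => ?_, w⟩, hX, ?_⟩
  · obtain ⟨c, -, e⟩ := h.syl.scj_le le_top (piG_zpowers.2 (hg ▸ PiN.prime_pow Nat.prime_three k))
    rw [cj_zpowers, zpowers_le] at e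
    have e1 : IsConj g (c * g * c⁻¹) := isConj_iff.2 ⟨c, rfl⟩
    refine existsUnique_of_exists_of_unique ?_ fun a b ⟨a1, a2⟩ ⟨b1, b2⟩ => ?_
    · by_cases e2 : c * g * c⁻¹ ∈ Z(P)
      · exact ⟨_, by rcases h.mem3 hz h1 e2 with e | e | e <;> simp [e], e1⟩
      · obtain ⟨y, ⟨h2, h3, -⟩, -⟩ := hr _ ⟨e, e2⟩
        exact ⟨y, by simp [h2], e1.trans h3⟩
    · have e2 := a2.symm.trans b2
      rcases hY a a1 with h2 | h2
      · exact ((h.iz h2 (hP b b1)).1 e2.symm).symm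
      rcases hY b b1 with h3 | h3
      · exact (h.iz h3 (hP a a1)).1 e2
      · exact (hr a (hX a h2)).unique ⟨h2, .refl a, hX a h2, hX a h2⟩ ⟨h3, e2, hX a h2, hX b h3⟩
  · obtain ⟨c, -, e⟩ := h.syl.scj_le le_top (PiN.of_isPGroup Nat.prime_three hQ)
    convert (hθ.comp ((inclusion e).comp (cjEquiv c Q).toMonoidHom)).isGeneralizedCharacter with u
    rw [← cl u c, hη _ (e (conj_mem_cj.2 u.2))]
    rfl
  · simp [hη _ (inv_mem hz.1), hv, h1, (h.ne_inv hz.1 h1).symm]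
  · have : ∀ y ∈ Z(P), u ≠ y := fun y hy e => nZ y hy (e ▸ hu)
    simp [hη u (hX u hu).1, hv, this 1 (one_mem _), this z hz, this _ (inv_mem hz)]
  · have := Fintype.ofFinite G
    have h2 := H8.sum_eq_sum_reps (Finset.univ.filter fun u => u ∈ P ∧ u ∉ Z(P)) X
      (fun a b => IsConj a b ∧ (a ∈ P ∧ a ∉ Z(P)) ∧ b ∈ P ∧ b ∉ Z(P))
      (fun a ha => hr a (Finset.mem_filter.1 ha).2) (F := fun _ => 1) fun _ _ _ _ _ => rfl
    rw [Finset.sum_congr (rfl : X = X) (g := fun _ => 3 * (P ⊔ C(P)).relIndex N(P)) fun u hu => by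
      rw [smul_eq_mul, mul_one, ← h.orb (hX u hu).1 (hX u hu).2]
      refine Nat.card_congr (Equiv.subtypeEquivRight fun a => ⟨fun e => ⟨e.2.2.1.1, e.2.1.symm⟩,
        fun e => ?_⟩)
      have : a ∈ P ∧ a ∉ Z(P) := ⟨e.1, fun e' => nZ a e' ((h.iz e' (hX u hu).1).1 e.2 ▸ hu)⟩
      exact ⟨by simpa using this, e.2.symm, this, hX u hu⟩] at h2
    have h3 := Finset.card_filter_add_card_filter_not (s := Finset.univ.filter (· ∈ P))
      (· ∈ Z(P))
    rw [Finset.filter_filter, Finset.filter_filter, ← Fintype.card_subtype (· ∈ P),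
      ← Nat.card_eq_fintype_card, h.card, Finset.filter_congr (q := (· ∈ Z(P)))
        (p := fun a => a ∈ P ∧ a ∈ Z(P)) fun _ _ => and_iff_right_of_imp (·.1), ← Fintype.card_subtype (· ∈ Z(P)),
      ← Nat.card_eq_fintype_card, h.cz] at h3
    simp only [Finset.sum_const, smul_eq_mul] at h2
    nlinarith

omit [Finite G] in
theorem sub {H : Subgroup G} (hH : N(P) ≤ H) : Ex (P.subgroupOf H) ∧
    Z(P.subgroupOf H) = Z(P).subgroupOf H ∧
    (P.subgroupOf H ⊔ C(P.subgroupOf H)).relIndex N(P.subgroupOf H) = (P ⊔ C(P)).relIndex N(P) := by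
  have h1 : P ≤ H := le_normalizer.trans hH
  have h2 : C(P.subgroupOf H) = C(P).subgroupOf H := by
    ext g
    exact ⟨fun e x hx => congrArg Subtype.val (e ⟨x, h1 hx⟩ hx), fun e x hx => Subtype.ext (e x hx)⟩
  have h3 : Z(P.subgroupOf H) = Z(P).subgroupOf H := by rw [h2]; rfl
  refine ⟨⟨(h.syl.of_le h1 le_top).subgroupOf_top, (card_subgroupOf' h1).trans h.card,
    fun x hx => Subtype.ext (h.exp x hx), h3 ▸ (card_subgroupOf' (inf_le_left.trans h1)).trans h.cz,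
    fun x hx y hy => h2 ▸ h.der x hx y hy, fun g hg x hx => Subtype.ext ?_⟩, h3, ?_⟩
  · rw [← subgroupOf_normalizer_eq h1] at hg
    rw [h3] at hx
    exact h.nc hg x hx
  · rw [h2, ← subgroupOf_sup h1 ((cent_le_norm P).trans hH), ← subgroupOf_normalizer_eq h1,
      relIndex_subgroupOf hH]

theorem main (hM : IsPModular 3 M) {e : ℕ} (he : (P ⊔ C(P)).relIndex N(P) = e) :
    (e = 1 → Nat.card (principalBlock M G) = 11 ∧ Nat.card {χ // χ ∈ principalBlock M G ∧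
      blockHeight 3 (principalBlock M G) χ.1 = 0} = 9 ∧ blockRank 3 (principalBlock M G) = 1) ∧
    (2 ∣ e → ∃ c, c * e = 8 ∧ Nat.card (principalBlock M G) + 2 * c = 18 ∧
      Nat.card {χ // χ ∈ principalBlock M G ∧ blockHeight 3 (principalBlock M G) χ.1 = 0} = 6 ∧
      blockRank 3 (principalBlock M G) + c = 6) := by
  obtain ⟨z, hz, h1⟩ := exists_ne_one (H := Z(P)) (ne_bot_iff_one_lt_card.2 (by rw [h.cz]; decide))
  have hH : N(P) ≤ C[z] := h.nc.trans (cent_le_cent1 hz)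
  obtain ⟨h', h2, h3⟩ := h.sub hH
  obtain ⟨X, η, ω, c, hX, e1⟩ := h.cs hz h1
  have hz' : (⟨z, mem_cent1_self z⟩ : C[z]) ∈ Z(P.subgroupOf C[z]) := h2 ▸ hz
  obtain ⟨X', η', ω', c', hX', e2⟩ := h'.cs hz' fun e => h1 (congrArg Subtype.val e)
  rw [h3] at e2
  subst he
  refine ⟨fun he => c.nil hM (h.nil he) (h'.nil (h3.trans he)) (by simpa [he] using e1),
    fun he => ⟨_, e1, c.fin hM (fun u hu => h.real he (hX u hu).1 (hX u hu).2)
      (Finset.nonempty_iff_ne_empty.2 fun e => by simp [e] at e1) ?_⟩⟩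
  rw [Nat.eq_of_mul_eq_mul_right (relIndex_pos _ _) (e1.trans e2.symm)]
  exact c'.cen hM (fun u hu => h'.real (h3 ▸ he) (hX' u hu).1 (hX' u hu).2)
    (Finset.nonempty_iff_ne_empty.2 fun e => by simp [e] at e2)
    (mem_center_iff.2 fun g => Subtype.ext (mem_cent1.1 g.2))
    fun u hu => h'.isc (hX' u hu).1 (hX' u hu).2 hz'

end Ex

end H5.X3
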